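import Mathlib
import Cfsg.Agent.Lib.H22.DefectZeroCount
import Cfsg.Agent.Lib.H06.CyclicTI
import Cfsg.Agent.Lib.H21.PowCongr
import Cfsg.Agent.Lib.H08.Thom.Sign
import Cfsg.Agent.Lib.H15.EarlyChar5

/-! # Character columns: integer values, orthogonality, structure constants -/

set_option autoImplicit false

namespace Cfsg.Agent.H15.Col

open Cfsg Cfsg.Agent.H21 Cfsg.Agent.H22
open scoped ComplexConjugate

universe u

variable {G : Type u} [Group G] [Finite G]

open Classical in
/-- The structure constants at an element `t`. -/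
theorem struct_t (t g : G) (n c : ℕ) (hn : (Subgroup.centralizer ({t} : Set G)).index = n)
    (hc : Nat.card (Subgroup.centralizer ({t} : Set G)) = c) :
    ((Finset.univ.filter (fun h : G => IsConj h t ∧ IsConj (h⁻¹ * g) t)).card : ℂ) * c =
      n * ∑ χ : IrrCharacter G, (χ.1 t) ^ 2 * conj (χ.1 g) / χ.1 1 := by
  classical
  have hG : Nat.card G = n * c := by
    rw [← hn, ← hc]
    have := Subgroup.card_mul_index (Subgroup.centralizer ({t} : Set G))
    rw [← this, mul_comm]
  have hn0 : (n : ℂ) ≠ 0 := by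
    have : n ≠ 0 := by
      rw [← hn]
      exact Subgroup.index_ne_zero_of_finite
    exact_mod_cast this
  have hc0 : (c : ℂ) ≠ 0 := by
    have : c ≠ 0 := by
      rw [← hc]
      exact Nat.card_pos.ne'
    exact_mod_cast this
  have h1 := ofOm_cc_mul_cc t t g
  have h2 : ((Finset.univ.filter (fun h : G => IsConj h t ∧ IsConj (h⁻¹ * g) t)).card : ℂ) =
      ofOm (cc t * cc t) g := by
    rw [h1]
  rw [h2]
  unfold ofOm
  rw [hG, Nat.cast_mul]
  have h3 : ∀ χ : IrrCharacter G, (cc t * cc t) χ * (χ.1 1 * conj (χ.1 g)) =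
      (n : ℂ) ^ 2 * (χ.1 t ^ 2 * conj (χ.1 g) / χ.1 1) := by
    intro χ
    have := irr_one_ne_zero' χ
    simp only [Pi.mul_apply, cc, centralChar, hn]
    field_simp
  simp only [h3]
  rw [← Finset.mul_sum]
  field_simp

/-- A value invariant under coprime powers up to conjugacy is an integer. -/
theorem int_val (χ : IrrCharacter G) (g : G)
    (hinv : ∀ k : ℕ, k.Coprime (Nat.card G) → IsConj (g ^ k) g) : ∃ n : ℤ, χ.1 g = n := by
  have hχ := isCharacter_of_irr χ.2
  refine Cfsg.Agent.H06.isCharacter_int_of_pow_invariant hχ g fun k hk => ?_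
  obtain ⟨c, hc⟩ := isConj_iff.1 (hinv k hk)
  calc χ.1 (g ^ k) = χ.1 (c * g ^ k * c⁻¹) := (isClassFunction_of_isCharacter hχ _ _).symm
    _ = χ.1 g := by rw [hc]

/-- Frobenius congruence for integer values. -/
theorem pow_congr_int (χ : IrrCharacter G) (g : G) (p : ℕ) (hp : p.Prime) (a b : ℤ) (ha : χ.1 g = a)
    (hb : χ.1 (g ^ p) = b) : (p : ℤ) ∣ a ^ p - b := by
  obtain ⟨γ, hγ⟩ := character_pow_congr (isCharacter_of_irr χ.2) g hp 1
  rw [pow_one, ha, hb] at hγ
  have hp0 : (p : ℂ) ≠ 0 := by exact_mod_cast hp.ne_zero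
  have h1 : (((((a ^ p - b : ℤ) : ℚ) / (p : ℚ) : ℚ)) : ℂ) = (γ : ℂ) := by
    push_cast
    field_simp
    linear_combination hγ
  have h2 : IsIntegral ℤ (((((a ^ p - b : ℤ) : ℚ) / (p : ℚ) : ℚ)) : ℂ) := by
    rw [h1]
    exact γ.2
  obtain ⟨n, hn⟩ := isInt_of_isIntegral_rat _ h2
  refine ⟨n, ?_⟩
  have hp0' : (p : ℚ) ≠ 0 := by exact_mod_cast hp.ne_zero
  rw [div_eq_iff hp0'] at hn
  have h4 : ((a ^ p - b : ℤ) : ℚ) = (p : ℚ) * n := by
    rw [hn]
    ring
  exact_mod_cast h4

/-- Column orthogonality for integer-valued columns, conjugate case. -/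
theorem col_int_conj {g h : G} (a b : IrrCharacter G → ℤ) (ha : ∀ χ : IrrCharacter G, χ.1 g = a χ)
    (hb : ∀ χ : IrrCharacter G, χ.1 h = b χ) (hgh : IsConj g h) :
    ∑ χ : IrrCharacter G, a χ * b χ = Nat.card (Subgroup.centralizer ({h} : Set G)) := by
  have h1 := column_orthogonality_of_isConj hgh
  simp only [ha, hb, map_intCast] at h1
  exact_mod_cast h1

/-- Column orthogonality for integer-valued columns, nonconjugate case. -/
theorem col_int_ne {g h : G} (a b : IrrCharacter G → ℤ) (ha : ∀ χ : IrrCharacter G, χ.1 g = a χ)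
    (hb : ∀ χ : IrrCharacter G, χ.1 h = b χ) (hgh : ¬ IsConj g h) :
    ∑ χ : IrrCharacter G, a χ * b χ = 0 := by
  have h1 := column_orthogonality_of_not_isConj hgh
  simp only [ha, hb, map_intCast] at h1
  exact_mod_cast h1

/-- A perfect group has no sign character. -/
theorem sign_trivial_of_perfect (hperf : commutator G = ⊤) (φ : G →* ℤˣ) (y : G) : φ y = 1 := by
  have h1 : commutator G ≤ φ.ker := by
    rw [commutator_def, Subgroup.commutator_le]
    intro a _ b _
    rw [MonoidHom.mem_ker, map_commutatorElement, commutatorElement_eq_one_iff_mul_comm.2 (mul_comm _ _)]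
  rw [hperf] at h1
  exact h1 (Subgroup.mem_top y)

/-- Thompson transfer: without sign characters every involution is conjugate into a subgroup of
index twice an odd number. -/
theorem invol_conj_of_no_sign (hno : ∀ (φ : G →* ℤˣ) (y : G), φ y = 1) (t : G) (W : Subgroup G)
    (m : ℕ) (hm : Odd m) (hW : W.index = 2 * m) (hinv : ∀ z ∈ W, z * z = 1 → z ≠ 1 → z = t)
    (y : G) (hy : y * y = 1) (hy1 : y ≠ 1) : IsConj y t := by
  by_contra hc
  have hfree : ∀ g : G, g * y ^ 2 ^ (1 - 1) * g⁻¹ ∉ W := by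
    intro g hg
    simp only [Nat.sub_self, pow_zero, pow_one] at hg
    have h1 : g * y * g⁻¹ * (g * y * g⁻¹) = 1 := by
      have : g * y * g⁻¹ * (g * y * g⁻¹) = g * (y * y) * g⁻¹ := by group
      rw [this, hy]
      group
    have h2 : g * y * g⁻¹ ≠ 1 := by
      intro h
      apply hy1
      have : y = g⁻¹ * (g * y * g⁻¹) * g := by group
      rw [this, h]
      group
    apply hc
    rw [← hinv _ hg h1 h2]
    exact isConj_iff.2 ⟨g, rfl⟩
  obtain ⟨φ, hφ⟩ := Cfsg.Agent.H08.Thom.exists_sign W y 1 m le_rfl hm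
    (by rw [pow_one, pow_two, hy]) hfree (by rw [hW, pow_one])
  rw [hno φ y] at hφ
  exact absurd hφ (by decide)

/-- A maximal 2-subgroup of `C(t)` with `t` as unique central involution is a Sylow 2-subgroup. -/
theorem not_dvd_index_of_unique_central (t : G) (Q : Subgroup G) (hQ : IsPGroup 2 Q)
    (hQD : Q ≤ Subgroup.centralizer ({t} : Set G)) (ht : t ∈ Q) (ht2 : t * t = 1) (ht1 : t ≠ 1)
    (huniq : ∀ z ∈ Q, z ≠ 1 → z * z = 1 → (∀ y ∈ Q, z * y = y * z) → z = t)
    (hmax : ∀ R : Subgroup G, IsPGroup 2 R → R ≤ Subgroup.centralizer ({t} : Set G) → Q ≤ R → R = Q) :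
    ¬ 2 ∣ Q.index := by
  haveI : Fact (Nat.Prime 2) := ⟨Nat.prime_two⟩
  obtain ⟨S, hS⟩ := hQ.exists_le_sylow
  have hQS : (S : Subgroup G) = Q := by
    by_contra hne
    have h1 := Cfsg.Agent.H15.normalizer_grow (S : Subgroup G) Q S.isPGroup' hS (Ne.symm hne)
    have hle : ∀ g ∈ (S : Subgroup G) ⊓ Subgroup.normalizer (Q : Set G),
        g ∈ Subgroup.centralizer ({t} : Set G) := by
      intro g hg
      have hgN := hg.2
      have hconj : ∀ x, x ∈ Q ↔ g * x * g⁻¹ ∈ Q := fun x => (Subgroup.mem_normalizer_iff.1 hgN) x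
      have h2 : g * t * g⁻¹ = t := by
        apply huniq _ ((hconj t).1 ht)
        · intro h
          apply ht1
          have : t = g⁻¹ * (g * t * g⁻¹) * g := by group
          rw [this, h]
          group
        · have : g * t * g⁻¹ * (g * t * g⁻¹) = g * (t * t) * g⁻¹ := by group
          rw [this, ht2]
          group
        · intro y hy
          have hy' : g⁻¹ * y * g ∈ Q := by
            have := (hconj (g⁻¹ * y * g)).2
            apply this
            have h3 : g * (g⁻¹ * y * g) * g⁻¹ = y := by group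
            rw [h3]
            exact hy
          have hcomm := Subgroup.mem_centralizer_singleton_iff.1 (hQD hy')
          calc g * t * g⁻¹ * y = g * (t * (g⁻¹ * y * g)) * g⁻¹ := by group
            _ = g * ((g⁻¹ * y * g) * t) * g⁻¹ := by rw [hcomm]
            _ = y * (g * t * g⁻¹) := by group
      rw [Subgroup.mem_centralizer_singleton_iff]
      calc g * t = (g * t * g⁻¹) * g := by group
        _ = t * g := by rw [h2]
    have hR := hmax ((S : Subgroup G) ⊓ Subgroup.normalizer (Q : Set G))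
      (S.isPGroup'.to_le inf_le_left) hle h1.le
    exact h1.ne hR.symm
  rw [← hQS]
  exact S.not_dvd_index

end Cfsg.Agent.H15.Col
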