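import Mathlib

/-! # Arithmetic of the character rows for a dihedral involution centralizer of order 8 -/

set_option autoImplicit false

namespace Cfsg.Agent.H15.Col

/-- Integer core of the `D₈` computation. -/
theorem core_int (n : ℕ) (hn : Odd n) (b : ℤ) (h : (n : ℤ) * (b + 1) ^ 2 = 16 * (b * (2 * b + 1))) :
    n = 21 ∨ n = 45 := by
  have hcop1 : IsCoprime (b + 1) b := ⟨1, -1, by ring⟩
  have hcop2 : IsCoprime (b + 1) (2 * b + 1) := ⟨2, -1, by ring⟩
  have hcop : IsCoprime (b + 1) (b * (2 * b + 1)) := hcop1.mul_right hcop2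
  have hd : (b + 1) ^ 2 ∣ 16 * (b * (2 * b + 1)) := ⟨n, by rw [← h]; ring⟩
  have hd2 : (b + 1) ^ 2 ∣ 16 := (hcop.pow_left (m := 2)).dvd_of_dvd_mul_right hd
  have hle : (b + 1) ^ 2 ≤ 16 := Int.le_of_dvd (by norm_num) hd2
  have hb1 : b + 1 ≤ 4 := by nlinarith
  have hb2 : -4 ≤ b + 1 := by nlinarith
  obtain ⟨k, hk⟩ := hn
  have hb : b ≤ 3 := by omega
  have hb' : -5 ≤ b := by omega
  interval_cases b <;> first
    | omega
    | (exfalso; norm_num at hd2)
    | (norm_num at h; omega)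

/-- The rational core of the `D₈` computation. -/
theorem core_rat (n : ℕ) (hn : Odd n) (b₂ b₃ b₄ E : ℤ) (h2 : b₂ ≠ 0) (h3 : b₃ ≠ 0) (h4 : b₄ ≠ 0)
    (hE : E ≠ 0) (h1 : 1 + b₂ + b₃ + b₄ = 0) (h5 : 1 + b₂ - b₃ - b₄ + 2 * E = 0)
    (hq1 : (n : ℚ) * (1 + 1 / b₂ + 1 / b₃ + 1 / b₄) = 32)
    (hq2 : (n : ℚ) * (1 + 1 / b₂ - 1 / b₃ - 1 / b₄ + 8 / E) = 32) : n = 21 ∨ n = 45 := by
  have hEq : E = b₃ + b₄ := by linarith
  have hn0 : (n : ℚ) ≠ 0 := by
    obtain ⟨k, rfl⟩ := hn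
    positivity
  have h2' : (b₂ : ℚ) ≠ 0 := by exact_mod_cast h2
  have h3' : (b₃ : ℚ) ≠ 0 := by exact_mod_cast h3
  have h4' : (b₄ : ℚ) ≠ 0 := by exact_mod_cast h4
  have hE' : (E : ℚ) ≠ 0 := by exact_mod_cast hE
  have hdiff : 1 / (b₃ : ℚ) + 1 / b₄ = 4 / E := by
    have : (n : ℚ) * (2 * (1 / (b₃ : ℚ) + 1 / b₄) - 8 / E) = 0 := by
      have := hq1.trans hq2.symm
      linear_combination this
    rcases mul_eq_zero.1 this with h | h
    · exact absurd h hn0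
    · have h8 : (8 : ℚ) / E = 2 * (4 / E) := by ring
      rw [h8] at h
      linarith
  have hsq : (b₃ : ℚ) = b₄ := by
    have hE2 : (E : ℚ) = b₃ + b₄ := by exact_mod_cast hEq
    have h6 : (E : ℚ) * (b₃ + b₄) = 4 * (b₃ * b₄) := by
      field_simp at hdiff
      nlinarith [hdiff]
    rw [hE2] at h6
    have h7 : ((b₃ : ℚ) - b₄) ^ 2 = 0 := by nlinarith
    have := pow_eq_zero_iff (two_ne_zero) |>.1 h7
    linarith
  have hb34 : b₃ = b₄ := by exact_mod_cast hsq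
  subst hb34
  have hb2 : b₂ = -1 - 2 * b₃ := by linarith
  subst hb2
  have hcast : ((-1 - 2 * b₃ : ℤ) : ℚ) = -1 - 2 * (b₃ : ℚ) := by push_cast; ring
  rw [hcast] at hq1 h2'
  have h8 : (n : ℚ) * (b₃ + 1) ^ 2 = 16 * (b₃ * (2 * b₃ + 1)) := by
    have h9 : (2 * (b₃ : ℚ) + 1) ≠ 0 := by
      intro h
      apply h2'
      linear_combination -h
    have h10 : (-1 - 2 * (b₃ : ℚ)) = -(2 * b₃ + 1) := by ring
    rw [h10] at hq1
    field_simp at hq1
    nlinarith [hq1]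
  apply core_int n hn b₃
  exact_mod_cast h8

/-- Values of a row with `χ(t), χ(c) = ±1`. -/
theorem row_vals (A B : ℤ) (d : ℕ) (hA : A = 1 ∨ A = -1) (hB : B = 1 ∨ B = -1) (hd : 0 < d) :
    ((A : ℚ) ^ 3 / d = ((A * B : ℤ) : ℚ) * (1 / ((B * d : ℤ) : ℚ))) ∧
    ((A : ℚ) ^ 2 * B / d = 1 / ((B * d : ℤ) : ℚ)) ∧ (A * (d : ℤ) = (A * B) * (B * d)) ∧
    (B * (d : ℤ) ≠ 0) := by
  have hd' : (d : ℚ) ≠ 0 := by positivity
  have hd'' : (d : ℤ) ≠ 0 := by positivity
  rcases hA with rfl | rfl <;> rcases hB with rfl | rfl <;>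
    refine ⟨?_, ?_, ?_, ?_⟩ <;> push_cast <;> first
      | simpa using hd''
      | ring
      | (field_simp; try ring)

/-- Extraction of the five rows. -/
theorem rows_main {X : Type*} [Fintype X] [DecidableEq X] (A B : X → ℤ) (d : X → ℕ) (o : X)
    (hAo : A o = 1) (hBo : B o = 1) (hdo : d o = 1) (hd : ∀ x, 0 < d x)
    (hp : ∀ x, (2 : ℤ) ∣ A x - B x) (sAA : ∑ x, A x ^ 2 = 8) (sBB : ∑ x, B x ^ 2 = 4)
    (sAB : ∑ x, A x * B x = 0) (sAd : ∑ x, A x * d x = 0) (sBd : ∑ x, B x * d x = 0)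
    (n : ℕ) (hn : Odd n) (E1 : (n : ℚ) * ∑ x, (A x : ℚ) ^ 3 / d x = 32)
    (E2 : (n : ℚ) * ∑ x, (A x : ℚ) ^ 2 * B x / d x = 32) : n = 21 ∨ n = 45 := by
  -- bound on B
  have hsum1 : ∑ x ∈ Finset.univ.erase o, B x ^ 2 = 3 := by
    have := Finset.add_sum_erase Finset.univ (fun x => B x ^ 2) (Finset.mem_univ o)
    simp only [hBo] at this
    linarith
  have hB1 : ∀ x, x ≠ o → B x = 0 ∨ B x = 1 ∨ B x = -1 := by
    intro x hx
    have h1 : B x ^ 2 ≤ 3 := by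
      rw [← hsum1]
      exact Finset.single_le_sum (f := fun x => B x ^ 2) (fun i _ => sq_nonneg _)
        (Finset.mem_erase.2 ⟨hx, Finset.mem_univ x⟩)
    have h2 : B x ≤ 1 := by nlinarith
    have h3 : -1 ≤ B x := by nlinarith
    omega
  set S := (Finset.univ.erase o).filter (fun x => B x ≠ 0) with hS
  have hScard : S.card = 3 := by
    have h1 : ∑ x ∈ S, B x ^ 2 = ∑ x ∈ Finset.univ.erase o, B x ^ 2 := by
      refine Finset.sum_filter_of_ne (fun x hx h => ?_)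
      intro h0
      apply h
      simp [h0]
    have h2 : ∑ x ∈ S, B x ^ 2 = ∑ x ∈ S, 1 := by
      refine Finset.sum_congr rfl fun x hx => ?_
      have hx' := Finset.mem_filter.1 hx
      have hne : x ≠ o := (Finset.mem_erase.1 hx'.1).1
      rcases hB1 x hne with h | h | h
      · exact absurd h hx'.2
      · simp [h]
      · simp [h]
    rw [hsum1] at h1
    rw [h1] at h2
    simp only [Finset.sum_const, smul_eq_mul, mul_one, nsmul_eq_mul] at h2
    exact_mod_cast h2.symm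
  obtain ⟨x₂, x₃, x₄, h23, h24, h34, hSeq⟩ := Finset.card_eq_three.1 hScard
  have hmemS : ∀ x, x ≠ o → B x ≠ 0 → x = x₂ ∨ x = x₃ ∨ x = x₄ := by
    intro x h1 h2
    have : x ∈ S := Finset.mem_filter.2 ⟨Finset.mem_erase.2 ⟨h1, Finset.mem_univ x⟩, h2⟩
    rw [hSeq] at this
    simpa using this
  have hSmem : ∀ x, x = x₂ ∨ x = x₃ ∨ x = x₄ → x ≠ o ∧ B x ≠ 0 := by
    intro x h
    have : x ∈ S := by
      rw [hSeq]
      simpa using h
    have h' := Finset.mem_filter.1 this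
    exact ⟨(Finset.mem_erase.1 h'.1).1, h'.2⟩
  have hA_le : ∀ x, A x ^ 2 ≤ 8 := by
    intro x
    rw [← sAA]
    exact Finset.single_le_sum (f := fun x => A x ^ 2) (fun i _ => sq_nonneg _) (Finset.mem_univ x)
  have hrow : ∀ x, x = x₂ ∨ x = x₃ ∨ x = x₄ → (A x = 1 ∨ A x = -1) ∧ (B x = 1 ∨ B x = -1) := by
    intro x hx
    obtain ⟨h1, h2⟩ := hSmem x hx
    have hBx : B x = 1 ∨ B x = -1 := by
      rcases hB1 x h1 with h | h
      · exact absurd h h2
      · exact h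
    refine ⟨?_, hBx⟩
    have hle := hA_le x
    have h3 : A x ≤ 2 := by nlinarith
    have h4 : -2 ≤ A x := by nlinarith
    have h5 := hp x
    rcases hBx with h | h <;> rw [h] at h5 <;> omega
  have ho2 := (hSmem x₂ (Or.inl rfl)).1
  have ho3 := (hSmem x₃ (Or.inr (Or.inl rfl))).1
  have ho4 := (hSmem x₄ (Or.inr (Or.inr rfl))).1
  -- the remaining sum of squares
  set F : Finset X := {o, x₂, x₃, x₄} with hF
  have hFsum : ∀ f : X → ℤ, ∑ x ∈ F, f x = f o + f x₂ + f x₃ + f x₄ := by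
    intro f
    rw [hF, Finset.sum_insert (by simp [Ne.symm ho2, Ne.symm ho3, Ne.symm ho4]),
      Finset.sum_insert (by simp [h23, h24]), Finset.sum_insert (by simp [h34]),
      Finset.sum_singleton]
    ring
  have hrest : ∑ x ∈ Finset.univ \ F, A x ^ 2 = 4 := by
    have h1 := Finset.sum_sdiff (s₁ := F) (s₂ := Finset.univ) (Finset.subset_univ F)
      (f := fun x => A x ^ 2)
    rw [hFsum, sAA] at h1
    have h2 : A x₂ ^ 2 = 1 := by
      rcases (hrow x₂ (Or.inl rfl)).1 with h | h <;> rw [h] <;> norm_num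
    have h3 : A x₃ ^ 2 = 1 := by
      rcases (hrow x₃ (Or.inr (Or.inl rfl))).1 with h | h <;> rw [h] <;> norm_num
    have h4 : A x₄ ^ 2 = 1 := by
      rcases (hrow x₄ (Or.inr (Or.inr rfl))).1 with h | h <;> rw [h] <;> norm_num
    simp only [hAo] at h1
    rw [h2, h3, h4] at h1
    linarith
  have hnotF : ∀ x, x ∉ F → x ≠ o ∧ x ≠ x₂ ∧ x ≠ x₃ ∧ x ≠ x₄ := by
    intro x hx
    simpa [hF, not_or] using hx
  have hBrest : ∀ x, x ∉ F → B x = 0 := by
    intro x hx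
    obtain ⟨h1, h2, h3, h4⟩ := hnotF x hx
    by_contra h
    rcases hmemS x h1 h with h' | h' | h'
    · exact h2 h'
    · exact h3 h'
    · exact h4 h'
  have hArest : ∀ x, x ∉ F → A x = 0 ∨ A x = 2 ∨ A x = -2 := by
    intro x hx
    have h1 : A x ^ 2 ≤ 4 := by
      rw [← hrest]
      exact Finset.single_le_sum (f := fun x => A x ^ 2) (fun i _ => sq_nonneg _)
        (Finset.mem_sdiff.2 ⟨Finset.mem_univ x, hx⟩)
    have h3 : A x ≤ 2 := by nlinarith
    have h4 : -2 ≤ A x := by nlinarith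
    have h5 := hp x
    rw [hBrest x hx] at h5
    omega
  set U := (Finset.univ \ F).filter (fun x => A x ≠ 0) with hU
  have hUcard : U.card = 1 := by
    have h1 : ∑ x ∈ U, A x ^ 2 = ∑ x ∈ Finset.univ \ F, A x ^ 2 := by
      refine Finset.sum_filter_of_ne (fun x hx h => ?_)
      intro h0
      apply h
      simp [h0]
    have h2 : ∑ x ∈ U, A x ^ 2 = ∑ x ∈ U, 4 := by
      refine Finset.sum_congr rfl fun x hx => ?_
      have hx' := Finset.mem_filter.1 hx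
      rcases hArest x (Finset.mem_sdiff.1 hx'.1).2 with h | h | h
      · exact absurd h hx'.2
      · simp [h]
      · simp [h]
    rw [hrest] at h1
    rw [h1] at h2
    simp only [Finset.sum_const, smul_eq_mul, nsmul_eq_mul] at h2
    have : ((U.card : ℤ)) = 1 := by linarith
    exact_mod_cast this
  obtain ⟨x₅, hUeq⟩ := Finset.card_eq_one.1 hUcard
  have hx5 : x₅ ∈ U := by rw [hUeq]; simp
  have hx5' := Finset.mem_filter.1 hx5
  have hx5F : x₅ ∉ F := (Finset.mem_sdiff.1 hx5'.1).2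
  have hA5 : A x₅ = 2 ∨ A x₅ = -2 := by
    rcases hArest x₅ hx5F with h | h
    · exact absurd h hx5'.2
    · exact h
  have hB5 : B x₅ = 0 := hBrest x₅ hx5F
  have hAother : ∀ x, x ∉ F → x ≠ x₅ → A x = 0 := by
    intro x hx hne
    by_contra h
    have : x ∈ U := Finset.mem_filter.2 ⟨Finset.mem_sdiff.2 ⟨Finset.mem_univ x, hx⟩, h⟩
    rw [hUeq] at this
    exact hne (by simpa using this)
  -- five-term sums
  obtain ⟨h5o, h52, h53, h54⟩ := hnotF x₅ hx5F
  have hfive : ∀ {R : Type} [AddCommMonoid R] (f : X → R),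
      (∀ x, x ∉ F → x ≠ x₅ → f x = 0) → ∑ x, f x = f o + (f x₂ + (f x₃ + (f x₄ + f x₅))) := by
    intro R _ f hf
    have h1 : ∑ x ∈ insert x₅ F, f x = ∑ x, f x := by
      refine Finset.sum_subset (Finset.subset_univ _) fun x _ hx => ?_
      simp only [Finset.mem_insert, not_or] at hx
      exact hf x hx.2 hx.1
    rw [← h1, Finset.sum_insert hx5F, hF,
      Finset.sum_insert (by simp [Ne.symm ho2, Ne.symm ho3, Ne.symm ho4]),
      Finset.sum_insert (by simp [h23, h24]), Finset.sum_insert (by simp [h34]),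
      Finset.sum_singleton]
    abel
  rw [hfive _ (fun x h1 h2 => by simp [hBrest x h1, hAother x h1 h2])] at sAB
  rw [hfive _ (fun x h1 h2 => by simp [hAother x h1 h2])] at sAd
  rw [hfive _ (fun x h1 h2 => by simp [hBrest x h1])] at sBd
  rw [hfive _ (fun x h1 h2 => by simp [hAother x h1 h2])] at E1
  rw [hfive _ (fun x h1 h2 => by simp [hBrest x h1])] at E2
  simp only [hAo, hBo, hdo, hB5] at sAB sAd sBd E1 E2
  obtain ⟨hA2, hB2⟩ := hrow x₂ (Or.inl rfl)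
  obtain ⟨hA3, hB3⟩ := hrow x₃ (Or.inr (Or.inl rfl))
  obtain ⟨hA4, hB4⟩ := hrow x₄ (Or.inr (Or.inr rfl))
  obtain ⟨q2, q2', q2'', q20⟩ := row_vals _ _ _ hA2 hB2 (hd x₂)
  obtain ⟨q3, q3', q3'', q30⟩ := row_vals _ _ _ hA3 hB3 (hd x₃)
  obtain ⟨q4, q4', q4'', q40⟩ := row_vals _ _ _ hA4 hB4 (hd x₄)
  -- the row at x₅
  have hd5 : (d x₅ : ℚ) ≠ 0 := by have := hd x₅; positivity
  set E : ℤ := (A x₅ / 2) * d x₅ with hE
  have hEne : E ≠ 0 := by
    have := hd x₅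
    rcases hA5 with h | h <;> rw [hE, h] <;> norm_num <;> omega
  have hE5 : A x₅ * (d x₅ : ℤ) = 2 * E := by
    rcases hA5 with h | h <;> rw [hE, h] <;> norm_num
  have hE53 : (A x₅ : ℚ) ^ 3 / d x₅ = 8 / E := by
    have h0 : (d x₅ : ℚ) ≠ 0 := hd5
    rcases hA5 with h | h <;> rw [hE, h] <;> norm_num <;> field_simp <;> norm_num
  rw [q2, q3, q4, hE53] at E1
  rw [q2', q3', q4'] at E2
  have hE2 : (n : ℚ) * (1 + 1 / ((B x₂ * d x₂ : ℤ) : ℚ) + 1 / ((B x₃ * d x₃ : ℤ) : ℚ) +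
      1 / ((B x₄ * d x₄ : ℤ) : ℚ)) = 32 := by
    rw [← E2]
    congr 1
    norm_num
    ring
  rw [q2'', q3'', q4'', hE5] at sAd
  set b₂ := B x₂ * (d x₂ : ℤ) with hb2
  set b₃ := B x₃ * (d x₃ : ℤ) with hb3
  set b₄ := B x₄ * (d x₄ : ℤ) with hb4
  have hsBd : 1 + b₂ + b₃ + b₄ = 0 := by
    simp only [Nat.cast_one, mul_one, mul_zero] at sBd
    linarith
  -- signs
  have hη : ∀ (a b : ℤ), (a = 1 ∨ a = -1) → (b = 1 ∨ b = -1) → a * b = 1 ∨ a * b = -1 := by
    intro a b ha hb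
    rcases ha with rfl | rfl <;> rcases hb with rfl | rfl <;> simp
  rcases hη _ _ hA2 hB2 with e2 | e2 <;> rcases hη _ _ hA3 hB3 with e3 | e3 <;>
    rcases hη _ _ hA4 hB4 with e4 | e4 <;> rw [e2, e3, e4] at E1 sAd <;>
    rw [e2, e3, e4] at sAB <;> simp only [mul_zero, add_zero, one_mul, Nat.cast_one, mul_one] at sAB <;>
    first
    | (exfalso; omega)
    | skip
  · refine core_rat n hn b₂ b₃ b₄ E q20 q30 q40 hEne hsBd (by linarith) hE2 ?_
    rw [← E1]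
    congr 1
    norm_num
    ring
  · refine core_rat n hn b₃ b₂ b₄ E q30 q20 q40 hEne (by linarith) (by linarith) ?_ ?_
    · rw [← hE2]; ring
    · rw [← E1]
      congr 1
      norm_num
      ring
  · refine core_rat n hn b₄ b₂ b₃ E q40 q20 q30 hEne (by linarith) (by linarith) ?_ ?_
    · rw [← hE2]; ring
    · rw [← E1]
      congr 1
      norm_num
      ring

end Cfsg.Agent.H15.Col
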