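import Mathlib
import Cfsg.Agent.Lib.H15.ColBasic
import Cfsg.Agent.Lib.H15.ColRows

/-! # Perfect groups with an involution centralizer dihedral of order 8 -/

set_option autoImplicit false
set_option maxRecDepth 100000

namespace Cfsg.Agent.H15.Col

open Cfsg Cfsg.Agent.H21 Cfsg.Agent.H22
open scoped ComplexConjugate
open DihedralGroup

universe u

theorem d8_center : ∀ x : DihedralGroup 4, (∀ y, x * y = y * x) → x = 1 ∨ x = r 2 := by decide
theorem d8_rot : ∀ x : DihedralGroup 4, x * r 1 = r 1 * x → ∃ i, x = r i := by decide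
theorem d8_invol_a : ∀ x : DihedralGroup 4, x * x = 1 → x ≠ 1 → x ≠ r 2 → ∃ i, x = sr i := by decide
theorem d8_invol_c : ∀ x : DihedralGroup 4, x * x = 1 → x ≠ 1 → (x⁻¹ * r 1) * (x⁻¹ * r 1) = 1 →
    ∃ i, x = sr i := by decide
theorem d8_sr : ∀ i : ZMod 4, sr i * sr i = (1 : DihedralGroup 4) ∧ sr i ≠ (1 : DihedralGroup 4) ∧
    ((sr i)⁻¹ * r 2) * ((sr i)⁻¹ * r 2) = (1 : DihedralGroup 4) ∧ (sr i)⁻¹ * r 2 ≠ (1 : DihedralGroup 4) ∧
    ((sr i)⁻¹ * r 1) * ((sr i)⁻¹ * r 1) = (1 : DihedralGroup 4) ∧ (sr i)⁻¹ * r 1 ≠ (1 : DihedralGroup 4) := by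
  decide
theorem d8_r : ∀ i : ZMod 4, r i * r i = (1 : DihedralGroup 4) → r i ≠ (1 : DihedralGroup 4) → i = 2 := by
  decide

variable {G : Type u} [Group G] [Finite G]

theorem main_d8 (hperf : commutator G = ⊤) (t : G) (ht : orderOf t = 2)
    (e : Subgroup.centralizer ({t} : Set G) ≃* DihedralGroup 4) :
    Nat.card G = 168 ∨ Nat.card G = 360 := by
  classical
  have ht2 : t * t = 1 := by
    have := pow_orderOf_eq_one t
    rwa [ht, pow_two] at this
  have ht1 : t ≠ 1 := by
    intro h
    rw [h, orderOf_one] at ht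
    omega
  set D := Subgroup.centralizer ({t} : Set G) with hD
  have hmemD : ∀ g, g ∈ D ↔ g * t = t * g := fun g => Subgroup.mem_centralizer_singleton_iff
  let el : DihedralGroup 4 →* G := D.subtype.comp e.symm.toMonoidHom
  have el_inj : Function.Injective el := by
    intro a b h
    have h1 : (e.symm a : D) = e.symm b := Subtype.ext h
    exact e.symm.injective h1
  have el_mem : ∀ x, el x ∈ D := fun x => (e.symm x).2
  have el_surj : ∀ g ∈ D, ∃ x, el x = g := fun g hg => ⟨e ⟨g, hg⟩, by simp [el]⟩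
  have el_ne : ∀ x, x ≠ 1 → el x ≠ 1 := fun x hx h => hx (el_inj (by rw [h, map_one]))
  have htD : t ∈ D := (hmemD t).2 rfl
  have hel2 : el (r 2) = t := by
    have h1 : ∀ y, e ⟨t, htD⟩ * y = y * e ⟨t, htD⟩ := by
      intro y
      obtain ⟨y', rfl⟩ := e.surjective y
      rw [← map_mul, ← map_mul]
      congr 1
      apply Subtype.ext
      exact ((hmemD y').1 y'.2).symm
    have h2 : e ⟨t, htD⟩ = r 2 := by
      rcases d8_center _ h1 with h | h
      · exfalso
        apply ht1
        have := e.injective (h.trans (map_one e).symm)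
        exact congrArg Subtype.val this
      · exact h
    have h3 : e.symm (r 2) = ⟨t, htD⟩ := by rw [← h2]; simp
    simp [el, h3]
  set c : G := el (r 1) with hc
  have hcc : c * c = t := by
    rw [hc, ← map_mul, r_mul_r, ← hel2]
    rfl
  have hcord : orderOf c = 4 := by
    rw [hc, orderOf_injective el el_inj, orderOf_r_one]
  set s : G := el (sr 0) with hs
  have hscs : s * c * s⁻¹ = c⁻¹ := by
    rw [hs, hc, ← map_inv, ← map_inv, ← map_mul, ← map_mul]
    congr 1
  have hcardD : Nat.card D = 8 := by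
    rw [Nat.card_congr e.toEquiv, DihedralGroup.nat_card]
  -- D is Sylow
  have hDp : IsPGroup 2 D := IsPGroup.of_card (n := 3) (by rw [hcardD]; norm_num)
  have hDodd : ¬ 2 ∣ D.index := by
    refine not_dvd_index_of_unique_central t D hDp le_rfl htD ht2 ht1 ?_ ?_
    · intro z hz hz1 _ hcomm
      obtain ⟨x, rfl⟩ := el_surj z hz
      have h1 : ∀ y, x * y = y * x := by
        intro y
        apply el_inj
        rw [map_mul, map_mul]
        exact hcomm _ (el_mem y)
      rcases d8_center x h1 with h | h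
      · exact absurd (by rw [h, map_one]) hz1
      · rw [h, hel2]
    · intro R _ hRD hDR
      exact le_antisymm hRD hDR
  set n := D.index with hn
  have hnodd : Odd n := by
    rcases Nat.even_or_odd n with h | h
    · exact absurd h.two_dvd hDodd
    · exact h
  have hcardG : Nat.card G = 8 * n := by
    rw [← Subgroup.card_mul_index D, hcardD]
  -- one class of involutions
  have hno : ∀ (φ : G →* ℤˣ) (y : G), φ y = 1 := sign_trivial_of_perfect hperf
  have hcardW : Nat.card (Subgroup.zpowers c) = 4 := by rw [Nat.card_zpowers, hcord]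
  have hinvconj : ∀ y : G, y * y = 1 → y ≠ 1 → IsConj y t := by
    intro y hy hy1
    refine invol_conj_of_no_sign hno t (Subgroup.zpowers c) n hnodd ?_ ?_ y hy hy1
    · have h1 := Subgroup.card_mul_index (Subgroup.zpowers c)
      rw [hcardW, hcardG] at h1
      omega
    · intro z hz hz2 hz1
      rw [← mem_powers_iff_mem_zpowers] at hz
      obtain ⟨k, hk⟩ := hz
      change c ^ k = z at hk
      subst hk
      have h2 : c ^ k = el (r (k : ZMod 4)) := by
        rw [hc, ← map_pow, r_one_pow]
      rw [h2] at hz2 hz1 ⊢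
      have h3 : (k : ZMod 4) = 2 := by
        apply d8_r
        · apply el_inj
          rw [map_mul, hz2, map_one]
        · intro h
          exact hz1 (by rw [h, map_one])
      rw [h3, hel2]
  -- centralizer of c
  have hCc : Subgroup.centralizer ({c} : Set G) = Subgroup.zpowers c := by
    apply le_antisymm
    · intro g hg
      have hg' := Subgroup.mem_centralizer_singleton_iff.1 hg
      have hgt : g ∈ D := by
        rw [hmemD, ← hcc]
        calc g * (c * c) = (g * c) * c := by group
          _ = c * (g * c) := by rw [hg', mul_assoc, hg']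
          _ = c * c * g := by rw [hg', mul_assoc]
      obtain ⟨x, rfl⟩ := el_surj g hgt
      have h1 : x * r 1 = r 1 * x := by
        apply el_inj
        rw [map_mul, map_mul]
        exact hg'
      obtain ⟨i, rfl⟩ := d8_rot x h1
      have h2 : el (r i) = c ^ (ZMod.val i) := by
        rw [hc, ← map_pow, r_one_pow, ZMod.natCast_zmod_val]
      rw [h2]
      exact Subgroup.npow_mem_zpowers c _
    · rw [Subgroup.zpowers_le]
      exact Subgroup.mem_centralizer_singleton_iff.2 rfl
  have hcardCc : Nat.card (Subgroup.centralizer ({c} : Set G)) = 4 := by rw [hCc, hcardW]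
  -- values
  have h2dvd : 2 ∣ Nat.card G := by
    rw [hcardG]
    omega
  have hkodd : ∀ k : ℕ, k.Coprime (Nat.card G) → k % 2 = 1 := by
    intro k hk
    have h1 : k.Coprime 2 := hk.coprime_dvd_right h2dvd
    rcases Nat.even_or_odd k with h | h
    · have := Nat.Coprime.eq_one_of_dvd h1.symm h.two_dvd
      omega
    · exact Nat.odd_iff.1 h
  have hAex : ∀ χ : IrrCharacter G, ∃ z : ℤ, χ.1 t = z := by
    intro χ
    refine int_val χ t fun k hk => ?_
    have h1 : t ^ k = t := by
      rw [← pow_mod_orderOf, ht, hkodd k hk, pow_one]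
    rw [h1]
  have hBex : ∀ χ : IrrCharacter G, ∃ z : ℤ, χ.1 c = z := by
    intro χ
    refine int_val χ c fun k hk => ?_
    have h0 := hkodd k hk
    rw [← pow_mod_orderOf, hcord]
    have h1 : k % 4 = 1 ∨ k % 4 = 3 := by omega
    rcases h1 with h | h
    · rw [h, pow_one]
    · rw [h]
      have h3 : c ^ 3 = c⁻¹ := by
        apply eq_inv_of_mul_eq_one_left
        rw [← pow_succ, show 3 + 1 = 4 by norm_num, ← hcord, pow_orderOf_eq_one]
      rw [h3]
      exact (isConj_iff.2 ⟨s, hscs⟩).symm
  choose A hA using hAex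
  choose B hB using hBex
  let d : IrrCharacter G → ℕ := fun χ => charDegree χ.1
  have hdeg : ∀ χ : IrrCharacter G, χ.1 1 = (d χ : ℂ) := fun χ => one_eq_charDegree (isCharacter_of_irr χ.2)
  have hdeg' : ∀ χ : IrrCharacter G, χ.1 1 = ((d χ : ℤ) : ℂ) := fun χ => by
    rw [hdeg χ]
    norm_cast
  have hdpos : ∀ χ : IrrCharacter G, 0 < d χ := fun χ => irr_charDegree_pos χ.2
  have ht_not_c : ¬ IsConj t c := by
    intro h
    obtain ⟨g, hg⟩ := isConj_iff.1 h
    have h1 : c * c = 1 := by
      rw [← hg]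
      have : g * t * g⁻¹ * (g * t * g⁻¹) = g * (t * t) * g⁻¹ := by group
      rw [this, ht2]
      group
    rw [hcc] at h1
    exact ht1 h1
  have h1_not_t : ¬ IsConj (1 : G) t := fun h => ht1 (isConj_one_right.1 h)
  have h1_not_c : ¬ IsConj (1 : G) c := by
    intro h
    have h' := isConj_one_right.1 h
    rw [h', one_mul] at hcc
    exact ht1 hcc.symm
  have sAA : ∑ χ, A χ ^ 2 = 8 := by
    have := col_int_conj A A hA hA (IsConj.refl t)
    rw [← hD, hcardD] at this
    simp only [pow_two]
    exact_mod_cast this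
  have sBB : ∑ χ, B χ ^ 2 = 4 := by
    have := col_int_conj B B hB hB (IsConj.refl c)
    rw [hcardCc] at this
    simp only [pow_two]
    exact_mod_cast this
  have sAB : ∑ χ, A χ * B χ = 0 := col_int_ne A B hA hB ht_not_c
  have sAd : ∑ χ, A χ * (d χ : ℤ) = 0 := by
    have := col_int_ne (fun χ => (d χ : ℤ)) A hdeg' hA h1_not_t
    rw [← this]
    exact Finset.sum_congr rfl fun χ _ => mul_comm _ _
  have sBd : ∑ χ, B χ * (d χ : ℤ) = 0 := by
    have := col_int_ne (fun χ => (d χ : ℤ)) B hdeg' hB h1_not_c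
    rw [← this]
    exact Finset.sum_congr rfl fun χ _ => mul_comm _ _
  have hpar : ∀ χ, (2 : ℤ) ∣ A χ - B χ := by
    intro χ
    have h1 := pow_congr_int χ c 2 Nat.prime_two (B χ) (A χ) (hB χ)
      (by rw [pow_two, hcc, hA χ])
    have h2 : (2 : ℤ) ∣ B χ * (B χ - 1) := by
      rcases Int.even_or_odd (B χ) with h | h
      · exact Dvd.dvd.mul_right h.two_dvd _
      · have : Even (B χ - 1) := by
          obtain ⟨k, hk⟩ := h
          exact ⟨k, by omega⟩
        exact Dvd.dvd.mul_left this.two_dvd _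
    have h3 : A χ - B χ = B χ * (B χ - 1) - (((2 : ℕ) : ℤ) ∣ 0 |> fun _ => 0) - (B χ ^ 2 - A χ) := by
      ring
    rw [h3]
    simpa using dvd_sub h2 h1
  -- structure constants
  have hIdx : D.index = n := rfl
  have hT0 : ∀ g : G, (∀ h, IsConj h t ∧ IsConj (h⁻¹ * g) t ↔ ∃ i, h = el (sr i)) →
      (Finset.univ.filter (fun h : G => IsConj h t ∧ IsConj (h⁻¹ * g) t)).card = 4 := by
    intro g hg
    have h1 : Finset.univ.filter (fun h : G => IsConj h t ∧ IsConj (h⁻¹ * g) t) =
        (Finset.univ : Finset (ZMod 4)).image (fun i => el (sr i)) := by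
      ext h
      simp only [Finset.mem_filter, Finset.mem_univ, true_and, Finset.mem_image, hg h]
      constructor
      · rintro ⟨i, rfl⟩
        exact ⟨i, rfl⟩
      · rintro ⟨i, rfl⟩
        exact ⟨i, rfl⟩
    rw [h1, Finset.card_image_of_injective, Finset.card_univ, ZMod.card]
    intro i j hij
    have := el_inj hij
    simpa using this
  have hconj_inv : ∀ h, IsConj h t → h * h = 1 ∧ h ≠ 1 := by
    intro h hh
    obtain ⟨g, rfl⟩ := isConj_iff.1 hh.symm
    constructor
    · have : g * t * g⁻¹ * (g * t * g⁻¹) = g * (t * t) * g⁻¹ := by group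
      rw [this, ht2]
      group
    · intro h
      apply ht1
      have : t = g⁻¹ * (g * t * g⁻¹) * g := by group
      rw [this, h]
      group
  have hel_conj : ∀ x : DihedralGroup 4, x * x = 1 → x ≠ 1 → IsConj (el x) t := by
    intro x h1 h2
    refine hinvconj _ ?_ (el_ne x h2)
    rw [← map_mul, h1, map_one]
  have hTt : (Finset.univ.filter (fun h : G => IsConj h t ∧ IsConj (h⁻¹ * t) t)).card = 4 := by
    refine hT0 t fun h => ⟨?_, ?_⟩
    · rintro ⟨h1, h2⟩
      obtain ⟨h3, h4⟩ := hconj_inv h h1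
      obtain ⟨h5, h6⟩ := hconj_inv _ h2
      have hhi : h⁻¹ = h := inv_eq_of_mul_eq_one_left h3
      rw [hhi] at h5 h6
      have hcomm : h * t = t * h := by
        have h7 : t * h * (h * t) = 1 := by
          calc t * h * (h * t) = t * (h * h) * t := by group
            _ = 1 := by rw [h3, mul_one, ht2]
        have h8 : h * t * (h * t) = 1 := h5
        exact (mul_right_cancel (h8.trans h7.symm))
      obtain ⟨x, rfl⟩ := el_surj h ((hmemD h).2 hcomm)
      have hx1 : x * x = 1 := el_inj (by rw [map_mul, h3, map_one])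
      have hx2 : x ≠ 1 := fun h => h4 (by rw [h, map_one])
      have hx3 : x ≠ r 2 := by
        intro h
        rw [h, hel2] at h6
        exact h6 ht2
      obtain ⟨i, hi⟩ := d8_invol_a x hx1 hx2 hx3
      exact ⟨i, by rw [hi]⟩
    · rintro ⟨i, rfl⟩
      obtain ⟨h1, h2, h3, h4, _, _⟩ := d8_sr i
      refine ⟨hel_conj _ h1 h2, ?_⟩
      have h7 : (el (sr i))⁻¹ * t = el ((sr i)⁻¹ * r 2) := by
        rw [map_mul, map_inv, hel2]
      rw [h7]
      exact hel_conj _ h3 h4
  have hTc : (Finset.univ.filter (fun h : G => IsConj h t ∧ IsConj (h⁻¹ * c) t)).card = 4 := by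
    refine hT0 c fun h => ⟨?_, ?_⟩
    · rintro ⟨h1, h2⟩
      obtain ⟨h3, h4⟩ := hconj_inv h h1
      obtain ⟨h5, h6⟩ := hconj_inv _ h2
      have hhi : h⁻¹ = h := inv_eq_of_mul_eq_one_left h3
      have h5' := h5
      rw [hhi] at h5'
      have hcomm : h * t = t * h := by
        rw [← hcc]
        have h7 : h * c * h = c⁻¹ := by
          apply eq_inv_of_mul_eq_one_left
          calc h * c * h * c = h * c * (h * c) := by group
            _ = 1 := h5'
        calc h * (c * c) = (h * c * h) * (h * c * h) * h := by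
              calc h * (c * c) = h * c * (h * h) * c := by rw [h3]; group
                _ = _ := by
                  rw [h3]
                  calc h * c * 1 * c = h * c * (h * h) * c * (h * h) := by rw [h3]; group
                    _ = _ := by group
          _ = c⁻¹ * c⁻¹ * h := by rw [h7]
          _ = (c * c)⁻¹ * h := by group
          _ = c * c * h := by
              rw [hcc, inv_eq_of_mul_eq_one_left ht2]
      obtain ⟨x, rfl⟩ := el_surj h ((hmemD h).2 hcomm)
      have hx1 : x * x = 1 := el_inj (by rw [map_mul, h3, map_one])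
      have hx2 : x ≠ 1 := fun h => h4 (by rw [h, map_one])
      have hx3 : (x⁻¹ * r 1) * (x⁻¹ * r 1) = 1 := by
        apply el_inj
        rw [map_mul, map_mul, map_inv, map_one]
        exact h5
      obtain ⟨i, hi⟩ := d8_invol_c x hx1 hx2 hx3
      exact ⟨i, by rw [hi]⟩
    · rintro ⟨i, rfl⟩
      obtain ⟨h1, h2, _, _, h3, h4⟩ := d8_sr i
      refine ⟨hel_conj _ h1 h2, ?_⟩
      have h7 : (el (sr i))⁻¹ * c = el ((sr i)⁻¹ * r 1) := by
        rw [map_mul, map_inv]
      rw [h7]
      exact hel_conj _ h3 h4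
  have hstr : ∀ g, ((Finset.univ.filter (fun h : G => IsConj h t ∧ IsConj (h⁻¹ * g) t)).card : ℂ) * 8 =
      n * ∑ χ : IrrCharacter G, (χ.1 t) ^ 2 * conj (χ.1 g) / χ.1 1 := by
    intro g
    have := struct_t t g n 8 rfl hcardD
    exact_mod_cast this
  have E1 : (n : ℚ) * ∑ χ, (A χ : ℚ) ^ 3 / d χ = 32 := by
    have h1 := hstr t
    rw [hTt] at h1
    have h2 : ((((n : ℚ) * ∑ χ, (A χ : ℚ) ^ 3 / d χ : ℚ)) : ℂ) = ((32 : ℚ) : ℂ) := by
      push_cast
      have h3 : ∀ χ : IrrCharacter G, (χ.1 t) ^ 2 * conj (χ.1 t) / χ.1 1 = (A χ : ℂ) ^ 3 / d χ := by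
        intro χ
        rw [hA χ, hdeg χ, map_intCast]
        ring
      simp only [h3] at h1
      rw [← h1]
      norm_num
    exact_mod_cast h2
  have E2 : (n : ℚ) * ∑ χ, (A χ : ℚ) ^ 2 * B χ / d χ = 32 := by
    have h1 := hstr c
    rw [hTc] at h1
    have h2 : ((((n : ℚ) * ∑ χ, (A χ : ℚ) ^ 2 * B χ / d χ : ℚ)) : ℂ) = ((32 : ℚ) : ℂ) := by
      push_cast
      have h3 : ∀ χ : IrrCharacter G, (χ.1 t) ^ 2 * conj (χ.1 c) / χ.1 1 = (A χ : ℂ) ^ 2 * B χ / d χ := by
        intro χ
        rw [hA χ, hB χ, hdeg χ, map_intCast]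
      simp only [h3] at h1
      rw [← h1]
      norm_num
    exact_mod_cast h2
  have hAo : A (oneIrr G) = 1 := by
    have h1 := hA (oneIrr G)
    have h2 : (oneIrr G).1 t = 1 := rfl
    rw [h2] at h1
    exact_mod_cast h1.symm
  have hBo : B (oneIrr G) = 1 := by
    have h1 := hB (oneIrr G)
    have h2 : (oneIrr G).1 c = 1 := rfl
    rw [h2] at h1
    exact_mod_cast h1.symm
  have hdo : d (oneIrr G) = 1 := by
    have h1 := hdeg (oneIrr G)
    have h2 : (oneIrr G).1 1 = 1 := rfl
    rw [h2] at h1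
    exact_mod_cast h1.symm
  rcases rows_main A B d (oneIrr G) hAo hBo hdo hdpos hpar sAA sBB sAB sAd sBd n hnodd E1 E2 with h | h
  · left
    rw [hcardG, h]
  · right
    rw [hcardG, h]

end Cfsg.Agent.H15.Col
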