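import Mathlib
import Cfsg.Agent.Lib.H18.AbConj3
import Cfsg.Agent.Lib.H01.FrobAct
import Cfsg.Agent.Lib.H01.Solv
import Cfsg.Agent.S3908
import Cfsg.Agent.S3909

/-!
# Groups whose abelian subgroups of equal order are conjugate: non-cyclic Sylow subgroups are normal
-/

set_option autoImplicit false
set_option linter.unusedSectionVars false

namespace Cfsg.Agent.H15.AC

open Cfsg
open scoped commutatorElement
open Cfsg.Agent.H18 (HProp)

universe u

section abstract

theorem comm_aux {W : Type*} [CommGroup W] (A B C D v y : W) (h : A * (B⁻¹ * C) = v * (y⁻¹ * D)) :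
    D⁻¹ * C = (A * v⁻¹)⁻¹ * (y⁻¹ * B) := by
  have h1 : C = B * (A⁻¹ * (v * (y⁻¹ * D))) := by
    rw [← h]
    group
  rw [h1, mul_inv, inv_inv]
  calc D⁻¹ * (B * (A⁻¹ * (v * (y⁻¹ * D)))) = (D⁻¹ * D) * (A⁻¹ * v * (y⁻¹ * B)) := by ac_rfl
    _ = A⁻¹ * v * (y⁻¹ * B) := by simp

variable {W : Type*} [Group W]

theorem crux_W (hW : ∀ a b : W, a * b = b * a) (ξ η : W →* W) (hc : ∀ w, ξ (η w) = η (ξ w)) {q s : ℕ}
    (hq : ∀ w, ξ^[q] w = w) (hs : ∀ w : W, w ^ s = 1) (hcop : q.Coprime s) (v y : W) (hξ : ξ v = v)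
    (he : η (v * (y⁻¹ * ξ y)) = v * (y⁻¹ * ξ y)) : η v = v := by
  letI : CommGroup W := { (inferInstance : Group W) with mul_comm := hW }
  obtain ⟨w, hw⟩ : ∃ w, w = η v * v⁻¹ := ⟨_, rfl⟩
  obtain ⟨t, ht⟩ : ∃ t, t = y⁻¹ * η y := ⟨_, rfl⟩
  have he' : η v * ((η y)⁻¹ * η (ξ y)) = v * (y⁻¹ * ξ y) := by
    rw [← map_inv, ← map_mul, ← map_mul, he]
  have h1 : ξ t = w⁻¹ * t := by
    rw [ht, hw, map_mul, map_inv, hc y]
    exact comm_aux _ _ _ _ _ _ he'
  have h2 : ξ w = w := by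
    rw [hw, map_mul, map_inv, hc v, hξ]
  have h3 : ξ w⁻¹ = w⁻¹ := by rw [map_inv, h2]
  have h4 : ∀ k : ℕ, ξ^[k] t = (w⁻¹) ^ k * t := by
    intro k
    induction k with
    | zero => simp
    | succ k ih =>
      rw [Function.iterate_succ_apply', ih, map_mul, map_pow, h3, h1, pow_succ, mul_assoc]
  have h5 := h4 q
  rw [hq t] at h5
  have h6 : (w⁻¹) ^ q = 1 := (mul_eq_right.1 h5.symm)
  have h7 : w ^ q = 1 := by
    rw [inv_pow] at h6
    exact inv_eq_one.1 h6
  have h8 := Nat.dvd_gcd (orderOf_dvd_of_pow_eq_one h7) (orderOf_dvd_of_pow_eq_one (hs w))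
  rw [hcop] at h8
  have h9 : w = 1 := orderOf_eq_one_iff.1 (Nat.dvd_one.1 h8)
  rw [hw] at h9
  exact mul_inv_eq_one.1 h9

theorem crux2_W (hW : ∀ a b : W, a * b = b * a) (ξ : W →* W) {q s : ℕ}
    (hq : ∀ w, ξ^[q] w = w) (hs : ∀ w : W, w ^ s = 1) (hcop : q.Coprime s) (v y : W) (hξ : ξ v = v)
    (he : ξ (v * (y⁻¹ * ξ y)) = v * (y⁻¹ * ξ y)) : ξ y = y := by
  letI : CommGroup W := { (inferInstance : Group W) with mul_comm := hW }
  obtain ⟨u, hu⟩ : ∃ u, u = y⁻¹ * ξ y := ⟨_, rfl⟩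
  rw [← hu] at he
  have h1 : ξ u = u := by
    rw [map_mul, hξ] at he
    exact mul_left_cancel he
  have h2 : ξ y = y * u := by
    rw [hu]
    simp
  have h4 : ∀ k : ℕ, ξ^[k] y = y * u ^ k := by
    intro k
    induction k with
    | zero => simp
    | succ k ih =>
      rw [Function.iterate_succ_apply', ih, map_mul, map_pow, h1, h2, pow_succ, mul_assoc, mul_comm u]
  have h5 := h4 q
  rw [hq y] at h5
  have h6 : u ^ q = 1 := by
    have := mul_eq_left.1 h5.symm
    exact this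
  have h8 := Nat.dvd_gcd (orderOf_dvd_of_pow_eq_one h6) (orderOf_dvd_of_pow_eq_one (hs u))
  rw [hcop] at h8
  have h9 : u = 1 := orderOf_eq_one_iff.1 (Nat.dvd_one.1 h8)
  rw [h2, h9, mul_one]

end abstract

variable {G : Type*} [Group G] [Finite G]

theorem zpowers_comm (z : G) : IsMulCommutative (Subgroup.zpowers z) := by
  refine ⟨⟨?_⟩⟩
  rintro ⟨a, ha⟩ ⟨b, hb⟩
  obtain ⟨i, rfl⟩ := Subgroup.mem_zpowers_iff.1 ha
  obtain ⟨j, rfl⟩ := Subgroup.mem_zpowers_iff.1 hb
  ext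
  simp only [Subgroup.coe_mul]
  rw [← zpow_add, ← zpow_add, add_comm]

/-- Elements of equal order: centralizing a normal subgroup transfers. -/
theorem central_of_same_order (hH : HProp G) (Y : Subgroup G) [hY : Y.Normal] {x y : G}
    (h : orderOf x = orderOf y) (hx : ∀ n ∈ Y, x * n = n * x) : ∀ n ∈ Y, y * n = n * y := by
  obtain ⟨g, hg⟩ := hH (Subgroup.zpowers x) (Subgroup.zpowers y) (zpowers_comm x) (zpowers_comm y)
    (by rw [Nat.card_zpowers, Nat.card_zpowers, h])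
  have hyz : y ∈ Subgroup.zpowers y := Subgroup.mem_zpowers y
  rw [hg] at hyz
  obtain ⟨w, hw, hwy⟩ := hyz
  obtain ⟨i, rfl⟩ := Subgroup.mem_zpowers_iff.1 hw
  intro n hn
  have hn' : g⁻¹ * n * g ∈ Y := by
    have := hY.conj_mem n hn g⁻¹
    simpa using this
  have h1 : Commute x (g⁻¹ * n * g) := hx _ hn'
  have h2 : Commute (x ^ i) (g⁻¹ * n * g) := h1.zpow_left i
  have h3 : y = g * x ^ i * g⁻¹ := by
    rw [← hwy]
    simp [MulAut.conj_apply]
  rw [h3]
  have h4 : (x ^ i) * (g⁻¹ * n * g) = (g⁻¹ * n * g) * (x ^ i) := h2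
  calc g * x ^ i * g⁻¹ * n = g * ((x ^ i) * (g⁻¹ * n * g)) * g⁻¹ := by group
    _ = g * ((g⁻¹ * n * g) * (x ^ i)) * g⁻¹ := by rw [h4]
    _ = n * (g * x ^ i * g⁻¹) := by group

theorem sylow_comm (hH : HProp G) {q s : ℕ} [hq : Fact q.Prime] [hs : Fact s.Prime] (hqs : q ≠ s) (E : Sylow q G)
    (hEc : ¬ IsCyclic (E : Subgroup G)) (hEab : IsMulCommutative (E : Subgroup G))
    (hEe : ∀ x ∈ (E : Subgroup G), x ^ q = 1) (N : Subgroup G) [hNn : N.Normal] (hNab : IsMulCommutative N)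
    (hNe : ∀ x ∈ N, x ^ s = 1) (hX : ((E : Subgroup G) ⊔ N).Normal) :
    ∀ x ∈ (E : Subgroup G), ∀ n ∈ N, x * n = n * x := by
  classical
  by_contra hno
  push Not at hno
  obtain ⟨x₀, hx₀, n₀, hn₀, hne⟩ := hno
  have hNcomm : ∀ a ∈ N, ∀ b ∈ N, a * b = b * a := by
    intro a ha b hb
    have := mul_comm' (⟨a, ha⟩ : N) (⟨b, hb⟩ : N)
    exact congrArg Subtype.val this
  have hEcomm : ∀ a ∈ (E : Subgroup G), ∀ b ∈ (E : Subgroup G), a * b = b * a := by
    intro a ha b hb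
    have := mul_comm' (⟨a, ha⟩ : (E : Subgroup G)) (⟨b, hb⟩ : (E : Subgroup G))
    exact congrArg Subtype.val this
  have hordE : ∀ x ∈ (E : Subgroup G), x ≠ 1 → orderOf x = q := fun x hx hx1 =>
    orderOf_eq_prime (hEe x hx) hx1
  have hordN : ∀ x ∈ N, x ≠ 1 → orderOf x = s := fun x hx hx1 =>
    orderOf_eq_prime (hNe x hx) hx1
  have hx₀1 : x₀ ≠ 1 := by
    rintro rfl
    simp at hne
  have hn₀1 : n₀ ≠ 1 := by
    rintro rfl
    simp at hne
  have hE1 : ∀ x ∈ (E : Subgroup G), x ≠ 1 → ∃ n ∈ N, x * n ≠ n * x := by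
    intro x hx hx1
    by_contra hcon
    push Not at hcon
    exact hne (central_of_same_order hH N (by rw [hordE x hx hx1, hordE x₀ hx₀ hx₀1]) hcon n₀ hn₀)
  -- Frattini
  have hF : ∀ g : G, ∃ h ∈ Subgroup.normalizer ((E : Subgroup G) : Set G), ∃ n ∈ N, h * n = g := by
    intro g
    haveI := hX
    have h1 : Subgroup.normalizer ((E : Subgroup G) : Set G) ⊔ ((E : Subgroup G) ⊔ N) = ⊤ :=
      Sylow.normalizer_sup_eq_top' E (le_sup_left : (E : Subgroup G) ≤ (E : Subgroup G) ⊔ N)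
    have h2 : (E : Subgroup G) ≤ Subgroup.normalizer ((E : Subgroup G) : Set G) := Subgroup.le_normalizer
    have h3 : Subgroup.normalizer ((E : Subgroup G) : Set G) ⊔ N = ⊤ := by
      rw [eq_top_iff, ← h1, ← sup_assoc, sup_eq_left.2 h2]
    have h4 : g ∈ Subgroup.normalizer ((E : Subgroup G) : Set G) ⊔ N := by
      rw [h3]
      trivial
    exact Subgroup.mem_sup_of_normal_right.1 h4
  -- constancy
  have hcard : ∀ v ∈ N, ∀ w ∈ N, v ≠ 1 → w ≠ 1 →
      Nat.card ↥((E : Subgroup G) ⊓ Subgroup.centralizer {v}) = Nat.card ↥((E : Subgroup G) ⊓ Subgroup.centralizer {w}) := by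
    intro v hv w hw hv1 hw1
    obtain ⟨g, hg⟩ := hH (Subgroup.zpowers v) (Subgroup.zpowers w) (zpowers_comm v) (zpowers_comm w)
      (by rw [Nat.card_zpowers, Nat.card_zpowers, hordN v hv hv1, hordN w hw hw1])
    obtain ⟨h, hh, n, hn, rfl⟩ := hF g
    have hgv : (MulAut.conj (h * n)).toMonoidHom v = h * v * h⁻¹ := by
      have h5 : n * v * n⁻¹ = v := by
        rw [hNcomm n hn v hv]
        simp
      simp only [MulEquiv.toMonoidHom_eq_coe, MonoidHom.coe_coe, MulAut.conj_apply]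
      calc h * n * v * (h * n)⁻¹ = h * (n * v * n⁻¹) * h⁻¹ := by group
        _ = h * v * h⁻¹ := by rw [h5]
    have hz : Subgroup.zpowers w = Subgroup.zpowers (h * v * h⁻¹) := by
      rw [hg, MonoidHom.map_zpowers, hgv]
    have hC : Subgroup.centralizer {w} = Subgroup.centralizer {h * v * h⁻¹} := by
      ext e
      rw [Subgroup.mem_centralizer_singleton_iff, Subgroup.mem_centralizer_singleton_iff]
      have hw₁ : w ∈ Subgroup.zpowers (h * v * h⁻¹) := hz ▸ Subgroup.mem_zpowers w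
      have hv₁ : h * v * h⁻¹ ∈ Subgroup.zpowers w := hz ▸ Subgroup.mem_zpowers _
      obtain ⟨i, hi⟩ := Subgroup.mem_zpowers_iff.1 hw₁
      obtain ⟨j, hj⟩ := Subgroup.mem_zpowers_iff.1 hv₁
      constructor
      · intro he
        have : Commute e w := he
        rw [← hj]
        exact this.zpow_right j
      · intro he
        have : Commute e (h * v * h⁻¹) := he
        rw [← hi]
        exact this.zpow_right i
    rw [hC]
    have hEC : (E : Subgroup G) ⊓ Subgroup.centralizer {h * v * h⁻¹} =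
        ((E : Subgroup G) ⊓ Subgroup.centralizer {v}).map (MulAut.conj h).toMonoidHom := by
      ext e
      constructor
      · rintro ⟨he1, he2⟩
        refine ⟨h⁻¹ * e * h, ⟨?_, ?_⟩, by simp [MulAut.conj_apply, mul_assoc]⟩
        · have := (Subgroup.mem_normalizer_iff.1 hh (h⁻¹ * e * h)).2
          apply this
          have e1 : h * (h⁻¹ * e * h) * h⁻¹ = e := by group
          rw [e1]
          exact he1
        · change h⁻¹ * e * h ∈ Subgroup.centralizer {v}
          have he2' : e ∈ Subgroup.centralizer {h * v * h⁻¹} := he2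
          rw [Subgroup.mem_centralizer_singleton_iff] at he2' ⊢
          have e2 : e * (h * v * h⁻¹) = (h * v * h⁻¹) * e := he2'
          calc h⁻¹ * e * h * v = h⁻¹ * (e * (h * v * h⁻¹)) * h := by group
            _ = h⁻¹ * ((h * v * h⁻¹) * e) * h := by rw [e2]
            _ = v * (h⁻¹ * e * h) := by group
      · rintro ⟨e', ⟨he1, he2⟩, rfl⟩
        refine ⟨?_, ?_⟩
        · exact (Subgroup.mem_normalizer_iff.1 hh e').1 he1
        · change (MulAut.conj h).toMonoidHom e' ∈ Subgroup.centralizer {h * v * h⁻¹}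
          have he2' : e' ∈ Subgroup.centralizer {v} := he2
          rw [Subgroup.mem_centralizer_singleton_iff] at he2' ⊢
          simp only [MulEquiv.toMonoidHom_eq_coe, MonoidHom.coe_coe, MulAut.conj_apply]
          have e2 : e' * v = v * e' := he2'
          calc h * e' * h⁻¹ * (h * v * h⁻¹) = h * (e' * v) * h⁻¹ := by group
            _ = h * (v * e') * h⁻¹ := by rw [e2]
            _ = h * v * h⁻¹ * (h * e' * h⁻¹) := by group
    rw [hEC]
    exact (Subgroup.card_map_of_injective (MulAut.conj h).injective).symm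
  -- a fixed point
  have hNcop : (Nat.card N).Coprime q := by
    have hp : IsPGroup s N := fun x => ⟨1, by
      rw [pow_one]
      exact Subtype.ext (hNe x x.2)⟩
    obtain ⟨k, hk⟩ := IsPGroup.iff_card.1 hp
    rw [hk]
    exact Nat.Coprime.pow_left k ((Nat.coprime_primes hs.out hq.out).2 hqs.symm)
  have hfix : ∃ x ∈ (E : Subgroup G), x ≠ 1 ∧ ∃ v ∈ N, v ≠ 1 ∧ x * v = v * x := by
    by_contra hcon
    push Not at hcon
    letI : CommGroup ↥(E : Subgroup G) := { (inferInstance : Group ↥(E : Subgroup G)) with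
      mul_comm := fun a b => Subtype.ext (hEcomm a a.2 b b.2) }
    obtain ⟨p, hp, a, b, hap, hbp, hb1, hab⟩ := Cfsg.Agent.H01.exists_independent_pair hEc
    have hbG : (b : G) ≠ 1 := fun h => hb1 (Subtype.ext h)
    have hpq : p = q := by
      have h1 : orderOf (b : G) = p := by
        haveI : Fact p.Prime := ⟨hp⟩
        exact orderOf_eq_prime (by exact_mod_cast congrArg Subtype.val hbp) hbG
      rw [← h1, hordE b b.2 hbG]
    subst hpq
    have hNbot : N ≠ ⊥ := by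
      intro h
      rw [h] at hn₀
      exact hn₀1 (Subgroup.mem_bot.1 hn₀)
    have hnorm : ∀ z : G, z ∈ Subgroup.normalizer (N : Set G) := by
      intro z
      rw [Subgroup.normalizer_eq_top_iff.2 hNn]
      trivial
    refine Cfsg.Agent.H01.false_of_pair N hNbot (a := (a : G)) (b := (b : G)) (p := p) (hEcomm _ a.2 _ b.2)
      (by exact_mod_cast congrArg Subtype.val hap) (by exact_mod_cast congrArg Subtype.val hbp)
      (hnorm _) (hnorm _) hNcop ?_
    intro x hx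
    rw [Subgroup.eq_bot_iff_forall]
    rintro v ⟨hv, hvc⟩
    by_contra hv1
    have hxE : x ∈ (E : Subgroup G) := by
      rcases hx with rfl | ⟨i, _, rfl⟩
      · exact b.2
      · exact (E : Subgroup G).mul_mem a.2 ((E : Subgroup G).pow_mem b.2 i)
    have hx1 : x ≠ 1 := by
      rcases hx with rfl | ⟨i, _, rfl⟩
      · exact hbG
      · intro h
        apply hab i
        apply Subtype.ext
        exact_mod_cast h
    apply hcon x hxE hx1 v hv hv1
    have hvc' : v ∈ Subgroup.centralizer {x} := hvc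
    rw [Subgroup.mem_centralizer_singleton_iff] at hvc'
    exact hvc'.symm
  obtain ⟨x, hxE, hx1, v₁, hv₁, hv₁1, hxv⟩ := hfix
  obtain ⟨y, hy, hxy⟩ := hE1 x hxE hx1
  -- the abstract crux on `N`
  have hNW : ∀ a b : ↥N, a * b = b * a := fun a b => Subtype.ext (hNcomm a a.2 b b.2)
  let ξ : ↥N →* ↥N := (MulAut.conjNormal x).toMonoidHom
  have hξ : ∀ w : ↥N, ((ξ w : ↥N) : G) = x * w * x⁻¹ := fun w => rfl
  have hξit : ∀ (k : ℕ) (w : ↥N), ((ξ^[k] w : ↥N) : G) = x ^ k * w * (x ^ k)⁻¹ := by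
    intro k w
    induction k with
    | zero => simp
    | succ k ih =>
      rw [Function.iterate_succ_apply', hξ, ih]
      group
  have hξq : ∀ w : ↥N, ξ^[q] w = w := by
    intro w
    apply Subtype.ext
    rw [hξit, hEe x hxE]
    simp
  have hsW : ∀ w : ↥N, w ^ s = 1 := fun w => Subtype.ext (by simpa using hNe w w.2)
  have hqs' : q.Coprime s := (Nat.coprime_primes hq.out hs.out).2 hqs
  obtain ⟨v₁', hv₁'⟩ : ∃ v₁' : ↥N, v₁' = ⟨v₁, hv₁⟩ := ⟨_, rfl⟩
  obtain ⟨y', hy'⟩ : ∃ y' : ↥N, y' = ⟨y, hy⟩ := ⟨_, rfl⟩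
  have hv₁c : (v₁' : G) = v₁ := by rw [hv₁']
  have hyc : (y' : G) = y := by rw [hy']
  have hξv : ξ v₁' = v₁' := by
    apply Subtype.ext
    rw [hξ, hv₁c, hxv]
    simp
  obtain ⟨v₂, hv₂⟩ : ∃ v₂ : ↥N, v₂ = v₁' * (y'⁻¹ * ξ y') := ⟨_, rfl⟩
  have hle : (E : Subgroup G) ⊓ Subgroup.centralizer {(v₂ : G)} ≤ (E : Subgroup G) ⊓ Subgroup.centralizer {v₁} := by
    rintro e ⟨he1, he2'⟩
    refine ⟨he1, ?_⟩
    change e ∈ Subgroup.centralizer {v₁}
    have he2 : e ∈ Subgroup.centralizer {(v₂ : G)} := he2'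
    rw [Subgroup.mem_centralizer_singleton_iff] at he2 ⊢
    let η : ↥N →* ↥N := (MulAut.conjNormal e).toMonoidHom
    have hη : ∀ w : ↥N, ((η w : ↥N) : G) = e * w * e⁻¹ := fun w => rfl
    have hc : ∀ w, ξ (η w) = η (ξ w) := by
      intro w
      apply Subtype.ext
      rw [hξ, hη, hη, hξ]
      have h1 := hEcomm x hxE e he1
      calc x * (e * (w : G) * e⁻¹) * x⁻¹ = (x * e) * (w : G) * (x * e)⁻¹ := by group
        _ = (e * x) * (w : G) * (e * x)⁻¹ := by rw [h1]
        _ = e * (x * (w : G) * x⁻¹) * e⁻¹ := by group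
    have h1 : η v₂ = v₂ := by
      apply Subtype.ext
      rw [hη, he2]
      simp
    rw [hv₂] at h1
    have h2 := crux_W hNW ξ η hc hξq hsW hqs' v₁' y' hξv h1
    have h3 : e * v₁ * e⁻¹ = v₁ := by
      have := congrArg Subtype.val h2
      rw [hη, hv₁c] at this
      exact this
    exact mul_inv_eq_iff_eq_mul.1 h3
  have hxnot : x ∉ (E : Subgroup G) ⊓ Subgroup.centralizer {(v₂ : G)} := by
    rintro ⟨-, h2'⟩
    have h2 : x ∈ Subgroup.centralizer {(v₂ : G)} := h2'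
    rw [Subgroup.mem_centralizer_singleton_iff] at h2
    have h1 : ξ v₂ = v₂ := by
      apply Subtype.ext
      rw [hξ, h2]
      simp
    rw [hv₂] at h1
    have h3 := crux2_W hNW ξ hξq hsW hqs' v₁' y' hξv h1
    have h4 : x * y * x⁻¹ = y := by
      have := congrArg Subtype.val h3
      rw [hξ, hyc] at this
      exact this
    exact hxy (mul_inv_eq_iff_eq_mul.1 h4)
  have hv₂1 : (v₂ : G) ≠ 1 := by
    intro h
    apply hxnot
    refine ⟨hxE, ?_⟩
    change x ∈ Subgroup.centralizer {(v₂ : G)}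
    rw [h, Subgroup.mem_centralizer_singleton_iff]
    simp
  have hc := hcard v₁ hv₁ v₂ v₂.2 hv₁1 hv₂1
  have heq := Subgroup.eq_of_le_of_card_ge hle hc.le
  apply hxnot
  rw [heq]
  refine ⟨hxE, ?_⟩
  change x ∈ Subgroup.centralizer {v₁}
  rw [Subgroup.mem_centralizer_singleton_iff]
  exact hxv

end Cfsg.Agent.H15.AC
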