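import Mathlib
import Cfsg.Agent.Lib.H15.AC1

/-!
# The normal abelian Hall subgroup generated by the non-cyclic Sylow subgroups
-/

set_option autoImplicit false
set_option linter.unusedSectionVars false

namespace Cfsg.Agent.H15.AC

open Cfsg
open scoped commutatorElement
open Cfsg.Agent.H18 (HProp)

universe u

theorem sylow_normal : ∀ (n : ℕ) (G : Type u) [Group G] [Finite G], Group.IsSolvable G → HProp G → Nat.card G = n →
    ∀ (q : ℕ) [Fact q.Prime] (E : Sylow q G), ¬ IsCyclic (E : Subgroup G) → (∀ x ∈ (E : Subgroup G), x ^ q = 1) →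
      (E : Subgroup G).Normal ∧ IsMulCommutative (E : Subgroup G) := by
  intro n
  induction n using Nat.strong_induction_on with
  | _ n ih =>
  intro G _ _ hsol hH hn q hq E hEc hEe
  haveI := hsol
  by_cases hnt : Nontrivial G
  swap
  · exfalso
    rw [not_nontrivial_iff_subsingleton] at hnt
    exact hEc isCyclic_of_subsingleton
  obtain ⟨N, s, hNn, hN1, hs, hNab, hpow⟩ := Cfsg.Agent.H01.exists_elementary_abelian_normal (G := G)
  haveI := hNn
  haveI hsF : Fact s.Prime := ⟨hs⟩
  have hNs : IsPGroup s N := fun x => ⟨1, by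
    rw [pow_one]
    exact Subtype.ext (hpow x x.2)⟩
  by_cases hsq : s = q
  · subst hsq
    obtain ⟨t, ht⟩ := IsPGroup.iff_card.1 hNs
    have hS := Cfsg.Agent.S3909.result hH N
    by_cases ht2 : 2 ≤ t
    · have h1 := hS.2 s t ht2 ht ⟨hNab, hpow⟩ E
      rw [h1]
      exact ⟨hNn, hNab⟩
    · exfalso
      have ht0 : t ≠ 0 := by
        rintro rfl
        apply hN1
        apply Subgroup.eq_bot_of_card_eq
        rw [ht, pow_zero]
      have ht1 : t = 1 := by omega
      obtain ⟨m, hm, hm1⟩ := (Subgroup.bot_or_exists_ne_one N).resolve_left hN1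
      have hm' : orderOf m = s := orderOf_eq_prime (hpow m hm) hm1
      have hEN : (E : Subgroup G) ≤ N := by
        intro x hx
        by_cases hx1 : x = 1
        · rw [hx1]
          exact N.one_mem
        · exact hS.1 x ⟨m, hm, by rw [hm', orderOf_eq_prime (hEe x hx) hx1]⟩
      have hc : Nat.card (E : Subgroup G) ∣ s := by
        have h2 := Subgroup.card_dvd_of_le hEN
        rwa [ht, ht1, pow_one] at h2
      rcases (Nat.dvd_prime hs).1 hc with h | h
      · haveI : Subsingleton (E : Subgroup G) := (Nat.card_eq_one_iff_unique.1 h).1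
        exact hEc isCyclic_of_subsingleton
      · exact hEc (isCyclic_of_prime_card h)
  · have hHX : HProp (G ⧸ N) := Cfsg.Agent.H18.quot_hProp_solvable hH hsol N
    have hNgt : 1 < Nat.card N := by
      have h5 : Nat.card N ≠ 1 := fun h => hN1 (Subgroup.eq_bot_of_card_eq N h)
      have h6 : 0 < Nat.card N := Nat.card_pos
      omega
    have hlt : Nat.card (G ⧸ N) < n := by
      have h := N.card_mul_index
      have h4 : N.index = Nat.card (G ⧸ N) := rfl
      rw [h4] at h
      have h6 : 0 < Nat.card (G ⧸ N) := Nat.card_pos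
      rw [← hn]
      nlinarith
    have hdis : Disjoint (E : Subgroup G) N := IsPGroup.disjoint_of_ne q s (Ne.symm hsq) _ _ E.2 hNs
    have hinf : ∀ x ∈ (E : Subgroup G), x ∈ N → x = 1 := fun x hx hx' =>
      Subgroup.mem_bot.1 (hdis.le_bot ⟨hx, hx'⟩)
    let Ē : Sylow q (G ⧸ N) := E.mapSurjective (QuotientGroup.mk'_surjective N)
    have hĒ : (Ē : Subgroup (G ⧸ N)) = (E : Subgroup G).map (QuotientGroup.mk' N) := rfl
    let f : (E : Subgroup G) →* (Ē : Subgroup (G ⧸ N)) := (QuotientGroup.mk' N).subgroupMap (E : Subgroup G)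
    have hfinj : Function.Injective f := by
      rw [injective_iff_map_eq_one]
      intro a ha
      have h1 : QuotientGroup.mk' N (a : G) = 1 := congrArg Subtype.val ha
      have h2 : (a : G) ∈ N := (QuotientGroup.eq_one_iff _).1 h1
      exact Subtype.ext (hinf a a.2 h2)
    have hĒc : ¬ IsCyclic (Ē : Subgroup (G ⧸ N)) := fun h => hEc (isCyclic_of_injective f hfinj)
    have hĒe : ∀ x ∈ (Ē : Subgroup (G ⧸ N)), x ^ q = 1 := by
      rintro _ ⟨a, ha, rfl⟩
      rw [← map_pow, hEe a ha, map_one]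
    obtain ⟨hĒn, hĒab⟩ := ih _ hlt (G ⧸ N) inferInstance hHX rfl q Ē hĒc hĒe
    have hEab : IsMulCommutative (E : Subgroup G) := by
      refine ⟨⟨?_⟩⟩
      intro a b
      apply hfinj
      rw [map_mul, map_mul]
      exact mul_comm' _ _
    have hX : ((E : Subgroup G) ⊔ N).Normal := by
      have h1 : ((Ē : Subgroup (G ⧸ N)).comap (QuotientGroup.mk' N)).Normal := hĒn.comap _
      have h2 : (Ē : Subgroup (G ⧸ N)).comap (QuotientGroup.mk' N) = (E : Subgroup G) ⊔ N := by
        rw [hĒ, Subgroup.comap_map_eq, QuotientGroup.ker_mk']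
      rwa [h2] at h1
    have hcomm := sylow_comm hH (Ne.symm hsq) E hEc hEab hEe N hNab hpow hX
    refine ⟨⟨?_⟩, hEab⟩
    intro x hx g
    have h1 : g * x * g⁻¹ ∈ (E : Subgroup G) ⊔ N := hX.conj_mem x ((le_sup_left : (E : Subgroup G) ≤ _) hx) g
    obtain ⟨e, he, m, hm, hem⟩ := Subgroup.mem_sup_of_normal_right.1 h1
    have h2 : (g * x * g⁻¹) ^ q = 1 := by
      rw [conj_pow, hEe x hx]
      simp
    have h3 : Commute e m := hcomm e he m hm
    rw [← hem, h3.mul_pow, hEe e he, one_mul] at h2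
    have h4 := Nat.dvd_gcd (orderOf_dvd_of_pow_eq_one h2) (orderOf_dvd_of_pow_eq_one (hpow m hm))
    rw [(Nat.coprime_primes hq.out hs).2 (Ne.symm hsq)] at h4
    have h5 : m = 1 := orderOf_eq_one_iff.1 (Nat.dvd_one.1 h4)
    rw [← hem, h5, mul_one]
    exact he

variable {G : Type u} [Group G] [Finite G]

/-- Elements of non-cyclic Sylow subgroups. -/
def piSet (G : Type u) [Group G] [Finite G] : Set G :=
  {x | ∃ (q : ℕ) (_ : Fact q.Prime) (E : Sylow q G), ¬ IsCyclic (E : Subgroup G) ∧
    (∀ y ∈ (E : Subgroup G), y ^ q = 1) ∧ x ∈ (E : Subgroup G)}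

/-- The subgroup generated by the non-cyclic Sylow subgroups. -/
def DD (G : Type u) [Group G] [Finite G] : Subgroup G := Subgroup.closure (piSet G)

theorem sylow_normal' (hsol : Group.IsSolvable G) (hH : HProp G) {q : ℕ} [Fact q.Prime] (E : Sylow q G)
    (h1 : ¬ IsCyclic (E : Subgroup G)) (h2 : ∀ x ∈ (E : Subgroup G), x ^ q = 1) :
    (E : Subgroup G).Normal ∧ IsMulCommutative (E : Subgroup G) :=
  sylow_normal _ G hsol hH rfl q E h1 h2

theorem piSet_comm (hsol : Group.IsSolvable G) (hH : HProp G) :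
    ∀ x ∈ piSet G, ∀ y ∈ piSet G, x * y = y * x := by
  rintro x ⟨q, hq, E, h1, h2, hx⟩ y ⟨r, hr, F, h3, h4, hy⟩
  obtain ⟨hEn, hEa⟩ := sylow_normal' hsol hH E h1 h2
  obtain ⟨hFn, hFa⟩ := sylow_normal' hsol hH F h3 h4
  by_cases hqr : q = r
  · subst hqr
    have : E = F := by
      haveI := Sylow.unique_of_normal E hEn
      exact Subsingleton.elim _ _
    subst this
    have := mul_comm' (⟨x, hx⟩ : (E : Subgroup G)) (⟨y, hy⟩ : (E : Subgroup G))
    exact congrArg Subtype.val this
  · have hdis : Disjoint (E : Subgroup G) (F : Subgroup G) := IsPGroup.disjoint_of_ne q r hqr _ _ E.2 F.2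
    exact Subgroup.commute_of_normal_of_disjoint _ _ hEn hFn hdis x y hx hy

theorem DD_comm (hsol : Group.IsSolvable G) (hH : HProp G) : IsMulCommutative (DD G) :=
  Subgroup.isMulCommutative_closure (piSet_comm hsol hH)

theorem DD_comm' (hsol : Group.IsSolvable G) (hH : HProp G) : ∀ a ∈ DD G, ∀ b ∈ DD G, a * b = b * a := by
  intro a ha b hb
  haveI := DD_comm hsol hH
  have := mul_comm' (⟨a, ha⟩ : DD G) (⟨b, hb⟩ : DD G)
  exact congrArg Subtype.val this

theorem DD_normal (hsol : Group.IsSolvable G) (hH : HProp G) : (DD G).Normal := by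
  constructor
  intro x hx g
  induction hx using Subgroup.closure_induction with
  | mem x hx =>
    obtain ⟨q, hq, E, h1, h2, hx⟩ := hx
    apply Subgroup.subset_closure
    exact ⟨q, hq, E, h1, h2, (sylow_normal' hsol hH E h1 h2).1.conj_mem x hx g⟩
  | one => simp
  | mul x y _ _ hx hy =>
    have : g * (x * y) * g⁻¹ = (g * x * g⁻¹) * (g * y * g⁻¹) := by group
    rw [this]
    exact mul_mem hx hy
  | inv x _ hx =>
    have : g * x⁻¹ * g⁻¹ = (g * x * g⁻¹)⁻¹ := by group
    rw [this]
    exact inv_mem hx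

/-- A prime is exceptional when its Sylow subgroups are non-cyclic of prime exponent. -/
def PiP (G : Type u) [Group G] [Finite G] (r : ℕ) : Prop :=
  ∃ (_ : Fact r.Prime) (E : Sylow r G), ¬ IsCyclic (E : Subgroup G) ∧ (∀ y ∈ (E : Subgroup G), y ^ r = 1)

theorem DD_primes (hsol : Group.IsSolvable G) (hH : HProp G) :
    ∀ x ∈ DD G, ∀ r : ℕ, r.Prime → r ∣ orderOf x → PiP G r := by
  intro x hx
  induction hx using Subgroup.closure_induction with
  | mem x hx =>
    obtain ⟨q, hq, E, h1, h2, hx⟩ := hx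
    intro r hr hrx
    have h3 : orderOf x ∣ q := orderOf_dvd_of_pow_eq_one (h2 x hx)
    have h4 : r = q := (Nat.prime_dvd_prime_iff_eq hr hq.out).1 (hrx.trans h3)
    subst h4
    exact ⟨hq, E, h1, h2⟩
  | one =>
    intro r hr hrx
    rw [orderOf_one] at hrx
    exact absurd (Nat.dvd_one.1 hrx) hr.ne_one
  | mul x y hx' hy' hx hy =>
    intro r hr hrx
    have hc : Commute x y := DD_comm' hsol hH x hx' y hy'
    have h1 : orderOf (x * y) ∣ orderOf x * orderOf y := hc.orderOf_mul_dvd_mul_orderOf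
    rcases (Nat.Prime.dvd_mul hr).1 (hrx.trans h1) with h | h
    · exact hx r hr h
    · exact hy r hr h
  | inv x _ hx =>
    intro r hr hrx
    rw [orderOf_inv] at hrx
    exact hx r hr hrx

theorem sylow_le_DD {q : ℕ} [Fact q.Prime] (E : Sylow q G) (h1 : ¬ IsCyclic (E : Subgroup G))
    (h2 : ∀ y ∈ (E : Subgroup G), y ^ q = 1) : (E : Subgroup G) ≤ DD G := by
  intro x hx
  exact Subgroup.subset_closure ⟨q, inferInstance, E, h1, h2, hx⟩

theorem DD_coprime (hsol : Group.IsSolvable G) (hH : HProp G) : (Nat.card (DD G)).Coprime (DD G).index := by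
  apply Nat.coprime_of_dvd
  intro r hr hr1 hr2
  haveI : Fact r.Prime := ⟨hr⟩
  obtain ⟨x, hx⟩ := exists_prime_orderOf_dvd_card' r hr1
  have h1 : orderOf (x : G) = r := by
    rw [Subgroup.orderOf_coe]
    exact hx
  obtain ⟨_, E, hE1, hE2⟩ := DD_primes hsol hH x x.2 r hr (by rw [h1])
  have h3 := Subgroup.index_dvd_of_le (sylow_le_DD E hE1 hE2)
  exact E.not_dvd_index (hr2.trans h3)

/-- Primes dividing a subgroup of order prime to `DD G` have non-exceptional Sylow subgroups. -/
theorem not_piP_of_dvd {J : Subgroup G} (hJ : (Nat.card J).Coprime (Nat.card (DD G))) {p : ℕ} [hp : Fact p.Prime]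
    (hpJ : p ∣ Nat.card J) (E : Sylow p G) (h1 : ¬ IsCyclic (E : Subgroup G)) :
    ¬ ∀ y ∈ (E : Subgroup G), y ^ p = 1 := by
  intro h2
  have h3 := sylow_le_DD E h1 h2
  have h4 : p ∣ Nat.card (E : Subgroup G) := by
    rcases Nat.eq_or_lt_of_le (Nat.card_pos (α := (E : Subgroup G))) with h | h
    · exfalso
      haveI : Subsingleton (E : Subgroup G) := (Nat.card_eq_one_iff_unique.1 h.symm).1
      exact h1 isCyclic_of_subsingleton
    · obtain ⟨k, hk⟩ := IsPGroup.iff_card.1 E.2
      rw [hk] at h ⊢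
      apply dvd_pow_self
      rintro rfl
      simp at h
  have h5 := h4.trans (Subgroup.card_dvd_of_le h3)
  exact hp.out.one_lt.ne' (Nat.eq_one_of_dvd_coprimes hJ hpJ h5)

end Cfsg.Agent.H15.AC
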