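import Cfsg.Agent.Lib.H23.CharRows
import Cfsg.Agent.Lib.H23.CharAvg
import Cfsg.Agent.Lib.H06.DadeGen1
import Cfsg.Agent.Lib.H01.Frobenius

/-! # A character that does not vanish identically on any coset of a normal subgroup restricts
irreducibly -/

set_option autoImplicit false
set_option linter.unusedSectionVars false
set_option linter.style.haveILetI false
set_option linter.unusedSimpArgs false

namespace Cfsg.Agent.H15.AD

open Cfsg Cfsg.Agent.H21 Cfsg.Agent.H23 Subgroup
open scoped ComplexConjugate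

universe u

variable {G : Type u} [Group G] [Finite G]

/-- Burnside's inequality, first power form. -/
theorem card_le_sum_norm {χ : G → ℂ} (hχ : IsCharacter G χ) (S : Finset G)
    (h0 : ∀ g ∈ S, χ g ≠ 0)
    (hS : ∀ u : (ZMod (Nat.card G))ˣ, ∀ g ∈ S, g ^ (u : ZMod (Nat.card G)).val ∈ S) :
    (S.card : ℝ) ≤ ∑ g ∈ S, ‖χ g‖ := by
  classical
  haveI hN : NeZero (Nat.card G) := ⟨Nat.card_pos.ne'⟩
  set U := (ZMod (Nat.card G))ˣ with hU
  have hUpos : (0 : ℝ) < (Fintype.card U : ℝ) := by exact_mod_cast Fintype.card_pos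
  have hperm : ∀ u : U, ∑ g ∈ S, ‖χ (g ^ (u : ZMod (Nat.card G)).val)‖ = ∑ g ∈ S, ‖χ g‖ := by
    intro u
    have hinj := pow_unit_injective (G := G) u
    have himg : S.image (fun g : G => g ^ (u : ZMod (Nat.card G)).val) = S := by
      apply Finset.eq_of_subset_of_card_le
      · intro x hx
        obtain ⟨g, hg, rfl⟩ := Finset.mem_image.mp hx
        exact hS u g hg
      · rw [Finset.card_image_of_injective _ hinj]
    conv_rhs => rw [← himg]
    rw [Finset.sum_image (fun a _ b _ h => hinj h)]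
  have hpt : ∀ g ∈ S, (Fintype.card U : ℝ) ≤ ∑ u : U, ‖χ (g ^ (u : ZMod (Nat.card G)).val)‖ := by
    intro g hg
    obtain ⟨h1, h2⟩ := character_galois hχ g (h0 g hg)
    have := card_le_sum_of_prod (Finset.univ : Finset U)
      (fun u => ‖χ (g ^ (u : ZMod (Nat.card G)).val)‖)
      (fun u _ => by
        have := h1 u
        positivity)
      (by
        rw [← norm_prod]
        exact h2)
    simpa [Finset.card_univ] using this
  have hsum : (Fintype.card U : ℝ) * S.card ≤ ∑ g ∈ S, ∑ u : U, ‖χ (g ^ (u : ZMod (Nat.card G)).val)‖ := by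
    have := Finset.card_nsmul_le_sum S _ _ hpt
    simpa [mul_comm] using this
  rw [Finset.sum_comm] at hsum
  simp only [hperm] at hsum
  simp only [Finset.sum_const, Finset.card_univ, nsmul_eq_mul] at hsum
  exact le_of_mul_le_mul_left hsum hUpos

/-- A character of `G` not vanishing identically on any coset of a normal subgroup restricts
irreducibly to it. -/
theorem restrict_irr_of_nonvanish (N : Subgroup G) [hN : N.Normal] (χ : IrrCharacter G)
    (hne : ∀ g : G, ∃ n ∈ N, χ.1 (g * n) ≠ 0) : IsIrrCharacter N (fun n : N => χ.1 n) := by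
  classical
  letI : Fintype G := Fintype.ofFinite G
  letI : Fintype N := Fintype.ofFinite N
  letI : Fintype (IrrCharacter N) := Fintype.ofFinite _
  have hχc : IsCharacter G χ.1 := isCharacter_of_irr χ.2
  let f : G → ℂ := χ.1 * fun g => conj (χ.1 g)
  have hf : IsCharacter G f := isCharacter_mul hχc (isCharacter_conjFun hχc)
  let R : G → ℝ := fun y => ∑ n : N, ‖χ.1 (y * n)‖ ^ 2
  have hR0 : ∀ y, 0 ≤ R y := fun y => Finset.sum_nonneg fun _ _ => by positivity
  have hNpos : (0 : ℝ) < (Nat.card N : ℝ) := by exact_mod_cast Nat.card_pos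
  have hNC : (Nat.card N : ℂ) ≠ 0 := by exact_mod_cast Nat.card_pos.ne'
  have hfn : ∀ y : G, f y = ((‖χ.1 y‖ ^ 2 : ℝ) : ℂ) := by
    intro y
    show χ.1 y * conj (χ.1 y) = _
    rw [Complex.mul_conj, Complex.normSq_eq_norm_sq]
  have havg : ∀ y, H06.DadeGen.avg N f y = ((R y / Nat.card N : ℝ) : ℂ) := by
    intro y
    have hsum : ∑ u : G, (if u ∈ N then f (y * u) else 0) = ((R y : ℝ) : ℂ) := by
      rw [← Finset.sum_filter, Finset.sum_subtype (p := fun u => u ∈ N) _ (by simp)
        (fun u => f (y * u))]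
      show ∑ a : N, f (y * a) = _
      simp only [hfn]
      show _ = ((∑ n : N, ‖χ.1 (y * n)‖ ^ 2 : ℝ) : ℂ)
      push_cast
      rfl
    unfold H06.DadeGen.avg
    rw [hsum]
    push_cast
    rw [div_eq_inv_mul]
  let ρ : G → ℂ := fun y => H06.DadeGen.avg N f (MonoidHom.id G y)
  have hρ : IsCharacter G ρ :=
    H06.DadeGen.avg_isCharacter (MonoidHom.id G) N (fun y r hr => hN.conj_mem r hr y) hf
  have hρv : ∀ y, ρ y = ((R y / Nat.card N : ℝ) : ℂ) := fun y => havg y
  have hRpos : ∀ y, 0 < R y := by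
    intro y
    obtain ⟨n, hn, hn'⟩ := hne y
    have h1 : 0 < ‖χ.1 (y * n)‖ ^ 2 := by positivity
    have h2 : ‖χ.1 (y * (⟨n, hn⟩ : N))‖ ^ 2 ≤ R y :=
      Finset.single_le_sum (f := fun n : N => ‖χ.1 (y * n)‖ ^ 2)
        (fun _ _ => by positivity) (Finset.mem_univ (⟨n, hn⟩ : N))
    exact lt_of_lt_of_le h1 h2
  set S : Finset G := Finset.univ.filter fun g => g ∉ N with hS
  have h0 : ∀ g ∈ S, ρ g ≠ 0 := by
    intro g _
    rw [hρv]
    have := div_pos (hRpos g) hNpos
    exact_mod_cast this.ne'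
  have hSs : ∀ u : (ZMod (Nat.card G))ˣ, ∀ g ∈ S, g ^ (u : ZMod (Nat.card G)).val ∈ S := by
    intro u g hg
    rw [hS, Finset.mem_filter] at hg ⊢
    exact ⟨Finset.mem_univ _, fun h => hg.2 ((mem_subgroup_pow_unit_iff N u g).1 h)⟩
  have hmain := card_le_sum_norm hρ S h0 hSs
  have hnorm : ∀ g, ‖ρ g‖ = R g / Nat.card N := by
    intro g
    rw [hρv, Complex.norm_real, Real.norm_of_nonneg (div_nonneg (hR0 g) hNpos.le)]
  simp only [hnorm] at hmain
  -- total sum
  have htot : ∑ g : G, R g = (Nat.card N : ℝ) * Nat.card G := by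
    show ∑ g : G, ∑ n : N, ‖χ.1 (g * n)‖ ^ 2 = _
    rw [Finset.sum_comm]
    have h1 : ∀ n : N, ∑ g : G, ‖χ.1 (g * n)‖ ^ 2 = (Nat.card G : ℝ) := by
      intro n
      rw [← sum_norm_sq_eq χ.2]
      exact Equiv.sum_comp (Equiv.mulRight (n : G)) (fun g => ‖χ.1 g‖ ^ 2)
    simp only [h1, Finset.sum_const, Finset.card_univ, nsmul_eq_mul, Nat.card_eq_fintype_card]
  -- on `N`
  have hRN : ∀ g ∈ N, R g = R 1 := by
    intro g hg
    show ∑ n : N, ‖χ.1 (g * n)‖ ^ 2 = ∑ n : N, ‖χ.1 (1 * n)‖ ^ 2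
    simp only [one_mul]
    exact Equiv.sum_comp (Equiv.mulLeft (⟨g, hg⟩ : N)) (fun n : N => ‖χ.1 n‖ ^ 2)
  have hcardN : (Finset.univ.filter fun g : G => g ∈ N).card = Nat.card N := by
    rw [Nat.card_eq_fintype_card, ← Fintype.card_subtype]
  have hsumN : ∑ g ∈ Finset.univ.filter (fun g : G => g ∈ N), R g = (Nat.card N : ℝ) * R 1 := by
    rw [Finset.sum_congr rfl (fun g hg => hRN g (Finset.mem_filter.mp hg).2), Finset.sum_const, hcardN,
      nsmul_eq_mul]
  have hsplit := Finset.sum_filter_add_sum_filter_not Finset.univ (fun g : G => g ∈ N) R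
  rw [hsumN, htot] at hsplit
  have hScard : ((S.card : ℝ)) = Nat.card G - Nat.card N := by
    have h1 := Finset.card_filter_add_card_filter_not (s := (Finset.univ : Finset G)) (fun g : G => g ∈ N)
    rw [hcardN, Finset.card_univ, ← Nat.card_eq_fintype_card] at h1
    rw [← h1]
    push_cast
    ring
  have hSsum : ∑ g ∈ S, R g = (Nat.card N : ℝ) * Nat.card G - (Nat.card N : ℝ) * R 1 := by
    linarith
  rw [← Finset.sum_div, hSsum, hScard] at hmain
  have hR1 : R 1 ≤ Nat.card N := by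
    have h1 : ((Nat.card N : ℝ) * Nat.card G - (Nat.card N : ℝ) * R 1) / Nat.card N =
        Nat.card G - R 1 := by
      field_simp
    rw [h1] at hmain
    linarith
  -- the inner product
  set θ : N → ℂ := fun n : N => χ.1 n with hθ
  have hθc : IsCharacter N θ := isCharacter_restrict N hχc
  obtain ⟨m, hm⟩ := classInner_isCharacter_nat hθc hθc
  have hin : classInner θ θ = ((R 1 / Nat.card N : ℝ) : ℂ) := by
    unfold classInner
    push_cast
    rw [div_eq_inv_mul]
    congr 1
    show _ = (↑(∑ n : N, ‖χ.1 (1 * n)‖ ^ 2) : ℂ)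
    push_cast
    refine Finset.sum_congr rfl fun n _ => ?_
    rw [one_mul]
    show χ.1 n * conj (χ.1 n) = _
    rw [Complex.mul_conj, Complex.normSq_eq_norm_sq]
    push_cast
    rfl
  have hmR : (m : ℝ) = R 1 / Nat.card N := by
    rw [hm] at hin
    exact_mod_cast hin
  have hm1 : m = 1 := by
    have h1 : (m : ℝ) ≤ 1 := by
      rw [hmR, div_le_one hNpos]
      exact hR1
    have h2 : (0 : ℝ) < m := by
      rw [hmR]
      exact div_pos (hRpos 1) hNpos
    have h3 : m ≤ 1 := by exact_mod_cast h1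
    have h4 : 0 < m := by exact_mod_cast h2
    omega
  refine H01.isIrrCharacter_of_int_norm_one (isClassFunction_of_isCharacter hθc) ?_ ?_ ?_
  · intro ψ
    obtain ⟨k, hk⟩ := classInner_isNat hθc ψ
    exact ⟨k, by rw [hk]; simp⟩
  · rw [hm, hm1]
    simp
  · have h1 : θ 1 = χ.1 1 := rfl
    rw [h1, one_eq_charDegree hχc]
    have := irr_charDegree_pos χ.2
    simp only [Complex.natCast_re]
    exact_mod_cast this

end Cfsg.Agent.H15.AD
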