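import Cfsg.Agent.Lib.H15.AD1
import Cfsg.Agent.Lib.H21.CoverP

/-! # The principal block when `G = N C_G(P)`: restriction to `N` is a bijection (Alperin, Dade) -/

set_option autoImplicit false
set_option linter.unusedSectionVars false
set_option linter.style.haveILetI false
set_option linter.unusedSimpArgs false

namespace Cfsg.Agent.H15.AD

open Cfsg Cfsg.Agent.H21 Cfsg.Agent.H22 Cfsg.Agent.H23 Subgroup
open scoped ComplexConjugate

universe u

variable {G : Type u} [Group G] [Finite G]

/-- A character of degree one. -/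
theorem deg_one {β : G → ℂ} (hβ : IsCharacter G β) (h1 : β 1 = 1) (g : G) :
    ‖β g‖ = 1 ∧ ∀ h, β (g * h) = β g * β h := by
  have hd : charDegree β = 1 := by
    unfold charDegree
    rw [h1]
    simp
  have hn : ‖β g‖ = 1 := by
    obtain ⟨n, ρ, rfl⟩ := hβ
    have hn : n = 1 := by
      have h2 := Representation.char_one ρ
      rw [h1] at h2
      simp only [Module.finrank_fintype_fun_eq_card, Fintype.card_fin] at h2
      exact_mod_cast h2.symm
    subst hn
    have h3 := (norm_character_eq_finrank_iff ρ g).2 ⟨ρ g (fun _ => 1) 0, by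
      ext i j
      have h4 : (Pi.single i (1 : ℂ) : Fin 1 → ℂ) = fun _ => 1 := by
        funext x
        have : x = i := Subsingleton.elim _ _
        subst this
        simp
      simp only [LinearMap.coe_comp, Function.comp_apply, LinearMap.coe_single, h4]
      have : j = 0 := Subsingleton.elim _ _
      subst this
      simp⟩
    simpa using h3
  refine ⟨hn, fun h => ?_⟩
  have h2 := character_mul_of_norm_eq hβ (z := g) (by rw [hn, hd]; simp) h
  rw [hd] at h2
  simpa using h2

variable {p : ℕ} [hp : Fact p.Prime] {M : Ideal AlgInt}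

/-- A root of unity of order prime to `p` congruent to one is one. -/
theorem root_eq_one (hM : IsPModular p M) [M.IsPrime] {ζ : ℂ} {n : ℕ} (hn : ¬ p ∣ n) (hn0 : 0 < n)
    (hζ : ζ ^ n = 1) (h : MemLocalIdeal M (ζ - 1)) : ζ = 1 := by
  by_contra hne
  have hint : IsIntegral ℤ ζ := ⟨Polynomial.X ^ n - 1, Polynomial.monic_X_pow_sub_C 1 hn0.ne', by
    simp [hζ]⟩
  have hloc : MemLocalRing M ζ := mlr_of_isIntegral hint
  have hj : ∀ j : ℕ, MemLocalIdeal M (ζ ^ j - 1) := by
    intro j
    induction j with
    | zero => simp [mli_zero]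
    | succ j ih =>
      have : ζ ^ (j + 1) - 1 = (ζ ^ j - 1) * ζ + (ζ - 1) := by ring
      rw [this]
      exact mli_add (mli_mul_right ih hloc) h
  have hgeom : ∑ j ∈ Finset.range n, ζ ^ j = 0 := by
    have h1 := mul_neg_geom_sum ζ n
    rw [hζ, sub_self] at h1
    have h2 : 1 - ζ ≠ 0 := sub_ne_zero.mpr (Ne.symm hne)
    exact (mul_eq_zero.mp h1).resolve_left h2
  have hs : MemLocalIdeal M (∑ j ∈ Finset.range n, (ζ ^ j - 1)) :=
    mli_sum _ _ fun j _ => hj j
  rw [Finset.sum_sub_distrib, hgeom] at hs
  simp only [Finset.sum_const, Finset.card_range, nsmul_eq_mul, mul_one, zero_sub] at hs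
  have := mli_neg hs
  rw [neg_neg] at this
  exact not_mli_natCast_of_odd hM hn this

theorem not_dvd_index_centralizer (P : Sylow p G) {y : G}
    (hy : y ∈ centralizer ((P : Subgroup G) : Set G)) :
    ¬ p ∣ (centralizer ({y} : Set G)).index := by
  have h1 : (P : Subgroup G) ≤ centralizer ({y} : Set G) := by
    intro x hx
    rw [Subgroup.mem_centralizer_singleton_iff]
    have := mem_centralizer_iff.1 hy x hx
    exact this
  intro h2
  have h3 := Subgroup.index_dvd_of_le h1
  exact P.not_dvd_index (h2.trans h3)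

/-- Members of the principal block do not vanish on `C_G(P)`. -/
theorem principal_ne_zero (hM : IsPModular p M) [M.IsPrime] (P : Sylow p G) {χ : IrrCharacter G}
    (hχ : χ ∈ principalBlock M G) {y : G} (hy : y ∈ centralizer ((P : Subgroup G) : Set G)) :
    χ.1 y ≠ 0 := by
  intro h0
  have h1 := hχ y
  unfold centralChar at h1
  rw [h0] at h1
  simp only [mul_one, div_one, mul_zero, zero_div, sub_zero] at h1
  exact not_mli_natCast_of_odd hM (not_dvd_index_centralizer P hy) h1

theorem exists_coset_centralizer (N : Subgroup G) [hN : N.Normal] (P : Sylow p G)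
    (hsup : N ⊔ centralizer ((P : Subgroup G) : Set G) = ⊤) (g : G) :
    ∃ n ∈ N, g * n ∈ centralizer ((P : Subgroup G) : Set G) := by
  have h1 : g ∈ centralizer ((P : Subgroup G) : Set G) ⊔ N := by
    rw [sup_comm, hsup]
    exact mem_top g
  rw [Subgroup.mem_sup_of_normal_right] at h1
  obtain ⟨c, hc, n, hn, rfl⟩ := h1
  exact ⟨n⁻¹, inv_mem hn, by rwa [mul_inv_cancel_right]⟩

/-- Members of the principal block restrict irreducibly. -/
theorem principal_restrict_irr (hM : IsPModular p M) [M.IsPrime] (N : Subgroup G) [hN : N.Normal]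
    (P : Sylow p G) (hsup : N ⊔ centralizer ((P : Subgroup G) : Set G) = ⊤) {χ : IrrCharacter G}
    (hχ : χ ∈ principalBlock M G) : IsIrrCharacter N (fun n : N => χ.1 n) := by
  refine restrict_irr_of_nonvanish N χ fun g => ?_
  obtain ⟨n, hn, hc⟩ := exists_coset_centralizer N P hsup g
  exact ⟨n, hn, principal_ne_zero hM P hχ hc⟩

/-- Second isomorphism theorem with a non-normal denominator. -/
theorem relIndex_dvd_index {J : Type*} [Group J] [Finite J] (N C : Subgroup J) [N.Normal] :
    C.relIndex N ∣ C.index := by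
  set T := N ⊔ C with hT
  have h1 := Subgroup.relIndex_mul_relIndex (N ⊓ C) N T inf_le_left le_sup_left
  have h2 := Subgroup.relIndex_mul_relIndex (N ⊓ C) C T inf_le_right le_sup_right
  have h3 : N.relIndex T = N.relIndex C := Subgroup.relIndex_sup_left C N
  have h4 : (N ⊓ C).relIndex C = N.relIndex C := Subgroup.inf_relIndex_right N C
  have h5 : (N ⊓ C).relIndex N = C.relIndex N := Subgroup.inf_relIndex_left N C
  rw [h3, h5] at h1
  rw [h4] at h2
  have h6 : N.relIndex C ≠ 0 := Subgroup.index_ne_zero_of_finite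
  have h7 : C.relIndex N = C.relIndex T := by
    apply Nat.eq_of_mul_eq_mul_right (Nat.pos_of_ne_zero h6)
    rw [h1, ← h2, mul_comm]
  rw [h7]
  exact Subgroup.relIndex_dvd_index_of_le le_sup_right

/-- The restriction of a member of the principal block lies in the principal block. -/
theorem principal_restrict_mem (hM : IsPModular p M) [M.IsPrime] (N : Subgroup G) [hN : N.Normal]
    (hidx : ¬ p ∣ N.index) {χ : IrrCharacter G} (hχ : χ ∈ principalBlock M G) (θ : IrrCharacter N)
    (hθ : ∀ n : N, χ.1 n = θ.1 n) : θ ∈ principalBlock M N := by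
  intro n
  have h1 := hχ (n : G)
  unfold centralChar at h1 ⊢
  set C := centralizer ({(n : G)} : Set G) with hC
  have hC' : (centralizer ({n} : Set N)).index = C.relIndex N := by
    have : centralizer ({n} : Set N) = C.subgroupOf N := by
      ext k
      rw [mem_subgroupOf, Subgroup.mem_centralizer_singleton_iff, hC,
        Subgroup.mem_centralizer_singleton_iff]
      exact Subtype.ext_iff
    rw [this]
    rfl
  obtain ⟨w, hw⟩ := relIndex_dvd_index N C
  have hwp : ¬ p ∣ w := by
    have ha := Subgroup.relIndex_mul_index (H := C ⊓ N) (K := C) inf_le_left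
    have hb := Subgroup.relIndex_mul_index (H := C ⊓ N) (K := N) inf_le_right
    rw [Subgroup.inf_relIndex_right] at hb
    have hu : 0 < C.relIndex N := Nat.pos_of_ne_zero Subgroup.index_ne_zero_of_finite
    have h2 : C.relIndex N * N.index = C.relIndex N * ((C ⊓ N).relIndex C * w) := by
      rw [hb, ← ha, hw]
      ring
    have h3 := Nat.eq_of_mul_eq_mul_left hu h2
    intro hd
    apply hidx
    rw [h3]
    exact Dvd.dvd.mul_left hd _
  rw [hC']
  have h0 : χ.1 1 = θ.1 1 := hθ 1
  have hn' : χ.1 (n : G) = θ.1 n := hθ n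
  rw [hn', h0, hw] at h1
  have hinv := mlr_inv (mlr_natCast (M := M) w) (not_mli_natCast_of_odd hM hwp)
  have h4 := mli_mul_right h1 hinv.2
  show MemLocalIdeal M (((C.relIndex N : ℕ) : ℂ) * 1 / 1 - ((C.relIndex N : ℕ) : ℂ) * θ.1 n / θ.1 1)
  convert h4 using 1
  have hw0 : (w : ℂ) ≠ 0 := by
    intro h
    apply hwp
    have : w = 0 := by exact_mod_cast h
    rw [this]
    exact dvd_zero p
  push_cast
  field_simp

end Cfsg.Agent.H15.AD
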