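import Cfsg.Agent.Lib.H15.AD2

/-! # The principal block when `G = N C_G(P)`: existence and uniqueness of the extension -/

set_option autoImplicit false
set_option linter.unusedSectionVars false
set_option linter.style.haveILetI false
set_option linter.unusedSimpArgs false

namespace Cfsg.Agent.H15.AD

open Cfsg Cfsg.Agent.H21 Cfsg.Agent.H22 Cfsg.Agent.H23 Subgroup
open scoped ComplexConjugate

universe u

variable {G : Type u} [Group G] [Finite G]
variable {p : ℕ} [hp : Fact p.Prime] {M : Ideal AlgInt}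

/-- A Sylow subgroup lies in a normal subgroup of index prime to `p`. -/
theorem sylow_le_of_not_dvd (P : Sylow p G) (N : Subgroup G) [hN : N.Normal]
    (hidx : ¬ p ∣ N.index) : (P : Subgroup G) ≤ N := by
  intro x hx
  obtain ⟨k, hk⟩ := (IsPGroup.iff_orderOf.mp P.isPGroup') ⟨x, hx⟩
  have hk' : orderOf x = p ^ k := by
    rw [← hk, Subgroup.orderOf_mk]
  have h1 : orderOf (x : G ⧸ N) ∣ N.index := by
    unfold Subgroup.index
    exact orderOf_dvd_natCard _
  have h2 : orderOf (x : G ⧸ N) ∣ p ^ k := by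
    apply orderOf_dvd_of_pow_eq_one
    rw [← hk', ← QuotientGroup.mk_pow, pow_orderOf_eq_one]
    rfl
  have hcop : Nat.Coprime (p ^ k) N.index :=
    ((Nat.Prime.coprime_iff_not_dvd hp.out).2 hidx).pow_left k
  have h3 : orderOf (x : G ⧸ N) = 1 := Nat.Coprime.eq_one_of_dvd
    (Nat.Coprime.coprime_dvd_left h2 (Nat.Coprime.coprime_dvd_right h1 hcop)) dvd_rfl
  rw [orderOf_eq_one_iff] at h3
  exact (QuotientGroup.eq_one_iff x).1 h3

/-- Every member of the principal block of a subgroup containing a Sylow subgroup lies under a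
member of the principal block of the group. -/
theorem exists_principal_over (hM : IsPModular p M) [M.IsPrime] (P : Sylow p G) (H : Subgroup G)
    (hPH : (P : Subgroup G) ≤ H) (θ : IrrCharacter H) (hθ : θ ∈ principalBlock M H) :
    ∃ χ ∈ principalBlock M G, ∑ h : H, conj (χ.1 h) * θ.1 h ≠ 0 := by
  classical
  by_contra hno
  push Not at hno
  let z : H → ℂ := fun h => blockCoeff (principalBlock M G) (h : G)
  have hzc : IsClassFunction H z := fun g k => blockCoeff_isClass _ (g : G) (k : G)
  have hzl : ∀ g, MemLocalRing M (z g) := fun g => blockCoeff_mlr principalBlock_isBlock _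
  have h1 : om θ z = 0 := by
    unfold om
    have h2 : ∑ h : H, z h * θ.1 h = 0 := by
      simp only [z, blockCoeff_eq_ofOm]
      unfold ofOm
      simp only [Finset.mul_sum, Finset.sum_mul]
      rw [Finset.sum_comm]
      refine Finset.sum_eq_zero fun χ _ => ?_
      by_cases hχ : χ ∈ principalBlock M G
      · have h3 := hno χ hχ
        have h4 : ∑ h : H, (Nat.card G : ℂ)⁻¹ * (eB (principalBlock M G) χ * (χ.1 1 * conj (χ.1 h))) * θ.1 h =
            (Nat.card G : ℂ)⁻¹ * (eB (principalBlock M G) χ * χ.1 1) * ∑ h : H, conj (χ.1 h) * θ.1 h := by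
          rw [Finset.mul_sum]
          refine Finset.sum_congr rfl fun h _ => ?_
          ring
        rw [h4, h3, mul_zero]
      · refine Finset.sum_eq_zero fun h _ => ?_
        rw [eB_apply_not_mem hχ]
        ring
    rw [h2, mul_zero]
  have h2 := ZR_congr (om_mem_ZR hzc hzl) (show SameBlock M (oneIrr H).1 θ.1 from hθ)
  rw [h1, sub_zero, om_oneIrr] at h2
  exact H21.sum_principal_coeff_not_mli hM P H hPH h2

/-- Existence of the extension. -/
theorem exists_principal_ext (hM : IsPModular p M) [M.IsPrime] (N : Subgroup G) [hN : N.Normal]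
    (hidx : ¬ p ∣ N.index) (P : Sylow p G)
    (hsup : N ⊔ centralizer ((P : Subgroup G) : Set G) = ⊤) (θ : IrrCharacter N)
    (hθ : θ ∈ principalBlock M N) :
    ∃ χ ∈ principalBlock M G, ∀ n : N, χ.1 n = θ.1 n := by
  classical
  letI : Fintype N := Fintype.ofFinite N
  obtain ⟨χ, hχ, hne⟩ := exists_principal_over hM P N (sylow_le_of_not_dvd P N hidx) θ hθ
  refine ⟨χ, hχ, fun n => ?_⟩
  have hirr := principal_restrict_irr hM N P hsup hχ
  by_contra hn
  have hne' : θ.1 ≠ fun n : N => χ.1 n := fun h => hn (congrFun h n).symm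
  have h1 := H06.classInner_irr_ne θ.2 hirr hne'
  unfold classInner at h1
  have hcard : (Nat.card N : ℂ)⁻¹ ≠ 0 := inv_ne_zero (by exact_mod_cast Nat.card_pos.ne')
  have h2 := (mul_eq_zero.mp h1).resolve_left hcard
  apply hne
  rw [← h2]
  refine Finset.sum_congr rfl fun n _ => ?_
  ring

/-- Uniqueness of the extension. -/
theorem principal_ext_unique (hM : IsPModular p M) [M.IsPrime] (N : Subgroup G) [hN : N.Normal]
    (hidx : ¬ p ∣ N.index) (P : Sylow p G)
    (hsup : N ⊔ centralizer ((P : Subgroup G) : Set G) = ⊤) {χ₁ χ₂ : IrrCharacter G}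
    (h₁ : χ₁ ∈ principalBlock M G) (h₂ : χ₂ ∈ principalBlock M G)
    (heq : ∀ n : N, χ₁.1 n = χ₂.1 n) : χ₁ = χ₂ := by
  classical
  letI : Fintype G := Fintype.ofFinite G
  letI : Fintype N := Fintype.ofFinite N
  letI : Fintype (IrrCharacter G) := Fintype.ofFinite _
  have hθ := principal_restrict_irr hM N P hsup h₁
  have hχ₁c : IsCharacter G χ₁.1 := isCharacter_of_irr χ₁.2
  have hχ₂c : IsCharacter G χ₂.1 := isCharacter_of_irr χ₂.2
  let f : G → ℂ := χ₂.1 * fun g => conj (χ₁.1 g)
  have hf : IsCharacter G f := isCharacter_mul hχ₂c (isCharacter_conjFun hχ₁c)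
  let β : G → ℂ := fun y => H06.DadeGen.avg N f (MonoidHom.id G y)
  have hβc : IsCharacter G β :=
    H06.DadeGen.avg_isCharacter (MonoidHom.id G) N (fun y r hr => hN.conj_mem r hr y) hf
  have hNC : (Nat.card N : ℂ) ≠ 0 := by exact_mod_cast Nat.card_pos.ne'
  have hGC : (Nat.card G : ℂ) ≠ 0 := by exact_mod_cast Nat.card_pos.ne'
  have hav : ∀ y, β y = (Nat.card N : ℂ)⁻¹ * ∑ n : N, f (y * n) := by
    intro y
    show H06.DadeGen.avg N f y = _
    unfold H06.DadeGen.avg
    congr 1
    rw [← Finset.sum_filter, Finset.sum_subtype (p := fun u => u ∈ N) _ (by simp)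
      (fun u => f (y * u))]
  have hβN : ∀ (g : G) (n : N), β (g * n) = β g := by
    intro g n
    rw [hav, hav]
    congr 1
    rw [← Equiv.sum_comp (Equiv.mulLeft n) (fun m : N => f (g * m))]
    refine Finset.sum_congr rfl fun m _ => ?_
    simp [mul_assoc]
  have hβ1 : β 1 = 1 := by
    rw [hav]
    have h3 := H06.classInner_irr_self hθ
    unfold classInner at h3
    rw [← h3]
    congr 1
    refine Finset.sum_congr rfl fun n _ => ?_
    show χ₂.1 (1 * n) * conj (χ₁.1 (1 * n)) = _
    rw [one_mul, ← heq n]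
  have hdeg := deg_one hβc hβ1
  have hββ : ∀ g, β g * conj (β g) = 1 := by
    intro g
    rw [Complex.mul_conj, Complex.normSq_eq_norm_sq, (hdeg g).1]
    simp
  have hsumf : ∑ g, f g * conj (β g) = ∑ g, β g * conj (β g) := by
    have h3 : ∀ n : N, ∑ g, f (g * n) * conj (β (g * n)) = ∑ g, f g * conj (β g) := fun n =>
      Equiv.sum_comp (Equiv.mulRight (n : G)) (fun g => f g * conj (β g))
    have h4 : ∑ g, β g * conj (β g) =
        (Nat.card N : ℂ)⁻¹ * ∑ n : N, ∑ g, f (g * n) * conj (β (g * n)) := by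
      rw [Finset.sum_comm, Finset.mul_sum]
      refine Finset.sum_congr rfl fun g _ => ?_
      rw [hav g, mul_assoc, Finset.sum_mul]
      congr 1
      refine Finset.sum_congr rfl fun n _ => ?_
      rw [hβN, ← hav g]
    rw [h4]
    simp only [h3, Finset.sum_const, Finset.card_univ, nsmul_eq_mul]
    rw [← Nat.card_eq_fintype_card, ← mul_assoc, inv_mul_cancel₀ hNC, one_mul]
  let ψ : G → ℂ := χ₁.1 * β
  have hψc : IsCharacter G ψ := isCharacter_mul hχ₁c hβc
  have hψn : classInner ψ ψ = 1 := by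
    have h3 := H06.classInner_irr_self χ₁.2
    unfold classInner at h3 ⊢
    rw [← h3]
    congr 1
    refine Finset.sum_congr rfl fun g _ => ?_
    show χ₁.1 g * β g * conj (χ₁.1 g * β g) = _
    rw [map_mul]
    linear_combination (χ₁.1 g * conj (χ₁.1 g)) * hββ g
  have hψirr : IsIrrCharacter G ψ := by
    refine H01.isIrrCharacter_of_int_norm_one (isClassFunction_of_isCharacter hψc) ?_ hψn ?_
    · intro ξ
      obtain ⟨k, hk⟩ := classInner_isNat hψc ξ
      exact ⟨k, by rw [hk]; simp⟩
    · show 0 < (χ₁.1 1 * β 1).re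
      rw [hβ1, mul_one, one_eq_charDegree hχ₁c]
      have := irr_charDegree_pos χ₁.2
      simp only [Complex.natCast_re]
      exact_mod_cast this
  have hin : classInner χ₂.1 ψ = 1 := by
    unfold classInner
    have h3 : ∑ g, χ₂.1 g * conj (ψ g) = (Nat.card G : ℂ) := by
      have h4 : ∀ g, χ₂.1 g * conj (ψ g) = f g * conj (β g) := by
        intro g
        show χ₂.1 g * conj (χ₁.1 g * β g) = χ₂.1 g * conj (χ₁.1 g) * conj (β g)
        rw [map_mul]
        ring
      simp only [h4]
      rw [hsumf]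
      simp only [hββ, Finset.sum_const, Finset.card_univ, nsmul_eq_mul, mul_one]
      rw [Nat.card_eq_fintype_card]
    rw [h3, inv_mul_cancel₀ hGC]
  have hχ₂ψ : χ₂.1 = ψ := by
    by_contra hne
    rw [H06.classInner_irr_ne χ₂.2 hψirr hne] at hin
    exact zero_ne_one hin
  have hβC : ∀ y ∈ centralizer ((P : Subgroup G) : Set G), β y = 1 := by
    intro y hy
    have hy1 := h₁ y
    have hy2 := h₂ y
    unfold centralChar at hy1 hy2
    have e1 : χ₂.1 y = χ₁.1 y * β y := congrFun hχ₂ψ y
    have e2 : χ₂.1 1 = χ₁.1 1 := (heq 1).symm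
    rw [e1, e2] at hy2
    simp only [mul_one, div_one] at hy1 hy2
    set v : ℂ := ((centralizer ({y} : Set G)).index : ℂ) with hv
    have hvu : ¬ MemLocalIdeal M v := not_mli_natCast_of_odd hM (not_dvd_index_centralizer P hy)
    have hint : IsIntegral ℤ (β y) := H21.isCharacter_isIntegral hβc y
    have hloc : MemLocalRing M (β y) := mlr_of_isIntegral hint
    have h3 : MemLocalIdeal M (v * (β y - 1)) := by
      have h4 := mli_sub (mli_mul_right hy1 hloc) hy2
      convert h4 using 1
      ring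
    have hinv : v ≠ 0 ∧ MemLocalRing M v⁻¹ :=
      mlr_inv (mlr_natCast (M := M) (centralizer ({y} : Set G)).index) hvu
    have h5 : MemLocalIdeal M (β y - 1) := by
      have h6 := mli_mul_right h3 hinv.2
      convert h6 using 1
      have h7 : v ≠ 0 := hinv.1
      field_simp
    have hpow : ∀ k : ℕ, β (y ^ k) = β y ^ k := by
      intro k
      induction k with
      | zero => simp [hβ1]
      | succ k ih => rw [pow_succ, (hdeg (y ^ k)).2, ih, pow_succ]
    have hζ : β y ^ N.index = 1 := by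
      rw [← hpow]
      have h8 := Subgroup.pow_index_mem N y
      have h9 := hβN 1 ⟨_, h8⟩
      rw [one_mul] at h9
      rw [h9, hβ1]
    exact root_eq_one hM hidx (Nat.pos_of_ne_zero Subgroup.index_ne_zero_of_finite) hζ h5
  have hβall : ∀ g, β g = 1 := by
    intro g
    obtain ⟨n, hn, hc⟩ := exists_coset_centralizer N P hsup g
    rw [← hβN g ⟨n, hn⟩]
    exact hβC _ hc
  apply Subtype.ext
  rw [hχ₂ψ]
  funext g
  show χ₁.1 g = χ₁.1 g * β g
  rw [hβall, mul_one]

/-- The Alperin-Dade theorem for principal blocks. -/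
theorem principal_bijection (hM : IsPModular p M) (N : Subgroup G) [hN : N.Normal]
    (hidx : ¬ p ∣ N.index) (P : Sylow p G)
    (hsup : N ⊔ centralizer ((P : Subgroup G) : Set G) = ⊤) :
    (∀ χ ∈ principalBlock M G, ∃ θ ∈ principalBlock M ↥N, ∀ n : N, χ.1 n = θ.1 n) ∧
      ∀ θ ∈ principalBlock M ↥N, ∃! χ : IrrCharacter G, χ ∈ principalBlock M G ∧
        ∀ n : N, χ.1 n = θ.1 n := by
  haveI : M.IsPrime := hM.2.1.isPrime
  refine ⟨fun χ hχ => ?_, fun θ hθ => ?_⟩
  · let θ : IrrCharacter N := ⟨_, principal_restrict_irr hM N P hsup hχ⟩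
    exact ⟨θ, principal_restrict_mem hM N hidx hχ θ (fun _ => rfl), fun _ => rfl⟩
  · obtain ⟨χ, hχ, hres⟩ := exists_principal_ext hM N hidx P hsup θ hθ
    refine ⟨χ, ⟨hχ, hres⟩, ?_⟩
    rintro χ' ⟨hχ', hres'⟩
    exact principal_ext_unique hM N hidx P hsup hχ' hχ fun n => by rw [hres', hres]

end Cfsg.Agent.H15.AD
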