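import Mathlib

set_option autoImplicit false

namespace Cfsg.Agent.H15

variable {A : Type*} [CommGroup A]

/-- The subgroup of `k`-th powers of elements of `B`. -/
def powSub (B : Subgroup A) (k : ℕ) : Subgroup A := B.map (powMonoidHom k)

theorem mem_powSub {B : Subgroup A} {k : ℕ} {x : A} : x ∈ powSub B k ↔ ∃ y ∈ B, y ^ k = x := by
  simp [powSub, Subgroup.mem_map]

theorem powSub_one (B : Subgroup A) : powSub B 1 = B := by
  ext x; simp [mem_powSub]

theorem powSub_powSub (B : Subgroup A) (k l : ℕ) : powSub (powSub B k) l = powSub B (k * l) := by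
  ext x
  simp only [mem_powSub]
  constructor
  · rintro ⟨y, ⟨z, hz, rfl⟩, rfl⟩
    exact ⟨z, hz, by rw [pow_mul]⟩
  · rintro ⟨z, hz, rfl⟩
    exact ⟨z ^ k, ⟨z, hz, rfl⟩, by rw [pow_mul]⟩

theorem powSub_le_of_dvd (B : Subgroup A) {k l : ℕ} (h : k ∣ l) : powSub B l ≤ powSub B k := by
  obtain ⟨m, rfl⟩ := h
  intro x hx
  obtain ⟨y, hy, rfl⟩ := mem_powSub.mp hx
  exact mem_powSub.mpr ⟨y ^ m, B.pow_mem hy m, by rw [← pow_mul, mul_comm]⟩

/-- Squaring splits the order of a subgroup. -/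
theorem card_eq_card_ker_mul_card_powSub [Finite A] (B : Subgroup A) (k : ℕ) :
    ∃ K : Subgroup A, (∀ x, x ∈ K ↔ x ∈ B ∧ x ^ k = 1) ∧
      Nat.card B = Nat.card K * Nat.card (powSub B k) := by
  classical
  let f : B →* A := (powMonoidHom k).comp B.subtype
  refine ⟨f.ker.map B.subtype, ?_, ?_⟩
  · intro x
    constructor
    · rintro ⟨⟨y, hy⟩, hy2, rfl⟩
      exact ⟨hy, by simpa [f, MonoidHom.mem_ker] using hy2⟩
    · rintro ⟨hx, hx2⟩
      exact ⟨⟨x, hx⟩, by simpa [f, MonoidHom.mem_ker] using hx2, rfl⟩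
  · have h1 : Nat.card (f.ker.map B.subtype) = Nat.card f.ker :=
      Subgroup.card_map_of_injective B.subtype_injective
    have h2 : f.range = powSub B k := by
      ext x
      simp only [MonoidHom.mem_range, mem_powSub]
      constructor
      · rintro ⟨⟨y, hy⟩, rfl⟩
        exact ⟨y, hy, rfl⟩
      · rintro ⟨y, hy, rfl⟩
        exact ⟨⟨y, hy⟩, rfl⟩
    have h3 : Nat.card (B ⧸ f.ker) = Nat.card f.range :=
      Nat.card_congr (QuotientGroup.quotientKerEquivRange f).toEquiv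
    rw [h1, ← h2, ← h3, mul_comm]
    exact Subgroup.card_eq_card_quotient_mul_card_subgroup _

/-- Rank-two dichotomy for an abelian `2`-group. -/
theorem card_dichotomy [Finite A] (h2 : IsPGroup 2 A)
    (hrk : ∀ E : Subgroup A, (∀ x ∈ E, x ^ 2 = 1) → Nat.card E ≤ 4) (B : Subgroup A) (hB : B ≠ ⊥) :
    (∃ e, Nat.card (powSub B (2 ^ e)) = 2) ∨
      (∃ e, Nat.card B = 4 ^ (e + 1) ∧ Nat.card B = 4 * Nat.card (powSub B 2)) := by
  classical
  have hex : ∃ e, powSub B (2 ^ e) = ⊥ := by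
    obtain ⟨n, hn⟩ := IsPGroup.iff_card.mp h2
    refine ⟨n, ?_⟩
    rw [eq_bot_iff]
    intro x hx
    obtain ⟨y, -, rfl⟩ := mem_powSub.mp hx
    rw [← hn, Subgroup.mem_bot, pow_card_eq_one']
  let e₀ := Nat.find hex
  have he₀ : powSub B (2 ^ e₀) = ⊥ := Nat.find_spec hex
  have he₀0 : e₀ ≠ 0 := by
    intro h
    rw [h, pow_zero, powSub_one] at he₀
    exact hB he₀
  obtain ⟨e, he⟩ : ∃ e, e₀ = e + 1 := ⟨e₀ - 1, by omega⟩
  have hP : powSub B (2 ^ e) ≠ ⊥ := Nat.find_min hex (by omega : e < e₀)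
  have hPs : ∀ x ∈ powSub B (2 ^ e), x ^ 2 = 1 := by
    intro x hx
    obtain ⟨y, hy, rfl⟩ := mem_powSub.mp hx
    have : (y ^ 2 ^ e) ^ 2 ∈ powSub B (2 ^ e₀) := by
      refine mem_powSub.mpr ⟨y, hy, ?_⟩
      rw [he, pow_succ, pow_mul]
    rwa [he₀, Subgroup.mem_bot] at this
  have hP4 := hrk _ hPs
  have hPp : IsPGroup 2 (powSub B (2 ^ e)) := h2.to_subgroup _
  obtain ⟨k, hk⟩ := IsPGroup.iff_card.mp hPp
  have hk0 : k ≠ 0 := by
    rintro rfl
    apply hP
    rw [pow_zero] at hk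
    exact (Subgroup.card_eq_one.mp hk)
  rcases k with _ | _ | k
  · exact absurd rfl hk0
  · left; exact ⟨e, by rw [hk]; norm_num⟩
  · right
    have hP44 : Nat.card (powSub B (2 ^ e)) = 4 := by
      rw [hk] at hP4 ⊢
      have h3 : 2 ^ (k + 1 + 1) = 4 * 2 ^ k := by ring
      have h4 : 1 ≤ 2 ^ k := Nat.one_le_two_pow
      rw [h3] at hP4 ⊢
      omega
    have hstep : ∀ j, j ≤ e → Nat.card (powSub B (2 ^ j)) = 4 * Nat.card (powSub B (2 ^ (j + 1))) := by
      intro j hj
      obtain ⟨K, hK, hcard⟩ := card_eq_card_ker_mul_card_powSub (powSub B (2 ^ j)) 2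
      rw [powSub_powSub, ← pow_succ] at hcard
      have hK4 : Nat.card K ≤ 4 := hrk K (fun x hx => ((hK x).mp hx).2)
      have hPK : powSub B (2 ^ e) ≤ K := by
        intro x hx
        refine (hK x).mpr ⟨?_, hPs x hx⟩
        exact powSub_le_of_dvd B (pow_dvd_pow 2 hj) hx
      have hK4' : 4 ≤ Nat.card K := by
        rw [← hP44]
        exact Nat.card_le_card_of_injective _ (Subgroup.inclusion_injective hPK)
      have : Nat.card K = 4 := le_antisymm hK4 hK4'
      rw [hcard, this]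
    have hind : ∀ i, i ≤ e + 1 → Nat.card (powSub B (2 ^ (e + 1 - i))) = 4 ^ i := by
      intro i
      induction i with
      | zero =>
        intro _
        have : powSub B (2 ^ (e + 1)) = ⊥ := by rw [← he]; exact he₀
        simp [this]
      | succ i ih =>
        intro hi
        have h1 := ih (by omega)
        have h2' := hstep (e + 1 - (i + 1)) (by omega)
        have h3 : e + 1 - (i + 1) + 1 = e + 1 - i := by omega
        rw [h3, h1] at h2'
        rw [h2', pow_succ, mul_comm]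
    refine ⟨e, ?_, ?_⟩
    · have := hind (e + 1) le_rfl
      simpa [powSub_one] using this
    · have := hstep 0 (Nat.zero_le _)
      simpa [powSub_one] using this


section Inv

/-- A subgroup invariant under a family of automorphisms. -/
def InvSub (Φ : Set (A ≃* A)) (M : Subgroup A) : Prop := ∀ φ ∈ Φ, ∀ x ∈ M, φ x ∈ M

variable {Φ : Set (A ≃* A)}

theorem invSub_powSub {M : Subgroup A} (h : InvSub Φ M) (k : ℕ) : InvSub Φ (powSub M k) := by
  intro φ hφ x hx
  obtain ⟨y, hy, rfl⟩ := mem_powSub.mp hx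
  exact mem_powSub.mpr ⟨φ y, h φ hφ y hy, by rw [map_pow]⟩

theorem invSub_top : InvSub Φ (⊤ : Subgroup A) := fun _ _ _ _ => trivial

theorem invSub_sup {M N : Subgroup A} (hM : InvSub Φ M) (hN : InvSub Φ N) : InvSub Φ (M ⊔ N) := by
  intro φ hφ x hx
  have : M ⊔ N ≤ (M ⊔ N).comap φ.toMonoidHom := by
    apply sup_le
    · intro y hy
      exact (le_sup_left : M ≤ M ⊔ N) (hM φ hφ y hy)
    · intro y hy
      exact (le_sup_right : N ≤ M ⊔ N) (hN φ hφ y hy)
  exact this hx

theorem invSub_closure {X : Set A} (hX : ∀ φ ∈ Φ, ∀ x ∈ X, φ x ∈ X) :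
    InvSub Φ (Subgroup.closure X) := by
  intro φ hφ x hx
  have : Subgroup.closure X ≤ (Subgroup.closure X).comap φ.toMonoidHom := by
    rw [Subgroup.closure_le]
    intro y hy
    exact Subgroup.subset_closure (hX φ hφ y hy)
  exact this hx

/-- In an abelian `2`-group of rank at most two, a nonempty invariant subset avoiding a subgroup of
index two forces an invariant subgroup of order two. -/
theorem exists_invariant_order_two [Finite A] (h2 : IsPGroup 2 A)
    (hrk : ∀ E : Subgroup A, (∀ x ∈ E, x ^ 2 = 1) → Nat.card E ≤ 4)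
    (Ξ : Set A) (hΞ : ∀ φ ∈ Φ, ∀ x ∈ Ξ, φ x ∈ Ξ) (hne : Ξ.Nonempty)
    (D : Subgroup A) (hD : D.index = 2) (hΞD : ∀ c ∈ Ξ, c ∉ D) :
    ∃ P : Subgroup A, Nat.card P = 2 ∧ InvSub Φ P := by
  classical
  obtain ⟨ξ₁, hξ₁⟩ := hne
  have htop : (⊤ : Subgroup A) ≠ ⊥ := by
    intro h
    apply hΞD ξ₁ hξ₁
    have : ξ₁ ∈ (⊥ : Subgroup A) := by rw [← h]; trivial
    rw [Subgroup.mem_bot] at this
    rw [this]; exact D.one_mem
  rcases card_dichotomy h2 hrk ⊤ htop with ⟨e, he⟩ | ⟨e, he, he4⟩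
  · exact ⟨_, he, invSub_powSub invSub_top _⟩
  set Z2 := powSub (⊤ : Subgroup A) 2 with hZ2
  have hcardtop : Nat.card (⊤ : Subgroup A) = Nat.card A := Nat.card_congr Subgroup.topEquiv.toEquiv
  rw [hcardtop] at he he4
  have hZ2D : Z2 ≤ D := by
    intro x hx
    obtain ⟨y, -, rfl⟩ := mem_powSub.mp hx
    exact Subgroup.sq_mem_of_index_two hD y
  have hcardD : Nat.card A = 2 * Nat.card D := by
    have := D.index_mul_card
    rw [hD] at this
    exact this.symm
  have hZ2pos : 0 < Nat.card Z2 := Nat.card_pos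
  have hDZ2 : Nat.card D = 2 * Nat.card Z2 := by omega
  have hmulD : ∀ c ∈ Ξ, ∀ c' ∈ Ξ, c * c' ∈ D := by
    intro c hc c' hc'
    rw [Subgroup.mul_mem_iff_of_index_two hD]
    exact iff_of_false (hΞD c hc) (hΞD c' hc')
  -- existence of an invariant subgroup with twice the order
  have hM : ∃ M : Subgroup A, InvSub Φ M ∧ 2 * Nat.card M = Nat.card A := by
    let X : Set A := {w | ∃ c ∈ Ξ, ∃ c' ∈ Ξ, w = c * c'}
    have hX : ∀ φ ∈ Φ, ∀ x ∈ X, φ x ∈ X := by
      rintro φ hφ _ ⟨c, hc, c', hc', rfl⟩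
      exact ⟨φ c, hΞ φ hφ c hc, φ c', hΞ φ hφ c' hc', by rw [map_mul]⟩
    set T₁ := Z2 ⊔ Subgroup.closure X with hT₁
    have hT₁inv : InvSub Φ T₁ := invSub_sup (invSub_powSub invSub_top _) (invSub_closure hX)
    have hT₁D : T₁ ≤ D := by
      apply sup_le hZ2D
      rw [Subgroup.closure_le]
      rintro _ ⟨c, hc, c', hc', rfl⟩
      exact hmulD c hc c' hc'
    by_cases hT : T₁ = Z2
    · -- `T₁ = Z2`
      set T₂ := Z2 ⊔ Subgroup.closure Ξ with hT₂
      refine ⟨T₂, invSub_sup (invSub_powSub invSub_top _) (invSub_closure hΞ), ?_⟩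
      have hmulZ : ∀ c ∈ Ξ, ∀ c' ∈ Ξ, c * c' ∈ Z2 := by
        intro c hc c' hc'
        rw [← hT]
        exact (le_sup_right : Subgroup.closure X ≤ T₁)
          (Subgroup.subset_closure ⟨c, hc, c', hc', rfl⟩)
      have hsq : ξ₁ * ξ₁ ∈ Z2 := hmulZ _ hξ₁ _ hξ₁
      -- `T₂` lies in `W`, the set `Z2 ∪ ξ₁ Z2`
      let W : Subgroup A := Z2 ⊔ Subgroup.zpowers ξ₁
      have hT₂W : T₂ ≤ W := by
        apply sup_le le_sup_left
        rw [Subgroup.closure_le]
        intro c hc
        have h1 : c * ξ₁ ∈ Z2 := hmulZ c hc _ hξ₁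
        have h2' : c = (c * ξ₁) * ξ₁⁻¹ := by group
        rw [h2']
        exact W.mul_mem ((le_sup_left : Z2 ≤ W) h1)
          ((le_sup_right : Subgroup.zpowers ξ₁ ≤ W) (Subgroup.inv_mem _ (Subgroup.mem_zpowers _)))
      have hWD : T₂ ⊓ D ≤ Z2 := by
        rintro x ⟨hx, hxD⟩
        obtain ⟨a, ha, b, hb, rfl⟩ := Subgroup.mem_sup.mp (hT₂W hx)
        obtain ⟨i, rfl⟩ := Subgroup.mem_zpowers_iff.mp hb
        have hi : Even i ∨ Odd i := Int.even_or_odd i
        rcases hi with ⟨j, rfl⟩ | ⟨j, rfl⟩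
        · refine Z2.mul_mem ha ?_
          rw [zpow_add, ← pow_two]
          exact mem_powSub.mpr ⟨ξ₁ ^ j, trivial, rfl⟩
        · exfalso
          apply hΞD ξ₁ hξ₁
          have h3 : ξ₁ ^ (2 * j + 1) = (ξ₁ * ξ₁) ^ j * ξ₁ := by
            have h30 : ξ₁ * ξ₁ = ξ₁ ^ (2 : ℤ) := by rw [zpow_ofNat, pow_two]
            rw [h30, ← zpow_mul, zpow_add_one]
          rw [h3, ← mul_assoc] at hxD
          have h4 : a * (ξ₁ * ξ₁) ^ j ∈ D := hZ2D (Z2.mul_mem ha (Z2.zpow_mem hsq j))
          exact (Subgroup.mul_mem_cancel_left D h4).mp hxD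
      have hle : Nat.card T₂ ≤ 2 * Nat.card Z2 := by
        have h1 : (T₂ ⊓ D).relIndex T₂ * Nat.card (T₂ ⊓ D : Subgroup A) = Nat.card T₂ := by
          have h0 := Subgroup.card_mul_index ((T₂ ⊓ D).subgroupOf T₂)
          have h00 : Nat.card ((T₂ ⊓ D).subgroupOf T₂) = Nat.card (T₂ ⊓ D : Subgroup A) :=
            Nat.card_congr (Subgroup.subgroupOfEquivOfLe inf_le_left).toEquiv
          rw [h00] at h0
          rw [mul_comm]; exact h0
        have h2' : (T₂ ⊓ D).relIndex T₂ = D.relIndex T₂ := by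
          rw [inf_comm]; exact Subgroup.inf_relIndex_right _ _
        have : D.Normal := Subgroup.normal_of_index_eq_two hD
        have h3 : D.relIndex T₂ ≤ 2 := by
          have h0 : D.relIndex T₂ ∣ D.index := Subgroup.relIndex_dvd_index_of_normal _ _
          rw [hD] at h0
          exact Nat.le_of_dvd (by norm_num) h0
        have h4 : Nat.card (T₂ ⊓ D : Subgroup A) ≤ Nat.card Z2 :=
          Nat.card_le_card_of_injective _ (Subgroup.inclusion_injective hWD)
        rw [← h1, h2']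
        exact Nat.mul_le_mul h3 h4
      have hge : 2 * Nat.card Z2 ≤ Nat.card T₂ := by
        have h1 : Z2 ≤ T₂ := le_sup_left
        have h2' : Nat.card Z2 ∣ Nat.card T₂ := Subgroup.card_dvd_of_le h1
        have h3 : Nat.card Z2 ≠ Nat.card T₂ := by
          intro h
          have h4 : Z2 = T₂ := Subgroup.eq_of_le_of_card_ge h1 h.symm.le
          apply hΞD ξ₁ hξ₁
          apply hZ2D
          rw [h4]
          exact (le_sup_right : Subgroup.closure Ξ ≤ T₂) (Subgroup.subset_closure hξ₁)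
        obtain ⟨m, hm⟩ := h2'
        rw [hm]
        have hm0 : m ≠ 0 := by
          rintro rfl
          have : 0 < Nat.card T₂ := Nat.card_pos
          omega
        have hm1 : m ≠ 1 := by
          rintro rfl
          exact h3 (by omega)
        have : 2 ≤ m := by omega
        nlinarith
      have : Nat.card T₂ = 2 * Nat.card Z2 := le_antisymm hle hge
      rw [this]
      omega
    · refine ⟨T₁, hT₁inv, ?_⟩
      have h1 : Z2 ≤ T₁ := le_sup_left
      have hle : Nat.card T₁ ≤ 2 * Nat.card Z2 := by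
        rw [← hDZ2]
        exact Nat.card_le_card_of_injective _ (Subgroup.inclusion_injective hT₁D)
      have hge : 2 * Nat.card Z2 ≤ Nat.card T₁ := by
        have h2' : Nat.card Z2 ∣ Nat.card T₁ := Subgroup.card_dvd_of_le h1
        have h3 : Nat.card Z2 ≠ Nat.card T₁ := by
          intro h
          exact hT (Subgroup.eq_of_le_of_card_ge h1 h.symm.le).symm
        obtain ⟨m, hm⟩ := h2'
        rw [hm]
        have hm0 : m ≠ 0 := by
          rintro rfl
          have : 0 < Nat.card T₁ := Nat.card_pos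
          omega
        have hm1 : m ≠ 1 := by
          rintro rfl
          exact h3 (by omega)
        have : 2 ≤ m := by omega
        nlinarith
      have : Nat.card T₁ = 2 * Nat.card Z2 := le_antisymm hle hge
      rw [this]
      omega
  obtain ⟨M, hMinv, hMcard⟩ := hM
  have hMbot : M ≠ ⊥ := by
    rintro rfl
    have h1 : Nat.card (⊥ : Subgroup A) = 1 := by simp
    rw [h1, he] at hMcard
    have h4 : 4 ^ (e + 1) = 4 * 4 ^ e := by ring
    omega
  rcases card_dichotomy h2 hrk M hMbot with ⟨e', he'⟩ | ⟨e', he', -⟩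
  · exact ⟨_, he', invSub_powSub hMinv _⟩
  · exfalso
    rw [he', he] at hMcard
    have h5 : (4 : ℕ) ^ (e' + 1) = 2 ^ (2 * (e' + 1)) := by rw [pow_mul]; norm_num
    have h6 : (4 : ℕ) ^ (e + 1) = 2 ^ (2 * (e + 1)) := by rw [pow_mul]; norm_num
    rw [h5, h6, ← pow_succ'] at hMcard
    have := Nat.pow_right_injective (le_refl 2) hMcard
    omega

end Inv

end Cfsg.Agent.H15
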