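import Mathlib
import Cfsg.Agent.Lib.H15.ChzFour2

/-!
Groups with an involution whose centralizer is a Klein four group.
-/

set_option autoImplicit false

namespace Cfsg.Agent.H15.ChzFour

universe u

variable {G : Type u} [Group G] [Finite G]

theorem main_chz (x : G) (hx : orderOf x = 2)
    (hC4 : Nat.card ↥(Subgroup.centralizer ({x} : Set G)) = 4)
    (hCe : ∀ c ∈ Subgroup.centralizer ({x} : Set G), c ^ 2 = 1)
    (hnc : ¬ Cfsg.HasNormalPComplement 2 G)
    (hne : ∀ E : Subgroup G, E.Normal → Cfsg.IsElementaryAbelian 2 E →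
      Nat.card ↥E ≠ 2 ∧ Nat.card ↥E ≠ 4) :
    Nonempty (G ≃* ↥(alternatingGroup (Fin 5))) := by
  classical
  haveI : Fact (Nat.Prime 2) := ⟨Nat.prime_two⟩
  set V := Subgroup.centralizer ({x} : Set G) with hV
  have hx1 : x ≠ 1 := by
    rintro rfl
    simp at hx
  have hxV : x ∈ V := by
    rw [hV, Subgroup.mem_centralizer_singleton_iff]
  have hVp : IsPGroup 2 V := by
    rw [IsPGroup.iff_card]
    exact ⟨2, by rw [hC4]; norm_num⟩
  have hVcomm : ∀ a ∈ V, ∀ b ∈ V, a * b = b * a := by
    intro a ha b hb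
    have h3 : (a * b) * (a * b) = 1 := by rw [← pow_two]; exact hCe _ (V.mul_mem ha hb)
    have h1 : a * a = 1 := by rw [← pow_two]; exact hCe a ha
    have h2 : b * b = 1 := by rw [← pow_two]; exact hCe b hb
    have ha' : a⁻¹ = a := inv_eq_of_mul_eq_one_left h1
    have hb' : b⁻¹ = b := inv_eq_of_mul_eq_one_left h2
    have : (a * b)⁻¹ = a * b := inv_eq_of_mul_eq_one_left h3
    rw [mul_inv_rev, ha', hb'] at this
    exact this.symm
  obtain ⟨T, hVT⟩ := hVp.exists_le_sylow
  by_cases hVne : V = (T : Subgroup G)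
  swap
  · exfalso
    obtain ⟨E, hEn, hEa, hcard⟩ := big_sylow_case x hx hC4 hCe T hVT hVne
    obtain ⟨h1, h2⟩ := hne E hEn hEa
    rcases hcard with h | h
    · exact h1 h
    · exact h2 h
  -- `V` is a Sylow subgroup
  have hg : ∃ g ∈ Subgroup.normalizer (V : Set G), g ∉ V := by
    by_contra hcon
    push Not at hcon
    apply hnc
    have hP : Subgroup.normalizer ((T : Subgroup G) : Set G) ≤
        Subgroup.centralizer ((T : Subgroup G) : Set G) := by
      intro g hg
      rw [Subgroup.mem_centralizer_iff]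
      intro h hh
      rw [← hVne] at hg hh
      exact hVcomm h hh g (hcon g hg)
    exact ⟨T, _, inferInstance, MonoidHom.ker_transferSylow_isComplement' T hP⟩
  obtain ⟨g, hgN, hgV⟩ := hg
  set y := g * x * g⁻¹ with hy
  set z := g * y * g⁻¹ with hz
  have hyV : y ∈ V := (Subgroup.mem_normalizer_iff.mp hgN x).mp hxV
  have hzV : z ∈ V := (Subgroup.mem_normalizer_iff.mp hgN y).mp hyV
  have hcancel : ∀ a b : G, g * a * g⁻¹ = g * b * g⁻¹ → a = b := by
    intro a b h
    have := congrArg (fun t => g⁻¹ * t * g) h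
    simpa [mul_assoc] using this
  have hy1 : y ≠ 1 := by
    intro h
    apply hx1
    apply hcancel
    rw [← hy, h]; simp
  have hz1 : z ≠ 1 := by
    intro h
    apply hy1
    apply hcancel
    rw [← hz, h]; simp
  have hxy : x ≠ y := by
    intro h
    apply hgV
    rw [hV, Subgroup.mem_centralizer_singleton_iff]
    exact (eq_mul_inv_iff_mul_eq.mp h).symm
  have hyz : y ≠ z := fun h => hxy (hcancel x y h)
  have hgNT : g ∈ Subgroup.normalizer ((T : Subgroup G) : Set G) := by
    rw [← hVne]; exact hgN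
  have hxz : x ≠ z := by
    intro h
    apply hgV
    have hg2 : g * g ∈ V := by
      rw [hV, Subgroup.mem_centralizer_singleton_iff]
      have h1 : x = (g * g) * x * (g * g)⁻¹ := by
        calc x = z := h
          _ = g * (g * x * g⁻¹) * g⁻¹ := rfl
          _ = (g * g) * x * (g * g)⁻¹ := by group
      exact (eq_mul_inv_iff_mul_eq.mp h1).symm
    have h4 : g ^ 2 ^ 2 = 1 := by
      have h5 := hCe _ hg2
      rw [← pow_two, ← pow_mul] at h5
      simpa using h5
    rw [hVne]
    exact mem_of_normalizer_of_pow T g hgNT 2 h4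
  have hconj : ∀ c ∈ V, c ≠ 1 → ∃ h ∈ Subgroup.normalizer (V : Set G), c = h * x * h⁻¹ := by
    intro c hc hc1
    rcases mem_four_of_card V hC4 1 x y z c V.one_mem hxV hyV hzV hc hx1.symm hy1.symm hz1.symm
      hxy hxz hyz with h | h | h | h
    · exact absurd h hc1
    · exact ⟨1, Subgroup.one_mem _, by rw [h]; group⟩
    · exact ⟨g, hgN, h⟩
    · refine ⟨g * g, Subgroup.mul_mem _ hgN hgN, ?_⟩
      rw [h, hz, hy]; group
  have hBV : ∀ c ∈ V, c ≠ 1 → Subgroup.centralizer ({c} : Set G) = V := by
    intro c hc hc1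
    ext e
    rw [Subgroup.mem_centralizer_singleton_iff]
    constructor
    · intro he
      obtain ⟨h, hN, hch⟩ := hconj c hc hc1
      have h1 : h⁻¹ * e * h ∈ V := by
        rw [hV, Subgroup.mem_centralizer_singleton_iff]
        rw [hch] at he
        have h2 : h⁻¹ * e * h * x = h⁻¹ * (e * (h * x * h⁻¹)) * h := by group
        have h3 : x * (h⁻¹ * e * h) = h⁻¹ * ((h * x * h⁻¹) * e) * h := by group
        rw [h2, h3, he]
      have h2 := (Subgroup.mem_normalizer_iff.mp hN (h⁻¹ * e * h)).mp h1
      have h3 : h * (h⁻¹ * e * h) * h⁻¹ = e := by group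
      rwa [h3] at h2
    · intro he
      exact hVcomm e he c hc
  have K : KleinTI G := by
    refine ⟨?_, ?_, ?_, ?_⟩
    · intro P w hw hw1
      obtain ⟨k, rfl⟩ := MulAction.exists_smul_eq G T P
      have hcT : k⁻¹ * w * k ∈ (T : Subgroup G) := (mem_smul_iff T k w).mp hw
      have hcne : k⁻¹ * w * k ≠ 1 := by
        intro h
        apply hw1
        have := congrArg (fun t => k * t * k⁻¹) h
        simpa [mul_assoc] using this
      have hc := hBV _ (hVne.symm ▸ hcT) hcne
      ext e
      rw [mem_smul_iff, ← hVne, ← hc, Subgroup.mem_centralizer_singleton_iff,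
        Subgroup.mem_centralizer_singleton_iff]
      constructor
      · intro h
        have h2 : k⁻¹ * e * k * (k⁻¹ * w * k) = k⁻¹ * (e * w) * k := by group
        have h3 : k⁻¹ * w * k * (k⁻¹ * e * k) = k⁻¹ * (w * e) * k := by group
        rw [h2, h3, h]
      · intro h
        have h2 : k⁻¹ * e * k * (k⁻¹ * w * k) = k⁻¹ * (e * w) * k := by group
        have h3 : k⁻¹ * w * k * (k⁻¹ * e * k) = k⁻¹ * (w * e) * k := by group
        rw [h2, h3] at h
        exact mul_left_cancel (mul_right_cancel h)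
    · intro P c hc
      obtain ⟨k, rfl⟩ := MulAction.exists_smul_eq G T P
      have hcT : k⁻¹ * c * k ∈ (T : Subgroup G) := (mem_smul_iff T k c).mp hc
      have h1 : (k⁻¹ * c * k) * (k⁻¹ * c * k) = 1 := by
        rw [← pow_two]; exact hCe _ (hVne.symm ▸ hcT)
      have h2 : c * c = k * ((k⁻¹ * c * k) * (k⁻¹ * c * k)) * k⁻¹ := by group
      rw [pow_two, h2, h1]; group
    · intro P
      have h1 : Nat.card (P : Subgroup G) = Nat.card (T : Subgroup G) :=
        Nat.card_congr (Sylow.equiv P T).toEquiv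
      rw [h1, ← hVne]
      exact hC4
    · intro α
      by_contra hcon
      push Not at hcon
      have hEa : Cfsg.IsElementaryAbelian 2 V :=
        ⟨⟨⟨fun a b => Subtype.ext (hVcomm a a.2 b b.2)⟩⟩, hCe⟩
      have hVn : V.Normal := by
        constructor
        intro n hn k
        rw [hVne] at hn ⊢
        have h1 := conj_mem_smul T k n hn
        rwa [(hcon (k • T)).trans (hcon T).symm] at h1
      exact (hne V hVn hEa).2 hC4
  exact K.iso_alternating

end Cfsg.Agent.H15.ChzFour
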