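import Cfsg.Agent.Lib.H21.KleinOrder
import Cfsg.Agent.Lib.H15.ChzFour3

/-!
Simple groups with an involution `x` such that a Sylow 2-subgroup of `C(x)` is a four-group, normal
in `C(x)`.  Through Thompson transfer the Sylow 2-subgroup of `G` is that four-group, and
then Brauer's order formula shows there are five Sylow 2-subgroups.
-/

set_option autoImplicit false
set_option linter.unusedSectionVars false
set_option linter.style.haveILetI false

namespace Cfsg.Agent.H15.ChzV4

open Cfsg Cfsg.Agent.H21 Cfsg.Agent.H22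

universe u

variable {G : Type u} [Group G] [Finite G]

/-- Elements of 2-power order in `K` lie in a normal subgroup of odd index. -/
theorem mem_of_two_element {K V : Subgroup G}
    (hodd : ¬ 2 ∣ V.relIndex K) (hn : (V.subgroupOf K).Normal) {e : G} (he : e ∈ K) {k : ℕ}
    (hk : orderOf e = 2 ^ k) : e ∈ V := by
  have h1 : orderOf ((⟨e, he⟩ : K) : K ⧸ V.subgroupOf K) ∣ 2 ^ k := by
    rw [← hk, ← Subgroup.orderOf_mk e he]
    exact orderOf_map_dvd (QuotientGroup.mk' (V.subgroupOf K)) _
  have h2 : orderOf ((⟨e, he⟩ : K) : K ⧸ V.subgroupOf K) ∣ Nat.card (K ⧸ V.subgroupOf K) :=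
    orderOf_dvd_natCard _
  have h3 : Nat.card (K ⧸ V.subgroupOf K) = V.relIndex K := rfl
  rw [h3] at h2
  obtain ⟨j, -, hj⟩ := (Nat.dvd_prime_pow Nat.prime_two).mp h1
  have hj0 : j = 0 := by
    by_contra hne
    apply hodd
    refine dvd_trans ?_ h2
    rw [hj]
    exact dvd_pow_self 2 hne
  rw [hj0, pow_zero, orderOf_eq_one_iff, QuotientGroup.eq_one_iff, Subgroup.mem_subgroupOf] at hj
  exact hj

/-- Orbit counting: the normalizer permutes the non-identity elements of `V` transitively. -/
theorem relIndex_eq_three {V : Subgroup G} (hV4 : Nat.card V = 4) {x : G} (hxV : x ∈ V) (hx1 : x ≠ 1)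
    (hCN : Subgroup.centralizer ({x} : Set G) ≤ Subgroup.normalizer (V : Set G))
    (htrans : ∀ t ∈ V, t ≠ 1 → ∃ g ∈ Subgroup.normalizer (V : Set G), g * x * g⁻¹ = t) :
    (Subgroup.centralizer ({x} : Set G)).relIndex (Subgroup.normalizer (V : Set G)) = 3 := by
  classical
  set N := Subgroup.normalizer (V : Set G) with hN
  letI act : MulAction N G :=
    { smul := fun n g => (n : G) * g * (n : G)⁻¹
      one_smul := fun g => by
        show ((1 : N) : G) * g * ((1 : N) : G)⁻¹ = g
        simp
      mul_smul := fun a b g => by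
        show ((a * b : N) : G) * g * ((a * b : N) : G)⁻¹ =
          (a : G) * ((b : G) * g * (b : G)⁻¹) * (a : G)⁻¹
        simp only [Subgroup.coe_mul]
        group }
  have hsmul : ∀ (n : N) (g : G), n • g = (n : G) * g * (n : G)⁻¹ := fun _ _ => rfl
  have hstab : MulAction.stabilizer N x = (Subgroup.centralizer ({x} : Set G)).subgroupOf N := by
    ext n
    rw [MulAction.mem_stabilizer_iff, hsmul, Subgroup.mem_subgroupOf,
      Subgroup.mem_centralizer_singleton_iff, mul_inv_eq_iff_eq_mul]
  have horb : MulAction.orbit N x = (V : Set G) \ {1} := by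
    ext t
    constructor
    · rintro ⟨n, rfl⟩
      refine ⟨?_, ?_⟩
      · exact (Subgroup.mem_normalizer_iff.mp n.2 x).mp hxV
      · show n • x ≠ 1
        rw [hsmul]
        intro h
        apply hx1
        rw [mul_inv_eq_one] at h
        exact mul_eq_left.mp h
    · rintro ⟨ht, ht1⟩
      obtain ⟨g, hg, hgt⟩ := htrans t ht ht1
      exact ⟨⟨g, hg⟩, hgt⟩
  have h1 := MulAction.index_stabilizer (G := N) x
  rw [hstab, horb] at h1
  show ((Subgroup.centralizer ({x} : Set G)).subgroupOf N).index = 3
  rw [h1, Set.ncard_sdiff_singleton_of_mem (SetLike.mem_coe.mpr V.one_mem),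
    ← Nat.card_coe_set_eq]
  have h2 : Nat.card (V : Set G) = 4 := hV4
  rw [h2]

/-- The arithmetic of Brauer's formula, negative sign. -/
theorem arith_neg {n a b c : ℚ} (ha : 1 ≤ a) (hb : 3 ≤ b) (hc : 3 ≤ c)
    (h : 3 * n * ((a + 1) * (b - 1) * (c - 1)) = 8 * (a * b * c)) : n < 6 := by
  by_contra hcon
  push Not at hcon
  have hb1 : 0 < b - 1 := by linarith
  have hc1 : 0 < c - 1 := by linarith
  have ha1 : 0 < a + 1 := by linarith
  have h1 : 0 < (a + 1) * (b - 1) * (c - 1) := by positivity
  have h2 : 18 * ((a + 1) * (b - 1) * (c - 1)) ≤ 8 * (a * b * c) := by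
    rw [← h]
    nlinarith
  have hb2 : 2 * b ≤ 3 * (b - 1) := by linarith
  have hc2 : 2 * c ≤ 3 * (c - 1) := by linarith
  have hbpos : 0 < b := by linarith
  have hcpos : 0 < c := by linarith
  have h3 : 4 * (b * c) ≤ 9 * ((b - 1) * (c - 1)) := by
    have := mul_le_mul hb2 hc2 (by linarith) (by linarith)
    nlinarith
  have h4 : 4 * (b * c) * (a + 1) ≤ 9 * ((b - 1) * (c - 1)) * (a + 1) :=
    mul_le_mul_of_nonneg_right h3 ha1.le
  have h5 : 0 < b * c := by positivity
  nlinarith

/-- The arithmetic of Brauer's formula, positive sign. -/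
theorem arith_pos {n a b c : ℚ} (ha : 1 ≤ a) (hb : 1 ≤ b) (hrel : 1 + a + b - c = 0)
    (h : 3 * n * ((a + 1) * (b + 1) * (c - 1)) = 8 * (a * b * c)) : n < 3 := by
  by_contra hcon
  push Not at hcon
  have hc : c = 1 + a + b := by linarith
  subst hc
  have hab : 0 < a * b := by positivity
  have h1 : 0 < (a + 1) * (b + 1) * (1 + a + b - 1) := by
    have : 0 < 1 + a + b - 1 := by linarith
    have ha1 : 0 < a + 1 := by linarith
    have hb1 : 0 < b + 1 := by linarith
    positivity
  have h2 : 9 * ((a + 1) * (b + 1) * (1 + a + b - 1)) ≤ 8 * (a * b * (1 + a + b)) := by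
    rw [← h]
    nlinarith
  have h3 : a * b * (1 + a + b) ≤ (a + 1) * (b + 1) * (1 + a + b - 1) := by
    nlinarith [mul_pos hab hab, sq_nonneg (a - b), mul_pos (by linarith : 0 < a) (by linarith : 0 < b)]
  have h4 : 0 < a * b * (1 + a + b) := by positivity
  linarith

/-- The theorem. -/
theorem main_v4 [IsSimpleGroup G] (x : G) (hx : orderOf x = 2) (V : Subgroup G)
    (hle : V ≤ Subgroup.centralizer ({x} : Set G)) (hK : IsKleinFour ↥V)
    (hodd : ¬ 2 ∣ V.relIndex (Subgroup.centralizer ({x} : Set G)))
    (hn : (V.subgroupOf (Subgroup.centralizer ({x} : Set G))).Normal) :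
    Nonempty (G ≃* ↥(alternatingGroup (Fin 5))) := by
  classical
  haveI : Fact (Nat.Prime 2) := ⟨Nat.prime_two⟩
  have hV4 : Nat.card V = 4 := hK.card_four
  have hVexp : ∀ a ∈ V, a * a = 1 := by
    intro a ha
    have h1 : (⟨a, ha⟩ : V) ^ Monoid.exponent V = 1 := Monoid.pow_exponent_eq_one _
    rw [hK.exponent_two, sq] at h1
    exact congrArg Subtype.val h1
  have hVcomm : ∀ a ∈ V, ∀ b ∈ V, a * b = b * a := fun a ha b hb => sylow_comm hVexp ha hb
  have hx1 : x ≠ 1 := by
    rintro rfl
    simp at hx
  have hmem : ∀ e, e ∈ Subgroup.centralizer ({x} : Set G) → ∀ k : ℕ, orderOf e = 2 ^ k → e ∈ V :=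
    fun e he k hk => mem_of_two_element hodd hn he hk
  have hxV : x ∈ V :=
    hmem x (Subgroup.mem_centralizer_singleton_iff.mpr rfl) 1 (by rw [hx, pow_one])
  have hx2 : x * x = 1 := hVexp x hxV
  have hcardG4 : 4 ∣ Nat.card G := by
    rw [← hV4]
    exact Subgroup.card_subgroup_dvd_card V
  -- no sign
  have hsign : ∀ φ : G →* ℤˣ, φ x ≠ -1 := by
    intro φ hφ
    have hk := φ.normal_ker
    rcases IsSimpleGroup.eq_bot_or_eq_top_of_normal φ.ker hk with h | h
    · have hinj : Function.Injective φ := (MonoidHom.ker_eq_bot_iff φ).mp h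
      have h1 : Nat.card G ∣ Nat.card ℤˣ := Subgroup.card_dvd_of_injective φ hinj
      have h2 : Nat.card ℤˣ = 2 := by
        rw [Nat.card_eq_fintype_card]
        rfl
      rw [h2] at h1
      have h3 := hcardG4.trans h1
      omega
    · have h1 : x ∈ φ.ker := by
        rw [h]
        exact Subgroup.mem_top x
      rw [MonoidHom.mem_ker, hφ] at h1
      exact absurd h1 (by decide)
  obtain ⟨T, hVT⟩ := (IsPGroup.of_card (p := 2) (n := 2) (by rw [hV4]; norm_num) :
    IsPGroup 2 V).exists_le_sylow
  have hTp : ∀ t ∈ (T : Subgroup G), ∃ k : ℕ, orderOf t = 2 ^ k := by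
    intro t ht
    obtain ⟨k, hk⟩ := (IsPGroup.iff_orderOf.mp T.isPGroup') ⟨t, ht⟩
    refine ⟨k, ?_⟩
    rw [← hk]
    exact (Subgroup.orderOf_mk t ht).symm
  -- the Sylow 2-subgroup is `V`
  have hVeq : V = (T : Subgroup G) := by
    by_contra hne
    have hT8 : 8 ≤ Nat.card (T : Subgroup G) := by
      obtain ⟨k, hk⟩ := IsPGroup.iff_card.mp T.isPGroup'
      have hd : Nat.card V ∣ Nat.card (T : Subgroup G) := Subgroup.card_dvd_of_le hVT
      have hne' : Nat.card (T : Subgroup G) ≠ 4 := by
        intro h
        apply hne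
        apply Subgroup.eq_of_le_of_card_ge hVT
        rw [h, hV4]
      rw [hV4] at hd
      rw [hk] at hd hne' ⊢
      by_contra hlt
      have hk3 : k < 3 := by
        by_contra h
        have : 2 ^ 3 ≤ 2 ^ k := Nat.pow_le_pow_right (by norm_num) (by omega)
        omega
      interval_cases k <;> simp_all
    have hxT : x ∈ (T : Subgroup G) := hVT hxV
    let x' : (T : Subgroup G) := ⟨x, hxT⟩
    have hx' : orderOf x' = 2 := (Subgroup.orderOf_mk x hxT).trans hx
    have hCT : Nat.card (Subgroup.centralizer ({x'} : Set (T : Subgroup G))) ≤ 4 := by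
      rw [← hV4]
      refine Nat.card_le_card_of_injective
        (fun c => (⟨((c : (T : Subgroup G)) : G), ?_⟩ : V)) ?_
      · obtain ⟨k, hk⟩ := hTp _ (c : (T : Subgroup G)).2
        apply hmem _ _ k hk
        rw [Subgroup.mem_centralizer_singleton_iff]
        have h1 := Subgroup.mem_centralizer_singleton_iff.mp c.2
        exact congrArg Subtype.val h1
      · intro a c hac
        apply Subtype.ext
        apply Subtype.ext
        exact congrArg (fun v : V => (v : G)) hac
    obtain ⟨A, hAc, hAi, hxA⟩ := exists_cyclic_index_two (Nat.card (T : Subgroup G))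
      (T : Subgroup G) rfl (T.isPGroup') x' hx' hCT hT8
    haveI : IsCyclic A := hAc
    haveI hAn : A.Normal := Subgroup.normal_of_index_eq_two hAi
    set W : Subgroup G := A.map (T : Subgroup G).subtype with hW
    have hWi : W.index = 2 ^ 1 * (T : Subgroup G).index := by
      rw [hW, Subgroup.index_map_subtype, hAi, pow_one]
    have hoddT : Odd (T : Subgroup G).index := by
      rw [← Nat.not_even_iff_odd, even_iff_two_dvd]
      exact T.not_dvd_index
    have hx2' : x ^ 2 ^ 1 = 1 := by
      rw [pow_one, ← hx]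
      exact pow_orderOf_eq_one x
    have hfree : ∀ g : G, g * x ^ 2 ^ (1 - 1) * g⁻¹ ∉ W := by
      intro g hg
      simp only [Nat.sub_self, pow_zero, pow_one] at hg
      obtain ⟨t₀, ht₀, ht₀e⟩ := Subgroup.mem_map.mp hg
      have hoy : orderOf (g * x * g⁻¹) = 2 := (orderOf_conj_eq g x).trans hx
      have hot₀ : orderOf (t₀ : (T : Subgroup G)) = 2 := by
        have h0 : ((t₀ : (T : Subgroup G)) : G) = g * x * g⁻¹ := ht₀e
        have h1 : orderOf ((t₀ : (T : Subgroup G)) : G) = 2 := by
          rw [h0]
          exact hoy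
        exact (Subgroup.orderOf_coe t₀).symm.trans h1
      have hcomm : ∀ t : (T : Subgroup G), t * t₀ * t⁻¹ = t₀ := by
        intro t
        have h1 : t * t₀ * t⁻¹ ∈ A := hAn.conj_mem t₀ ht₀ t
        have h2 : orderOf (t * t₀ * t⁻¹) = 2 := (orderOf_conj_eq t t₀).trans hot₀
        have h3 : orderOf (⟨t * t₀ * t⁻¹, h1⟩ : A) = 2 := (Subgroup.orderOf_mk _ h1).trans h2
        have h4 : orderOf (⟨t₀, ht₀⟩ : A) = 2 := (Subgroup.orderOf_mk _ ht₀).trans hot₀
        have := unique_involution_of_cyclic h3 h4
        exact congrArg Subtype.val this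
      have hcardT : Nat.card (T : Subgroup G) ≤ 4 := by
        rw [← hV4]
        refine Nat.card_le_card_of_injective
          (fun t => (⟨g⁻¹ * (t : G) * g, ?_⟩ : V)) ?_
        · obtain ⟨k, hk⟩ := hTp _ t.2
          apply hmem _ _ k
          · rw [← hk]
            have h0 := orderOf_conj_eq g⁻¹ (t : G)
            simpa using h0
          · rw [Subgroup.mem_centralizer_singleton_iff]
            have h1 : ((t * t₀ * t⁻¹ : (T : Subgroup G)) : G) = (t₀ : (T : Subgroup G)) :=
              congrArg Subtype.val (hcomm t)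
            have h2 : ((t₀ : (T : Subgroup G)) : G) = g * x * g⁻¹ := ht₀e
            simp only [Subgroup.coe_mul, Subgroup.coe_inv] at h1
            rw [h2] at h1
            have h3 : (t : G) * (g * x * g⁻¹) = (g * x * g⁻¹) * t := by
              rw [mul_inv_eq_iff_eq_mul] at h1
              exact h1
            have h4 : g⁻¹ * (t : G) * g * x = g⁻¹ * ((t : G) * (g * x * g⁻¹)) * g := by group
            have h5 : x * (g⁻¹ * (t : G) * g) = g⁻¹ * ((g * x * g⁻¹) * t) * g := by group
            rw [h4, h5, h3]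
        · intro a c hac
          apply Subtype.ext
          have h1 := congrArg Subtype.val hac
          simpa using h1
      omega
    obtain ⟨φ, hφ⟩ := Cfsg.Agent.H08.Thom.exists_sign W x 1 (T : Subgroup G).index le_rfl hoddT hx2'
      hfree hWi
    exact hsign φ hφ
  -- the Sylow case
  have hT4 : Nat.card (T : Subgroup G) = 4 := by
    rw [← hVeq]
    exact hV4
  have hg₀ : Odd (T : Subgroup G).index := by
    rw [← Nat.not_even_iff_odd, even_iff_two_dvd]
    exact T.not_dvd_index
  have hG : Nat.card G = 4 * (T : Subgroup G).index := by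
    have h1 := (T : Subgroup G).card_mul_index
    rw [hT4] at h1
    exact h1.symm
  have hVnn : ¬ V.Normal := by
    intro hVn
    rcases IsSimpleGroup.eq_bot_or_eq_top_of_normal V hVn with h | h
    · rw [h, Subgroup.card_bot] at hV4
      omega
    · have hZn : (Subgroup.zpowers x).Normal := by
        refine ⟨fun n hn g => ?_⟩
        have hnV : n ∈ V := by
          rw [h]
          exact Subgroup.mem_top n
        have hgV : g ∈ V := by
          rw [h]
          exact Subgroup.mem_top g
        rw [hVcomm g hgV n hnV, mul_inv_cancel_right]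
        exact hn
      rcases IsSimpleGroup.eq_bot_or_eq_top_of_normal _ hZn with h2 | h2
      · rw [Subgroup.zpowers_eq_bot] at h2
        exact hx1 h2
      · have h3 : Nat.card (Subgroup.zpowers x) = 2 := by rw [Nat.card_zpowers, hx]
        have h4 : Nat.card G = 4 := by
          rw [← hV4, h]
          exact Nat.card_congr Subgroup.topEquiv.toEquiv.symm
        rw [h2, Nat.card_congr Subgroup.topEquiv.toEquiv, h4] at h3
        omega
  have hnc : ¬ ∃ N : Subgroup G, N.Normal ∧ Nat.card N = (T : Subgroup G).index := by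
    rintro ⟨N, hN, hNc⟩
    rcases IsSimpleGroup.eq_bot_or_eq_top_of_normal N hN with h | h
    · rw [h, Subgroup.card_bot] at hNc
      apply hVnn
      have h1 : Nat.card G = 4 := by rw [hG, ← hNc]
      have h2 : V = ⊤ := Subgroup.eq_top_of_card_eq V (by rw [hV4, h1])
      rw [h2]
      infer_instance
    · rw [h, Nat.card_congr Subgroup.topEquiv.toEquiv, hG] at hNc
      have := hg₀.pos
      omega
  obtain ⟨hP4, hexp, hone⟩ := klein_of_no_npc hg₀ hG hnc T
  obtain ⟨M, hM⟩ := exists_pModular Nat.prime_two
  haveI : M.IsPrime := hM.2.1.isPrime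
  obtain ⟨u, v, w, ε, hε, hu1, hv1, huv, huw, hvw, hset, hvals, h4u, h4v, h4w, hrel⟩ :=
    klein_main (M := M) hM T hP4 hexp hone
  obtain ⟨hux, hvx, hwx⟩ := hvals x hx
  have hw1 : (w : G → ℂ) ≠ fun _ => 1 := by
    intro h
    have h1 := congrFun h x
    rw [hwx] at h1
    norm_num at h1
  have hformula := klein_order_formula hM hg₀ hG hnc T hx u v w 1 ε (-1) hset
    ⟨hu1, hv1, hw1, huv, huw, hvw⟩ ⟨Or.inl rfl, hε, Or.inr rfl⟩
    ⟨by simpa using hux, hvx, by simpa using hwx⟩
  -- the centralizer normalizes
  have hCN : Subgroup.centralizer ({x} : Set G) ≤ Subgroup.normalizer (V : Set G) := by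
    intro c hc
    rw [Subgroup.mem_normalizer_iff]
    have hfwd : ∀ c : Subgroup.centralizer ({x} : Set G), ∀ h ∈ V, (c : G) * h * (c : G)⁻¹ ∈ V := by
      intro c h hh
      have h1 : (⟨h, hle hh⟩ : Subgroup.centralizer ({x} : Set G)) ∈
          V.subgroupOf (Subgroup.centralizer ({x} : Set G)) := by
        rw [Subgroup.mem_subgroupOf]
        exact hh
      have h2 := hn.conj_mem _ h1 c
      rw [Subgroup.mem_subgroupOf] at h2
      exact h2
    intro h
    constructor
    · exact hfwd ⟨c, hc⟩ h
    · intro hh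
      have h1 := hfwd ⟨c, hc⟩⁻¹ _ hh
      have h2 : ((⟨c, hc⟩⁻¹ : Subgroup.centralizer ({x} : Set G)) : G) *
          (c * h * c⁻¹) * ((⟨c, hc⟩⁻¹ : Subgroup.centralizer ({x} : Set G)) : G)⁻¹ = h := by
        simp only [Subgroup.coe_inv]
        group
      rwa [h2] at h1
  -- the transitivity on the non-identity elements of `V`
  have htrans : ∀ t ∈ V, t ≠ 1 → ∃ g ∈ Subgroup.normalizer (V : Set G), g * x * g⁻¹ = t := by
    intro t ht ht1
    have hord : orderOf t = 2 := orderOf_eq_prime (by rw [sq]; exact hVexp t ht) ht1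
    obtain ⟨g, hg⟩ := isConj_iff.mp (hone x t hx hord)
    refine ⟨g, ?_, hg⟩
    have hstep : ∀ v ∈ V, g⁻¹ * v * g ∈ V := by
      intro v hv
      obtain ⟨k, hk⟩ := hTp v (hVT hv)
      apply hmem _ _ k
      · rw [← hk]
        have h0 := orderOf_conj_eq g⁻¹ v
        simpa using h0
      · rw [Subgroup.mem_centralizer_singleton_iff]
        have h1 : v * t = t * v := hVcomm v hv t ht
        rw [← hg] at h1
        have h2 : g⁻¹ * v * g * x = g⁻¹ * (v * (g * x * g⁻¹)) * g := by group
        have h3 : x * (g⁻¹ * v * g) = g⁻¹ * ((g * x * g⁻¹) * v) * g := by group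
        rw [h2, h3, h1]
    have hinj : Function.Injective (fun v : V => (⟨g⁻¹ * v * g, hstep v v.2⟩ : V)) := by
      intro a c hac
      apply Subtype.ext
      have h1 := congrArg Subtype.val hac
      exact mul_left_cancel (mul_right_cancel h1)
    have hsurj := Finite.surjective_of_injective hinj
    rw [Subgroup.mem_normalizer_iff]
    intro h
    constructor
    · intro hh
      obtain ⟨⟨r, hr⟩, hr2⟩ := hsurj ⟨h, hh⟩
      have h1 : g⁻¹ * r * g = h := congrArg Subtype.val hr2
      have h2 : g * h * g⁻¹ = r := by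
        rw [← h1]
        group
      rw [h2]
      exact hr
    · intro hh
      have h1 := hstep _ hh
      have h2 : g⁻¹ * (g * h * g⁻¹) * g = h := by group
      rwa [h2] at h1
  have hidx := relIndex_eq_three hV4 hxV hx1 hCN htrans
  -- the centralizers of `x` and of `V` agree
  have hCeq : Subgroup.centralizer ({x} : Set G) = Subgroup.centralizer ((T : Subgroup G) : Set G) := by
    apply le_antisymm
    · intro c hc
      rw [Subgroup.mem_centralizer_iff]
      intro h hh
      have hhV : h ∈ V := by
        rw [hVeq]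
        exact hh
      obtain ⟨z, y, hzy, hcomm, ⟨k, hk⟩, hy⟩ := exists_pPart (p := 2) c
      have hxc : Commute x (z * y) := by
        rw [hzy]
        exact (Subgroup.mem_centralizer_singleton_iff.mp hc).symm
      obtain ⟨hxz, hxy⟩ := parts_commute hxc hcomm ⟨k, hk⟩ hy
      have hzV : z ∈ V := hmem z (Subgroup.mem_centralizer_singleton_iff.mpr hxz.eq.symm) k hk
      have hyC : y ∈ Subgroup.centralizer ({x} : Set G) :=
        Subgroup.mem_centralizer_singleton_iff.mpr hxy.eq.symm
      have hyh : h * y = y * h := by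
        by_cases hh1 : h = 1
        · rw [hh1]
          simp
        by_cases hhx : h = x
        · rw [hhx]
          exact hxy.eq
        have hN := Subgroup.mem_normalizer_iff.mp (hCN hyC)
        have hV' : y * h * y⁻¹ ∈ V := (hN h).mp hhV
        have hxh : x * h ∈ V := V.mul_mem hxV hhV
        have hne1 : h ≠ x * h := by
          intro h0
          exact hx1 (mul_eq_right.mp h0.symm)
        have hne2 : x ≠ x * h := by
          intro h0
          exact hh1 (mul_eq_left.mp h0.symm)
        have hne3 : (1 : G) ≠ x * h := by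
          intro h0
          have h1 : x = h⁻¹ := eq_inv_of_mul_eq_one_left h0.symm
          have h2 : h⁻¹ = h := inv_eq_of_mul_eq_one_left (hVexp h hhV)
          exact hhx (h1.trans h2).symm
        have hcases := ChzFour.mem_four_of_card V hV4 1 x h (x * h) (y * h * y⁻¹) V.one_mem hxV hhV
          hxh hV' (Ne.symm hx1) (Ne.symm hh1) hne3 (Ne.symm hhx) hne2 hne1
        have hyx : y * x * y⁻¹ = x := by
          rw [mul_inv_eq_iff_eq_mul]
          exact hxy.eq.symm
        have hsq : Commute (y ^ 2) h := by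
          rcases hcases with h0 | h0 | h0 | h0
          · exfalso
            rw [mul_inv_eq_one] at h0
            exact hh1 (mul_eq_left.mp h0)
          · exfalso
            apply hhx
            rw [← hyx] at h0
            exact mul_left_cancel (mul_right_cancel h0)
          · rw [mul_inv_eq_iff_eq_mul] at h0
            show y ^ 2 * h = h * y ^ 2
            rw [sq, mul_assoc, h0, ← mul_assoc, h0, mul_assoc]
          · have h1 : y * (x * h) * y⁻¹ = h := by
              have h2 : y * (x * h) * y⁻¹ = (y * x * y⁻¹) * (y * h * y⁻¹) := by group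
              rw [h2, hyx, h0, ← mul_assoc, ← sq]
              have h3 : x ^ 2 = 1 := by rw [sq]; exact hx2
              rw [h3, one_mul]
            have h4 : y ^ 2 * h * (y ^ 2)⁻¹ = h := by
              have h5 : y ^ 2 * h * (y ^ 2)⁻¹ = y * (y * h * y⁻¹) * y⁻¹ := by
                rw [sq]
                group
              rw [h5, h0, h1]
            rw [mul_inv_eq_iff_eq_mul] at h4
            exact h4
        obtain ⟨r, hr⟩ : ∃ r, orderOf y = 2 * r + 1 := by
          have h1 : Odd (orderOf y) := by
            rw [← Nat.not_even_iff_odd, even_iff_two_dvd]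
            exact hy
          exact h1
        have hypow : y = (y ^ 2) ^ (r + 1) := by
          rw [← pow_mul]
          have h1 : 2 * (r + 1) = orderOf y + 1 := by omega
          rw [h1, pow_succ, pow_orderOf_eq_one, one_mul]
        have h6 : Commute ((y ^ 2) ^ (r + 1)) h := hsq.pow_left _
        rw [← hypow] at h6
        exact h6.eq.symm
      have hzh : h * z = z * h := hVcomm h hhV z hzV
      rw [← hzy]
      calc h * (z * y) = (h * z) * y := by group
        _ = z * (h * y) := by rw [hzh, mul_assoc]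
        _ = z * (y * h) := by rw [hyh]
        _ = z * y * h := by group
    · apply Subgroup.centralizer_le
      rintro _ rfl
      exact hVT hxV
  -- the count
  set n := Nat.card (Sylow 2 G) with hn_def
  have hnidx : n = (Subgroup.normalizer (V : Set G)).index := by
    rw [hn_def, Sylow.card_eq_index_normalizer T, hVeq]
    rfl
  have hIndex : (Subgroup.centralizer ({x} : Set G)).index = 3 * n := by
    rw [← Subgroup.relIndex_mul_index hCN, hidx, hnidx]
  set C := Nat.card (Subgroup.centralizer ({x} : Set G)) with hCdef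
  have hGC : Nat.card G = 3 * n * C := by
    have h1 := (Subgroup.centralizer ({x} : Set G)).card_mul_index
    rw [hIndex] at h1
    rw [← h1, hCdef]
    ring
  have hCpos : 0 < C := Nat.card_pos
  have h4C : 4 ∣ C := by
    rw [← hV4, hCdef]
    exact Subgroup.card_dvd_of_le hle
  -- degrees
  have hdeg : ∀ χ : IrrCharacter G, χ.1 1 = (charDegree χ.1 : ℂ) := fun χ =>
    one_eq_charDegree (isCharacter_of_irr χ.2)
  have hapos : 1 ≤ charDegree u.1 := irr_charDegree_pos u.2
  have hbpos : 1 ≤ charDegree v.1 := irr_charDegree_pos v.2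
  have hcpos : 1 ≤ charDegree w.1 := irr_charDegree_pos w.2
  have hrel1 : (1 : ℤ) + (charDegree u.1 : ℤ) + ε * (charDegree v.1 : ℤ) - (charDegree w.1 : ℤ) = 0 := by
    have h1 := hrel 1 (by simp)
    rw [hdeg u, hdeg v, hdeg w] at h1
    exact_mod_cast h1
  have h4w' : (4 : ℤ) ∣ (charDegree w.1 : ℤ) + 1 := h4w
  have hc3 : 3 ≤ charDegree w.1 := by omega
  -- the identity
  have hkey : 3 * (n : ℚ) * (((charDegree u.1 : ℚ) + 1) * ((charDegree v.1 : ℚ) + ε) *
      ((charDegree w.1 : ℚ) + (-1 : ℤ))) =
      8 * ((charDegree u.1 : ℚ) * charDegree v.1 * charDegree w.1) := by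
    have hPi : (((charDegree u.1 : ℚ) + ((1 : ℤ) : ℚ)) * ((charDegree v.1 : ℚ) + ε) *
        ((charDegree w.1 : ℚ) + (-1 : ℤ))) ≠ 0 := by
      refine mul_ne_zero (mul_ne_zero ?_ ?_) ?_
      · have : (0 : ℚ) < (charDegree u.1 : ℚ) + ((1 : ℤ) : ℚ) := by
          push_cast
          positivity
        exact this.ne'
      · intro h0
        have h1 : ((charDegree v.1 : ℤ) + ε : ℤ) = 0 := by exact_mod_cast h0
        rcases hε with rfl | rfl <;> omega
      · intro h0
        have h1 : ((charDegree w.1 : ℤ) + (-1) : ℤ) = 0 := by exact_mod_cast h0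
        omega
    have hCQ : (C : ℚ) ≠ 0 := by exact_mod_cast hCpos.ne'
    have hGQ : (Nat.card G : ℚ) = 3 * n * C := by exact_mod_cast hGC
    rw [← hCeq, ← hCdef, hGQ] at hformula
    set A : ℚ := (charDegree u.1 : ℚ) * charDegree v.1 * charDegree w.1 with hA
    set P : ℚ := ((charDegree u.1 : ℚ) + ((1 : ℤ) : ℚ)) * ((charDegree v.1 : ℚ) + ε) *
        ((charDegree w.1 : ℚ) + (-1 : ℤ)) with hP
    have h1 : 8 * (A / P) * (C : ℚ) ^ 3 / (C : ℚ) ^ 2 = 8 * (A / P) * C := by field_simp
    rw [h1] at hformula
    have h2 := mul_right_cancel₀ hCQ hformula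
    have h3 : 3 * (n : ℚ) * P = 8 * A := by
      rw [h2]
      field_simp
    rw [hP] at h3
    push_cast at h3 ⊢
    linarith
  have hn_odd : n % 2 = 1 := by
    have h1 := card_sylow_modEq_one 2 G
    have h2 : Nat.card (Sylow 2 G) % 2 = 1 % 2 := h1
    rw [← hn_def] at h2
    omega
  have hn1 : n ≠ 1 := by
    intro h
    apply hVnn
    have h1 : Subsingleton (Sylow 2 G) := (Nat.card_eq_one_iff_unique.mp h).1
    rw [hVeq]
    exact Sylow.normal_of_subsingleton T
  have hnlt : n < 6 := by
    rcases hε with rfl | rfl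
    · have h3 : n < 3 := by
        have hrelQ : (1 : ℚ) + (charDegree u.1 : ℚ) + (charDegree v.1 : ℚ) - (charDegree w.1 : ℚ) = 0 := by
          have h5 : ((1 : ℤ) + (charDegree u.1 : ℤ) + (1 : ℤ) * (charDegree v.1 : ℤ) -
            (charDegree w.1 : ℤ) : ℤ) = 0 := hrel1
          have h6 : (((1 : ℤ) + (charDegree u.1 : ℤ) + (1 : ℤ) * (charDegree v.1 : ℤ) -
            (charDegree w.1 : ℤ) : ℤ) : ℚ) = 0 := by rw [h5]; norm_num
          push_cast at h6
          linarith
        have hk2 : 3 * (n : ℚ) * (((charDegree u.1 : ℚ) + 1) * ((charDegree v.1 : ℚ) + 1) *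
            ((charDegree w.1 : ℚ) - 1)) =
            8 * ((charDegree u.1 : ℚ) * charDegree v.1 * charDegree w.1) := by
          have h7 := hkey
          push_cast at h7
          linarith
        have := arith_pos (by exact_mod_cast hapos) (by exact_mod_cast hbpos) hrelQ hk2
        exact_mod_cast this
      omega
    · have hb3 : 3 ≤ charDegree v.1 := by
        have h4v' : (4 : ℤ) ∣ (charDegree v.1 : ℤ) - (-1) := h4v
        omega
      have hk2 : 3 * (n : ℚ) * (((charDegree u.1 : ℚ) + 1) * ((charDegree v.1 : ℚ) - 1) *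
          ((charDegree w.1 : ℚ) - 1)) =
          8 * ((charDegree u.1 : ℚ) * charDegree v.1 * charDegree w.1) := by
        have h7 := hkey
        push_cast at h7
        linarith
      have := arith_neg (by exact_mod_cast hapos) (by exact_mod_cast hb3) (by exact_mod_cast hc3) hk2
      exact_mod_cast this
  -- faithful action
  have hker : (MulAction.toPermHom G (Sylow 2 G)).ker = ⊥ := by
    rcases IsSimpleGroup.eq_bot_or_eq_top_of_normal _ (MonoidHom.normal_ker (MulAction.toPermHom G (Sylow 2 G))) with
      h | h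
    · exact h
    · exfalso
      apply hVnn
      rw [hVeq]
      refine ⟨fun t ht g => ?_⟩
      have h1 : g ∈ (MulAction.toPermHom G (Sylow 2 G)).ker := by
        rw [h]
        exact Subgroup.mem_top g
      have h2 : g • T = T := by
        have h3 := congrArg (fun f : Equiv.Perm (Sylow 2 G) => f T) (MonoidHom.mem_ker.mp h1)
        simpa using h3
      have h4 := ChzFour.conj_mem_smul T g t ht
      rwa [h2] at h4
  have hinj : Function.Injective (MulAction.toPermHom G (Sylow 2 G)) :=
    (MonoidHom.ker_eq_bot_iff _).mp hker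
  have hperm : ∀ m : ℕ, n = m → Nat.card G ∣ m.factorial := by
    intro m hm
    have e : Sylow 2 G ≃ Fin m := Finite.equivFinOfCardEq (hn_def.symm.trans hm)
    let F : G →* Equiv.Perm (Fin m) :=
      (Equiv.permCongrHom e).toMonoidHom.comp (MulAction.toPermHom G (Sylow 2 G))
    have hF : Function.Injective F := (Equiv.permCongrHom e).injective.comp hinj
    have h1 := Subgroup.card_dvd_of_injective F hF
    rwa [Nat.card_perm, Nat.card_fin] at h1
  have hn3 : n ≠ 3 := by
    intro h
    have h1 := hperm 3 h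
    have h2 : Nat.card G ∣ 6 := h1
    have h3 := hcardG4.trans h2
    omega
  have hn5 : n = 5 := by omega
  have hcard60 : Nat.card G = 60 := by
    have h1 : Nat.card G ∣ 120 := hperm 5 hn5
    obtain ⟨c', hc'⟩ := h4C
    have h2 : Nat.card G = 60 * c' := by
      rw [hGC, hn5, hc']
      ring
    have h3 : (T : Subgroup G).index = 15 * c' := by
      rw [h2] at hG
      omega
    have h4 : c' ∣ 2 := by
      rw [h2] at h1
      exact Nat.dvd_of_mul_dvd_mul_left (by norm_num : 0 < 60) h1
    have h5 : c' ≠ 0 := by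
      intro h0
      rw [h0] at h2
      have := Nat.card_pos (α := G)
      omega
    have h6 : c' ≤ 2 := Nat.le_of_dvd (by norm_num) h4
    have h7 := hg₀
    rw [h3] at h7
    interval_cases c' <;> simp_all <;> first | omega | (exfalso; revert h7; decide)
  have e : Sylow 2 G ≃ Fin 5 := Finite.equivFinOfCardEq (hn_def.symm.trans hn5)
  let F : G →* Equiv.Perm (Fin 5) :=
    (Equiv.permCongrHom e).toMonoidHom.comp (MulAction.toPermHom G (Sylow 2 G))
  have hF : Function.Injective F := (Equiv.permCongrHom e).injective.comp hinj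
  have hcard : Nat.card F.range = 60 := by
    rw [← hcard60]
    exact (Nat.card_congr (MonoidHom.ofInjective hF).toEquiv).symm
  have hidx2 : F.range.index = 2 := by
    have h1 := Subgroup.card_mul_index F.range
    rw [hcard] at h1
    have h2 : Nat.card (Equiv.Perm (Fin 5)) = 120 := by
      rw [Nat.card_perm, Nat.card_fin]
      rfl
    omega
  have hrange := Equiv.Perm.eq_alternatingGroup_of_index_eq_two hidx2
  exact ⟨(MonoidHom.ofInjective hF).trans (MulEquiv.subgroupCongr hrange)⟩

end Cfsg.Agent.H15.ChzV4
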