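import Mathlib

set_option autoImplicit false

namespace Cfsg.Agent.H15

/-- Two involutions of a finite group which are not conjugate have a central involution in the
dihedral group they generate: some involution commutes with both. -/
theorem exists_commuting_involution_of_not_isConj {G : Type*} [Group G] [Finite G] {a b : G}
    (ha : a * a = 1) (hb : b * b = 1) (hnc : ¬ IsConj a b) :
    ∃ u : G, orderOf u = 2 ∧ Commute u a ∧ Commute u b := by
  classical
  set ρ := a * b with hρ
  have hainv : a⁻¹ = a := inv_eq_of_mul_eq_one_left ha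
  have hbinv : b⁻¹ = b := inv_eq_of_mul_eq_one_left hb
  have hρinv : ρ⁻¹ = b * a := by rw [hρ, mul_inv_rev, hainv, hbinv]
  have hn : 0 < orderOf ρ := orderOf_pos ρ
  have conjA : ∀ k : ℕ, a * ρ ^ k * a = (ρ⁻¹) ^ k := by
    intro k
    have h1 : a * ρ * a⁻¹ = ρ⁻¹ := by
      rw [hρinv, hρ, hainv, mul_assoc, mul_assoc, ← mul_assoc a a (b * a), ha, one_mul]
    have := conj_pow (a := a) (b := ρ) (i := k)
    rw [h1, hainv] at this
    exact this.symm
  have conjB : ∀ k : ℕ, b * ρ ^ k * b = (ρ⁻¹) ^ k := by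
    intro k
    have h1 : b * ρ * b⁻¹ = ρ⁻¹ := by
      rw [hρinv, hρ, hbinv, mul_assoc, mul_assoc, hb, mul_one]
    have := conj_pow (a := b) (b := ρ) (i := k)
    rw [h1, hbinv] at this
    exact this.symm
  obtain ⟨m, hm | hm⟩ := Nat.even_or_odd' (orderOf ρ)
  · -- even: the power `ρ ^ m` is the central involution
    have hm0 : m ≠ 0 := by rintro rfl; omega
    have hu2 : (ρ ^ m) ^ 2 = 1 := by
      rw [← pow_mul, mul_comm, ← hm, pow_orderOf_eq_one]
    have hu1 : ρ ^ m ≠ 1 := by
      intro h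
      have := orderOf_dvd_of_pow_eq_one h
      rw [hm] at this
      have := Nat.le_of_dvd (Nat.pos_of_ne_zero hm0) this
      omega
    have hinv : (ρ⁻¹) ^ m = ρ ^ m := by
      rw [inv_pow]
      apply inv_eq_of_mul_eq_one_left
      rw [← pow_two]; exact hu2
    refine ⟨ρ ^ m, orderOf_eq_prime hu2 hu1, ?_, ?_⟩
    · -- commute with `a`
      have := conjA m
      rw [hinv] at this
      have h2 : a * ρ ^ m = ρ ^ m * a := by
        calc a * ρ ^ m = a * ρ ^ m * a * a := by rw [mul_assoc _ a a, ha, mul_one]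
          _ = ρ ^ m * a := by rw [this]
      exact h2.symm
    · have := conjB m
      rw [hinv] at this
      have h2 : b * ρ ^ m = ρ ^ m * b := by
        calc b * ρ ^ m = b * ρ ^ m * b * b := by rw [mul_assoc _ b b, hb, mul_one]
          _ = ρ ^ m * b := by rw [this]
      exact h2.symm
  · -- odd: `a` and `b` are conjugate
    exfalso
    apply hnc
    rw [isConj_iff]
    refine ⟨ρ ^ m, ?_⟩
    have h1 : a * (ρ ^ m)⁻¹ = ρ ^ m * a := by
      have := conjA m
      rw [inv_pow] at this
      have h2 : a * ρ ^ m = (ρ ^ m)⁻¹ * a := by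
        calc a * ρ ^ m = a * ρ ^ m * a * a := by rw [mul_assoc _ a a, ha, mul_one]
          _ = (ρ ^ m)⁻¹ * a := by rw [this]
      have h3 : (ρ ^ m) * (a * ρ ^ m) = a := by rw [h2, mul_inv_cancel_left]
      calc a * (ρ ^ m)⁻¹ = (ρ ^ m) * (a * ρ ^ m) * (ρ ^ m)⁻¹ := by rw [h3]
        _ = ρ ^ m * a := by group
    rw [mul_assoc, h1, ← mul_assoc, ← pow_add]
    have h4 : ρ ^ (m + m) = ρ⁻¹ := by
      apply eq_inv_of_mul_eq_one_left
      rw [← pow_succ, show m + m + 1 = orderOf ρ by omega, pow_orderOf_eq_one]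
    rw [h4, hρinv, mul_assoc, ha, mul_one]

end Cfsg.Agent.H15
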