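import Cfsg.Agent.Lib.H15.ZStarMain
import Cfsg.Agent.Lib.H15.ZStar1
import Cfsg.Agent.Lib.H15.OddCore

/-!
# Involutions whose centralizer contains at most three involutions
-/

set_option autoImplicit false
set_option linter.style.haveILetI false
set_option linter.unusedSectionVars false

namespace Cfsg.Agent.H15

open Cfsg Cfsg.Agent.H05

universe u

variable {G : Type u} [Group G] [Finite G]

/-- Non-conjugate involutions commute with a common involution. -/
theorem exists_common_invol {x y : G} (hx : orderOf x = 2) (hy : orderOf y = 2) (h : ¬ IsConj x y) :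
    ∃ z, orderOf z = 2 ∧ z * x = x * z ∧ z * y = y * z := by
  have hxx : x * x = 1 := by
    have := pow_orderOf_eq_one x
    rwa [hx, sq] at this
  have hyy : y * y = 1 := by
    have := pow_orderOf_eq_one y
    rwa [hy, sq] at this
  have hodd : ¬ Odd (orderOf (x * y)) := fun h' => h (invol_odd_conj hxx hyy h')
  rw [Nat.not_odd_iff_even] at hodd
  obtain ⟨m, hm⟩ := hodd
  set d := x * y with hd
  have hpos : 0 < orderOf d := orderOf_pos d
  have hm0 : 0 < m := by omega
  have hz1 : d ^ m ≠ 1 := pow_ne_one_of_lt_orderOf hm0.ne' (by omega)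
  have hzz : d ^ m * d ^ m = 1 := by
    rw [← pow_add, ← hm, pow_orderOf_eq_one]
  have hzi : (d ^ m)⁻¹ = d ^ m := inv_eq_of_mul_eq_one_left hzz
  obtain ⟨h1, h2⟩ := invol_inv_mul hxx hyy
  have h3 := inv_pow_of_conj h1 m
  have h4 := inv_pow_of_conj h2 m
  rw [hzi] at h3 h4
  refine ⟨d ^ m, orderOf_eq_prime (by rw [sq]; exact hzz) hz1, ?_, ?_⟩
  · have : x * d ^ m = d ^ m * x := by
      calc x * d ^ m = x * d ^ m * x⁻¹ * x := by group
        _ = d ^ m * x := by rw [h3]
    exact this.symm
  · have : y * d ^ m = d ^ m * y := by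
      calc y * d ^ m = y * d ^ m * y⁻¹ * y := by group
        _ = d ^ m * y := by rw [h4]
    exact this.symm

/-- In a simple group a central involution is the only involution. -/
theorem simple_center_invol [IsSimpleGroup G] {c x : G} (hc : ∀ g : G, g * c = c * g) (hco : orderOf c = 2)
    (hx : orderOf x = 2) : x = c := by
  have hcc : c ^ 2 = 1 := by
    have := pow_orderOf_eq_one c
    rwa [hco] at this
  have hn : (Subgroup.zpowers c).Normal := by
    constructor
    intro n hn g
    obtain ⟨k, rfl⟩ := Subgroup.mem_zpowers_iff.mp hn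
    have h1 : g * c ^ k * g⁻¹ = c ^ k := by
      have h2 : Commute g (c ^ k) := (Commute.zpow_right (hc g) k)
      rw [h2.eq]
      group
    rw [h1]
    exact Subgroup.zpow_mem _ (Subgroup.mem_zpowers c) k
  have hne : Subgroup.zpowers c ≠ ⊥ := by
    intro h
    have : c = 1 := by
      have h1 := Subgroup.mem_zpowers c
      rw [h] at h1
      exact Subgroup.mem_bot.mp h1
    rw [this, orderOf_one] at hco
    omega
  have htop : Subgroup.zpowers c = ⊤ := (IsSimpleGroup.eq_bot_or_eq_top_of_normal _ hn).resolve_left hne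
  have hxm : x ∈ Subgroup.zpowers c := by rw [htop]; exact Subgroup.mem_top x
  obtain ⟨k, rfl⟩ := Subgroup.mem_zpowers_iff.mp hxm
  have hk : c ^ k = 1 ∨ c ^ k = c := by
    rcases Int.emod_two_eq_zero_or_one k with h | h
    · left
      obtain ⟨l, rfl⟩ : ∃ l, k = 2 * l := ⟨k / 2, by omega⟩
      rw [zpow_mul, zpow_two, ← sq, hcc, one_zpow]
    · right
      obtain ⟨l, rfl⟩ : ∃ l, k = 2 * l + 1 := ⟨k / 2, by omega⟩
      rw [zpow_add, zpow_mul, zpow_two, ← sq, hcc, one_zpow, one_mul, zpow_one]
  rcases hk with hk | hk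
  · rw [hk, orderOf_one] at hx
    omega
  · exact hk

/-- The set of involutions commuting with `y`. -/
def involSet (y : G) : Set G := {u | orderOf u = 2 ∧ u * y = y * u}

theorem involSet_card {x y : G}
    (h3 : Nat.card {u : ↥(Subgroup.centralizer ({x} : Set G)) // orderOf u = 2} ≤ 3)
    (hc : IsConj x y) : Nat.card (involSet y) ≤ 3 := by
  obtain ⟨g, rfl⟩ := isConj_iff.mp hc
  refine le_trans ?_ h3
  have hmap : ∀ u : involSet (g * x * g⁻¹), g⁻¹ * (u : G) * g ∈ Subgroup.centralizer ({x} : Set G) := by
    rintro ⟨u, hu1, hu2⟩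
    rw [Subgroup.mem_centralizer_singleton_iff]
    show g⁻¹ * u * g * x = x * (g⁻¹ * u * g)
    calc g⁻¹ * u * g * x = g⁻¹ * (u * (g * x * g⁻¹)) * g := by group
      _ = g⁻¹ * ((g * x * g⁻¹) * u) * g := by rw [hu2]
      _ = _ := by group
  refine Nat.card_le_card_of_injective (fun u => ⟨⟨g⁻¹ * (u : G) * g, hmap u⟩, ?_⟩) ?_
  · rw [Subgroup.orderOf_mk]
    have h1 : g⁻¹ * (u : G) * g = MulAut.conj g⁻¹ (u : G) := by simp [MulAut.conj_apply]
    rw [h1, MulEquiv.orderOf_eq]
    exact u.2.1
  · intro a b hab
    have h1 : g⁻¹ * (a : G) * g = g⁻¹ * (b : G) * g := congrArg (fun v => ((v.1 : _) : G)) hab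
    exact Subtype.ext (mul_left_cancel (mul_right_cancel h1))

theorem involSet_three {x y p q r u : G}
    (h3 : Nat.card {u : ↥(Subgroup.centralizer ({x} : Set G)) // orderOf u = 2} ≤ 3)
    (hc : IsConj x y) (hp : p ∈ involSet y) (hq : q ∈ involSet y) (hr : r ∈ involSet y)
    (hu : u ∈ involSet y) (hpq : p ≠ q) (hpr : p ≠ r) (hqr : q ≠ r) : u = p ∨ u = q ∨ u = r := by
  classical
  by_contra hcon
  push Not at hcon
  obtain ⟨h1, h2, h3'⟩ := hcon
  have hcard := involSet_card h3 hc
  rw [Nat.card_coe_set_eq] at hcard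
  let s : Finset G := {u, p, q, r}
  have hs : s.card = 4 := by
    simp only [s]
    rw [Finset.card_insert_of_notMem, Finset.card_insert_of_notMem, Finset.card_insert_of_notMem,
      Finset.card_singleton]
    · simpa using hqr
    · simp only [Finset.mem_insert, Finset.mem_singleton, not_or]; exact ⟨hpq, hpr⟩
    · simp only [Finset.mem_insert, Finset.mem_singleton, not_or]; exact ⟨h1, h2, h3'⟩
  have hsub : (s : Set G) ⊆ involSet y := by
    intro v hv
    simp only [s, Finset.coe_insert, Finset.coe_singleton, Set.mem_insert_iff, Set.mem_singleton_iff] at hv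
    rcases hv with rfl | rfl | rfl | rfl <;> assumption
  have h4 := Set.ncard_le_ncard hsub (Set.toFinite _)
  rw [Set.ncard_coe_finset, hs] at h4
  omega

/-- All involutions are conjugate to `x`. -/
theorem few_invol_conj [IsSimpleGroup G] {x : G} (hx : orderOf x = 2)
    (h3 : Nat.card {u : ↥(Subgroup.centralizer ({x} : Set G)) // orderOf u = 2} ≤ 3)
    (y : G) (hy : orderOf y = 2) : IsConj x y := by
  by_contra hxy
  have hxx : x * x = 1 := by
    have := pow_orderOf_eq_one x
    rwa [hx, sq] at this
  have hx1 : x ≠ 1 := by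
    rintro rfl
    simp at hx
  obtain ⟨z, hz, hzx, hzy⟩ := exists_common_invol hx hy hxy
  obtain ⟨a, ha, hane⟩ : ∃ a, a ∈ involSet x ∧ a ≠ x := by
    by_cases hzx' : z = x
    · refine ⟨y, ⟨hy, ?_⟩, ?_⟩
      · rw [hzx'] at hzy
        exact hzy.symm
      · rintro rfl
        exact hxy (IsConj.refl _)
    · exact ⟨z, ⟨hz, hzx⟩, hzx'⟩
  have haa : a * a = 1 := by
    have := pow_orderOf_eq_one a
    rwa [ha.1, sq] at this
  have ha1 : a ≠ 1 := by
    rintro rfl
    have := ha.1
    simp at this
  have hxa : a * x = x * a := ha.2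
  have hself : x ∈ involSet x := ⟨hx, rfl⟩
  have hb : x * a ∈ involSet x := by
    refine ⟨?_, ?_⟩
    · apply orderOf_eq_prime
      · rw [sq]
        calc x * a * (x * a) = x * (a * x) * a := by group
          _ = x * (x * a) * a := by rw [hxa]
          _ = (x * x) * (a * a) := by group
          _ = 1 := by rw [hxx, haa, one_mul]
      · intro h
        apply hane
        have : a = x⁻¹ := eq_inv_of_mul_eq_one_right h
        rw [this, inv_eq_of_mul_eq_one_left hxx]
    · calc x * a * x = x * (a * x) := by group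
        _ = x * (x * a) := by rw [hxa]
  have hbx : x * a ≠ x := by
    intro h
    exact ha1 (mul_eq_left.mp h)
  have hba : x * a ≠ a := by
    intro h
    exact hx1 (mul_eq_right.mp h)
  have H : ∀ u ∈ involSet x, u = x ∨ u = a ∨ u = x * a := fun u hu =>
    involSet_three h3 (IsConj.refl x) hself ha hb hu hane.symm hbx.symm hba.symm
  have hz_mem : z ∈ involSet x := ⟨hz, hzx⟩
  -- case of exactly one conjugate
  have case3 : ∀ a' b' : G, a' ∈ involSet x → b' ∈ involSet x → a' ≠ x → b' ≠ x → a' ≠ b' →
      a' * b' = b' * a' → (∀ u ∈ involSet x, u = x ∨ u = a' ∨ u = b') →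
      ¬ IsConj x a' → IsConj x b' → False := by
    intro a' b' ha' hb' hax hbx' hab hcomm H' hca hcb
    have hcomm_all : ∀ g : G, (g * a' * g⁻¹) * a' = a' * (g * a' * g⁻¹) := by
      intro g
      set a'' := g * a' * g⁻¹ with ha''
      have hord : orderOf a'' = 2 := by
        have h1 : a'' = MulAut.conj g a' := by simp [ha'', MulAut.conj_apply]
        rw [h1, MulEquiv.orderOf_eq]
        exact ha'.1
      have hnc : ¬ IsConj x a'' := by
        intro h
        apply hca
        have h2 : IsConj a' a'' := isConj_iff.mpr ⟨g, rfl⟩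
        exact h.trans h2.symm
      obtain ⟨w, hw, hwx, hwa⟩ := exists_common_invol hx hord hnc
      have hwm : w ∈ involSet x := ⟨hw, hwx⟩
      rcases H' w hwm with hw1 | hw1 | hw1
      · -- `w = x`
        rw [hw1] at hwa
        have hm : a'' ∈ involSet x := ⟨hord, hwa.symm⟩
        rcases H' _ hm with h1 | h1 | h1
        · exact absurd (h1 ▸ IsConj.refl x) hnc
        · rw [h1]
        · exact absurd (h1 ▸ hcb) hnc
      · rw [hw1] at hwa
        exact hwa.symm
      · -- `w = b'`
        rw [hw1] at hwa
        have hm : a'' ∈ involSet b' := ⟨hord, hwa.symm⟩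
        have hself' : b' ∈ involSet b' := ⟨hb'.1, rfl⟩
        have hxb : x ∈ involSet b' := ⟨hx, hb'.2.symm⟩
        have hab' : a' ∈ involSet b' := ⟨ha'.1, hcomm⟩
        rcases involSet_three h3 hcb hself' hxb hab' hm hbx' hab.symm hax.symm with h1 | h1 | h1
        · exact absurd (h1 ▸ hcb) hnc
        · exact absurd (h1 ▸ IsConj.refl x) hnc
        · rw [h1]
    -- `a'` is central
    have ha'1 : a' ≠ 1 := by
      rintro rfl
      have := ha'.1
      simp at this
    have hnc : Subgroup.normalClosure ({a'} : Set G) = ⊤ := by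
      apply (IsSimpleGroup.eq_bot_or_eq_top_of_normal _ (Subgroup.normalClosure_normal)).resolve_left
      intro h
      have h1 : a' ∈ Subgroup.normalClosure ({a'} : Set G) := Subgroup.subset_normalClosure rfl
      rw [h] at h1
      exact ha'1 (Subgroup.mem_bot.mp h1)
    have hcentral : ∀ g : G, g * a' = a' * g := by
      have hle : Subgroup.normalClosure ({a'} : Set G) ≤ Subgroup.centralizer ({a'} : Set G) := by
        unfold Subgroup.normalClosure
        rw [Subgroup.closure_le]
        intro v hv
        obtain ⟨c, hc, hcv⟩ := Group.mem_conjugatesOfSet_iff.mp hv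
        obtain ⟨g, rfl⟩ := isConj_iff.mp hcv
        rw [Set.mem_singleton_iff] at hc
        subst hc
        rw [SetLike.mem_coe, Subgroup.mem_centralizer_singleton_iff]
        exact hcomm_all g
      intro g
      have h1 : g ∈ Subgroup.centralizer ({a'} : Set G) := by
        apply hle
        rw [hnc]
        exact Subgroup.mem_top g
      rw [Subgroup.mem_centralizer_singleton_iff] at h1
      exact h1
    exact hax (simple_center_invol hcentral ha'.1 hx).symm
  by_cases hca : IsConj x a
  · by_cases hcb : IsConj x (x * a)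
    · -- all of `I(x)` is conjugate to `x`
      have hcz : IsConj x z := by
        rcases H z hz_mem with h | h | h
        · rw [h]
        · rw [h]; exact hca
        · rw [h]; exact hcb
      obtain ⟨g, hg⟩ := isConj_iff.mp hcz
      have hm : g⁻¹ * y * g ∈ involSet x := by
        refine ⟨?_, ?_⟩
        · have h1 : g⁻¹ * y * g = MulAut.conj g⁻¹ y := by simp [MulAut.conj_apply]
          rw [h1, MulEquiv.orderOf_eq]
          exact hy
        · rw [← hg] at hzy
          calc g⁻¹ * y * g * x = g⁻¹ * (y * (g * x * g⁻¹)) * g := by group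
            _ = g⁻¹ * ((g * x * g⁻¹) * y) * g := by rw [hzy]
            _ = _ := by group
      have hc2 : IsConj x (g⁻¹ * y * g) := by
        rcases H _ hm with h | h | h
        · rw [h]
        · rw [h]; exact hca
        · rw [h]; exact hcb
      apply hxy
      have hc3 : IsConj (g⁻¹ * y * g) y := by
        apply isConj_iff.mpr
        exact ⟨g, by group⟩
      exact hc2.trans hc3
    · exact case3 (x * a) a hb ha hbx hane hba (by
        calc x * a * a = (a * x) * a := by rw [hxa]
          _ = a * (x * a) := by group) (fun u hu => by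
        rcases H u hu with h | h | h
        · exact Or.inl h
        · exact Or.inr (Or.inr h)
        · exact Or.inr (Or.inl h)) hcb hca
  · by_cases hcb : IsConj x (x * a)
    · exact case3 a (x * a) ha hb hane hbx hba.symm (by
        calc a * (x * a) = (a * x) * a := by group
          _ = x * a * a := by rw [hxa]) H hca hcb
    · -- `x` is isolated
      have hiso : IsIsolatedInvolution x := by
        refine ⟨hx, fun g hg => ?_⟩
        have hm : g * x * g⁻¹ ∈ involSet x := by
          refine ⟨?_, hg.eq.symm⟩
          have h1 : g * x * g⁻¹ = MulAut.conj g x := by simp [MulAut.conj_apply]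
          rw [h1, MulEquiv.orderOf_eq]
          exact hx
        have hc : IsConj x (g * x * g⁻¹) := isConj_iff.mpr ⟨g, rfl⟩
        rcases H _ hm with h | h | h
        · exact h
        · exact absurd (h ▸ hc) hca
        · exact absurd (h ▸ hc) hcb
      have hZ := zstar_theorem G x hiso
      have hinv : x⁻¹ = x := inv_eq_of_mul_eq_one_left hxx
      rcases IsSimpleGroup.eq_bot_or_eq_top_of_normal (oddCore G) (pPrimeCore_normal 2 G) with h | h
      · have hcentral : ∀ g : G, g * x = x * g := by
          intro g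
          have h1 := hZ g
          rw [h, Subgroup.mem_bot, hinv] at h1
          have h2 : x * g * x = g := by
            calc x * g * x = x * g * x * g⁻¹ * g := by group
              _ = g := by rw [h1, one_mul]
          calc g * x = (x * g * x) * x := by rw [h2]
            _ = x * g * (x * x) := by group
            _ = x * g := by rw [hxx, mul_one]
        exact hane (simple_center_invol hcentral hx ha.1)
      · have hxO : x ∈ oddCore G := by rw [h]; exact Subgroup.mem_top x
        have h1 : orderOf (⟨x, hxO⟩ : oddCore G) ∣ Nat.card (oddCore G) := orderOf_dvd_natCard _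
        rw [Subgroup.orderOf_mk, hx] at h1
        have h2 := card_oddCore_coprime (G := G)
        have h3' : Nat.gcd (Nat.card (oddCore G)) 2 = 2 := Nat.gcd_eq_right h1
        rw [Nat.Coprime] at h2
        omega

/-- The centralizer contains a Sylow `2`-subgroup. -/
theorem few_invol_sylow [IsSimpleGroup G] {x : G} (hx : orderOf x = 2)
    (h3 : Nat.card {u : ↥(Subgroup.centralizer ({x} : Set G)) // orderOf u = 2} ≤ 3) :
    ∃ S : Sylow 2 G, (S : Subgroup G) ≤ Subgroup.centralizer ({x} : Set G) := by
  classical
  haveI hp2 : Fact (Nat.Prime 2) := ⟨Nat.prime_two⟩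
  obtain ⟨T⟩ : Nonempty (Sylow 2 G) := inferInstance
  -- `T` is nontrivial
  have hdvd : 2 ∣ Nat.card G := by
    have := orderOf_dvd_natCard x
    rwa [hx] at this
  have hT : 2 ∣ Nat.card (T : Subgroup G) := by
    have h1 := T.card_eq_multiplicity
    rw [h1]
    have : (Nat.card G).factorization 2 ≠ 0 := by
      intro h0
      have := Nat.factorization_eq_zero_iff (Nat.card G) 2
      rw [this] at h0
      rcases h0 with h0 | h0 | h0
      · exact h0 Nat.prime_two
      · exact h0 hdvd
      · exact Nat.card_pos.ne' h0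
    exact dvd_pow_self 2 (by simpa using this)
  haveI : Nontrivial (T : Subgroup G) := by
    apply Finite.one_lt_card_iff_nontrivial.mp
    have h1 : 0 < Nat.card (T : Subgroup G) := Nat.card_pos
    have := Nat.le_of_dvd h1 hT
    omega
  haveI : Nontrivial (Subgroup.center (T : Subgroup G)) := T.isPGroup'.center_nontrivial
  have hZd : 2 ∣ Nat.card (Subgroup.center (T : Subgroup G)) := by
    have h1 : IsPGroup 2 (Subgroup.center (T : Subgroup G)) := T.isPGroup'.to_subgroup _
    obtain ⟨k, hk⟩ := IsPGroup.iff_card.mp h1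
    rw [hk]
    have hk0 : k ≠ 0 := by
      rintro rfl
      have := Finite.one_lt_card_iff_nontrivial.mpr (inferInstance :
        Nontrivial (Subgroup.center (T : Subgroup G)))
      omega
    exact dvd_pow_self 2 hk0
  obtain ⟨w, hw⟩ := exists_prime_orderOf_dvd_card' 2 hZd
  set w' : G := ((w : T) : G) with hw'
  have hw'o : orderOf w' = 2 := by
    rw [hw', Subgroup.orderOf_coe, Subgroup.orderOf_coe]
    exact hw
  have hcentral : ∀ t ∈ (T : Subgroup G), t * w' = w' * t := by
    intro t ht
    have h1 := (Subgroup.mem_center_iff.mp w.2) ⟨t, ht⟩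
    exact congrArg Subtype.val h1
  obtain ⟨c, hc⟩ := isConj_iff.mp (few_invol_conj hx h3 w' hw'o)
  refine ⟨c⁻¹ • T, ?_⟩
  rw [Sylow.coe_subgroup_smul]
  rintro _ ⟨t, ht, rfl⟩
  rw [Subgroup.mem_centralizer_singleton_iff]
  have h2 := hcentral t ht
  rw [← hc] at h2
  show (MulAut.conj c⁻¹) t * x = x * (MulAut.conj c⁻¹) t
  simp only [MulAut.conj_apply, inv_inv]
  calc c⁻¹ * t * c * x = c⁻¹ * (t * (c * x * c⁻¹)) * c := by group
    _ = c⁻¹ * ((c * x * c⁻¹) * t) * c := by rw [h2]
    _ = _ := by group

end Cfsg.Agent.H15
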