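import Cfsg.Agent.Lib.H22.MaxPair2
import Cfsg.Agent.Lib.H21.Second5
import Cfsg.Agent.Lib.H21.Second3
import Cfsg.Agent.Lib.H22.CycDefect
import Cfsg.Agent.Lib.H22.Frobenius

/-!
# Height zero characters and subsections

`TT χ a s` is the "trace" `χ(s a)` of an element `a` of the group ring.  Along a normal inclusion of
Brauer pairs the vanishing modulo `M` of `χ(s e_f)` passes upwards.  At a maximal pair this
contradicts the nonvanishing of a height zero character on a defect class.
-/

set_option autoImplicit false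
set_option linter.unusedSectionVars false
set_option linter.style.haveILetI false
set_option linter.unusedSimpArgs false

namespace Cfsg.Agent.H15.HZ

open Cfsg Cfsg.Agent.H21 Cfsg.Agent.H22

universe u

variable {G : Type u} [Group G] [Finite G] {p : ℕ} [hp : Fact p.Prime] {M : Ideal AlgInt}
variable [hMi : M.IsPrime]

/-- The trace of `s a` on a character. -/
noncomputable def TT (χ a : G → ℂ) (s : G) : ℂ := ∑ k, a k * χ (k * s)

theorem TT_sbc (χ : G → ℂ) (L : Subgroup G) (S : Set (IrrCharacter L)) (s : G) :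
    TT χ (subgroupBlockCoeff L S) s = ∑ k : L, blockCoeff S k * χ ((k : G) * s) := by
  unfold TT
  rw [sum_eq_sum_subgroup L _ (fun g hg => by
    rw [subgroupBlockCoeff_eq_extK, extK_of_not_mem L _ hg, zero_mul])]
  refine Finset.sum_congr rfl fun k _ => ?_
  rw [sbc_of_coe]

theorem res_isClass (χ : IrrCharacter G) (L : Subgroup G) :
    IsClassFunction L (fun x : L => χ.1 x) := by
  intro c k
  show χ.1 ((k : G) * (c : G) * (k : G)⁻¹) = χ.1 c
  exact irr_conj' χ _ _

theorem sum_res_expand (χ : IrrCharacter G) (L : Subgroup G)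
    {a : L → ℂ} (ha : IsClassFunction L a) (s : L) :
    ∑ c : L, a c * χ.1 ((c : G) * (s : G)) =
      ∑ ξ : IrrCharacter L, classInner (fun x : L => χ.1 x) ξ.1 * (om ξ a * ξ.1 s) := by
  classical
  have hexp := classFunction_expansion (fun x : L => χ.1 x) (res_isClass χ L)
  have h1 : ∀ c : L, χ.1 ((c : G) * (s : G)) =
      ∑ ξ : IrrCharacter L, classInner (fun x : L => χ.1 x) ξ.1 * ξ.1 (c * s) := by
    intro c
    have := congrFun hexp (c * s)
    simpa [Finset.sum_apply] using this
  simp only [h1, Finset.mul_sum]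
  rw [Finset.sum_comm]
  refine Finset.sum_congr rfl fun ξ _ => ?_
  have h2 := sum_class_mul_char a ha ξ s
  rw [← h2, Finset.mul_sum]
  refine Finset.sum_congr rfl fun c _ => by ring

theorem om_blockCoeff {H : Type*} [Group H] [Finite H]
    (S : Set (IrrCharacter H)) (ξ : IrrCharacter H) : om ξ (blockCoeff S) = eB S ξ := by
  rw [funext (blockCoeff_eq_ofOm S), om_ofOm]

theorem TT_expand (χ : IrrCharacter G) (L : Subgroup G)
    (S : Set (IrrCharacter L)) (s : L) :
    TT χ.1 (subgroupBlockCoeff L S) s =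
      ∑ ξ : IrrCharacter L, classInner (fun x : L => χ.1 x) ξ.1 * (eB S ξ * ξ.1 s) := by
  rw [TT_sbc, sum_res_expand χ L (blockCoeff_isClass S) s]
  refine Finset.sum_congr rfl fun ξ _ => ?_
  rw [om_blockCoeff]

theorem mult_mlr (χ : IrrCharacter G) (L : Subgroup G)
    (ξ : IrrCharacter L) : MemLocalRing M (classInner (fun x : L => χ.1 x) ξ.1) := by
  obtain ⟨m, hm⟩ := classInner_isNat (isCharacter_restrict L (isCharacter_of_irr χ.2)) ξ
  rw [hm]
  exact mlr_natCast m

theorem irr_mlr {H : Type*} [Group H] [Finite H] (ξ : IrrCharacter H) (g : H) :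
    MemLocalRing M (ξ.1 g) := mlr_of_isIntegral (irr_isIntegral' ξ g)

/-- Cutting down from a saturated set to a block inside it. -/
theorem TT_cut (χ : IrrCharacter G) (L : Subgroup G)
    {e U : Set (IrrCharacter L)} (he : IsPBlock M e) (heU : e ⊆ U)
    (h : ∀ y : L, MemLocalIdeal M (TT χ.1 (subgroupBlockCoeff L U) y)) (y : L) :
    MemLocalIdeal M (TT χ.1 (subgroupBlockCoeff L e) y) := by
  classical
  have h1 : TT χ.1 (subgroupBlockCoeff L e) y =
      ∑ k : L, blockCoeff e k * TT χ.1 (subgroupBlockCoeff L U) (k * y) := by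
    have h0 : ∀ k : L, TT χ.1 (subgroupBlockCoeff L U) ((k : G) * (y : G)) =
        ∑ ξ : IrrCharacter L, classInner (fun x : L => χ.1 x) ξ.1 * (eB U ξ * ξ.1 (k * y)) :=
      fun k => TT_expand χ L U (k * y)
    simp only [h0, TT_expand, Finset.mul_sum]
    rw [Finset.sum_comm]
    refine Finset.sum_congr rfl fun ξ _ => ?_
    have h2 := sum_class_mul_char (blockCoeff e) (blockCoeff_isClass e) ξ y
    rw [om_blockCoeff] at h2
    have h3 : eB e ξ = eB U ξ * eB e ξ := by
      by_cases hξ : ξ ∈ e
      · rw [eB_apply_mem hξ, eB_apply_mem (heU hξ), one_mul]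
      · rw [eB_apply_not_mem hξ, mul_zero]
    calc classInner (fun x : L => χ.1 x) ξ.1 * (eB e ξ * ξ.1 y)
        = classInner (fun x : L => χ.1 x) ξ.1 * (eB U ξ * (eB e ξ * ξ.1 y)) := by
          rw [← mul_assoc (eB U ξ), ← h3]
      _ = _ := by
          rw [← h2, Finset.mul_sum, Finset.mul_sum]
          refine Finset.sum_congr rfl fun k _ => by ring
  rw [h1]
  exact mli_sum _ _ fun k _ => mli_mul_left (h (k * y)) (blockCoeff_mlr he k)

/-- The Brauer map congruence for traces. -/
theorem TT_congr (hMp : IsPModular p M) (χ : IrrCharacter G) {P : Subgroup G} (hP : IsPGroup p P)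
    {a : G → ℂ} (hR : ∀ g, MemLocalRing M (a g)) (haP : Ad P a)
    (haC : Ad (Subgroup.centralizer (P : Set G)) a)
    (hid : ∀ g, MemLocalIdeal M (conv a a g - a g))
    (y : Subgroup.centralizer (P : Set G)) :
    MemLocalIdeal M (TT χ.1 a y - TT χ.1 (subgroupBlockCoeff (Subgroup.centralizer (P : Set G))
      (brSet M P a)) y) := by
  classical
  have h1 := mli_sum_conj hMp P hP (fun k : G => a k * χ.1 (k * (y : G)))
    (fun g => mlr_mul (hR g) (irr_mlr χ _))
    (fun q hq g => by
      show a (q * g * q⁻¹) * χ.1 (q * g * q⁻¹ * (y : G)) = a g * χ.1 (g * (y : G))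
      rw [haP q hq]
      congr 1
      have hc : q * (y : G) = (y : G) * q := Subgroup.mem_centralizer_iff.mp y.2 q hq
      have : q * g * q⁻¹ * (y : G) = q * (g * (y : G)) * q⁻¹ := by
        have h2 : q⁻¹ * (y : G) = (y : G) * q⁻¹ := by
          rw [inv_mul_eq_iff_eq_mul, ← mul_assoc, hc, mul_assoc, mul_inv_cancel, mul_one]
        rw [mul_assoc (q * g), h2]
        group
      rw [this]
      exact irr_conj' χ _ _)
  have h2 : MemLocalIdeal M (∑ c : Subgroup.centralizer (P : Set G), a c * χ.1 ((c : G) * (y : G)) -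
      TT χ.1 (subgroupBlockCoeff (Subgroup.centralizer (P : Set G)) (brSet M P a)) y) := by
    rw [TT_sbc, ← Finset.sum_sub_distrib]
    refine mli_sum _ _ fun c _ => ?_
    rw [← sub_mul]
    exact mli_mul_right (brT_congr_blockCoeff hMp hP hR haP haC hid c) (irr_mlr χ _)
  have h3 := mli_add h1 h2
  convert h3 using 1
  unfold TT
  ring

/-- The property passed along the chain. -/
def VV (M : Ideal AlgInt) (χ : IrrCharacter G) (a : BrauerPairIdx G) : Prop :=
  ∀ s : Subgroup.centralizer (a.1 : Set G),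
    MemLocalIdeal M (TT χ.1 (subgroupBlockCoeff (Subgroup.centralizer (a.1 : Set G)) a.2) s)

/-- **The step along a normal inclusion.** -/
theorem VV_step (hMp : IsPModular p M) (χ : IrrCharacter G) {a c : BrauerPairIdx G}
    (hac : NormalSubpairRel p M a c) (hV : VV M χ a) : VV M χ c := by
  classical
  obtain ⟨Q, f⟩ := a
  obtain ⟨P, e⟩ := c
  obtain ⟨hf, he, hQP, hPN, hst, hsub⟩ := isNormalSubpair_iff.mp hac
  have hCC : Subgroup.centralizer (P : Set G) ≤ Subgroup.centralizer (Q : Set G) :=
    centralizer_le_of_le hQP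
  have hkey := fun y : Subgroup.centralizer (P : Set G) =>
    TT_congr hMp χ he.1 (a := subgroupBlockCoeff (Subgroup.centralizer (Q : Set G)) f)
    (sbc_mlr _ (blockSat_of_isBlock hf.2)) (sbc_Ad_of_stable hst) (sbc_Ad_of_le hCC f)
    (fun g => by rw [sbc_conv_self, sub_self]; exact mli_zero) y
  refine fun s => TT_cut χ _ he.2 hsub (fun y => ?_) s
  have h1 := hV ⟨y, hCC y.2⟩
  simp only at h1
  have h2 := mli_sub h1 (hkey y)
  simpa using h2

theorem TT_class (χ : IrrCharacter G) {B : Set (IrrCharacter G)}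
    (hχ : χ ∈ B) (y : G) : TT χ.1 (blockCoeff B) y = χ.1 y := by
  unfold TT
  rw [sum_class_mul_char _ (blockCoeff_isClass B), om_blockCoeff, eB_apply_mem hχ, one_mul]

theorem TT_conj (χ : IrrCharacter G) {L : Subgroup G} {n : G}
    (hn : n ∈ Subgroup.normalizer (L : Set G)) (e : Set (IrrCharacter L)) (y : G) :
    TT χ.1 (subgroupBlockCoeff L (irrMap (phiK L hn) '' e)) y =
      TT χ.1 (subgroupBlockCoeff L e) (n⁻¹ * y * n) := by
  classical
  unfold TT
  simp only [sbc_image]
  rw [← Equiv.sum_comp (MulAut.conj n).toEquiv]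
  refine Finset.sum_congr rfl fun k _ => ?_
  show subgroupBlockCoeff L e (n⁻¹ * (n * k * n⁻¹) * n) * χ.1 (n * k * n⁻¹ * y) =
    subgroupBlockCoeff L e k * χ.1 (k * (n⁻¹ * y * n))
  have h1 : n⁻¹ * (n * k * n⁻¹) * n = k := by group
  rw [h1]
  congr 1
  have h2 : n * k * n⁻¹ * y = n * (k * (n⁻¹ * y * n)) * n⁻¹ := by group
  rw [h2]
  exact irr_conj' χ _ _

/-- At a maximal pair: a character of `B` vanishes modulo `M` on the centralizer. -/
theorem VV_top (hMp : IsPModular p M) {B : Set (IrrCharacter G)} {P : Subgroup G}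
    {e : Set (IrrCharacter (Subgroup.centralizer (P : Set G)))}
    (hmax : IsMaximalBrauerPair p M B P e) {χ : IrrCharacter G} (hχ : χ ∈ B)
    (hV : VV M χ ⟨P, e⟩) (y : Subgroup.centralizer (P : Set G)) : MemLocalIdeal M (χ.1 y) := by
  classical
  have hPb := isBrauerPairOf_iff.mp hmax.1
  have hP : IsPGroup p P := hPb.1.1
  have hB : IsPBlock M B := hPb.2.1
  have h1 := TT_congr hMp χ hP (a := blockCoeff B) (blockCoeff_mlr hB) (blockCoeff_Ad B P)
    (blockCoeff_Ad B _) (fun g => by rw [blockCoeff_conv_self, sub_self]; exact mli_zero) y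
  rw [TT_class χ hχ] at h1
  have hsat : BlockSat M (brSet M P (blockCoeff B)) :=
    brSet_sat (blockCoeff_Ad B _) (blockCoeff_mlr hB)
  have h2 : MemLocalIdeal M (TT χ.1 (subgroupBlockCoeff (Subgroup.centralizer (P : Set G))
      (brSet M P (blockCoeff B))) y) := by
    rw [sbc_sat_eq_sum _ hsat]
    have h3 : ∀ (s : Finset (Set (IrrCharacter (Subgroup.centralizer (P : Set G)))))
        (g : Set (IrrCharacter (Subgroup.centralizer (P : Set G))) → G → ℂ),
        TT χ.1 (∑ f ∈ s, g f) y = ∑ f ∈ s, TT χ.1 (g f) y := by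
      intro s g
      unfold TT
      simp only [Finset.sum_apply, Finset.sum_mul]
      rw [Finset.sum_comm]
    rw [h3]
    refine mli_sum _ _ fun f hf => ?_
    split_ifs with hfU
    · have hfb := mem_blocksF.mp hf
      have hpair : IsBrauerPairOf p M B P f :=
        isBrauerPairOf_iff.mpr ⟨⟨hP, hfb⟩, hB, hfU⟩
      obtain ⟨n, hn, rfl⟩ := exists_conj_of_maximal hMp hmax hpair
      rw [TT_conj]
      have hn' := normalizer_le_normalizer_centralizer P hn
      have hmem : n⁻¹ * (y : G) * n ∈ Subgroup.centralizer (P : Set G) := by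
        have := (Subgroup.mem_normalizer_iff.mp (Subgroup.inv_mem _ hn') (y : G)).mp y.2
        simpa using this
      exact hV ⟨_, hmem⟩
    · unfold TT
      simp only [Pi.zero_apply, zero_mul, Finset.sum_const_zero]
      exact mli_zero
  have h4 := mli_add h1 h2
  simpa using h4

end Cfsg.Agent.H15.HZ
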