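import Cfsg.Agent.Lib.H15.HZ1

/-!
# Height zero subsections: the nonvanishing theorem
-/

set_option autoImplicit false
set_option linter.unusedSectionVars false
set_option linter.style.haveILetI false
set_option linter.unusedSimpArgs false

namespace Cfsg.Agent.H15.HZ

open Cfsg Cfsg.Agent.H21 Cfsg.Agent.H22

universe u

variable {G : Type u} [Group G] [Finite G] {p : ℕ} [hp : Fact p.Prime] {M : Ideal AlgInt}
variable [hMi : M.IsPrime]

/-- From vanishing on regular elements to the trace property on the centralizer. -/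
theorem start_VV (hMp : IsPModular p M) (χ : IrrCharacter G) {x : G} {k : ℕ}
    (hx : orderOf x = p ^ k) {C : Subgroup G} (hxC : ∀ c ∈ C, Commute x c)
    {b : Set (IrrCharacter C)} (hb : IsPBlock M b)
    (hcl : IsClassFunction C (fun c : C => χ.1 (x * (c : G))))
    (hv : ∀ y : C, ¬ p ∣ orderOf y → blockPart b (fun c : C => χ.1 (x * (c : G))) y = 0)
    (s : C) : MemLocalIdeal M (TT χ.1 (subgroupBlockCoeff C b) s) := by
  classical
  have hreg : ∀ y : C, ¬ p ∣ orderOf y → MemLocalIdeal M (TT χ.1 (subgroupBlockCoeff C b) y) := by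
    intro y hy
    have h1 := hv y hy
    rw [blockPart_eq_sum b hcl] at h1
    have h2 : TT χ.1 (subgroupBlockCoeff C b) y =
        TT χ.1 (subgroupBlockCoeff C b) y -
          ∑ c : C, blockCoeff b c * χ.1 (x * ((c * y : C) : G)) := by
      rw [h1, sub_zero]
    rw [h2, TT_sbc, ← Finset.sum_sub_distrib]
    refine mli_sum _ _ fun c _ => ?_
    rw [← mul_sub]
    refine mli_mul_left ?_ (blockCoeff_mlr hb c)
    have h3 := char_mul_pElement_congr hMp (isCharacter_of_irr χ.2)
      (hxC _ ((c * y : C) : C).2) hx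
    have h4 := mli_neg h3
    convert h4 using 1
    simp only [Subgroup.coe_mul]
    ring
  obtain ⟨u, r, hur, hc, ⟨j, hj⟩, hrp, -, -⟩ := exists_pPart_decomp' p s
  have hrreg : ¬ p ∣ orderOf r := fun h =>
    (Nat.Prime.coprime_iff_not_dvd hp.out).mp hrp.symm h
  have h5 := hreg r hrreg
  have h6 : MemLocalIdeal M (TT χ.1 (subgroupBlockCoeff C b) s -
      TT χ.1 (subgroupBlockCoeff C b) r) := by
    rw [TT_expand, TT_expand, ← Finset.sum_sub_distrib]
    refine mli_sum _ _ fun ξ _ => ?_
    rw [← mul_sub, ← mul_sub]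
    refine mli_mul_left (mli_mul_left ?_ ?_) (mult_mlr χ C ξ)
    · rw [hur]
      exact char_mul_pElement_congr hMp (isCharacter_of_irr ξ.2) hc hj
    · by_cases hξ : ξ ∈ b
      · rw [eB_apply_mem hξ]
        exact mlr_one
      · rw [eB_apply_not_mem hξ]
        exact mlr_zero
  have h7 := mli_add h6 h5
  simpa using h7

/-- **The nonvanishing theorem.** -/
theorem hz_main (hMp : IsPModular p M) {B : Set (IrrCharacter G)} (hB : IsPBlock M B)
    {χ : IrrCharacter G} (hχ : χ ∈ B) (h0 : blockHeight p B χ.1 = 0) {x : G} {k : ℕ}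
    (hx : orderOf x = p ^ k) {C : Subgroup G}
    (hC : C = Subgroup.centralizer (Subgroup.zpowers x : Set G)) {b : Set (IrrCharacter C)}
    (hb : IsInducedBlock M C b B)
    (hcl : IsClassFunction C (fun c : C => χ.1 (x * (c : G)))) :
    ∃ y : C, ¬ p ∣ orderOf y ∧ blockPart b (fun c : C => χ.1 (x * (c : G))) y ≠ 0 := by
  classical
  subst hC
  by_contra hcon
  have hv : ∀ y : Subgroup.centralizer (Subgroup.zpowers x : Set G), ¬ p ∣ orderOf y →
      blockPart b (fun c : Subgroup.centralizer (Subgroup.zpowers x : Set G) => χ.1 (x * (c : G))) y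
        = 0 := by
    intro y hy
    by_contra hne
    exact hcon ⟨y, hy, hne⟩
  have hxC : ∀ c ∈ Subgroup.centralizer (Subgroup.zpowers x : Set G), Commute x c := by
    intro c hc
    exact Subgroup.mem_centralizer_iff.mp hc x (Subgroup.mem_zpowers x)
  have hQ := isPGroup_zpowers_of_orderOf hx
  have hpair := pair_of_induced_centralizer hMp hQ hb
  obtain ⟨P, e, hmax, hle⟩ := exists_maximal_above hMp hpair
  have hV0 : VV M χ ⟨Subgroup.zpowers x, b⟩ :=
    fun s => start_VV hMp χ hx hxC hb.1 hcl hv s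
  have hV : ∀ a : BrauerPairIdx G,
      Relation.ReflTransGen (NormalSubpairRel p M) ⟨Subgroup.zpowers x, b⟩ a → VV M χ a := by
    intro a ha
    induction ha with
    | refl => exact hV0
    | tail _ h2 ih => exact VV_step hMp χ h2 ih
  have hVP := hV ⟨P, e⟩ hle
  obtain ⟨g, hg, S, hS⟩ := isDefectGroup_of_maximal hMp hmax
  have hgP : g ∈ Subgroup.centralizer (P : Set G) := by
    rw [Subgroup.mem_centralizer_iff]
    intro q hq
    have hq' : q ∈ (S : Subgroup (Subgroup.centralizer ({g} : Set G))).map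
        (Subgroup.centralizer ({g} : Set G)).subtype := by
      rw [← hS]
      exact hq
    obtain ⟨q₁, -, rfl⟩ := hq'
    exact (Subgroup.mem_centralizer_singleton_iff.mp q₁.2)
  have h1 := VV_top hMp hmax hχ hVP ⟨g, hgP⟩
  have h2 := height_zero_not_mli hMp hB hg hχ (height_zero_iff hχ h0) (x := 1)
    (Commute.one_left g) (k := 0) (by simp)
  rw [one_mul] at h2
  exact h2 h1

end Cfsg.Agent.H15.HZ
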