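import Cfsg.Agent.Lib.H22.GalLocal
import Cfsg.Agent.Lib.H23.CharRows

/-! # Galois averaging in cyclotomic fields -/

set_option autoImplicit false
set_option linter.unusedSectionVars false
set_option linter.style.haveILetI false
set_option linter.unusedSimpArgs false
set_option linter.unusedVariables false

namespace Cfsg.Agent.H15.KB

open Cfsg Cfsg.Agent.H21 Cfsg.Agent.H22 Module Polynomial
open scoped ComplexConjugate

universe u

/-- The cyclotomic subfield of `ℂ`. -/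
noncomputable abbrev cyc (n : ℕ) : IntermediateField ℚ ℂ :=
  IntermediateField.adjoin ℚ ({Complex.exp (2 * Real.pi * Complex.I / (n : ℂ))} : Set ℂ)

theorem root_mem_cyc {n : ℕ} (hn : n ≠ 0) {μ : ℂ} (hμ : μ ^ n = 1) : μ ∈ cyc n := by
  haveI : NeZero n := ⟨hn⟩
  have hζ : IsPrimitiveRoot (Complex.exp (2 * Real.pi * Complex.I / (n : ℂ))) n :=
    Complex.isPrimitiveRoot_exp n hn
  obtain ⟨k, -, rfl⟩ := hζ.eq_pow_of_pow_eq_one hμ
  exact pow_mem (IntermediateField.mem_adjoin_simple_self ℚ _) k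

theorem zeta_norm {n : ℕ} (hn : n ≠ 0) : ‖Complex.exp (2 * Real.pi * Complex.I / (n : ℂ))‖ = 1 :=
  (Complex.isPrimitiveRoot_exp n hn).norm'_eq_one hn

theorem conj_mem_cyc {n : ℕ} (hn : n ≠ 0) {u : ℂ} (hu : u ∈ cyc n) : conj u ∈ cyc n := by
  induction hu using IntermediateField.adjoin_induction with
  | mem x hx =>
    rw [Set.mem_singleton_iff] at hx
    subst hx
    rw [← Complex.inv_eq_conj (zeta_norm hn)]
    exact inv_mem (IntermediateField.mem_adjoin_simple_self ℚ _)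
  | algebraMap x =>
    have : conj (algebraMap ℚ ℂ x) = algebraMap ℚ ℂ x := by simp
    rw [this]
    exact algebraMap_mem _ x
  | add x y _ _ hx hy => rw [map_add]; exact add_mem hx hy
  | inv x _ hx => rw [map_inv₀]; exact inv_mem hx
  | mul x y _ _ hx hy => rw [map_mul]; exact mul_mem hx hy

theorem conj_comm {n : ℕ} (hn : n ≠ 0) (τ : ℂ →+* ℂ) {u : ℂ} (hu : u ∈ cyc n) :
    τ (conj u) = conj (τ u) := by
  induction hu using IntermediateField.adjoin_induction with
  | mem x hx =>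
    rw [Set.mem_singleton_iff] at hx
    subst hx
    have hζ := Complex.isPrimitiveRoot_exp n hn
    have h1 : (τ (Complex.exp (2 * Real.pi * Complex.I / (n : ℂ)))) ^ n = 1 := by
      rw [← map_pow, hζ.pow_eq_one, map_one]
    have h2 := Complex.norm_eq_one_of_pow_eq_one h1 hn
    rw [← Complex.inv_eq_conj (zeta_norm hn), ← Complex.inv_eq_conj h2, map_inv₀]
  | algebraMap x =>
    have h1 : conj (algebraMap ℚ ℂ x) = algebraMap ℚ ℂ x := by simp
    have h2 : τ (algebraMap ℚ ℂ x) = algebraMap ℚ ℂ x := by simp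
    rw [h1, h2, h1]
  | add x y _ _ hx hy => simp only [map_add, hx, hy]
  | inv x _ hx => simp only [map_inv₀, hx]
  | mul x y _ _ hx hy => simp only [map_mul, hx, hy]

/-- **Galois averaging.** -/
theorem card_le_of_sum {n : ℕ} (hn : n ≠ 0) {I : Type*} [Fintype I] (u : I → ℂ)
    (hu : ∀ i, u i ∈ cyc n) (J : Finset I) (hJ0 : ∀ j ∈ J, u j ≠ 0)
    (hJ : ∀ j ∈ J, IsIntegral ℤ (u j)) {L : ℕ} (hL : ∑ i, u i * conj (u i) = L) :
    J.card ≤ L := by
  classical
  set ζ := Complex.exp (2 * Real.pi * Complex.I / (n : ℂ)) with hζd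
  have hζ : IsPrimitiveRoot ζ n := Complex.isPrimitiveRoot_exp n hn
  haveI : NeZero n := ⟨hn⟩
  let E : IntermediateField ℚ ℂ := IntermediateField.adjoin ℚ {ζ}
  have halg : IsAlgebraic ℚ ζ := by
    refine ⟨Polynomial.X ^ n - 1, Polynomial.X_pow_sub_C_ne_zero (Nat.pos_of_ne_zero hn) (1 : ℚ), ?_⟩
    simp [hζ.pow_eq_one]
  have hcyc : IsCyclotomicExtension {n} ℚ E := by
    change IsCyclotomicExtension {n} ℚ E.toSubalgebra
    simp only [E]
    rw [IntermediateField.adjoin_simple_toSubalgebra_of_isAlgebraic halg]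
    exact hζ.adjoin_isCyclotomicExtension ℚ
  haveI hgal : IsGalois ℚ E := IsCyclotomicExtension.isGalois {n} ℚ E
  haveI : FiniteDimensional ℚ E := IsCyclotomicExtension.finiteDimensional {n} ℚ E
  let u' : I → E := fun i => ⟨u i, hu i⟩
  have hEcoe : ∀ a : E, algebraMap E ℂ a = (a : ℂ) := fun _ => rfl
  -- the sums are preserved
  have hsum : ∀ σ : Gal(E/ℚ), ∑ i, ‖((σ (u' i) : E) : ℂ)‖ ^ 2 = (L : ℝ) := by
    intro σ
    obtain ⟨τ, hτ⟩ := H06.exists_ringHom_extend (K := E) σ.toRingEquiv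
    have hτu : ∀ i, τ (u i) = ((σ (u' i) : E) : ℂ) := fun i => hτ (u' i)
    have h1 := congrArg τ hL
    rw [map_sum, map_natCast] at h1
    have h2 : ∀ i, τ (u i * conj (u i)) = (((‖((σ (u' i) : E) : ℂ)‖ ^ 2 : ℝ)) : ℂ) := by
      intro i
      rw [map_mul, conj_comm hn τ (hu i), hτu, Complex.mul_conj']
      push_cast
      rfl
    simp only [h2] at h1
    exact_mod_cast h1
  -- the points
  have hpt : ∀ j ∈ J, (Fintype.card Gal(E/ℚ) : ℝ) ≤ ∑ σ : Gal(E/ℚ), ‖((σ (u' j) : E) : ℂ)‖ ^ 2 := by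
    intro j hj
    have hj0 : u' j ≠ 0 := fun h => hJ0 j hj (congrArg Subtype.val h)
    have hjint : IsIntegral ℤ (u' j) := by
      have : IsIntegral ℤ (algebraMap E ℂ (u' j)) := hJ j hj
      exact (isIntegral_algebraMap_iff (algebraMap E ℂ).injective).1 this
    have hnorm := Algebra.isIntegral_norm (K := ℚ) (R := ℤ) hjint
    obtain ⟨m, hm⟩ := IsIntegrallyClosed.isIntegral_iff.1 hnorm
    have hne : Algebra.norm ℚ (u' j) ≠ 0 := Algebra.norm_ne_zero_iff.2 hj0
    have hm0 : m ≠ 0 := by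
      rintro rfl
      apply hne
      rw [← hm]
      simp
    have hprod : ((∏ σ : Gal(E/ℚ), σ (u' j) : E) : ℂ) = (m : ℂ) := by
      have h0 := Algebra.norm_eq_prod_automorphisms ℚ (u' j)
      have h00 : (∏ σ : Gal(E/ℚ), σ (u' j) : E) = algebraMap ℚ E (Algebra.norm ℚ (u' j)) := by
        rw [h0]
        refine Finset.prod_congr ?_ fun _ _ => rfl
        ext
        simp
      rw [h00, ← hm]
      simp
    have h1 := Cfsg.Agent.H23.card_le_sum_of_prod (Finset.univ : Finset Gal(E/ℚ)) (fun σ : Gal(E/ℚ) => ‖((σ (u' j) : E) : ℂ)‖ ^ 2) ?_ ?_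
    · simpa [Finset.card_univ] using h1
    · intro σ _
      have : ((σ (u' j) : E) : ℂ) ≠ 0 := by
        intro h
        exact hj0 (σ.injective (by
          rw [map_zero]
          exact Subtype.ext h))
      positivity
    · rw [Finset.prod_pow, ← norm_prod]
      refine one_le_pow₀ ?_
      have h3 : ∏ σ : Gal(E/ℚ), ((σ (u' j) : E) : ℂ) = (m : ℂ) := by
        rw [← hprod]
        push_cast
        rfl
      rw [h3]
      simp only [Complex.norm_intCast]
      exact_mod_cast Int.one_le_abs hm0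
  have hGpos : (0 : ℝ) < (Fintype.card Gal(E/ℚ) : ℝ) := by exact_mod_cast Fintype.card_pos
  have h1 : (Fintype.card Gal(E/ℚ) : ℝ) * J.card ≤
      ∑ j ∈ J, ∑ σ : Gal(E/ℚ), ‖((σ (u' j) : E) : ℂ)‖ ^ 2 := by
    have := Finset.card_nsmul_le_sum J _ _ hpt
    simpa [mul_comm] using this
  have h2 : ∑ j ∈ J, ∑ σ : Gal(E/ℚ), ‖((σ (u' j) : E) : ℂ)‖ ^ 2 ≤
      ∑ i, ∑ σ : Gal(E/ℚ), ‖((σ (u' i) : E) : ℂ)‖ ^ 2 :=
    Finset.sum_le_sum_of_subset_of_nonneg (Finset.subset_univ J)
      (fun _ _ _ => Finset.sum_nonneg fun _ _ => by positivity)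
  have h3 : ∑ i, ∑ σ : Gal(E/ℚ), ‖((σ (u' i) : E) : ℂ)‖ ^ 2 =
      (Fintype.card Gal(E/ℚ) : ℝ) * L := by
    rw [Finset.sum_comm]
    simp only [hsum]
    simp [Finset.card_univ]
  have h4 : (J.card : ℝ) ≤ L := le_of_mul_le_mul_left (by linarith) hGpos
  exact_mod_cast h4

end Cfsg.Agent.H15.KB
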