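import Cfsg.Agent.Lib.H15.KB1
import Cfsg.Agent.Lib.H15.HZ2
import Cfsg.Agent.Lib.H21.RegProj
import Cfsg.Agent.Lib.H21.Subsec2
import Cfsg.Agent.Lib.H22.BlockRank

/-! # The regular pairing of a major subsection -/

set_option autoImplicit false
set_option linter.unusedSectionVars false
set_option linter.style.haveILetI false
set_option linter.unusedSimpArgs false
set_option linter.unusedVariables false

namespace Cfsg.Agent.H15.KB

open Cfsg Cfsg.Agent.H21 Cfsg.Agent.H22 Module
open scoped ComplexConjugate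

universe u

variable {G : Type u} [Group G] [Finite G] {p : ℕ} [hp : Fact p.Prime] {M : Ideal AlgInt}
variable [hMi : M.IsPrime] (z : G)

/-- The centralizer of a single element. -/
abbrev Cz (z : G) : Subgroup G := Subgroup.centralizer ({z} : Set G)

/-- The section function of a character. -/
noncomputable def sf (χ : IrrCharacter G) (c : Cz z) : ℂ := χ.1 (z * (c : G))

/-- The `b`-part of the section function. -/
noncomputable def bpt (b : Set (IrrCharacter (Cz z))) (χ : IrrCharacter G) (s : Cz z) : ℂ :=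
  blockPart b (sf z χ) s

/-- The regular pairing. -/
noncomputable def PP (p : ℕ) (b : Set (IrrCharacter (Cz z))) (χ ψ : IrrCharacter G) : ℂ :=
  (Nat.card (Cz z) : ℂ)⁻¹ * ∑ s : Cz z, rp p (bpt z b χ) s * conj (rp p (bpt z b ψ) s)

/-- The regular kernel of a block. -/
noncomputable def rk {H : Type*} [Group H] [Finite H] (p : ℕ) (b : Set (IrrCharacter H)) (s t : H) : ℂ :=
  ∑ ξ : IrrCharacter H, eB b ξ * (rp p ξ.1 s * conj (rp p ξ.1 t))

theorem rk_swap {H : Type*} [Group H] [Finite H] (p : ℕ) (b : Set (IrrCharacter H)) (s t : H) :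
    conj (rk p b s t) = rk p b t s := by
  unfold rk
  rw [map_sum]
  refine Finset.sum_congr rfl fun ξ _ => ?_
  rw [map_mul, map_mul, Complex.conj_conj, eB_conj]
  ring

theorem rk_reg {H : Type*} [Group H] [Finite H] (hM : IsPModular p M) {b : Set (IrrCharacter H)}
    (hb : IsPBlock M b) {s : H} (hs : ¬ p ∣ orderOf s) (t : H) : rk p b s t = kerK b s t := by
  unfold rk kerK
  by_cases ht : p ∣ orderOf t
  · have := kerK_singular hM hb hs ht
    unfold kerK at this
    rw [this]
    simp [rp_of_sing _ ht]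
  · simp [rp_of_reg _ ht, rp_of_reg _ hs]

theorem rk_sing {H : Type*} [Group H] [Finite H] (b : Set (IrrCharacter H)) {s : H}
    (hs : p ∣ orderOf s) (t : H) : rk p b s t = 0 := by
  unfold rk
  simp [rp_of_sing _ hs]

/-- The reproducing property of the regular kernel. -/
theorem sum_rk_mul {H : Type*} [Group H] [Finite H] (hM : IsPModular p M) {b : Set (IrrCharacter H)}
    (hb : IsPBlock M b) (s : H) :
    ∑ t, rk p b s t * rk p b t s = (Nat.card H : ℂ) * rk p b s s := by
  classical
  by_cases hs : p ∣ orderOf s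
  · simp [rk_sing b hs]
  · have hC : (Nat.card H : ℂ) ≠ 0 := card_ne_zero_C
    have h1 := sum_kerK_mul b b s s
    have h2 : ∑ t, rk p b s t * rk p b t s = ∑ c, kerK b s c * conj (kerK b s c) := by
      refine Finset.sum_congr rfl fun t _ => ?_
      rw [← rk_swap p b s t, rk_reg hM hb hs]
    have h3 : ∑ ψ : IrrCharacter H, eB b ψ * eB b ψ * (ψ.1 s * conj (ψ.1 s)) = rk p b s s := by
      unfold rk
      refine Finset.sum_congr rfl fun ψ _ => ?_
      have h4 : eB b ψ * eB b ψ = eB b ψ := congrFun (eB_mul_self b) ψ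
      rw [h4, rp_of_reg _ hs]
    rw [h3] at h1
    rw [h2, ← h1]
    field_simp

theorem sum_rk_self {H : Type*} [Group H] [Finite H] (hM : IsPModular p M) {b : Set (IrrCharacter H)}
    (hb : IsPBlock M b) :
    ∑ s, rk p b s s = (Nat.card H : ℂ) * (blockRank p b : ℂ) := by
  rw [card_mul_blockRank hM hb]
  unfold rk
  simp only [rp_eq_pRegularPart]

theorem rp_bpt_sum (hM : IsPModular p M) {k : ℕ} (hz : orderOf z = p ^ k)
    {b : Set (IrrCharacter (Cz z))} (hb : IsPBlock M b) (s t : Cz z) :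
    ∑ χ : IrrCharacter G, rp p (bpt z b χ) s * conj (rp p (bpt z b χ) t) = rk p b s t := by
  classical
  by_cases hs : p ∣ orderOf s
  · simp [rp_of_sing _ hs, rk_sing b hs]
  · by_cases ht : p ∣ orderOf t
    · rw [← rk_swap, rk_sing b ht]
      simp [rp_of_sing _ ht]
    · simp only [rp_of_reg _ hs, rp_of_reg _ ht]
      unfold bpt sf
      rw [subsection_orth hM hz hb hb hs ht]
      unfold rk
      refine Finset.sum_congr rfl fun ψ _ => ?_
      have h4 : eB b ψ * eB b ψ = eB b ψ := congrFun (eB_mul_self b) ψ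
      rw [h4, rp_of_reg _ hs, rp_of_reg _ ht]

/-- **The sum of squares is the rank.** -/
theorem sum_PP_sq (hM : IsPModular p M) {k : ℕ} (hz : orderOf z = p ^ k)
    {b : Set (IrrCharacter (Cz z))} (hb : IsPBlock M b) :
    ∑ χ : IrrCharacter G, ∑ ψ : IrrCharacter G, PP z p b χ ψ * conj (PP z p b χ ψ) =
      (blockRank p b : ℂ) := by
  classical
  have hC : (Nat.card (Cz z) : ℂ) ≠ 0 := card_ne_zero_C
  have h1 : ∀ χ ψ : IrrCharacter G, PP z p b χ ψ * conj (PP z p b χ ψ) =
      (Nat.card (Cz z) : ℂ)⁻¹ * (Nat.card (Cz z) : ℂ)⁻¹ * ∑ s : Cz z, ∑ t : Cz z,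
        (rp p (bpt z b χ) s * conj (rp p (bpt z b χ) t)) *
          (rp p (bpt z b ψ) t * conj (rp p (bpt z b ψ) s)) := by
    intro χ ψ
    unfold PP
    rw [map_mul, map_inv₀, map_natCast, map_sum]
    rw [show ∀ a b c d : ℂ, a * b * (c * d) = a * c * (b * d) from fun a b c d => by ring]
    congr 1
    rw [Finset.sum_mul_sum]
    refine Finset.sum_congr rfl fun s _ => Finset.sum_congr rfl fun t _ => ?_
    rw [map_mul, Complex.conj_conj]
    ring
  simp only [h1]
  simp only [← Finset.mul_sum]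
  have h2 : ∑ χ : IrrCharacter G, ∑ ψ : IrrCharacter G, ∑ s : Cz z, ∑ t : Cz z,
      (rp p (bpt z b χ) s * conj (rp p (bpt z b χ) t)) *
          (rp p (bpt z b ψ) t * conj (rp p (bpt z b ψ) s)) =
      ∑ s : Cz z, ∑ t : Cz z, rk p b s t * rk p b t s := by
    rw [Finset.sum_congr rfl fun χ _ => Finset.sum_comm]
    rw [Finset.sum_comm]
    refine Finset.sum_congr rfl fun s _ => ?_
    rw [Finset.sum_congr rfl fun χ _ => Finset.sum_comm]
    rw [Finset.sum_comm]
    refine Finset.sum_congr rfl fun t _ => ?_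
    rw [← rp_bpt_sum z hM hz hb s t, ← rp_bpt_sum z hM hz hb t s, Finset.sum_mul_sum]
  rw [h2]
  simp only [sum_rk_mul hM hb]
  rw [← Finset.mul_sum, sum_rk_self hM hb]
  field_simp

end Cfsg.Agent.H15.KB
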