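import Cfsg.Agent.Lib.H15.KB2

/-! # Integrality and congruences for the regular pairing -/

set_option autoImplicit false
set_option linter.unusedSectionVars false
set_option linter.style.haveILetI false
set_option linter.unusedSimpArgs false
set_option linter.unusedVariables false

namespace Cfsg.Agent.H15.KB

open Cfsg Cfsg.Agent.H21 Cfsg.Agent.H22 Cfsg.Agent.H15.HZ Module
open scoped ComplexConjugate

universe u

variable {G : Type u} [Group G] [Finite G] {p : ℕ} [hp : Fact p.Prime] {M : Ideal AlgInt}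
variable [hMi : M.IsPrime] (z : G)

/-- The element `z` in its centralizer. -/
def zh (z : G) : Cz z := ⟨z, Subgroup.mem_centralizer_singleton_iff.mpr rfl⟩

theorem zh_center : zh z ∈ Subgroup.center (Cz z) := by
  rw [Subgroup.mem_center_iff]
  intro c
  apply Subtype.ext
  exact (Subgroup.mem_centralizer_singleton_iff.mp c.2)

theorem orderOf_zh : orderOf (zh z) = orderOf z :=
  Subgroup.orderOf_mk z _

/-- The multiplicity in the restriction. -/
noncomputable def mm (χ : IrrCharacter G) (ξ : IrrCharacter (Cz z)) : ℂ :=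
  classInner (fun x : Cz z => χ.1 x) ξ.1

/-- The central scalar. -/
noncomputable def eps (ξ : IrrCharacter (Cz z)) : ℂ := ξ.1 (zh z) / ξ.1 1

/-- The coefficient of a section function. -/
noncomputable def al (χ : IrrCharacter G) (ξ : IrrCharacter (Cz z)) : ℂ :=
  classInner (sf z χ) ξ.1

theorem mm_nat (χ : IrrCharacter G) (ξ : IrrCharacter (Cz z)) : ∃ m : ℕ, mm z χ ξ = m :=
  classInner_isNat (isCharacter_restrict _ (isCharacter_of_irr χ.2)) ξ

theorem irr_zh_mul (ξ : IrrCharacter (Cz z)) (c : Cz z) :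
    ξ.1 (zh z * c) = eps z ξ * ξ.1 c := by
  have h1 := irr_central_mul ξ.2 (zh_center z) c
  have h2 : ξ.1 1 = (charDegree ξ.1 : ℂ) := one_eq_charDegree (isCharacter_of_irr ξ.2)
  have h3 : (charDegree ξ.1 : ℂ) ≠ 0 := by
    rw [← h2]
    exact irr_one_ne_zero' ξ
  unfold eps
  rw [h2]
  field_simp
  linear_combination h1

theorem eps_pow (ξ : IrrCharacter (Cz z)) (m : ℕ) : ξ.1 ((zh z) ^ m) = eps z ξ ^ m * ξ.1 1 := by
  induction m with
  | zero => simp
  | succ m ih =>
    rw [pow_succ', irr_zh_mul, ih, pow_succ']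
    ring

theorem eps_root {k : ℕ} (hz : orderOf z = p ^ k) (ξ : IrrCharacter (Cz z)) :
    eps z ξ ^ (p ^ k) = 1 := by
  have h1 := eps_pow z ξ (p ^ k)
  rw [← hz, ← orderOf_zh, pow_orderOf_eq_one, orderOf_zh] at h1
  have h3 := irr_one_ne_zero' ξ
  field_simp at h1
  rw [← hz]
  exact h1.symm

/-- Roots of unity of `p`-power order are `1` modulo `M`. -/
theorem root_mli (hM : IsPModular p M) {μ : ℂ} {k : ℕ} (hμ : μ ^ (p ^ k) = 1) :
    IsIntegral ℤ μ ∧ MemLocalIdeal M (μ - 1) := by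
  have hp0 : 0 < p ^ k := pow_pos hp.out.pos k
  have h1 : IsIntegral ℤ μ := IsIntegral.of_pow hp0 (by rw [hμ]; exact isIntegral_one)
  refine ⟨h1, mli_sub_of_pow_congr hM (mlr_of_isIntegral h1) mlr_one k ?_⟩
  rw [hμ, one_pow, sub_self]
  exact mli_zero

theorem root_conj {μ : ℂ} {k : ℕ} (hμ : μ ^ (p ^ k) = 1) : (conj μ) ^ (p ^ k) = 1 := by
  rw [← map_pow, hμ, map_one]

theorem al_eq (χ : IrrCharacter G) (ξ : IrrCharacter (Cz z)) :
    al z χ ξ = mm z χ ξ * eps z ξ := by
  classical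
  have hexp := classFunction_expansion (fun x : Cz z => χ.1 x) (res_isClass χ (Cz z))
  have h1 : sf z χ = ∑ ξ' : IrrCharacter (Cz z), (mm z χ ξ' * eps z ξ') • ξ'.1 := by
    funext c
    have h2 := congrFun hexp (zh z * c)
    simp only [Finset.sum_apply, Pi.smul_apply, smul_eq_mul] at h2 ⊢
    have h3 : sf z χ c = χ.1 ((zh z * c : Cz z) : G) := rfl
    rw [h3, h2]
    refine Finset.sum_congr rfl fun ξ' _ => ?_
    rw [irr_zh_mul]
    unfold mm
    ring
  unfold al
  rw [h1, classInner_sum_left]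
  rw [Finset.sum_eq_single ξ]
  · rw [classInner_smul_left, classInner_irr, if_pos rfl, mul_one]
  · intro ξ' _ hne
    rw [classInner_smul_left, classInner_irr, if_neg hne, mul_zero]
  · intro h
    exact absurd (Finset.mem_univ ξ) h

theorem al_isIntegral {k : ℕ} (hz : orderOf z = p ^ k) (χ : IrrCharacter G)
    (ξ : IrrCharacter (Cz z)) (hM : IsPModular p M) : IsIntegral ℤ (al z χ ξ) := by
  rw [al_eq]
  obtain ⟨m, hm⟩ := mm_nat z χ ξ
  rw [hm]
  exact (isIntegral_natCast _).mul (root_mli hM (eps_root z hz ξ)).1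

theorem rp_bpt_expand (b : Set (IrrCharacter (Cz z))) (χ : IrrCharacter G) (s : Cz z) :
    rp p (bpt z b χ) s = ∑ ξ : IrrCharacter (Cz z), eB b ξ * (al z χ ξ * rp p ξ.1 s) := by
  by_cases hs : p ∣ orderOf s
  · simp [rp_of_sing _ hs]
  · simp only [rp_of_reg _ hs]
    unfold bpt al
    rw [blockPart_eq]

theorem PP_expand (b : Set (IrrCharacter (Cz z))) (χ ψ : IrrCharacter G) :
    PP z p b χ ψ = ∑ ξ : IrrCharacter (Cz z), ∑ ξ' : IrrCharacter (Cz z),
      eB b ξ * eB b ξ' * (al z χ ξ * conj (al z ψ ξ') * crt p ξ ξ') := by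
  classical
  unfold PP
  simp only [rp_bpt_expand, map_sum, map_mul, eB_conj]
  have h1 : ∀ s : Cz z, (∑ ξ : IrrCharacter (Cz z), eB b ξ * (al z χ ξ * rp p ξ.1 s)) *
      (∑ ξ' : IrrCharacter (Cz z), eB b ξ' * (conj (al z ψ ξ') * conj (rp p ξ'.1 s))) =
      ∑ ξ : IrrCharacter (Cz z), ∑ ξ' : IrrCharacter (Cz z),
        eB b ξ * eB b ξ' * (al z χ ξ * conj (al z ψ ξ')) * (rp p ξ.1 s * conj (ξ'.1 s)) := by
    intro s
    rw [Finset.sum_mul_sum]
    refine Finset.sum_congr rfl fun ξ _ => Finset.sum_congr rfl fun ξ' _ => ?_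
    by_cases hs : p ∣ orderOf s
    · simp [rp_of_sing _ hs]
    · simp only [rp_of_reg _ hs]
      ring
  simp only [h1]
  rw [Finset.sum_comm, Finset.mul_sum]
  refine Finset.sum_congr rfl fun ξ _ => ?_
  rw [Finset.sum_comm, Finset.mul_sum]
  refine Finset.sum_congr rfl fun ξ' _ => ?_
  rw [crt_eq_sum, ← Finset.mul_sum]
  ring

section Crt

variable {H : Type*} [Group H] [Finite H]

/-- The degree quotient. -/
noncomputable def xx (p : ℕ) (b : Set (IrrCharacter H)) (ξ : IrrCharacter H) : ℕ :=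
  charDegree ξ.1 / p ^ minExp p b

theorem crt_block (hM : IsPModular p M) {b : Set (IrrCharacter H)} (hb : IsPBlock M b) {R : ℕ}
    (hR : ∀ χ ∈ b, ∀ θ ∈ b, MemLocalIdeal M (((charDegree χ.1 / p ^ minExp p b : ℕ) : ℂ) -
      (R : ℂ) * H22.om θ (bz p χ)))
    {ξ ξ' : IrrCharacter H} (hξ : ξ ∈ b) (hξ' : ξ' ∈ b) :
    ∃ n : ℤ, ((p : ℂ) ^ blockDefect p b) * crt p ξ ξ' = n ∧
      MemLocalIdeal M ((R : ℂ) * n - (xx p b ξ : ℂ) * (xx p b ξ' : ℂ)) := by
  classical
  obtain ⟨N, hN⟩ := crt_int (p := p) ξ ξ'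
  have hd := tilde_dvd hM ξ ξ' hN
  set s := minExp p b with hsdef
  have hs : s ≤ (charDegree ξ'.1).factorization p := minExp_le hξ'
  have hdv : (p : ℤ) ^ s ∣ N := (pow_dvd_pow _ hs).trans hd
  obtain ⟨n, hn⟩ := hdv
  have hsa : s + blockDefect p b = (Nat.card H).factorization p := by
    rw [blockDefect_eq]
    have := minExp_le_card (p := p) hb
    omega
  have hps : (p : ℂ) ^ s ≠ 0 := pow_ne_zero _ (by exact_mod_cast hp.out.ne_zero)
  have h1 : (p : ℂ) ^ blockDefect p b * crt p ξ ξ' = n := by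
    apply mul_left_cancel₀ hps
    have h0 : (p : ℂ) ^ s * ((p : ℂ) ^ blockDefect p b * crt p ξ ξ') =
        ((p ^ (Nat.card H).factorization p : ℕ) : ℂ) * crt p ξ ξ' := by
      push_cast
      rw [← hsa, pow_add]
      ring
    rw [h0, hN, hn]
    push_cast
    ring
  refine ⟨n, h1, ?_⟩
  have h2 : (N : ℂ) = (charDegree ξ'.1 : ℂ) * H22.om ξ' (bz p ξ) := by
    rw [← hN, crt_symm, ← om_bz, one_eq_charDegree (isCharacter_of_irr ξ'.2)]
    ring
  have hdeg : (charDegree ξ'.1 : ℂ) = (p : ℂ) ^ s * (xx p b ξ' : ℂ) := by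
    have h0 := Nat.mul_div_cancel' (pow_minExp_dvd (p := p) hp.out hξ')
    have h00 : ((p ^ minExp p b * (charDegree ξ'.1 / p ^ minExp p b) : ℕ) : ℂ) =
      (charDegree ξ'.1 : ℂ) := by rw [h0]
    rw [← h00]
    push_cast
    rfl
  have h3 : (n : ℂ) = (xx p b ξ' : ℂ) * H22.om ξ' (bz p ξ) := by
    apply mul_left_cancel₀ hps
    rw [← mul_assoc, ← hdeg, ← h2, hn]
    push_cast
    ring
  have h4 := hR ξ hξ ξ' hξ'
  have h5 := mli_neg (mli_mul_left h4 (mlr_natCast (M := M) (xx p b ξ')))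
  convert h5 using 1
  rw [h3]
  unfold xx
  ring

end Crt

/-- The defect-free part of the degree of the `b`-part of the restriction. -/
noncomputable def eta (p : ℕ) (b : Set (IrrCharacter (Cz z))) (χ : IrrCharacter G) : ℂ :=
  ∑ ξ : IrrCharacter (Cz z), eB b ξ * (mm z χ ξ * (xx p b ξ : ℂ))

/-- **The rank one congruence.** -/
theorem ww_main (hM : IsPModular p M) {k : ℕ} (hz : orderOf z = p ^ k)
    {b : Set (IrrCharacter (Cz z))} (hb : IsPBlock M b) {R : ℕ}
    (hR : ∀ χ ∈ b, ∀ θ ∈ b, MemLocalIdeal M (((charDegree χ.1 / p ^ minExp p b : ℕ) : ℂ) -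
      (R : ℂ) * H22.om θ (bz p χ))) (χ ψ : IrrCharacter G) :
    IsIntegral ℤ ((p : ℂ) ^ blockDefect p b * PP z p b χ ψ) ∧
      MemLocalIdeal M ((R : ℂ) * ((p : ℂ) ^ blockDefect p b * PP z p b χ ψ) -
        eta z p b χ * eta z p b ψ) := by
  classical
  have hconj : ∀ ξ : IrrCharacter (Cz z), IsIntegral ℤ (conj (al z ψ ξ)) := by
    intro ξ
    rw [al_eq, map_mul]
    obtain ⟨m, hm⟩ := mm_nat z ψ ξ
    rw [hm, Complex.conj_natCast]
    exact (isIntegral_natCast _).mul (root_mli hM (root_conj (eps_root z hz ξ))).1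
  have h0 : (p : ℂ) ^ blockDefect p b * PP z p b χ ψ =
      ∑ ξ : IrrCharacter (Cz z), ∑ ξ' : IrrCharacter (Cz z),
        eB b ξ * eB b ξ' * (al z χ ξ * conj (al z ψ ξ') * ((p : ℂ) ^ blockDefect p b * crt p ξ ξ')) := by
    rw [PP_expand, Finset.mul_sum]
    refine Finset.sum_congr rfl fun ξ _ => ?_
    rw [Finset.mul_sum]
    refine Finset.sum_congr rfl fun ξ' _ => ?_
    ring
  rw [h0]
  constructor
  · refine IsIntegral.sum _ fun ξ _ => IsIntegral.sum _ fun ξ' _ => ?_
    by_cases hξ : ξ ∈ b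
    · by_cases hξ' : ξ' ∈ b
      · rw [eB_apply_mem hξ, eB_apply_mem hξ', one_mul, one_mul]
        obtain ⟨n, hn, -⟩ := crt_block hM hb hR hξ hξ'
        rw [hn]
        exact ((al_isIntegral z hz χ ξ hM).mul (hconj ξ')).mul (isIntegral_intCast _)
      · rw [eB_apply_not_mem hξ', mul_zero, zero_mul]
        exact isIntegral_zero
    · rw [eB_apply_not_mem hξ, zero_mul, zero_mul]
      exact isIntegral_zero
  · unfold eta
    rw [Finset.sum_mul_sum, Finset.mul_sum, ← Finset.sum_sub_distrib]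
    refine mli_sum _ _ fun ξ _ => ?_
    rw [Finset.mul_sum, ← Finset.sum_sub_distrib]
    refine mli_sum _ _ fun ξ' _ => ?_
    by_cases hξ : ξ ∈ b
    · by_cases hξ' : ξ' ∈ b
      · rw [eB_apply_mem hξ, eB_apply_mem hξ']
        obtain ⟨n, hn, hc⟩ := crt_block hM hb hR hξ hξ'
        rw [hn, al_eq, al_eq, map_mul]
        obtain ⟨m, hm⟩ := mm_nat z χ ξ
        obtain ⟨m', hm'⟩ := mm_nat z ψ ξ'
        rw [hm, hm', Complex.conj_natCast]
        have he := root_mli (M := M) hM (eps_root z hz ξ)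
        have he' := root_mli (M := M) hM (root_conj (eps_root z hz ξ'))
        -- write the difference as a combination
        have hu : MemLocalIdeal M (eps z ξ * conj (eps z ξ') - 1) := by
          have h1 := mli_mul_left he'.2 (mlr_of_isIntegral he.1)
          have h2 := mli_add h1 he.2
          convert h2 using 1
          ring
        have h3 := mli_mul_left hu (mlr_natCast (M := M) (m * m' * R * n.natAbs))
        have hnint : MemLocalRing M ((R : ℂ) * (n : ℂ)) :=
          mlr_mul (mlr_natCast R) (mlr_of_isIntegral (isIntegral_intCast n))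
        have h4 := mli_mul_left hu (mlr_mul (mlr_natCast (M := M) (m * m')) hnint)
        have h5 := mli_mul_left hc (mlr_natCast (M := M) (m * m'))
        have h6 := mli_add h4 h5
        convert h6 using 1
        push_cast
        ring
      · rw [eB_apply_not_mem hξ']
        simp only [mul_zero, zero_mul, sub_self]
        exact mli_zero
    · rw [eB_apply_not_mem hξ]
      simp only [mul_zero, zero_mul, sub_self]
      exact mli_zero

section Cyc

theorem char_mem_cyc {H : Type*} [Group H] [Finite H] {n : ℕ} (hn : n ≠ 0) (hdvd : Nat.card H ∣ n)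
    {χ : H → ℂ} (hχ : IsCharacter H χ) (h : H) : χ h ∈ cyc n := by
  classical
  obtain ⟨d, ρ, rfl⟩ := hχ
  obtain ⟨ι, hι, b, μ, h1, h2, h3, _⟩ := Cfsg.Agent.H21.exists_eigenbasis ρ h
  have hh : orderOf h ∣ n := (orderOf_dvd_natCard h).trans hdvd
  obtain ⟨c, hc⟩ := hh
  simp only [Representation.character]
  rw [h3]
  refine sum_mem fun i _ => root_mem_cyc hn ?_
  rw [hc, pow_mul, h2, one_pow]

theorem irr_mem_cyc {H : Type*} [Group H] [Finite H] {n : ℕ} (hn : n ≠ 0) (hdvd : Nat.card H ∣ n)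
    (ξ : IrrCharacter H) (h : H) : ξ.1 h ∈ cyc n :=
  char_mem_cyc hn hdvd (isCharacter_of_irr ξ.2) h

theorem eB_mem_cyc {H : Type*} [Group H] [Finite H] (n : ℕ) (b : Set (IrrCharacter H))
    (ξ : IrrCharacter H) : eB b ξ ∈ cyc n := by
  by_cases h : ξ ∈ b
  · rw [eB_apply_mem h]
    exact one_mem _
  · rw [eB_apply_not_mem h]
    exact zero_mem _

theorem PP_mem_cyc (b : Set (IrrCharacter (Cz z))) (χ ψ : IrrCharacter G) :
    PP z p b χ ψ ∈ cyc (Nat.card G) := by
  classical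
  have hn : Nat.card G ≠ 0 := Nat.card_pos.ne'
  have hdvd : Nat.card (Cz z) ∣ Nat.card G := Subgroup.card_subgroup_dvd_card _
  have hal : ∀ (χ : IrrCharacter G) (ξ : IrrCharacter (Cz z)), al z χ ξ ∈ cyc (Nat.card G) := by
    intro χ ξ
    unfold al classInner
    refine mul_mem (inv_mem (natCast_mem _ _)) (sum_mem fun c _ => mul_mem ?_ ?_)
    · exact irr_mem_cyc hn (dvd_refl _) χ _
    · exact conj_mem_cyc hn (irr_mem_cyc hn hdvd ξ c)
  rw [PP_expand]
  refine sum_mem fun ξ _ => sum_mem fun ξ' _ => mul_mem (mul_mem (eB_mem_cyc _ _ _) (eB_mem_cyc _ _ _))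
    (mul_mem (mul_mem (hal χ ξ) (conj_mem_cyc hn (hal ψ ξ'))) ?_)
  unfold crt classInner
  refine mul_mem (inv_mem (natCast_mem _ _)) (sum_mem fun c _ => mul_mem ?_ ?_)
  · unfold rp
    split_ifs
    · exact zero_mem _
    · exact irr_mem_cyc hn hdvd ξ c
  · exact conj_mem_cyc hn (irr_mem_cyc hn hdvd ξ' c)

end Cyc

end Cfsg.Agent.H15.KB
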