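import Cfsg.Agent.Lib.H15.KB3
import Cfsg.Agent.Lib.H22.HChain
import Cfsg.Agent.Lib.H22.TCase
import Cfsg.Agent.Lib.H21.CentralDefect

/-! # The unit lemma for major subsections -/

set_option autoImplicit false
set_option linter.unusedSectionVars false
set_option linter.style.haveILetI false
set_option linter.unusedSimpArgs false
set_option linter.unusedVariables false

namespace Cfsg.Agent.H15.KB

open Cfsg Cfsg.Agent.H21 Cfsg.Agent.H22 Cfsg.Agent.H15.HZ Module
open scoped ComplexConjugate

universe u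

variable {G : Type u} [Group G] [Finite G] {p : ℕ} [hp : Fact p.Prime] {M : Ideal AlgInt}
variable [hMi : M.IsPrime]

/-- Passing the vanishing on the centralizer of a defect group to a maximal pair. -/
theorem no_vanish_on_defect (hMp : IsPModular p M) {B : Set (IrrCharacter G)} (hB : IsPBlock M B)
    {χ : IrrCharacter G} (hχ : χ ∈ B) (h0 : blockHeight p B χ.1 = 0) {Q : Subgroup G}
    (hQ : IsPGroup p Q) (hQab : Q ≤ Subgroup.centralizer (Q : Set G))
    {b : Set (IrrCharacter (Subgroup.centralizer (Q : Set G)))}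
    (hb : IsInducedBlock M (Subgroup.centralizer (Q : Set G)) b B)
    (hbd : blockDefect p b = blockDefect p B) {D : Subgroup (Subgroup.centralizer (Q : Set G))}
    (hD : IsDefectGroup p M b D)
    (hV : ∀ s : Subgroup.centralizer (Q : Set G), s ∈ Subgroup.centralizer (D : Set (Subgroup.centralizer (Q : Set G))) →
      MemLocalIdeal M (TT χ.1 (subgroupBlockCoeff (Subgroup.centralizer (Q : Set G)) b) s)) : False := by
  classical
  have hpair := pair_of_induced_centralizer hMp hQ hb
  have hFb : IsPBlock M b := hb.1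
  have hnorm : (Q.subgroupOf (Subgroup.centralizer (Q : Set G))).Normal := by
    refine ⟨fun q hq c => ?_⟩
    rw [Subgroup.mem_subgroupOf] at hq ⊢
    have hcq : (c : G) * q * (c : G)⁻¹ = q := by
      have := Subgroup.mem_centralizer_iff.mp c.2 q hq
      rw [← this]
      group
    show ((c : G) * q * (c : G)⁻¹) ∈ Q
    rw [hcq]
    exact hq
  have hle := normal_le_defect hMp (Q := Q.subgroupOf (Subgroup.centralizer (Q : Set G)))
    hQ.comap_subtype hFb hD
  have hQR : Q ≤ D.map (Subgroup.centralizer (Q : Set G)).subtype := by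
    intro q hq
    exact ⟨⟨q, hQab hq⟩, hle (Subgroup.mem_subgroupOf.mpr hq), rfl⟩
  have hz := zComp_map' (le_refl _) hQR
  obtain ⟨d, hd⟩ := exists_maximal_on_defect hMp hD hFb
  have hDp : IsPGroup p D := defect_isPGroup hD
  have hRC : D.map (Subgroup.centralizer (Q : Set G)).subtype ≤ Subgroup.centralizer (Q : Set G) :=
    Subgroup.map_subtype_le D
  have hRN : D.map (Subgroup.centralizer (Q : Set G)).subtype ≤ Subgroup.normalizer (Q : Set G) := by
    intro y hy
    rw [Subgroup.mem_normalizer_iff]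
    intro q
    have hyc := hRC hy
    constructor
    · intro hq
      have := Subgroup.mem_centralizer_iff.mp hyc q hq
      rw [← this]
      simpa using hq
    · intro hq
      have h1 := Subgroup.mem_centralizer_iff.mp hyc _ hq
      have h3 : y * q = y * (y * q * y⁻¹) := by
        rw [← h1]
        group
      rw [mul_left_cancel h3]
      exact hq
  have hn' := normalSubpair_of_pair hz (fun t => (sbc_of_coe _ b t).symm) hpair.1 (hDp.map _) hQR hRN
    (fun x hx => stabilizes_of_mem b (hRC hx)) hd.1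
  have hR := isBrauerPairOf_of_normalSubpair hMp hn' hpair
  -- the subgroup is a defect group of `B`
  obtain ⟨P, e, hmax, hchain⟩ := exists_maximal_above hMp hR
  have hPdef := isDefectGroup_of_maximal hMp hmax
  have hcardP := card_defect hMp hB hPdef
  have hcardD := card_defect hMp hFb hD
  have hcardR : Nat.card (D.map (Subgroup.centralizer (Q : Set G)).subtype) = Nat.card D :=
    Nat.card_congr (Subgroup.equivMapOfInjective D _ Subtype.val_injective).symm.toEquiv
  have hRP : D.map (Subgroup.centralizer (Q : Set G)).subtype = P := by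
    refine Subgroup.eq_of_le_of_card_ge (subpairLE_le hchain) ?_
    rw [hcardR, hcardD, hcardP, hbd]
  have hRdef : IsDefectGroup p M B (D.map (Subgroup.centralizer (Q : Set G)).subtype) := by
    rw [hRP]
    exact hPdef
  have hmax' := maximal_of_defect hMp hR hRdef
  obtain ⟨hf, he, hQP, hPN, hst, hsub⟩ := isNormalSubpair_iff.mp hn'
  have hCC : Subgroup.centralizer ((D.map (Subgroup.centralizer (Q : Set G)).subtype : Subgroup G) : Set G) ≤
      Subgroup.centralizer (Q : Set G) := centralizer_le_of_le hQP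
  have hkey := fun y : Subgroup.centralizer ((D.map (Subgroup.centralizer (Q : Set G)).subtype : Subgroup G) : Set G) =>
    TT_congr hMp χ he.1 (a := subgroupBlockCoeff (Subgroup.centralizer (Q : Set G)) b)
    (sbc_mlr _ (blockSat_of_isBlock hf.2)) (sbc_Ad_of_stable hst) (sbc_Ad_of_le hCC b)
    (fun g => by rw [sbc_conv_self, sub_self]; exact mli_zero) y
  have hVV : VV M χ ⟨_, irrMap (zIso hz) '' d⟩ := by
    refine fun s => TT_cut χ _ he.2 hsub (fun y => ?_) s
    have h1 := hV ⟨y, hCC y.2⟩ ((hz y.1).mp y.2).2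
    simp only at h1
    have h2 := mli_sub h1 (hkey y)
    simpa using h2
  obtain ⟨g, hg, S, hS⟩ := isDefectGroup_of_maximal hMp hmax'
  have hgP : g ∈ Subgroup.centralizer ((D.map (Subgroup.centralizer (Q : Set G)).subtype : Subgroup G) : Set G) := by
    rw [Subgroup.mem_centralizer_iff]
    intro q hq
    have hq' : q ∈ (S : Subgroup (Subgroup.centralizer ({g} : Set G))).map
        (Subgroup.centralizer ({g} : Set G)).subtype := by
      rw [← hS]
      exact hq
    obtain ⟨q₁, -, rfl⟩ := hq'
    exact (Subgroup.mem_centralizer_singleton_iff.mp q₁.2)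
  have h1 := VV_top hMp hmax' hχ hVV ⟨g, hgP⟩
  have h2 := height_zero_not_mli hMp hB hg hχ (height_zero_iff hχ h0) (x := 1)
    (Commute.one_left g) (k := 0) (by simp)
  rw [one_mul] at h2
  exact h2 h1

/-- The class arithmetic for elements centralizing a defect group. -/
theorem sum_on_defect {H : Type*} [Group H] [Finite H] (hMp : IsPModular p M)
    {b : Set (IrrCharacter H)} (hb : IsPBlock M b) {D : Subgroup H} (hD : IsDefectGroup p M b D)
    (m : IrrCharacter H → ℂ) (hm : ∀ ξ, MemLocalRing M (m ξ))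
    (hη : MemLocalIdeal M (∑ ξ, eB b ξ * (m ξ * (xx p b ξ : ℂ))))
    {s : H} (hs : s ∈ Subgroup.centralizer (D : Set H)) :
    MemLocalIdeal M (∑ ξ, m ξ * (eB b ξ * ξ.1 s)) := by
  classical
  obtain ⟨ξ₀, hξ₀⟩ := block_nonempty hb
  set q := (Subgroup.centralizer ({s} : Set H)).index with hq
  have hq0 : q ≠ 0 := Subgroup.index_ne_zero_of_finite
  have hq0C : (q : ℂ) ≠ 0 := Nat.cast_ne_zero.mpr hq0
  set s0 := minExp p b with hs0
  have hDle : D ≤ Subgroup.centralizer ({s} : Set H) := by
    intro y hy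
    rw [Subgroup.mem_centralizer_singleton_iff]
    exact Subgroup.mem_centralizer_iff.mp hs y hy
  have hcardD := card_defect hMp hb hD
  have hval : q.factorization p ≤ s0 := by
    have h1 : q.factorization p + (Nat.card (Subgroup.centralizer ({s} : Set H))).factorization p =
        (Nat.card H).factorization p := factorization_index_add (p := p) s
    have h2 : p ^ blockDefect p b ∣ Nat.card (Subgroup.centralizer ({s} : Set H)) := by
      rw [← hcardD]
      exact Subgroup.card_dvd_of_le hDle
    have h3 := (Nat.Prime.pow_dvd_iff_le_factorization hp.out Nat.card_pos.ne').mp h2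
    have h4 := minExp_le_card (p := p) hb
    rw [blockDefect_eq] at h3
    omega
  -- the local scalar
  have hobtain : ∃ q' : ℕ, q = p ^ q.factorization p * q' ∧ ¬ p ∣ q' := by
    refine ⟨q / p ^ q.factorization p, (Nat.mul_div_cancel' (Nat.ordProj_dvd q p)).symm, ?_⟩
    exact Nat.not_dvd_ordCompl hp.out hq0
  obtain ⟨q', hq', hq'p⟩ := hobtain
  set t : ℂ := (p : ℂ) ^ s0 / (q : ℂ) with ht
  have hpC : (p : ℂ) ≠ 0 := by exact_mod_cast hp.out.ne_zero
  have htm : MemLocalRing M t := by
    have h1 : t = ((p ^ (s0 - q.factorization p) : ℕ) : ℂ) * (q' : ℂ)⁻¹ := by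
      have h2 : (q : ℂ) = (p : ℂ) ^ q.factorization p * (q' : ℂ) := by
        conv_lhs => rw [hq']
        push_cast
        rfl
      have hq'0 : (q' : ℂ) ≠ 0 := by
        intro h
        rw [h2, h, mul_zero] at hq0C
        exact hq0C rfl
      rw [ht, h2]
      have h3 : (p : ℂ) ^ s0 = (p : ℂ) ^ (s0 - q.factorization p) * (p : ℂ) ^ q.factorization p := by
        rw [← pow_add, Nat.sub_add_cancel hval]
      rw [h3]
      push_cast
      field_simp
    rw [h1]
    exact mlr_mul (mlr_natCast _) ((mlr_inv (mlr_natCast _) (not_mli_natCast_of_odd hMp hq'p)).2)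
  -- the value of a character in the block
  have hval2 : ∀ ξ ∈ b, ξ.1 s = t * ((xx p b ξ : ℂ) * cc s ξ) := by
    intro ξ hξ
    have h1 : ξ.1 1 = (p : ℂ) ^ s0 * (xx p b ξ : ℂ) := by
      rw [one_eq_charDegree (isCharacter_of_irr ξ.2)]
      have h0 := Nat.mul_div_cancel' (pow_minExp_dvd (p := p) hp.out hξ)
      have h00 : ((p ^ minExp p b * (charDegree ξ.1 / p ^ minExp p b) : ℕ) : ℂ) =
        (charDegree ξ.1 : ℂ) := by rw [h0]
      rw [← h00]
      push_cast
      rfl
    have h2 := irr_one_ne_zero' ξ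
    unfold cc centralChar
    rw [← hq, ht, ← mul_assoc]
    have h3 : (p : ℂ) ^ s0 / (q : ℂ) * (xx p b ξ : ℂ) * ((q : ℂ) * ξ.1 s / ξ.1 1) =
        ξ.1 s * (((p : ℂ) ^ s0 * (xx p b ξ : ℂ)) / ξ.1 1) := by
      field_simp
    rw [h3, ← h1, div_self h2, mul_one]
  -- the main computation
  have hsplit : ∑ ξ, m ξ * (eB b ξ * ξ.1 s) =
      t * (cc s ξ₀ * ∑ ξ, eB b ξ * (m ξ * (xx p b ξ : ℂ))) +
      t * ∑ ξ, eB b ξ * (m ξ * (xx p b ξ : ℂ)) * (cc s ξ - cc s ξ₀) := by
    rw [← mul_add, Finset.mul_sum, ← Finset.sum_add_distrib, Finset.mul_sum]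
    refine Finset.sum_congr rfl fun ξ _ => ?_
    by_cases hξ : ξ ∈ b
    · rw [eB_apply_mem hξ, hval2 ξ hξ]
      ring
    · rw [eB_apply_not_mem hξ]
      ring
  rw [hsplit]
  refine mli_add (mli_mul_left (mli_mul_left hη (cc_mlr _ _)) htm)
    (mli_mul_left (mli_sum _ _ fun ξ _ => ?_) htm)
  by_cases hξ : ξ ∈ b
  · refine mli_mul_left ?_ (mlr_mul ?_ (mlr_mul (hm ξ) (mlr_natCast _)))
    · exact block_sameBlock hb hξ hξ₀ s
    · rw [eB_apply_mem hξ]
      exact mlr_one
  · rw [eB_apply_not_mem hξ, zero_mul, zero_mul]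
    exact mli_zero

theorem no_vanish_general (hMp : IsPModular p M) {B : Set (IrrCharacter G)} (hB : IsPBlock M B)
    {χ : IrrCharacter G} (hχ : χ ∈ B) (h0 : blockHeight p B χ.1 = 0) {x : G} {k : ℕ}
    (hx : orderOf x = p ^ k) {C : Subgroup G}
    (hC : C = Subgroup.centralizer (Subgroup.zpowers x : Set G)) {b : Set (IrrCharacter C)}
    (hb : IsInducedBlock M C b B) (hbd : blockDefect p b = blockDefect p B) {D : Subgroup C}
    (hD : IsDefectGroup p M b D)
    (hV : ∀ s : C, s ∈ Subgroup.centralizer (D : Set C) →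
      MemLocalIdeal M (TT χ.1 (subgroupBlockCoeff C b) s)) : False := by
  subst hC
  have hQab : Subgroup.zpowers x ≤ Subgroup.centralizer (Subgroup.zpowers x : Set G) := by
    intro a ha
    rw [Subgroup.mem_centralizer_iff]
    intro c hc
    obtain ⟨i, rfl⟩ := Subgroup.mem_zpowers_iff.mp ha
    obtain ⟨j, rfl⟩ := Subgroup.mem_zpowers_iff.mp hc
    exact (Commute.zpow_zpow_self x j i).eq
  exact no_vanish_on_defect hMp hB hχ h0 (isPGroup_zpowers_of_orderOf hx) hQab hb hbd hD hV

/-- **The unit lemma.** -/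
theorem eta_unit (hMp : IsPModular p M) {B : Set (IrrCharacter G)} (hB : IsPBlock M B)
    {χ : IrrCharacter G} (hχ : χ ∈ B) (h0 : blockHeight p B χ.1 = 0) {z : G} {k : ℕ}
    (hz : orderOf z = p ^ k) {b : Set (IrrCharacter (Cz z))}
    (hind : IsInducedBlock M (Cz z) b B) (hbd : blockDefect p b = blockDefect p B) :
    ¬ MemLocalIdeal M (eta z p b χ) := by
  classical
  intro hη
  have hC : Cz z = Subgroup.centralizer (Subgroup.zpowers z : Set G) :=
    (Cfsg.Agent.H21.centralizer_zpowers z).symm
  obtain ⟨D, hD⟩ := isDefectGroup_exists (p := p) hind.1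
  refine no_vanish_general hMp hB hχ h0 hz hC hind hbd hD (fun s hs => ?_)
  rw [TT_expand]
  exact sum_on_defect hMp hind.1 hD (mm z χ) (fun ξ => mult_mlr χ _ ξ) hη hs

end Cfsg.Agent.H15.KB
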