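import Cfsg.Agent.Lib.H15.KB4

/-! # The bound on the number of characters of a block of height zero -/

set_option autoImplicit false
set_option linter.unusedSectionVars false
set_option linter.style.haveILetI false
set_option linter.unusedSimpArgs false
set_option linter.unusedVariables false

namespace Cfsg.Agent.H15.KB

open Cfsg Cfsg.Agent.H21 Cfsg.Agent.H22 Cfsg.Agent.H15.HZ Module
open scoped ComplexConjugate

universe u

variable {G : Type u} [Group G] [Finite G] {p : ℕ} [hp : Fact p.Prime] {M : Ideal AlgInt}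
variable [hMi : M.IsPrime]

theorem eta_mlr (z : G) (b : Set (IrrCharacter (Cz z))) (χ : IrrCharacter G) :
    MemLocalRing M (eta z p b χ) := by
  unfold eta
  refine mlr_sum _ _ fun ξ _ => mlr_mul ?_ (mlr_mul ?_ (mlr_natCast _))
  · by_cases h : ξ ∈ b
    · rw [eB_apply_mem h]
      exact mlr_one
    · rw [eB_apply_not_mem h]
      exact mlr_zero
  · exact mult_mlr χ _ ξ

/-- **The theorem.** -/
theorem card_sq_le (hMp : IsPModular p M) {B : Set (IrrCharacter G)} (hB : IsPBlock M B)
    (hh : ∀ χ ∈ B, blockHeight p B χ.1 = 0) {z : G} {k : ℕ} (hz : orderOf z = p ^ k)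
    {b : Set (IrrCharacter (Cz z))} (hind : IsInducedBlock M (Cz z) b B)
    (hbd : blockDefect p b = blockDefect p B) :
    Nat.card B ^ 2 ≤ p ^ (2 * blockDefect p b) * blockRank p b := by
  classical
  obtain ⟨R, hR⟩ := key_congr hMp hind.1
  set d := blockDefect p b with hd
  letI : Fintype (IrrCharacter G × IrrCharacter G) := instFintypeProd _ _
  let u : IrrCharacter G × IrrCharacter G → ℂ := fun i => (p : ℂ) ^ d * PP z p b i.1 i.2
  have hn : Nat.card G ≠ 0 := Nat.card_pos.ne'
  have hu : ∀ i, u i ∈ cyc (Nat.card G) := by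
    intro i
    refine mul_mem (pow_mem (natCast_mem _ _) _) (PP_mem_cyc z b i.1 i.2)
  let J : Finset (IrrCharacter G × IrrCharacter G) := B.toFinset ×ˢ B.toFinset
  have hJ : ∀ j ∈ J, j.1 ∈ B ∧ j.2 ∈ B := by
    intro j hj
    obtain ⟨h1, h2⟩ := Finset.mem_product.mp hj
    exact ⟨Set.mem_toFinset.mp h1, Set.mem_toFinset.mp h2⟩
  have hmain := fun i : IrrCharacter G × IrrCharacter G => ww_main z hMp hz hind.1 hR i.1 i.2
  have hJ0 : ∀ j ∈ J, u j ≠ 0 := by
    intro j hj h0
    obtain ⟨h1, h2⟩ := hJ j hj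
    have h3 := (hmain j).2
    have h4 : (p : ℂ) ^ blockDefect p b * PP z p b j.1 j.2 = 0 := h0
    rw [h4, mul_zero, zero_sub] at h3
    have h5 := mli_neg h3
    rw [neg_neg] at h5
    rcases (mli_mul_iff (eta_mlr z b j.1) (eta_mlr z b j.2)).mp h5 with h6 | h6
    · exact eta_unit hMp hB h1 (hh _ h1) hz hind hbd h6
    · exact eta_unit hMp hB h2 (hh _ h2) hz hind hbd h6
  have hJint : ∀ j ∈ J, IsIntegral ℤ (u j) := fun j _ => (hmain j).1
  have hL : ∑ i, u i * conj (u i) = ((p ^ (2 * d) * blockRank p b : ℕ) : ℂ) := by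
    rw [Fintype.sum_prod_type]
    have h1 : ∀ χ ψ : IrrCharacter G, u (χ, ψ) * conj (u (χ, ψ)) =
        (p : ℂ) ^ (2 * d) * (PP z p b χ ψ * conj (PP z p b χ ψ)) := by
      intro χ ψ
      show (p : ℂ) ^ d * PP z p b χ ψ * conj ((p : ℂ) ^ d * PP z p b χ ψ) = _
      rw [map_mul, map_pow, Complex.conj_natCast, two_mul, pow_add]
      ring
    simp only [h1, ← Finset.mul_sum]
    rw [sum_PP_sq z hMp hz hind.1]
    push_cast
    rfl
  have h := card_le_of_sum hn u hu J hJ0 hJint hL
  have hc : J.card = Nat.card B ^ 2 := by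
    rw [Finset.card_product, Nat.card_eq_card_toFinset, sq]
  rw [← hc]
  exact h

end Cfsg.Agent.H15.KB
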