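import Cfsg.Agent.Lib.H15.KB1
import Cfsg.Agent.Lib.H22.Local

/-! # The normalized Galois trace on cyclotomic fields -/

set_option autoImplicit false
set_option linter.unusedSectionVars false
set_option linter.style.haveILetI false
set_option linter.unusedSimpArgs false
set_option linter.unusedVariables false

namespace Cfsg.Agent.H15.KC

open Cfsg Cfsg.Agent.H21 Cfsg.Agent.H22 Cfsg.Agent.H15.KB Module Polynomial
open scoped ComplexConjugate

universe u

variable (n : ℕ) [hn : NeZero n]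

theorem zeta_prim : IsPrimitiveRoot (Complex.exp (2 * Real.pi * Complex.I / (n : ℂ))) n :=
  Complex.isPrimitiveRoot_exp n hn.out

theorem zeta_alg : IsAlgebraic ℚ (Complex.exp (2 * Real.pi * Complex.I / (n : ℂ))) := by
  refine ⟨Polynomial.X ^ n - 1, Polynomial.X_pow_sub_C_ne_zero (Nat.pos_of_ne_zero hn.out) (1 : ℚ), ?_⟩
  simp [(zeta_prim n).pow_eq_one]

instance cyc_isCyc : IsCyclotomicExtension {n} ℚ (cyc n) := by
  change IsCyclotomicExtension {n} ℚ (cyc n).toSubalgebra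
  simp only [cyc]
  rw [IntermediateField.adjoin_simple_toSubalgebra_of_isAlgebraic (zeta_alg n)]
  exact (zeta_prim n).adjoin_isCyclotomicExtension ℚ

instance cyc_isGalois : IsGalois ℚ (cyc n) := IsCyclotomicExtension.isGalois {n} ℚ (cyc n)

instance cyc_fd : FiniteDimensional ℚ (cyc n) := IsCyclotomicExtension.finiteDimensional {n} ℚ (cyc n)

/-- A chosen extension of a Galois automorphism to `ℂ`. -/
noncomputable def ext (σ : Gal(cyc n/ℚ)) : ℂ →+* ℂ :=
  Classical.choose (H06.exists_ringHom_extend (K := cyc n) σ.toRingEquiv)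

theorem ext_spec (σ : Gal(cyc n/ℚ)) (a : cyc n) : ext n σ (a : ℂ) = ((σ a : cyc n) : ℂ) :=
  Classical.choose_spec (H06.exists_ringHom_extend (K := cyc n) σ.toRingEquiv) a

/-- The normalized trace. -/
noncomputable def tav (x : ℂ) : ℂ :=
  (Fintype.card Gal(cyc n/ℚ) : ℂ)⁻¹ * ∑ σ : Gal(cyc n/ℚ), ext n σ x

/-- The normalized sum of squares of absolute values. -/
noncomputable def tsq (x : ℂ) : ℝ :=
  (Fintype.card Gal(cyc n/ℚ) : ℝ)⁻¹ * ∑ σ : Gal(cyc n/ℚ), ‖ext n σ x‖ ^ 2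

theorem card_ne : (Fintype.card Gal(cyc n/ℚ) : ℂ) ≠ 0 := by
  exact_mod_cast Fintype.card_pos.ne'

theorem card_pos_R : (0 : ℝ) < (Fintype.card Gal(cyc n/ℚ) : ℝ) := by
  exact_mod_cast Fintype.card_pos

theorem tav_add (x y : ℂ) : tav n (x + y) = tav n x + tav n y := by
  unfold tav
  rw [← mul_add, ← Finset.sum_add_distrib]
  simp only [map_add]

theorem tav_zero : tav n 0 = 0 := by
  unfold tav
  simp

theorem tav_sum {ι : Type*} (s : Finset ι) (f : ι → ℂ) :
    tav n (∑ i ∈ s, f i) = ∑ i ∈ s, tav n (f i) := by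
  classical
  induction s using Finset.induction_on with
  | empty => simp [tav_zero]
  | insert a s ha ih => rw [Finset.sum_insert ha, Finset.sum_insert ha, tav_add, ih]

theorem tav_natCast (m : ℕ) : tav n (m : ℂ) = m := by
  unfold tav
  simp only [map_natCast, Finset.sum_const, Finset.card_univ, nsmul_eq_mul]
  rw [← mul_assoc, inv_mul_cancel₀ (card_ne n), one_mul]

theorem tav_intCast (m : ℤ) : tav n (m : ℂ) = m := by
  unfold tav
  simp only [map_intCast, Finset.sum_const, Finset.card_univ, nsmul_eq_mul]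
  rw [← mul_assoc, inv_mul_cancel₀ (card_ne n), one_mul]

theorem tav_intCast_mul (m : ℤ) (x : ℂ) : tav n ((m : ℂ) * x) = m * tav n x := by
  unfold tav
  simp only [map_mul, map_intCast, ← Finset.mul_sum]
  ring

theorem tav_natCast_mul (m : ℕ) (x : ℂ) : tav n ((m : ℂ) * x) = m * tav n x := by
  unfold tav
  simp only [map_mul, map_natCast, ← Finset.mul_sum]
  ring

theorem tav_neg (x : ℂ) : tav n (-x) = - tav n x := by
  unfold tav
  simp only [map_neg, Finset.sum_neg_distrib]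
  ring

theorem tav_sub (x y : ℂ) : tav n (x - y) = tav n x - tav n y := by
  rw [sub_eq_add_neg, tav_add, tav_neg, sub_eq_add_neg]

theorem ext_mem (σ : Gal(cyc n/ℚ)) {x : ℂ} (hx : x ∈ cyc n) : ext n σ x ∈ cyc n := by
  have := ext_spec n σ ⟨x, hx⟩
  simp only at this
  rw [this]
  exact (σ ⟨x, hx⟩).2

/-- Invariance of the normalized trace. -/
theorem tav_ext (σ₀ : Gal(cyc n/ℚ)) {x : ℂ} (hx : x ∈ cyc n) : tav n (ext n σ₀ x) = tav n x := by
  unfold tav
  congr 1
  rw [← Equiv.sum_comp (Equiv.mulRight σ₀) (fun σ => ext n σ x)]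
  refine Finset.sum_congr rfl fun σ _ => ?_
  have h1 := ext_spec n σ₀ ⟨x, hx⟩
  simp only at h1
  rw [h1]
  have h3 := ext_spec n σ ⟨_, (σ₀ ⟨x, hx⟩).2⟩
  simp only at h3
  rw [h3]
  have h2 := ext_spec n (σ * σ₀) ⟨x, hx⟩
  simp only at h2
  simp only [Equiv.coe_mulRight]
  rw [h2]
  rfl

theorem tav_conj {x : ℂ} (hx : x ∈ cyc n) : tav n (conj x) = conj (tav n x) := by
  unfold tav
  rw [map_mul, map_inv₀, map_natCast, map_sum]
  congr 1
  refine Finset.sum_congr rfl fun σ _ => ?_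
  exact conj_comm hn.out _ hx

/-- Conjugation by an automorphism: the sum of squares is computed by the trace. -/
theorem ext_mul_conj (σ : Gal(cyc n/ℚ)) {x : ℂ} (hx : x ∈ cyc n) :
    ext n σ (x * conj x) = ((‖ext n σ x‖ ^ 2 : ℝ) : ℂ) := by
  rw [map_mul, conj_comm hn.out _ hx, Complex.mul_conj']
  push_cast
  rfl

theorem tav_mul_conj {x : ℂ} (hx : x ∈ cyc n) : tav n (x * conj x) = (tsq n x : ℂ) := by
  unfold tav tsq
  simp only [ext_mul_conj n _ hx]
  push_cast
  rfl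

/-- A nonzero integer of the field has `tsq ≥ 1`. -/
theorem tsq_ge_one {x : ℂ} (hx : x ∈ cyc n) (h0 : x ≠ 0) (hint : IsIntegral ℤ x) : 1 ≤ tsq n x := by
  classical
  let x' : cyc n := ⟨x, hx⟩
  have hj0 : x' ≠ 0 := fun h => h0 (congrArg Subtype.val h)
  have hjint : IsIntegral ℤ x' := by
    have : IsIntegral ℤ (algebraMap (cyc n) ℂ x') := hint
    exact (isIntegral_algebraMap_iff (algebraMap (cyc n) ℂ).injective).1 this
  have hnorm := Algebra.isIntegral_norm (K := ℚ) (R := ℤ) hjint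
  obtain ⟨m, hm⟩ := IsIntegrallyClosed.isIntegral_iff.1 hnorm
  have hne : Algebra.norm ℚ x' ≠ 0 := Algebra.norm_ne_zero_iff.2 hj0
  have hm0 : m ≠ 0 := by
    rintro rfl
    apply hne
    rw [← hm]
    simp
  have hprod : ((∏ σ : Gal(cyc n/ℚ), σ x' : cyc n) : ℂ) = (m : ℂ) := by
    have h0 := Algebra.norm_eq_prod_automorphisms ℚ x'
    have h00 : (∏ σ : Gal(cyc n/ℚ), σ x' : cyc n) = algebraMap ℚ (cyc n) (Algebra.norm ℚ x') := by
      rw [h0]
      refine Finset.prod_congr ?_ fun _ _ => rfl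
      ext
      simp
    rw [h00, ← hm]
    simp
  have hext : ∀ σ : Gal(cyc n/ℚ), ext n σ x = ((σ x' : cyc n) : ℂ) := fun σ => ext_spec n σ x'
  have h1 := Cfsg.Agent.H23.card_le_sum_of_prod (Finset.univ : Finset Gal(cyc n/ℚ))
    (fun σ => ‖ext n σ x‖ ^ 2) (fun σ _ => by
      have : ext n σ x ≠ 0 := by
        intro h
        exact h0 ((map_eq_zero (ext n σ)).mp h)
      positivity) (by
      rw [Finset.prod_pow, ← norm_prod]
      refine one_le_pow₀ ?_
      have h3 : ∏ σ : Gal(cyc n/ℚ), ext n σ x = (m : ℂ) := by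
        rw [← hprod]
        simp only [hext]
        push_cast
        rfl
      rw [h3]
      simp only [Complex.norm_intCast]
      exact_mod_cast Int.one_le_abs hm0)
  unfold tsq
  rw [Finset.card_univ] at h1
  have h2 := card_pos_R n
  rw [inv_mul_eq_div, le_div_iff₀ h2, one_mul]
  exact h1

/-- A nonzero integer, totally nonnegative: the normalized trace is at least one. -/
theorem tav_ge_one {x : ℂ} (hx : x ∈ cyc n) (h0 : x ≠ 0) (hint : IsIntegral ℤ x)
    {f : Gal(cyc n/ℚ) → ℝ} (hf : ∀ σ, ext n σ x = (f σ : ℂ)) (hf0 : ∀ σ, 0 ≤ f σ) :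
    ∃ r : ℝ, tav n x = (r : ℂ) ∧ 1 ≤ r := by
  classical
  let x' : cyc n := ⟨x, hx⟩
  have hj0 : x' ≠ 0 := fun h => h0 (congrArg Subtype.val h)
  have hjint : IsIntegral ℤ x' := by
    have : IsIntegral ℤ (algebraMap (cyc n) ℂ x') := hint
    exact (isIntegral_algebraMap_iff (algebraMap (cyc n) ℂ).injective).1 this
  have hnorm := Algebra.isIntegral_norm (K := ℚ) (R := ℤ) hjint
  obtain ⟨m, hm⟩ := IsIntegrallyClosed.isIntegral_iff.1 hnorm
  have hne : Algebra.norm ℚ x' ≠ 0 := Algebra.norm_ne_zero_iff.2 hj0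
  have hm0 : m ≠ 0 := by
    rintro rfl
    apply hne
    rw [← hm]
    simp
  have hprod : ((∏ σ : Gal(cyc n/ℚ), σ x' : cyc n) : ℂ) = (m : ℂ) := by
    have h0 := Algebra.norm_eq_prod_automorphisms ℚ x'
    have h00 : (∏ σ : Gal(cyc n/ℚ), σ x' : cyc n) = algebraMap ℚ (cyc n) (Algebra.norm ℚ x') := by
      rw [h0]
      refine Finset.prod_congr ?_ fun _ _ => rfl
      ext
      simp
    rw [h00, ← hm]
    simp
  have hext : ∀ σ : Gal(cyc n/ℚ), ext n σ x = ((σ x' : cyc n) : ℂ) := fun σ => ext_spec n σ x'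
  have hfpos : ∀ σ, 0 < f σ := by
    intro σ
    refine lt_of_le_of_ne (hf0 σ) fun h => ?_
    have h1 := hf σ
    rw [← h] at h1
    exact h0 ((map_eq_zero (ext n σ)).mp (by simpa using h1))
  have h1 := Cfsg.Agent.H23.card_le_sum_of_prod (Finset.univ : Finset Gal(cyc n/ℚ))
    f (fun σ _ => hfpos σ) (by
      have h3 : ((∏ σ : Gal(cyc n/ℚ), f σ : ℝ) : ℂ) = (m : ℂ) := by
        rw [← hprod]
        push_cast
        simp only [← hf, hext]
      have h4 : (∏ σ : Gal(cyc n/ℚ), f σ : ℝ) = (m : ℝ) := by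
        exact_mod_cast h3
      rw [h4]
      have h5 : (0 : ℝ) < (m : ℝ) := by
        rw [← h4]
        exact Finset.prod_pos fun σ _ => hfpos σ
      have h6 : 0 < m := by exact_mod_cast h5
      exact_mod_cast h6)
  refine ⟨(Fintype.card Gal(cyc n/ℚ) : ℝ)⁻¹ * ∑ σ, f σ, ?_, ?_⟩
  · unfold tav
    simp only [hf]
    push_cast
    rfl
  · rw [Finset.card_univ] at h1
    have h2 := card_pos_R n
    rw [inv_mul_eq_div, le_div_iff₀ h2, one_mul]
    exact h1

/-- The Cauchy inequality for the trace, for a totally nonnegative element. -/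
theorem tav_sq_le {x : ℂ} {f : Gal(cyc n/ℚ) → ℝ} (hf : ∀ σ, ext n σ x = (f σ : ℂ))
    (hf0 : ∀ σ, 0 ≤ f σ) : ∃ r : ℝ, tav n x = (r : ℂ) ∧ 0 ≤ r ∧ r ^ 2 ≤ tsq n x := by
  classical
  refine ⟨(Fintype.card Gal(cyc n/ℚ) : ℝ)⁻¹ * ∑ σ, f σ, ?_, ?_, ?_⟩
  · unfold tav
    simp only [hf]
    push_cast
    rfl
  · have h2 := card_pos_R n
    exact mul_nonneg (inv_nonneg.mpr h2.le) (Finset.sum_nonneg fun σ _ => hf0 σ)
  · have h2 := card_pos_R n
    have h3 : ∀ σ, ‖ext n σ x‖ ^ 2 = f σ ^ 2 := by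
      intro σ
      rw [hf σ, Complex.norm_real, Real.norm_of_nonneg (hf0 σ)]
    unfold tsq
    simp only [h3]
    have h4 := sq_sum_le_card_mul_sum_sq (s := (Finset.univ : Finset Gal(cyc n/ℚ))) (f := f)
    rw [Finset.card_univ] at h4
    rw [mul_pow, inv_pow, sq (Fintype.card Gal(cyc n/ℚ) : ℝ)]
    have h5 : (Fintype.card Gal(cyc n/ℚ) : ℝ) ≠ 0 := h2.ne'
    field_simp
    nlinarith [h4]

end Cfsg.Agent.H15.KC
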