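import Cfsg.Agent.Lib.H15.KC1
import Cfsg.Agent.Lib.H15.KB3

/-! # Parity of the normalized trace on `ℚ(ζ_{2^n})` -/

set_option autoImplicit false
set_option linter.unusedSectionVars false
set_option linter.style.haveILetI false
set_option linter.unusedSimpArgs false
set_option linter.unusedVariables false

namespace Cfsg.Agent.H15.KC

open Cfsg Cfsg.Agent.H21 Cfsg.Agent.H22 Cfsg.Agent.H15.KB Module Polynomial
open scoped ComplexConjugate

universe u

theorem exists_aut_pow (n : ℕ) [hn : NeZero n] {c : ℕ} (hc : c.Coprime n) :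
    ∃ σ : Gal(cyc n/ℚ), ∀ ρ : ℂ, ρ ^ n = 1 → ext n σ ρ = ρ ^ c := by
  classical
  set z : cyc n := IsCyclotomicExtension.zeta n ℚ (cyc n) with hz
  have hzp : IsPrimitiveRoot z n := IsCyclotomicExtension.zeta_spec n ℚ (cyc n)
  have hμ : IsPrimitiveRoot (z ^ c) n := hzp.pow_of_coprime c hc
  have hirr : Irreducible (Polynomial.cyclotomic n ℚ) :=
    Polynomial.cyclotomic.irreducible_rat (Nat.pos_of_ne_zero hn.out)
  let σ : cyc n ≃ₐ[ℚ] cyc n := IsCyclotomicExtension.fromZetaAut hμ hirr
  have hσ : σ z = z ^ c := IsCyclotomicExtension.fromZetaAut_spec hμ hirr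
  refine ⟨σ, fun ρ hρ => ?_⟩
  have hmem : ρ ∈ cyc n := root_mem_cyc hn.out hρ
  let ρ' : cyc n := ⟨ρ, hmem⟩
  have hρ' : ρ' ^ n = 1 := Subtype.ext hρ
  obtain ⟨e, -, he⟩ := hzp.eq_pow_of_pow_eq_one hρ'
  have h1 := ext_spec n σ ρ'
  have h2 : σ ρ' = ρ' ^ c := by
    rw [← he, map_pow, hσ, ← pow_mul, ← pow_mul, mul_comm]
  show ext n σ (ρ' : ℂ) = (ρ' : ℂ) ^ c
  rw [h1, h2]
  rfl

variable (N : ℕ)

theorem sq_one_cases {y : ℂ} (h : y ^ 2 = 1) : y = 1 ∨ y = -1 := by
  have h1 : (y - 1) * (y + 1) = 0 := by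
    linear_combination h
  rcases mul_eq_zero.mp h1 with h2 | h2
  · left
    linear_combination h2
  · right
    linear_combination h2

theorem tav_root {ρ : ℂ} (hρ : ρ ^ (2 ^ (N + 1)) = 1) (h1 : ρ ≠ 1) (h2 : ρ ≠ -1) :
    tav (2 ^ (N + 1)) ρ = 0 := by
  classical
  obtain ⟨j, -, hj⟩ := (Nat.dvd_prime_pow Nat.prime_two).mp (orderOf_dvd_of_pow_eq_one hρ)
  have hj2 : 2 ≤ j := by
    by_contra hlt
    have : j = 0 ∨ j = 1 := by omega
    rcases this with rfl | rfl
    · rw [pow_zero] at hj
      exact h1 (orderOf_eq_one_iff.mp hj)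
    · rw [pow_one] at hj
      have h3 : ρ ^ 2 = 1 := by
        rw [← hj]
        exact pow_orderOf_eq_one ρ
      rcases sq_one_cases h3 with h | h
      · exact h1 h
      · exact h2 h
  obtain ⟨i, rfl⟩ : ∃ i, j = i + 1 := ⟨j - 1, by omega⟩
  have hi : 1 ≤ i := by omega
  set y := ρ ^ (2 ^ i) with hy
  have hy2 : y ^ 2 = 1 := by
    rw [hy, ← pow_mul, ← pow_succ, ← hj]
    exact pow_orderOf_eq_one ρ
  have hy1 : y ≠ 1 := by
    intro h
    have h3 := orderOf_dvd_of_pow_eq_one h
    rw [hj] at h3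
    have h4 := Nat.pow_dvd_pow_iff_le_right (by norm_num : 1 < 2) |>.mp h3
    omega
  have hym : y = -1 := (sq_one_cases hy2).resolve_left hy1
  have hc : (1 + 2 ^ i).Coprime (2 ^ (N + 1)) := by
    apply Nat.Coprime.pow_right
    rw [Nat.coprime_two_right]
    have : Even (2 ^ i) := (Nat.even_pow.mpr ⟨even_two, by omega⟩)
    exact Even.one_add this
  obtain ⟨σ, hσ⟩ := exists_aut_pow (2 ^ (N + 1)) hc
  have h3 : ext (2 ^ (N + 1)) σ ρ = -ρ := by
    rw [hσ ρ hρ, pow_add, pow_one, ← hy, hym]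
    ring
  have hmem : ρ ∈ cyc (2 ^ (N + 1)) := root_mem_cyc (NeZero.ne _) hρ
  have h4 := tav_ext (2 ^ (N + 1)) σ hmem
  rw [h3, tav_neg] at h4
  have h5 : (2 : ℂ) * tav (2 ^ (N + 1)) ρ = 0 := by
    linear_combination -h4
  simpa using h5

theorem tav_one (n : ℕ) [NeZero n] : tav n 1 = 1 := by
  have := tav_natCast n 1
  simpa using this

/-- A primitive root. -/
noncomputable abbrev zt (N : ℕ) : ℂ := Complex.exp (2 * Real.pi * Complex.I / ((2 ^ (N + 1) : ℕ) : ℂ))

theorem zt_prim : IsPrimitiveRoot (zt N) (2 ^ (N + 1)) := zeta_prim (2 ^ (N + 1))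

theorem zt_half : zt N ^ (2 ^ N) = -1 := by
  have h1 := zt_prim N
  have h2 : (zt N ^ (2 ^ N)) ^ 2 = 1 := by
    rw [← pow_mul, ← pow_succ]
    exact h1.pow_eq_one
  refine (sq_one_cases h2).resolve_left fun h => ?_
  have h3 := h1.dvd_of_pow_eq_one _ h
  have h4 := Nat.pow_dvd_pow_iff_le_right (by norm_num : 1 < 2) |>.mp h3
  omega

theorem zt_pow_one_iff (e : ℕ) : zt N ^ e = 1 ↔ 2 ^ (N + 1) ∣ e := (zt_prim N).pow_eq_one_iff_dvd e

theorem zt_pow_ne_one {e : ℕ} (h0 : 0 < e) (h1 : e < 2 ^ (N + 1)) : zt N ^ e ≠ 1 := by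
  intro h
  have := (zt_pow_one_iff N e).mp h
  exact absurd (Nat.le_of_dvd h0 this) (by omega)

theorem zt_pow_ne_neg {e : ℕ} (h : ¬ (2 ^ (N + 1) ∣ e + 2 ^ N)) : zt N ^ e ≠ -1 := by
  intro h1
  apply h
  rw [← zt_pow_one_iff, pow_add, h1, zt_half]
  norm_num

theorem tav_zt (e : ℕ) (h1 : ¬ (2 ^ (N + 1) ∣ e)) (h2 : ¬ (2 ^ (N + 1) ∣ e + 2 ^ N)) :
    tav (2 ^ (N + 1)) (zt N ^ e) = 0 := by
  refine tav_root N ?_ ?_ (zt_pow_ne_neg N h2)
  · rw [← pow_mul, mul_comm, pow_mul, (zt_prim N).pow_eq_one, one_pow]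
  · rw [Ne, zt_pow_one_iff]
    exact h1

/-- **Parity of the normalized trace.** -/
theorem tav_parity {M : Ideal AlgInt} (hM : IsPModular 2 M) {x : ℂ} (hx : x ∈ cyc (2 ^ (N + 1)))
    (hint : IsIntegral ℤ x) (hreal : conj x = x) :
    ∃ c : ℤ, tav (2 ^ (N + 1)) x = c ∧ MemLocalIdeal M (x - c) := by
  classical
  haveI hMp : M.IsPrime := hM.2.1.isPrime
  set n := 2 ^ (N + 1) with hn
  set h := 2 ^ N with hh
  have hn2 : n = 2 * h := by rw [hn, hh, pow_succ]; ring
  have hhpos : 0 < h := by positivity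
  set ζ := zt N with hζ
  have hζp : IsPrimitiveRoot ζ n := zt_prim N
  -- expression by powers of `ζ`
  let E := cyc n
  let ζE : E := ⟨ζ, IntermediateField.mem_adjoin_simple_self ℚ ζ⟩
  have hζE : IsPrimitiveRoot ζE n := by
    exact IsPrimitiveRoot.of_map_of_injective (f := algebraMap E ℂ) hζp (algebraMap E ℂ).injective
  let x' : E := ⟨x, hx⟩
  have hx'int : IsIntegral ℤ x' := by
    have : IsIntegral ℤ (algebraMap E ℂ x') := hint
    exact (isIntegral_algebraMap_iff (algebraMap E ℂ).injective).1 this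
  haveI : IsCyclotomicExtension {2 ^ (N + 1)} ℚ E := cyc_isCyc n
  have hcl := IsCyclotomicExtension.Rat.isIntegralClosure_adjoin_singleton_of_prime_pow
    (p := 2) (k := N + 1) (K := E) hζE
  obtain ⟨y, hy⟩ := hcl.isIntegral_iff.1 hx'int
  have hy2 : x' ∈ Algebra.adjoin ℤ ({ζE} : Set E) := by
    rw [← hy]
    exact y.2
  rw [Algebra.adjoin_singleton_eq_range_aeval] at hy2
  obtain ⟨f, hf⟩ := hy2
  let q : ℤ[X] := X ^ h + 1
  have hqm : q.Monic := by
    simpa [q] using monic_X_pow_add_C (1 : ℤ) hhpos.ne'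
  have hqdeg : q.natDegree = h := by
    simpa [q] using natDegree_X_pow_add_C (n := h) (r := (1 : ℤ))
  have hq0 : Polynomial.aeval ζ q = 0 := by
    simp [q, hζ, hh, zt_half]
  set r := f %ₘ q with hr
  have hrdeg : r.natDegree < h := by
    have := natDegree_modByMonic_lt f hqm (by
      intro h1
      rw [h1] at hqdeg
      simp at hqdeg
      omega)
    rwa [hqdeg] at this
  have hfC : Polynomial.aeval ζ f = x := by
    have h1 : algebraMap E ℂ (Polynomial.aeval ζE f) = x := by
      have h2 := congrArg (algebraMap E ℂ) hf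
      exact h2
    rw [← h1, ← Polynomial.aeval_algebraMap_apply]
    rfl
  have hxr : x = ∑ i ∈ Finset.range h, (r.coeff i : ℂ) * ζ ^ i := by
    have h1 := modByMonic_add_div f q
    have h2 := congrArg (Polynomial.aeval ζ) h1
    rw [map_add, map_mul, hq0, zero_mul, add_zero, hfC] at h2
    rw [← h2, aeval_eq_sum_range' hrdeg]
    refine Finset.sum_congr rfl fun i _ => ?_
    simp
  have hζmem : ζ ∈ cyc n := IntermediateField.mem_adjoin_simple_self ℚ ζ
  -- the trace on translates
  have htr : ∀ e : ℕ, tav n (x * ζ ^ e) = ∑ i ∈ Finset.range h, (r.coeff i : ℂ) * tav n (ζ ^ (i + e)) := by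
    intro e
    rw [hxr, Finset.sum_mul, tav_sum]
    refine Finset.sum_congr rfl fun i _ => ?_
    rw [mul_assoc, tav_intCast_mul, pow_add]
  have hc0 : tav n x = (r.coeff 0 : ℂ) := by
    have h1 := htr 0
    rw [pow_zero, mul_one] at h1
    rw [h1, Finset.sum_eq_single 0]
    · simp [tav_one]
    · intro i hi hi0
      have hi' := Finset.mem_range.mp hi
      rw [add_zero, tav_zt N i, mul_zero]
      · intro hd
        have := Nat.le_of_dvd (by omega) hd
        omega
      · intro hd
        have := Nat.le_of_dvd (by omega) hd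
        omega
    · intro h1
      exact absurd (Finset.mem_range.mpr hhpos) h1
  have hA : ∀ j, 0 < j → j < h → tav n (x * ζ ^ (n - j)) = (r.coeff j : ℂ) := by
    intro j hj0 hjh
    rw [htr, Finset.sum_eq_single j]
    · rw [Nat.add_sub_cancel' (by omega : j ≤ n), hζp.pow_eq_one, tav_one, mul_one]
    · intro i hi hij
      have hi' := Finset.mem_range.mp hi
      rw [tav_zt N (i + (n - j)), mul_zero]
      · intro hd
        obtain ⟨m, hm⟩ := hd
        have h1 : i + (n - j) = n * m := hm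
        have hm1 : m = 1 := by
          have h2 : 0 < m := by
            rcases Nat.eq_zero_or_pos m with rfl | h
            · simp at h1; omega
            · exact h
          have h3 : m < 2 := by
            by_contra h4
            have : n * 2 ≤ n * m := Nat.mul_le_mul_left n (by omega)
            omega
          omega
        subst hm1
        omega
      · intro hd
        obtain ⟨m, hm⟩ := hd
        have h1 : i + (n - j) + h = n * m := hm
        have h2 : 0 < m := by
          rcases Nat.eq_zero_or_pos m with rfl | h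
          · simp at h1; omega
          · exact h
        have h3 : m < 2 := by
          by_contra h4
          have : n * 2 ≤ n * m := Nat.mul_le_mul_left n (by omega)
          omega
        have hm1 : m = 1 := by omega
        subst hm1
        omega
    · intro h1
      exact absurd (Finset.mem_range.mpr hjh) h1
  have hB : ∀ j, 0 < j → j < h → tav n (x * ζ ^ j) = -(r.coeff (h - j) : ℂ) := by
    intro j hj0 hjh
    rw [htr, Finset.sum_eq_single (h - j)]
    · rw [Nat.sub_add_cancel hjh.le]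
      have h1 : ζ ^ h = -1 := zt_half N
      rw [h1, tav_neg, tav_one]
      ring
    · intro i hi hij
      have hi' := Finset.mem_range.mp hi
      rw [tav_zt N (i + j), mul_zero]
      · intro hd
        have := Nat.le_of_dvd (by omega) hd
        omega
      · intro hd
        obtain ⟨m, hm⟩ := hd
        have h1 : i + j + h = n * m := hm
        have h2 : 0 < m := by
          rcases Nat.eq_zero_or_pos m with rfl | h
          · simp at h1; omega
          · exact h
        have h3 : m < 2 := by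
          by_contra h4
          have : n * 2 ≤ n * m := Nat.mul_le_mul_left n (by omega)
          omega
        have hm1 : m = 1 := by omega
        subst hm1
        omega
    · intro h1
      exact absurd (Finset.mem_range.mpr (by omega)) h1
  have hsym : ∀ j, 0 < j → j < h → r.coeff j = - r.coeff (h - j) := by
    intro j hj0 hjh
    have h1 : conj (x * ζ ^ (n - j)) = x * ζ ^ j := by
      rw [map_mul, hreal, map_pow]
      have hnorm : ‖ζ‖ = 1 := hζp.norm'_eq_one (NeZero.ne _)
      rw [← Complex.inv_eq_conj hnorm]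
      congr 1
      have h2 : ζ ^ (n - j) * ζ ^ j = 1 := by
        rw [← pow_add, Nat.sub_add_cancel (by omega : j ≤ n), hζp.pow_eq_one]
      rw [inv_pow]
      exact inv_eq_of_mul_eq_one_right h2
    have h2 := tav_conj n (mul_mem hx (pow_mem hζmem (n - j)))
    rw [h1, hA j hj0 hjh, hB j hj0 hjh, map_intCast] at h2
    have h3 : -(r.coeff (h - j) : ℂ) = (r.coeff j : ℂ) := h2
    have h4 : ((- r.coeff (h - j) : ℤ) : ℂ) = (r.coeff j : ℂ) := by
      push_cast
      exact h3
    exact (Int.cast_injective h4).symm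
  have hS : ∑ j ∈ Finset.Ico 1 h, r.coeff j = 0 := by
    have h1 : ∑ j ∈ Finset.Ico 1 h, r.coeff j = ∑ j ∈ Finset.Ico 1 h, r.coeff (h - j) := by
      refine Finset.sum_nbij' (fun j => h - j) (fun j => h - j) ?_ ?_ ?_ ?_ ?_
      · intro j hj
        simp only [Finset.mem_Ico] at hj ⊢
        omega
      · intro j hj
        simp only [Finset.mem_Ico] at hj ⊢
        omega
      · intro j hj
        simp only [Finset.mem_Ico] at hj ⊢
        omega
      · intro j hj
        simp only [Finset.mem_Ico] at hj ⊢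
        omega
      · intro j hj
        simp only [Finset.mem_Ico] at hj ⊢
        congr 1
        omega
    have h2 : ∑ j ∈ Finset.Ico 1 h, r.coeff j = - ∑ j ∈ Finset.Ico 1 h, r.coeff (h - j) := by
      rw [← Finset.sum_neg_distrib]
      refine Finset.sum_congr rfl fun j hj => ?_
      simp only [Finset.mem_Ico] at hj
      exact hsym j (by omega) hj.2
    omega
  refine ⟨r.coeff 0, hc0, ?_⟩
  have hsplit : x - (r.coeff 0 : ℂ) = ∑ j ∈ Finset.Ico 1 h, (r.coeff j : ℂ) * (ζ ^ j - 1) := by
    have h1 : ∑ j ∈ Finset.Ico 1 h, (r.coeff j : ℂ) * (ζ ^ j - 1) =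
        ∑ j ∈ Finset.Ico 1 h, (r.coeff j : ℂ) * ζ ^ j - ((∑ j ∈ Finset.Ico 1 h, r.coeff j : ℤ) : ℂ) := by
      push_cast
      rw [← Finset.sum_sub_distrib]
      refine Finset.sum_congr rfl fun j _ => ?_
      ring
    rw [h1, hS, hxr, Finset.range_eq_Ico, Finset.sum_eq_sum_Ico_succ_bot hhpos]
    simp
  rw [hsplit]
  refine mli_sum _ _ fun j _ => mli_mul_left ?_ (mlr_of_isIntegral (isIntegral_intCast _))
  refine (root_mli (p := 2) hM (k := N + 1) ?_).2
  rw [← pow_mul, mul_comm, pow_mul, hζp.pow_eq_one, one_pow]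

end Cfsg.Agent.H15.KC
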