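import Cfsg.Agent.Lib.H15.KC2
import Cfsg.Agent.Lib.H15.KB5

/-! # The contribution matrix of a subsection -/

set_option autoImplicit false
set_option linter.unusedSectionVars false
set_option linter.style.haveILetI false
set_option linter.unusedSimpArgs false
set_option linter.unusedVariables false

namespace Cfsg.Agent.H15.KC

open Cfsg Cfsg.Agent.H21 Cfsg.Agent.H22 Cfsg.Agent.H15.KB Cfsg.Agent.H15.HZ Module
open scoped ComplexConjugate

universe u

variable {G : Type u} [Group G] [Finite G] {p : ℕ} [hp : Fact p.Prime] {M : Ideal AlgInt}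
variable [hMi : M.IsPrime] (z : G)

theorem PP_swap (b : Set (IrrCharacter (Cz z))) (χ ψ : IrrCharacter G) :
    conj (PP z p b χ ψ) = PP z p b ψ χ := by
  unfold PP
  rw [map_mul, map_inv₀, map_natCast, map_sum]
  congr 1
  refine Finset.sum_congr rfl fun s _ => ?_
  rw [map_mul, Complex.conj_conj, mul_comm]

theorem blockPart_idem {H : Type*} [Group H] [Finite H] (b : Set (IrrCharacter H)) (φ : H → ℂ) :
    blockPart b (blockPart b φ) = blockPart b φ := by
  classical
  have h1 : blockPart b φ = ∑ ξ : IrrCharacter H, (eB b ξ * classInner φ ξ.1) • ξ.1 := by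
    funext t
    rw [blockPart_eq, Finset.sum_apply]
    refine Finset.sum_congr rfl fun ξ _ => ?_
    simp only [Pi.smul_apply, smul_eq_mul]
    ring
  funext t
  rw [blockPart_eq, blockPart_eq]
  refine Finset.sum_congr rfl fun ξ _ => ?_
  rw [h1, classInner_sum_smul_irr]
  have h4 : eB b ξ * eB b ξ = eB b ξ := congrFun (eB_mul_self b) ξ
  calc eB b ξ * (eB b ξ * classInner φ ξ.1 * ξ.1 t) = (eB b ξ * eB b ξ) * (classInner φ ξ.1 * ξ.1 t) := by ring
    _ = _ := by rw [h4]

theorem rp_repro (hM : IsPModular p M) {b : Set (IrrCharacter (Cz z))} (hb : IsPBlock M b)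
    (χ : IrrCharacter G) (t : Cz z) :
    ∑ s : Cz z, rp p (bpt z b χ) s * rk p b t s = (Nat.card (Cz z) : ℂ) * rp p (bpt z b χ) t := by
  classical
  have hC : (Nat.card (Cz z) : ℂ) ≠ 0 := card_ne_zero_C
  by_cases ht : p ∣ orderOf t
  · simp [rk_sing b ht, rp_of_sing _ ht]
  · rw [rp_of_reg _ ht]
    have h1 : ∑ s : Cz z, rp p (bpt z b χ) s * rk p b t s =
        ∑ s : Cz z, bpt z b χ s * kerK b t s := by
      refine Finset.sum_congr rfl fun s _ => ?_
      rw [rk_reg hM hb ht]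
      by_cases hs : p ∣ orderOf s
      · rw [kerK_singular hM hb ht hs, mul_zero, mul_zero]
      · rw [rp_of_reg _ hs]
    have h2 := blockPart_eq_kernel b (bpt z b χ) t
    have h3 : blockPart b (bpt z b χ) = bpt z b χ := by
      unfold bpt
      exact blockPart_idem b _
    rw [h3] at h2
    rw [h1]
    conv_rhs => rw [h2]
    rw [← mul_assoc, mul_inv_cancel₀ hC, one_mul]

/-- The row relation. -/
theorem sum_row_PP (hM : IsPModular p M) {k : ℕ} (hz : orderOf z = p ^ k)
    {b : Set (IrrCharacter (Cz z))} (hb : IsPBlock M b) (χ : IrrCharacter G) :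
    ∑ ψ : IrrCharacter G, PP z p b χ ψ * conj (PP z p b χ ψ) = PP z p b χ χ := by
  classical
  have hC : (Nat.card (Cz z) : ℂ) ≠ 0 := card_ne_zero_C
  have h1 : ∀ ψ : IrrCharacter G, PP z p b χ ψ * conj (PP z p b χ ψ) =
      (Nat.card (Cz z) : ℂ)⁻¹ * (Nat.card (Cz z) : ℂ)⁻¹ * ∑ s : Cz z, ∑ t : Cz z,
        (rp p (bpt z b χ) s * conj (rp p (bpt z b χ) t)) *
          (rp p (bpt z b ψ) t * conj (rp p (bpt z b ψ) s)) := by
    intro ψ
    unfold PP
    rw [map_mul, map_inv₀, map_natCast, map_sum]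
    rw [show ∀ a b c d : ℂ, a * b * (c * d) = a * c * (b * d) from fun a b c d => by ring]
    congr 1
    rw [Finset.sum_mul_sum]
    refine Finset.sum_congr rfl fun s _ => Finset.sum_congr rfl fun t _ => ?_
    rw [map_mul, Complex.conj_conj]
    ring
  simp only [h1, ← Finset.mul_sum]
  have h2 : ∑ ψ : IrrCharacter G, ∑ s : Cz z, ∑ t : Cz z,
      (rp p (bpt z b χ) s * conj (rp p (bpt z b χ) t)) *
          (rp p (bpt z b ψ) t * conj (rp p (bpt z b ψ) s)) =
      ∑ t : Cz z, conj (rp p (bpt z b χ) t) * ∑ s : Cz z, rp p (bpt z b χ) s * rk p b t s := by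
    rw [Finset.sum_comm]
    rw [Finset.sum_congr rfl fun s _ => Finset.sum_comm]
    rw [Finset.sum_comm]
    refine Finset.sum_congr rfl fun t _ => ?_
    rw [Finset.mul_sum]
    refine Finset.sum_congr rfl fun s _ => ?_
    rw [← rp_bpt_sum z hM hz hb t s, Finset.mul_sum, Finset.mul_sum]
    refine Finset.sum_congr rfl fun ψ _ => ?_
    ring
  rw [h2]
  simp only [rp_repro z hM hb]
  unfold PP
  have h3 : ∀ t : Cz z, conj (rp p (bpt z b χ) t) * ((Nat.card (Cz z) : ℂ) * rp p (bpt z b χ) t) =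
      (Nat.card (Cz z) : ℂ) * (rp p (bpt z b χ) t * conj (rp p (bpt z b χ) t)) := fun t => by ring
  simp only [h3, ← Finset.mul_sum]
  field_simp

/-- The trace of the contribution matrix. -/
theorem sum_trace_PP (hM : IsPModular p M) {k : ℕ} (hz : orderOf z = p ^ k)
    {b : Set (IrrCharacter (Cz z))} (hb : IsPBlock M b) :
    ∑ χ : IrrCharacter G, PP z p b χ χ = (blockRank p b : ℂ) := by
  classical
  have hC : (Nat.card (Cz z) : ℂ) ≠ 0 := card_ne_zero_C
  unfold PP
  rw [← Finset.mul_sum, Finset.sum_comm]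
  simp only [rp_bpt_sum z hM hz hb]
  rw [sum_rk_self hM hb]
  field_simp

/-- The contribution matrix. -/
noncomputable def WW (p : ℕ) (b : Set (IrrCharacter (Cz z))) (χ ψ : IrrCharacter G) : ℂ :=
  (p : ℂ) ^ blockDefect p b * PP z p b χ ψ

theorem WW_swap (b : Set (IrrCharacter (Cz z))) (χ ψ : IrrCharacter G) :
    conj (WW z p b χ ψ) = WW z p b ψ χ := by
  unfold WW
  rw [map_mul, map_pow, Complex.conj_natCast, PP_swap]

theorem WW_row (hM : IsPModular p M) {k : ℕ} (hz : orderOf z = p ^ k)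
    {b : Set (IrrCharacter (Cz z))} (hb : IsPBlock M b) (χ : IrrCharacter G) :
    ∑ ψ : IrrCharacter G, WW z p b χ ψ * conj (WW z p b χ ψ) =
      (p : ℂ) ^ blockDefect p b * WW z p b χ χ := by
  unfold WW
  rw [← sum_row_PP z hM hz hb χ]
  simp only [map_mul, map_pow, Complex.conj_natCast, Finset.mul_sum]
  refine Finset.sum_congr rfl fun ψ _ => ?_
  ring

theorem WW_trace (hM : IsPModular p M) {k : ℕ} (hz : orderOf z = p ^ k)
    {b : Set (IrrCharacter (Cz z))} (hb : IsPBlock M b) :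
    ∑ χ : IrrCharacter G, WW z p b χ χ = (p : ℂ) ^ blockDefect p b * (blockRank p b : ℂ) := by
  unfold WW
  rw [← Finset.mul_sum, sum_trace_PP z hM hz hb]

theorem WW_mem_cyc (hM : IsPModular p M) {k : ℕ} (hz : orderOf z = p ^ k)
    {b : Set (IrrCharacter (Cz z))} (hb : IsPBlock M b) (n : ℕ) [hn : NeZero n] (hdvd : p ^ k ∣ n)
    (χ ψ : IrrCharacter G) : WW z p b χ ψ ∈ cyc n := by
  classical
  obtain ⟨R, hR⟩ := key_congr hM hb
  have hal : ∀ (χ : IrrCharacter G) (ξ : IrrCharacter (Cz z)), al z χ ξ ∈ cyc n := by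
    intro χ ξ
    rw [al_eq]
    obtain ⟨m, hm⟩ := mm_nat z χ ξ
    rw [hm]
    refine mul_mem (natCast_mem _ _) (root_mem_cyc hn.out ?_)
    obtain ⟨c, hc⟩ := hdvd
    rw [hc, pow_mul, eps_root z hz ξ, one_pow]
  unfold WW
  rw [PP_expand, Finset.mul_sum]
  refine sum_mem fun ξ _ => ?_
  rw [Finset.mul_sum]
  refine sum_mem fun ξ' _ => ?_
  by_cases hξ : ξ ∈ b
  · by_cases hξ' : ξ' ∈ b
    · rw [eB_apply_mem hξ, eB_apply_mem hξ']
      obtain ⟨m, hm, -⟩ := crt_block hM hb hR hξ hξ'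
      have h1 : (p : ℂ) ^ blockDefect p b * (1 * 1 * (al z χ ξ * conj (al z ψ ξ') * crt p ξ ξ')) =
          al z χ ξ * conj (al z ψ ξ') * (m : ℂ) := by
        rw [← hm]
        ring
      rw [h1]
      exact mul_mem (mul_mem (hal χ ξ) (conj_mem_cyc hn.out (hal ψ ξ'))) (intCast_mem _ _)
    · rw [eB_apply_not_mem hξ']
      simp
  · rw [eB_apply_not_mem hξ]
    simp

end Cfsg.Agent.H15.KC
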