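import Cfsg.Agent.Lib.H15.KC3

/-! # Height zero characters and subsections -/

set_option autoImplicit false
set_option linter.unusedSectionVars false
set_option linter.style.haveILetI false
set_option linter.unusedSimpArgs false
set_option linter.unusedVariables false

namespace Cfsg.Agent.H15.KC

open Cfsg Cfsg.Agent.H21 Cfsg.Agent.H22 Cfsg.Agent.H15.KB Cfsg.Agent.H15.HZ Module
open scoped ComplexConjugate

universe u

variable {G : Type u} [Group G] [Finite G] {p : ℕ} [hp : Fact p.Prime] {M : Ideal AlgInt}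
variable [hMi : M.IsPrime]

/-- Passing the vanishing on the centralizer of a defect group of `b` to a maximal pair of `B`. -/
theorem no_vanish' (hMp : IsPModular p M) {B : Set (IrrCharacter G)} (hB : IsPBlock M B)
    {χ : IrrCharacter G} (hχ : χ ∈ B) (h0 : blockHeight p B χ.1 = 0) {Q : Subgroup G}
    (hQ : IsPGroup p Q) (hQab : Q ≤ Subgroup.centralizer (Q : Set G))
    {b : Set (IrrCharacter (Subgroup.centralizer (Q : Set G)))}
    (hb : IsInducedBlock M (Subgroup.centralizer (Q : Set G)) b B)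
    {D : Subgroup (Subgroup.centralizer (Q : Set G))}
    (hD : IsDefectGroup p M b D)
    (hV : ∀ s : Subgroup.centralizer (Q : Set G), s ∈ Subgroup.centralizer (D : Set (Subgroup.centralizer (Q : Set G))) →
      MemLocalIdeal M (TT χ.1 (subgroupBlockCoeff (Subgroup.centralizer (Q : Set G)) b) s)) : False := by
  classical
  have hpair := pair_of_induced_centralizer hMp hQ hb
  have hFb : IsPBlock M b := hb.1
  have hnorm : (Q.subgroupOf (Subgroup.centralizer (Q : Set G))).Normal := by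
    refine ⟨fun q hq c => ?_⟩
    rw [Subgroup.mem_subgroupOf] at hq ⊢
    have hcq : (c : G) * q * (c : G)⁻¹ = q := by
      have := Subgroup.mem_centralizer_iff.mp c.2 q hq
      rw [← this]
      group
    show ((c : G) * q * (c : G)⁻¹) ∈ Q
    rw [hcq]
    exact hq
  have hle := normal_le_defect hMp (Q := Q.subgroupOf (Subgroup.centralizer (Q : Set G)))
    hQ.comap_subtype hFb hD
  have hQR : Q ≤ D.map (Subgroup.centralizer (Q : Set G)).subtype := by
    intro q hq
    exact ⟨⟨q, hQab hq⟩, hle (Subgroup.mem_subgroupOf.mpr hq), rfl⟩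
  have hz := zComp_map' (le_refl _) hQR
  obtain ⟨d, hd⟩ := exists_maximal_on_defect hMp hD hFb
  have hDp : IsPGroup p D := defect_isPGroup hD
  have hRC : D.map (Subgroup.centralizer (Q : Set G)).subtype ≤ Subgroup.centralizer (Q : Set G) :=
    Subgroup.map_subtype_le D
  have hRN : D.map (Subgroup.centralizer (Q : Set G)).subtype ≤ Subgroup.normalizer (Q : Set G) := by
    intro y hy
    rw [Subgroup.mem_normalizer_iff]
    intro q
    have hyc := hRC hy
    constructor
    · intro hq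
      have := Subgroup.mem_centralizer_iff.mp hyc q hq
      rw [← this]
      simpa using hq
    · intro hq
      have h1 := Subgroup.mem_centralizer_iff.mp hyc _ hq
      have h3 : y * q = y * (y * q * y⁻¹) := by
        rw [← h1]
        group
      rw [mul_left_cancel h3]
      exact hq
  have hn' := normalSubpair_of_pair hz (fun t => (sbc_of_coe _ b t).symm) hpair.1 (hDp.map _) hQR hRN
    (fun x hx => stabilizes_of_mem b (hRC hx)) hd.1
  have hR := isBrauerPairOf_of_normalSubpair hMp hn' hpair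
  obtain ⟨hf, he, hQP, hPN, hst, hsub⟩ := isNormalSubpair_iff.mp hn'
  have hCC : Subgroup.centralizer ((D.map (Subgroup.centralizer (Q : Set G)).subtype : Subgroup G) : Set G) ≤
      Subgroup.centralizer (Q : Set G) := centralizer_le_of_le hQP
  have hkey := fun y : Subgroup.centralizer ((D.map (Subgroup.centralizer (Q : Set G)).subtype : Subgroup G) : Set G) =>
    TT_congr hMp χ he.1 (a := subgroupBlockCoeff (Subgroup.centralizer (Q : Set G)) b)
    (sbc_mlr _ (blockSat_of_isBlock hf.2)) (sbc_Ad_of_stable hst) (sbc_Ad_of_le hCC b)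
    (fun g => by rw [sbc_conv_self, sub_self]; exact mli_zero) y
  have hVV : VV M χ ⟨_, irrMap (zIso hz) '' d⟩ := by
    refine fun s => TT_cut χ _ he.2 hsub (fun y => ?_) s
    have h1 := hV ⟨y, hCC y.2⟩ ((hz y.1).mp y.2).2
    simp only at h1
    have h2 := mli_sub h1 (hkey y)
    simpa using h2
  obtain ⟨P, e, hmax, hchain⟩ := exists_maximal_above hMp hR
  have hV' : ∀ a : BrauerPairIdx G,
      Relation.ReflTransGen (NormalSubpairRel p M) ⟨_, irrMap (zIso hz) '' d⟩ a → VV M χ a := by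
    intro a ha
    induction ha with
    | refl => exact hVV
    | tail _ h2 ih => exact VV_step hMp χ h2 ih
  have hVP := hV' ⟨P, e⟩ hchain
  obtain ⟨g, hg, S, hS⟩ := isDefectGroup_of_maximal hMp hmax
  have hgP : g ∈ Subgroup.centralizer (P : Set G) := by
    rw [Subgroup.mem_centralizer_iff]
    intro q hq
    have hq' : q ∈ (S : Subgroup (Subgroup.centralizer ({g} : Set G))).map
        (Subgroup.centralizer ({g} : Set G)).subtype := by
      rw [← hS]
      exact hq
    obtain ⟨q₁, -, rfl⟩ := hq'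
    exact (Subgroup.mem_centralizer_singleton_iff.mp q₁.2)
  have h1 := VV_top hMp hmax hχ hVP ⟨g, hgP⟩
  have h2 := height_zero_not_mli hMp hB hg hχ (height_zero_iff hχ h0) (x := 1)
    (Commute.one_left g) (k := 0) (by simp)
  rw [one_mul] at h2
  exact h2 h1

theorem no_vanish_gen' (hMp : IsPModular p M) {B : Set (IrrCharacter G)} (hB : IsPBlock M B)
    {χ : IrrCharacter G} (hχ : χ ∈ B) (h0 : blockHeight p B χ.1 = 0) {x : G} {k : ℕ}
    (hx : orderOf x = p ^ k) {C : Subgroup G}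
    (hC : C = Subgroup.centralizer (Subgroup.zpowers x : Set G)) {b : Set (IrrCharacter C)}
    (hb : IsInducedBlock M C b B) {D : Subgroup C}
    (hD : IsDefectGroup p M b D)
    (hV : ∀ s : C, s ∈ Subgroup.centralizer (D : Set C) →
      MemLocalIdeal M (TT χ.1 (subgroupBlockCoeff C b) s)) : False := by
  subst hC
  have hQab : Subgroup.zpowers x ≤ Subgroup.centralizer (Subgroup.zpowers x : Set G) := by
    intro a ha
    rw [Subgroup.mem_centralizer_iff]
    intro c hc
    obtain ⟨i, rfl⟩ := Subgroup.mem_zpowers_iff.mp ha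
    obtain ⟨j, rfl⟩ := Subgroup.mem_zpowers_iff.mp hc
    exact (Commute.zpow_zpow_self x j i).eq
  exact no_vanish' hMp hB hχ h0 (isPGroup_zpowers_of_orderOf hx) hQab hb hD hV

/-- **The unit lemma for all subsections.** -/
theorem eta_unit' (hMp : IsPModular p M) {B : Set (IrrCharacter G)} (hB : IsPBlock M B)
    {χ : IrrCharacter G} (hχ : χ ∈ B) (h0 : blockHeight p B χ.1 = 0) {z : G} {k : ℕ}
    (hz : orderOf z = p ^ k) {b : Set (IrrCharacter (Cz z))}
    (hind : IsInducedBlock M (Cz z) b B) :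
    ¬ MemLocalIdeal M (eta z p b χ) := by
  classical
  intro hη
  have hC : Cz z = Subgroup.centralizer (Subgroup.zpowers z : Set G) :=
    (Cfsg.Agent.H21.centralizer_zpowers z).symm
  obtain ⟨D, hD⟩ := isDefectGroup_exists (p := p) hind.1
  refine no_vanish_gen' hMp hB hχ h0 hz hC hind hD (fun s hs => ?_)
  rw [TT_expand]
  exact sum_on_defect hMp hind.1 hD (mm z χ) (fun ξ => mult_mlr χ _ ξ) hη hs

/-- `WW` does not vanish modulo `M` for height zero characters. -/
theorem WW_unit (hMp : IsPModular p M) {B : Set (IrrCharacter G)} (hB : IsPBlock M B)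
    {χ ψ : IrrCharacter G} (hχ : χ ∈ B) (hψ : ψ ∈ B) (h0 : blockHeight p B χ.1 = 0)
    (h0' : blockHeight p B ψ.1 = 0) {z : G} {k : ℕ}
    (hz : orderOf z = p ^ k) {b : Set (IrrCharacter (Cz z))}
    (hind : IsInducedBlock M (Cz z) b B) : ¬ MemLocalIdeal M (WW z p b χ ψ) := by
  classical
  obtain ⟨R, hR⟩ := key_congr hMp hind.1
  obtain ⟨-, h2⟩ := ww_main z hMp hz hind.1 hR χ ψ
  intro h3
  have h4 : MemLocalIdeal M ((R : ℂ) * WW z p b χ ψ) := mli_mul_left h3 (mlr_natCast R)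
  have h5 := mli_neg (mli_sub h2 h4)
  have h6 : MemLocalIdeal M (eta z p b χ * eta z p b ψ) := by
    convert h5 using 1
    unfold WW
    ring
  rcases (mli_mul_iff (eta_mlr z b χ) (eta_mlr z b ψ)).mp h6 with h7 | h7
  · exact eta_unit' hMp hB hχ h0 hz hind h7
  · exact eta_unit' hMp hB hψ h0' hz hind h7

theorem WW_integral (hMp : IsPModular p M) {z : G} {k : ℕ}
    (hz : orderOf z = p ^ k) {b : Set (IrrCharacter (Cz z))}
    (hb : IsPBlock M b) (χ ψ : IrrCharacter G) : IsIntegral ℤ (WW z p b χ ψ) := by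
  obtain ⟨R, hR⟩ := key_congr hMp hb
  exact (ww_main z hMp hz hb hR χ ψ).1

theorem mli_zero_false {x : ℂ} (hx : ¬ MemLocalIdeal M x) : x ≠ 0 := by
  rintro rfl
  exact hx mli_zero

/-- The diagonal values are nonnegative reals. -/
theorem ext_WW_real (n : ℕ) [NeZero n] (hMp : IsPModular p M) {z : G} {k : ℕ}
    (hz : orderOf z = p ^ k) {b : Set (IrrCharacter (Cz z))} (hb : IsPBlock M b)
    (hdvd : p ^ k ∣ n) (χ : IrrCharacter G) (σ : Gal(cyc n/ℚ)) :
    ext n σ (WW z p b χ χ) = ((((p : ℝ) ^ blockDefect p b)⁻¹ *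
        ∑ ψ : IrrCharacter G, ‖ext n σ (WW z p b χ ψ)‖ ^ 2 : ℝ) : ℂ) := by
  have hne : ((p : ℂ) ^ blockDefect p b) ≠ 0 := pow_ne_zero _ (by exact_mod_cast hp.out.ne_zero)
  have h1 := congrArg (ext n σ) (WW_row z hMp hz hb χ)
  rw [map_sum, map_mul, map_pow, map_natCast] at h1
  have h2 : ∀ ψ : IrrCharacter G, ext n σ (WW z p b χ ψ * conj (WW z p b χ ψ)) =
      ((‖ext n σ (WW z p b χ ψ)‖ ^ 2 : ℝ) : ℂ) :=
    fun ψ => ext_mul_conj n σ (WW_mem_cyc z hMp hz hb n hdvd χ ψ)
  simp only [h2] at h1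
  push_cast at h1 ⊢
  rw [h1]
  field_simp

/-- The row sum after averaging. -/
theorem sum_tsq_row (n : ℕ) [NeZero n] (hMp : IsPModular p M) {z : G} {k : ℕ}
    (hz : orderOf z = p ^ k) {b : Set (IrrCharacter (Cz z))} (hb : IsPBlock M b)
    (hdvd : p ^ k ∣ n) (χ : IrrCharacter G) :
    ((∑ ψ : IrrCharacter G, tsq n (WW z p b χ ψ) : ℝ) : ℂ) =
      (p : ℂ) ^ blockDefect p b * tav n (WW z p b χ χ) := by
  have h1 := congrArg (tav n) (WW_row z hMp hz hb χ)
  rw [tav_sum] at h1
  have h2 : ∀ ψ : IrrCharacter G, tav n (WW z p b χ ψ * conj (WW z p b χ ψ)) =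
      (tsq n (WW z p b χ ψ) : ℂ) :=
    fun ψ => tav_mul_conj n (WW_mem_cyc z hMp hz hb n hdvd χ ψ)
  simp only [h2] at h1
  push_cast at h1 ⊢
  rw [h1]
  have h3 : (p : ℂ) ^ blockDefect p b = ((p ^ blockDefect p b : ℕ) : ℂ) := by
    push_cast
    rfl
  rw [h3, tav_natCast_mul]

/-- The arithmetic. -/
theorem arith_main {ι : Type*} (K : Finset ι) (a : ι → ℕ) (Q L : ℕ) (hodd : ∀ i ∈ K, Odd (a i))
    (h1 : ∀ i ∈ K, a i ^ 2 + (K.card - 1) ≤ Q * a i) (h2 : ∑ i ∈ K, a i ≤ Q * L) :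
    (Odd (Nat.sqrt L) → K.card ≤ Nat.sqrt L * Q) ∧
    (¬ Odd (Nat.sqrt L) → (Nat.sqrt L + 1) * K.card ≤ L * Q) ∧
    (L ≤ 3 → K.card ≤ Q) := by
  classical
  set s := Nat.sqrt L with hs
  have hs1 : s * s ≤ L := Nat.sqrt_le L
  have hs2 : L < (s + 1) * (s + 1) := Nat.lt_succ_sqrt L
  have hpos : ∀ i ∈ K, 1 ≤ a i := fun i hi => (hodd i hi).pos
  have hle : ∀ i ∈ K, K.card ≤ Q * a i := by
    intro i hi
    have h3 := h1 i hi
    have h4 : 1 ≤ a i ^ 2 := Nat.one_le_pow _ _ (hpos i hi)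
    have h5 : 1 ≤ K.card := Finset.card_pos.mpr ⟨i, hi⟩
    omega
  have hbound : ∀ t : ℕ, (∀ i ∈ K, t ≤ a i) → t * K.card ≤ Q * L := by
    intro t ht
    calc t * K.card = K.card • t := by simp [mul_comm]
      _ ≤ ∑ i ∈ K, a i := Finset.card_nsmul_le_sum _ _ _ ht
      _ ≤ Q * L := h2
  have hmain1 : Odd s → K.card ≤ s * Q := by
    intro hsodd
    by_cases hex : ∃ i ∈ K, a i ≤ s
    · obtain ⟨i, hi, hai⟩ := hex
      calc K.card ≤ Q * a i := hle i hi
        _ ≤ Q * s := Nat.mul_le_mul_left _ hai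
        _ = s * Q := mul_comm _ _
    · push Not at hex
      have h3 : ∀ i ∈ K, s + 2 ≤ a i := by
        intro i hi
        have h4 := hex i hi
        by_contra h5
        have h6 : a i = s + 1 := by omega
        have h7 := hodd i hi
        rw [h6] at h7
        exact (Nat.not_even_iff_odd.mpr h7) (hsodd.add_one)
      have h4 := hbound _ h3
      have h5 : L ≤ s * (s + 2) := by nlinarith
      have h6 : (s + 2) * K.card ≤ (s + 2) * (s * Q) := by
        calc (s + 2) * K.card ≤ Q * L := h4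
          _ ≤ Q * (s * (s + 2)) := Nat.mul_le_mul_left _ h5
          _ = (s + 2) * (s * Q) := by ring
      exact Nat.le_of_mul_le_mul_left h6 (by omega)
  have hmain2 : ¬ Odd s → (s + 1) * K.card ≤ L * Q := by
    intro hsev
    by_cases hex : ∃ i ∈ K, a i ≤ s
    · obtain ⟨i, hi, hai⟩ := hex
      have h3 : a i ≠ s := by
        intro h4
        apply hsev
        rw [← h4]
        exact hodd i hi
      have h4 : a i + 1 ≤ s := by omega
      obtain ⟨t, ht⟩ : ∃ t, s = t + 1 := ⟨s - 1, by have := hpos i hi; omega⟩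
      have h5 : a i ≤ t := by omega
      have h6 : K.card ≤ Q * t := (hle i hi).trans (Nat.mul_le_mul_left _ h5)
      have h7 : (t + 2) * t ≤ L := by
        rw [ht] at hs1
        nlinarith
      calc (s + 1) * K.card = (t + 2) * K.card := by rw [ht]
        _ ≤ (t + 2) * (Q * t) := Nat.mul_le_mul_left _ h6
        _ = ((t + 2) * t) * Q := by ring
        _ ≤ L * Q := Nat.mul_le_mul_right _ h7
    · push Not at hex
      have h3 : ∀ i ∈ K, s + 1 ≤ a i := fun i hi => hex i hi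
      have h4 := hbound _ h3
      rw [mul_comm L Q]
      exact h4
  refine ⟨hmain1, hmain2, fun hL => ?_⟩
  by_cases hL0 : L = 0
  · have h3 : s = 0 := by
      rw [hL0] at hs1
      exact mul_self_eq_zero.mp (by omega)
    have h4 := hmain2 (by rw [h3]; decide)
    rw [h3, hL0] at h4
    simp at h4
    simp [h4]
  · have h3 : s = 1 := by
      have h5 : s < 2 := by nlinarith
      have h6 : s ≠ 0 := by
        rintro h7
        rw [h7] at hs2
        omega
      omega
    have h4 := hmain1 (by rw [h3]; decide)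
    rw [h3, one_mul] at h4
    exact h4

theorem tsq_nonneg (n : ℕ) [NeZero n] (x : ℂ) : 0 ≤ tsq n x := by
  unfold tsq
  have h2 := card_pos_R n
  exact mul_nonneg (inv_nonneg.mpr h2.le) (Finset.sum_nonneg fun σ _ => by positivity)

/-- The diagonal normalized traces are nonnegative reals. -/
theorem tav_WW_diag (n : ℕ) [NeZero n] (hMp : IsPModular p M) {z : G} {k : ℕ}
    (hz : orderOf z = p ^ k) {b : Set (IrrCharacter (Cz z))} (hb : IsPBlock M b)
    (hdvd : p ^ k ∣ n) (χ : IrrCharacter G) :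
    ∃ r : ℝ, tav n (WW z p b χ χ) = (r : ℂ) ∧ 0 ≤ r ∧ r ^ 2 ≤ tsq n (WW z p b χ χ) := by
  refine tav_sq_le n (f := fun σ => ((p : ℝ) ^ blockDefect p b)⁻¹ *
    ∑ ψ : IrrCharacter G, ‖ext n σ (WW z p b χ ψ)‖ ^ 2) (fun σ => ext_WW_real n hMp hz hb hdvd χ σ) ?_
  intro σ
  have h1 : (0 : ℝ) < (p : ℝ) ^ blockDefect p b := pow_pos (by exact_mod_cast hp.out.pos) _
  exact mul_nonneg (inv_nonneg.mpr h1.le) (Finset.sum_nonneg fun _ _ => by positivity)

/-- The trace sum, after averaging. -/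
theorem sum_tav_trace (n : ℕ) [NeZero n] (hMp : IsPModular p M) {z : G} {k : ℕ}
    (hz : orderOf z = p ^ k) {b : Set (IrrCharacter (Cz z))} (hb : IsPBlock M b) :
    ∑ χ : IrrCharacter G, tav n (WW z p b χ χ) = (p : ℂ) ^ blockDefect p b * (blockRank p b : ℂ) := by
  rw [← tav_sum, WW_trace z hMp hz hb]
  have h3 : (p : ℂ) ^ blockDefect p b * (blockRank p b : ℂ) =
      ((p ^ blockDefect p b * blockRank p b : ℕ) : ℂ) := by
    push_cast
    rfl
  rw [h3, tav_natCast]

/-- The summary of the `p = 2` parity argument for the height zero characters. -/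
theorem two_block_main {M : Ideal AlgInt} [M.IsPrime] (hM : IsPModular 2 M) {B : Set (IrrCharacter G)}
    (hB : IsPBlock M B) {u : G} {k : ℕ} (hu : orderOf u = 2 ^ k) {b : Set (IrrCharacter (Cz u))}
    (hb : IsInducedBlock M (Cz u) b B) (K : Finset (IrrCharacter G))
    (hK : ∀ χ, χ ∈ K ↔ χ ∈ B ∧ blockHeight 2 B χ.1 = 0) :
    ∃ a : IrrCharacter G → ℕ, (∀ χ ∈ K, Odd (a χ)) ∧
      (∀ χ ∈ K, a χ ^ 2 + (K.card - 1) ≤ 2 ^ blockDefect 2 b * a χ) ∧
      ∑ χ ∈ K, a χ ≤ 2 ^ blockDefect 2 b * blockRank 2 b := by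
  classical
  set n := 2 ^ (k + 1) with hn
  have hdvd : 2 ^ k ∣ n := pow_dvd_pow 2 (Nat.le_succ k)
  have hb1 := hb.1
  have hr := fun χ : IrrCharacter G => tav_WW_diag n hM hu hb1 hdvd χ
  choose r hr1 hr2 hr3 using hr
  -- the integers
  have hc : ∀ χ ∈ K, ∃ a : ℕ, Odd a ∧ r χ = a := by
    intro χ hχ
    obtain ⟨h1, h2⟩ := (hK χ).mp hχ
    have hmem := WW_mem_cyc u hM hu hb1 n hdvd χ χ
    have hint := WW_integral hM hu hb1 χ χ
    have hreal := WW_swap (p := 2) u b χ χ
    obtain ⟨c, hc1, hc2⟩ := tav_parity k hM hmem hint hreal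
    have hnot := WW_unit hM hB h1 h1 h2 h2 hu hb
    have hcnot : ¬ (2 : ℤ) ∣ c := by
      intro hd
      have h3 := (H21.mli_intCast_iff hM c).mpr (by exact_mod_cast hd)
      have h4 := mli_add hc2 h3
      rw [sub_add_cancel] at h4
      exact hnot h4
    have hrc : r χ = (c : ℝ) := by
      have h3 : ((r χ : ℝ) : ℂ) = ((c : ℝ) : ℂ) := by
        rw [← hr1 χ, hc1]
        push_cast
        rfl
      exact_mod_cast h3
    have hc0 : 0 ≤ c := by
      have := hr2 χ
      rw [hrc] at this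
      exact_mod_cast this
    lift c to ℕ using hc0
    refine ⟨c, ?_, by rw [hrc]; simp⟩
    rw [← Nat.not_even_iff_odd, even_iff_two_dvd]
    intro hd
    exact hcnot (by exact_mod_cast hd)
  let a : IrrCharacter G → ℕ := fun χ => if hχ : χ ∈ K then (hc χ hχ).choose else 0
  have ha : ∀ χ ∈ K, Odd (a χ) ∧ r χ = a χ := by
    intro χ hχ
    simp only [a, dif_pos hχ]
    exact (hc χ hχ).choose_spec
  refine ⟨a, fun χ hχ => (ha χ hχ).1, fun χ hχ => ?_, ?_⟩
  · -- the row inequality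
    have hχ' := (hK χ).mp hχ
    have hrow : (∑ ψ : IrrCharacter G, tsq n (WW u 2 b χ ψ) : ℝ) = (2 : ℝ) ^ blockDefect 2 b * r χ := by
      have h1 := sum_tsq_row n hM hu hb1 hdvd χ
      rw [hr1 χ] at h1
      have h2 : (((∑ ψ : IrrCharacter G, tsq n (WW u 2 b χ ψ) : ℝ)) : ℂ) =
          (((2 : ℝ) ^ blockDefect 2 b * r χ : ℝ) : ℂ) := by
        rw [h1]
        push_cast
        rfl
      exact_mod_cast h2
    have h3 : ∑ ψ ∈ K, tsq n (WW u 2 b χ ψ) ≤ ∑ ψ : IrrCharacter G, tsq n (WW u 2 b χ ψ) :=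
      Finset.sum_le_sum_of_subset_of_nonneg (Finset.subset_univ K) (fun _ _ _ => tsq_nonneg n _)
    have h4 : ∑ ψ ∈ K, tsq n (WW u 2 b χ ψ) =
        tsq n (WW u 2 b χ χ) + ∑ ψ ∈ K.erase χ, tsq n (WW u 2 b χ ψ) :=
      (Finset.add_sum_erase _ _ hχ).symm
    have h5 : ((K.erase χ).card : ℝ) ≤ ∑ ψ ∈ K.erase χ, tsq n (WW u 2 b χ ψ) := by
      have := Finset.card_nsmul_le_sum (K.erase χ) (fun ψ => tsq n (WW u 2 b χ ψ)) 1 (fun ψ hψ => by
        obtain ⟨h6, h7⟩ := (hK ψ).mp (Finset.mem_of_mem_erase hψ)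
        exact tsq_ge_one n (WW_mem_cyc u hM hu hb1 n hdvd χ ψ)
          (mli_zero_false (WW_unit hM hB hχ'.1 h6 hχ'.2 h7 hu hb)) (WW_integral hM hu hb1 χ ψ))
      simpa using this
    have h6 := hr3 χ
    rw [Finset.card_erase_of_mem hχ] at h5
    have h7 : ((a χ : ℝ)) ^ 2 + ((K.card - 1 : ℕ) : ℝ) ≤ (2 : ℝ) ^ blockDefect 2 b * (a χ : ℝ) := by
      rw [← (ha χ hχ).2, ← hrow]
      linarith
    exact_mod_cast h7
  · -- the trace inequality
    have h1 : ∑ χ : IrrCharacter G, r χ = (2 : ℝ) ^ blockDefect 2 b * (blockRank 2 b : ℝ) := by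
      have h2 := sum_tav_trace n hM hu hb1
      simp only [hr1] at h2
      have h3 : ((∑ χ : IrrCharacter G, r χ : ℝ) : ℂ) =
          (((2 : ℝ) ^ blockDefect 2 b * (blockRank 2 b : ℝ) : ℝ) : ℂ) := by
        push_cast at h2 ⊢
        exact h2
      exact_mod_cast h3
    have h2 : ∑ χ ∈ K, (a χ : ℝ) ≤ ∑ χ : IrrCharacter G, r χ := by
      calc ∑ χ ∈ K, (a χ : ℝ) = ∑ χ ∈ K, r χ :=
            Finset.sum_congr rfl fun χ hχ => ((ha χ hχ).2).symm
        _ ≤ _ := Finset.sum_le_sum_of_subset_of_nonneg (Finset.subset_univ K) (fun χ _ _ => hr2 χ)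
    rw [h1] at h2
    exact_mod_cast h2

end Cfsg.Agent.H15.KC
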