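import Cfsg.Agent.Lib.H15.KC4

/-! # Number of characters of height zero in a `2`-block, via a subsection -/

set_option autoImplicit false
set_option linter.unusedSectionVars false
set_option linter.style.haveILetI false
set_option linter.unusedSimpArgs false
set_option linter.unusedVariables false

namespace Cfsg.Agent.H15.KC

open Cfsg Cfsg.Agent.H21 Cfsg.Agent.H22 Cfsg.Agent.H15.KB Cfsg.Agent.H15.HZ Module
open scoped ComplexConjugate

universe u

variable {G : Type u} [Group G] [Finite G] {M : Ideal AlgInt}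

theorem two_block_subsection (hM : IsPModular 2 M) {B : Set (IrrCharacter G)}
    (hB : IsPBlock M B) {u : G} {k : ℕ} (hu : orderOf u = 2 ^ k) {b : Set (IrrCharacter (Cz u))}
    (hb : IsInducedBlock M (Cz u) b B) :
    (Odd (Nat.sqrt (blockRank 2 b)) →
      Nat.card {χ : IrrCharacter G // χ ∈ B ∧ blockHeight 2 B χ.1 = 0} ≤
        Nat.sqrt (blockRank 2 b) * 2 ^ blockDefect 2 b) ∧
    (¬ Odd (Nat.sqrt (blockRank 2 b)) → (Nat.sqrt (blockRank 2 b) + 1) *
      Nat.card {χ : IrrCharacter G // χ ∈ B ∧ blockHeight 2 B χ.1 = 0} ≤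
        blockRank 2 b * 2 ^ blockDefect 2 b) ∧
    (blockRank 2 b ≤ 3 →
      Nat.card {χ : IrrCharacter G // χ ∈ B ∧ blockHeight 2 B χ.1 = 0} ≤ 2 ^ blockDefect 2 b) := by
  classical
  haveI : M.IsPrime := hM.2.1.isPrime
  let K : Finset (IrrCharacter G) :=
    (Finset.univ : Finset (IrrCharacter G)).filter (fun χ => χ ∈ B ∧ blockHeight 2 B χ.1 = 0)
  have hcard : Nat.card {χ : IrrCharacter G // χ ∈ B ∧ blockHeight 2 B χ.1 = 0} = K.card := by
    rw [Nat.card_eq_fintype_card, Fintype.card_subtype]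
  rw [hcard]
  have hK : ∀ χ : IrrCharacter G, χ ∈ K ↔ χ ∈ B ∧ blockHeight 2 B χ.1 = 0 := by
    intro χ
    simp [K]
  obtain ⟨a, h1, h2, h3⟩ := two_block_main hM hB hu hb _ hK
  exact arith_main _ a _ _ h1 h2 h3

end Cfsg.Agent.H15.KC
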