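import Cfsg.Agent.Lib.H15.KC5

/-! # The induced class function of a subsection -/

set_option autoImplicit false
set_option linter.unusedSectionVars false
set_option linter.style.haveILetI false
set_option linter.unusedSimpArgs false
set_option linter.unusedVariables false

namespace Cfsg.Agent.H15.KC

open Cfsg Cfsg.Agent.H21 Cfsg.Agent.H22 Cfsg.Agent.H15.KB Cfsg.Agent.H15.HZ Module
open scoped ComplexConjugate

universe u

theorem exists_pow_of_ringHom' (τ : ℂ →+* ℂ) {ζ : ℂ} {n : ℕ} (hn : n ≠ 0) (hζ : IsPrimitiveRoot ζ n) :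
    ∃ k : ℕ, τ ζ = ζ ^ k ∧ k.Coprime n := by
  haveI : NeZero n := ⟨hn⟩
  have hτζ : (τ ζ) ^ n = 1 := by
    rw [← map_pow, hζ.pow_eq_one, map_one]
  obtain ⟨k, -, hk⟩ := hζ.eq_pow_of_pow_eq_one hτζ
  have hprim : IsPrimitiveRoot (τ ζ) n := hζ.map_of_injective τ.injective
  rw [← hk] at hprim
  exact ⟨k, hk.symm, (hζ.pow_iff_coprime (Nat.pos_of_ne_zero hn) k).mp hprim⟩

section Theta

variable {G : Type u} [Group G] [Finite G]

open Classical in
/-- The shifted extension by zero. -/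
noncomputable def yt (C : Subgroup G) (v : G) (y : C → ℂ) (g : G) : ℂ :=
  if h : v⁻¹ * g ∈ C then y ⟨v⁻¹ * g, h⟩ else 0

/-- The induced function. -/
noncomputable def theta (C : Subgroup G) (v : G) (y : C → ℂ) (g : G) : ℂ :=
  (Nat.card C : ℂ)⁻¹ * ∑ t : G, yt C v y (t⁻¹ * g * t)

theorem theta_isClass (C : Subgroup G) (v : G) (y : C → ℂ) : IsClassFunction G (theta C v y) := by
  intro g h
  unfold theta
  congr 1
  rw [← Equiv.sum_comp (Equiv.mulLeft h⁻¹) (fun t => yt C v y (t⁻¹ * g * t))]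
  refine Finset.sum_congr rfl fun t _ => ?_
  congr 1
  simp only [Equiv.coe_mulLeft]
  group

theorem yt_conj {C : Subgroup G} {v : G} (hv : ∀ c ∈ C, v * c = c * v) {y : C → ℂ}
    (hy : IsClassFunction C y) (g : G) (c : C) :
    yt C v y ((c : G)⁻¹ * g * c) = yt C v y g := by
  classical
  have h0 : v⁻¹ * (c : G)⁻¹ = (c : G)⁻¹ * v⁻¹ := by
    rw [← mul_inv_rev, ← mul_inv_rev, hv c c.2]
  have e : v⁻¹ * ((c : G)⁻¹ * g * c) = (c : G)⁻¹ * (v⁻¹ * g) * c := by
    rw [← mul_assoc, ← mul_assoc, h0]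
    group
  by_cases h : v⁻¹ * g ∈ C
  · have h1 : v⁻¹ * ((c : G)⁻¹ * g * c) ∈ C := by
      rw [e]
      exact C.mul_mem (C.mul_mem (C.inv_mem c.2) h) c.2
    unfold yt
    rw [dif_pos h1, dif_pos h]
    have h2 := hy ⟨v⁻¹ * g, h⟩ c⁻¹
    rw [← h2]
    congr 1
    apply Subtype.ext
    simp only [Subgroup.coe_mul, Subgroup.coe_inv, inv_inv]
    exact e
  · have h1 : ¬ v⁻¹ * ((c : G)⁻¹ * g * c) ∈ C := by
      rw [e]
      intro h3
      apply h
      have h4 : v⁻¹ * g = (c : G) * ((c : G)⁻¹ * (v⁻¹ * g) * c) * (c : G)⁻¹ := by group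
      rw [h4]
      exact C.mul_mem (C.mul_mem c.2 h3) (C.inv_mem c.2)
    unfold yt
    rw [dif_neg h1, dif_neg h]

/-- Sums of right-invariant functions over a group. -/
theorem sum_right_inv (C : Subgroup G) [Fintype G] [Fintype C] [Fintype (G ⧸ C)] {F : G → ℂ}
    (hF : ∀ t : G, ∀ c : C, F (t * c) = F t) :
    ∑ t : G, F t = (Nat.card C : ℂ) * ∑ q : G ⧸ C, F q.out := by
  classical
  let e : (G ⧸ C) × C → G := fun a => a.1.out * a.2
  have hinj : Function.Injective e := by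
    rintro ⟨q, c⟩ ⟨q', c'⟩ h
    have h1 : q = q' := by
      have h2 : ((q.out * (c : G) : G) : G ⧸ C) = q := by
        rw [QuotientGroup.mk_mul_of_mem _ c.2, QuotientGroup.out_eq']
      have h3 : ((q'.out * (c' : G) : G) : G ⧸ C) = q' := by
        rw [QuotientGroup.mk_mul_of_mem _ c'.2, QuotientGroup.out_eq']
      rw [← h2, ← h3]
      exact congrArg _ h
    subst h1
    have h4 : (c : G) = c' := mul_left_cancel h
    rw [Subtype.ext h4]
  have hsurj : Function.Surjective e := by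
    intro t
    have h1 : ((t : G ⧸ C)).out⁻¹ * t ∈ C := by
      rw [← QuotientGroup.eq]
      exact QuotientGroup.out_eq' _
    refine ⟨(((t : G ⧸ C)), ⟨_, h1⟩), ?_⟩
    simp [e]
  have hbij : Function.Bijective e := ⟨hinj, hsurj⟩
  letI : Fintype ((G ⧸ C) × C) := instFintypeProd _ _
  rw [← hbij.sum_comp F, Fintype.sum_prod_type]
  simp only [e, hF, Finset.sum_const, Finset.card_univ, nsmul_eq_mul]
  rw [Finset.mul_sum, Nat.card_eq_fintype_card]

theorem theta_mlr {M : Ideal AlgInt} [M.IsPrime] {C : Subgroup G} {v : G}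
    (hv : ∀ c ∈ C, v * c = c * v) {y : C → ℂ} (hy : IsClassFunction C y)
    (hloc : ∀ c, MemLocalRing M (y c)) (g : G) : MemLocalRing M (theta C v y g) := by
  classical
  letI : Fintype G := Fintype.ofFinite _
  letI : Fintype C := Fintype.ofFinite _
  letI : Fintype (G ⧸ C) := Fintype.ofFinite _
  have hC : (Nat.card C : ℂ) ≠ 0 := by
    exact_mod_cast Nat.card_pos.ne'
  have h1 := sum_right_inv C (F := fun t => yt C v y (t⁻¹ * g * t)) (by
    intro t c
    have := yt_conj hv hy (t⁻¹ * g * t) c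
    rw [← this]
    congr 1
    push_cast
    group)
  have h2 : theta C v y g = ∑ q : G ⧸ C, yt C v y (q.out⁻¹ * g * q.out) := by
    unfold theta
    have h3 : ∑ t : G, yt C v y (t⁻¹ * g * t) =
        (Nat.card C : ℂ) * ∑ q : G ⧸ C, yt C v y (q.out⁻¹ * g * q.out) := h1
    rw [h3, ← mul_assoc, inv_mul_cancel₀ hC, one_mul]
  rw [h2]
  refine mlr_sum _ _ fun q _ => ?_
  unfold yt
  split_ifs
  · exact hloc _
  · exact mlr_zero

theorem om_theta (C : Subgroup G) (v : G) (y : C → ℂ) (χ : IrrCharacter G) :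
    H22.om χ (theta C v y) * χ.1 1 = (C.index : ℂ) * ∑ c : C, y c * χ.1 (v * c) := by
  classical
  have h1 := irr_one_ne_zero' χ
  have hC : (Nat.card C : ℂ) ≠ 0 := by
    exact_mod_cast Nat.card_pos.ne'
  have hI : (C.index : ℂ) * (Nat.card C : ℂ) = (Nat.card G : ℂ) := by
    exact_mod_cast Subgroup.index_mul_card C
  have hclass : IsClassFunction G χ.1 := isClassFunction_of_isCharacter (isCharacter_of_irr χ.2)
  have h2 : ∀ t : G, ∑ g : G, yt C v y (t⁻¹ * g * t) * χ.1 g = ∑ g : G, yt C v y g * χ.1 g := by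
    intro t
    rw [← Equiv.sum_comp (MulAut.conj t).toEquiv]
    refine Finset.sum_congr rfl fun g _ => ?_
    simp only [MulEquiv.toEquiv_eq_coe, EquivLike.coe_coe, MulAut.conj_apply]
    rw [hclass g t]
    congr 2
    group
  have h3 : ∑ g : G, yt C v y g * χ.1 g = ∑ c : C, y c * χ.1 (v * c) := by
    rw [← Equiv.sum_comp (Equiv.mulLeft v)]
    symm
    refine Fintype.sum_of_injective (fun c : C => (c : G)) Subtype.val_injective _ _ ?_ ?_
    · intro h hh
      have hh' : h ∉ C := fun h4 => hh ⟨⟨h, h4⟩, rfl⟩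
      simp only [Equiv.coe_mulLeft]
      unfold yt
      rw [dif_neg (by simpa using hh'), zero_mul]
    · intro c
      simp only [Equiv.coe_mulLeft]
      unfold yt
      have h4 : v⁻¹ * (v * (c : G)) ∈ C := by simp
      rw [dif_pos h4]
      congr 2
      apply Subtype.ext
      simp
  have h4 : ∑ g : G, ((Nat.card C : ℂ)⁻¹ * ∑ t : G, yt C v y (t⁻¹ * g * t)) * χ.1 g =
      (Nat.card C : ℂ)⁻¹ * ∑ t : G, ∑ g : G, yt C v y (t⁻¹ * g * t) * χ.1 g := by
    simp only [Finset.mul_sum, Finset.sum_mul, mul_assoc]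
    rw [Finset.sum_comm]
  unfold H22.om theta
  rw [h4]
  simp only [h2, Finset.sum_const, Finset.card_univ, nsmul_eq_mul, h3]
  rw [Nat.card_eq_fintype_card (α := G)] at hI
  rw [← hI]
  field_simp

end Theta

variable {G : Type u} [Group G] [Finite G] {p : ℕ} [hp : Fact p.Prime] {M : Ideal AlgInt}
variable [hMi : M.IsPrime] (z : G)

/-- The twisted coefficient. -/
noncomputable def alj (j : ℕ) (χ : IrrCharacter G) (ξ : IrrCharacter (Cz z)) : ℂ :=
  mm z χ ξ * eps z ξ ^ j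

/-- The twisted contribution matrix. -/
noncomputable def Wj (p : ℕ) (b : Set (IrrCharacter (Cz z))) (j : ℕ) (χ ψ : IrrCharacter G) : ℂ :=
  ∑ ξ : IrrCharacter (Cz z), ∑ ξ' : IrrCharacter (Cz z), eB b ξ * eB b ξ' *
    (alj z j χ ξ * conj (alj z j ψ ξ') * ((p : ℂ) ^ blockDefect p b * crt p ξ ξ'))

theorem WW_eq_Wj (b : Set (IrrCharacter (Cz z))) (χ ψ : IrrCharacter G) :
    WW z p b χ ψ = Wj z p b 1 χ ψ := by
  unfold WW Wj alj
  rw [PP_expand, Finset.mul_sum]
  refine Finset.sum_congr rfl fun ξ _ => ?_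
  rw [Finset.mul_sum]
  refine Finset.sum_congr rfl fun ξ' _ => ?_
  rw [al_eq, al_eq, pow_one, pow_one]
  ring

theorem irr_zh_pow_mul (ξ : IrrCharacter (Cz z)) (j : ℕ) (c : Cz z) :
    ξ.1 (zh z ^ j * c) = eps z ξ ^ j * ξ.1 c := by
  induction j with
  | zero => simp
  | succ j ih =>
    rw [pow_succ', mul_assoc, irr_zh_mul, ih, pow_succ']
    ring

theorem sec_expand (j : ℕ) (χ : IrrCharacter G) (c : Cz z) :
    χ.1 (z ^ j * c) = ∑ ξ : IrrCharacter (Cz z), alj z j χ ξ * ξ.1 c := by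
  classical
  have hexp := classFunction_expansion (fun x : Cz z => χ.1 x) (res_isClass χ (Cz z))
  have h2 := congrFun hexp (zh z ^ j * c)
  simp only [Finset.sum_apply, Pi.smul_apply, smul_eq_mul] at h2
  have h3 : χ.1 (z ^ j * c) = χ.1 ((zh z ^ j * c : Cz z) : G) := by
    congr 1
  rw [h3, h2]
  refine Finset.sum_congr rfl fun ξ _ => ?_
  rw [irr_zh_pow_mul]
  unfold alj mm
  ring

/-- The class function attached to `ψ`. -/
noncomputable def Zp (p : ℕ) (b : Set (IrrCharacter (Cz z))) (j : ℕ) (ψ : IrrCharacter G) (c : Cz z) : ℂ :=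
  ∑ ξ' : IrrCharacter (Cz z), eB b ξ' * conj (alj z j ψ ξ') * bz p ξ' c

theorem Zp_isClass (b : Set (IrrCharacter (Cz z))) (j : ℕ) (ψ : IrrCharacter G) :
    IsClassFunction (Cz z) (Zp z p b j ψ) := by
  intro c k
  unfold Zp
  refine Finset.sum_congr rfl fun ξ' _ => ?_
  rw [bz_isClass p ξ' c k]

theorem alj_integral (hM : IsPModular p M) {k : ℕ} (hz : orderOf z = p ^ k) (j : ℕ) (χ : IrrCharacter G)
    (ξ : IrrCharacter (Cz z)) : IsIntegral ℤ (alj z j χ ξ) := by
  unfold alj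
  obtain ⟨m, hm⟩ := mm_nat z χ ξ
  rw [hm]
  exact (isIntegral_natCast _).mul ((root_mli hM (eps_root z hz ξ)).1.pow j)

theorem conj_alj_integral (hM : IsPModular p M) {k : ℕ} (hz : orderOf z = p ^ k) (j : ℕ) (χ : IrrCharacter G)
    (ξ : IrrCharacter (Cz z)) : IsIntegral ℤ (conj (alj z j χ ξ)) := by
  unfold alj
  obtain ⟨m, hm⟩ := mm_nat z χ ξ
  rw [hm, map_mul, map_pow, Complex.conj_natCast]
  exact (isIntegral_natCast _).mul ((root_mli hM (root_conj (eps_root z hz ξ))).1.pow j)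

theorem Zp_mlr (hM : IsPModular p M) {k : ℕ} (hz : orderOf z = p ^ k)
    (b : Set (IrrCharacter (Cz z))) (j : ℕ) (ψ : IrrCharacter G) (c : Cz z) :
    MemLocalRing M (Zp z p b j ψ c) := by
  unfold Zp
  refine mlr_sum _ _ fun ξ' _ => mlr_mul (mlr_mul ?_ (mlr_of_isIntegral (conj_alj_integral z hM hz j ψ ξ')))
    (bz_mlr hM ξ' c)
  by_cases h : ξ' ∈ b
  · rw [eB_apply_mem h]
    exact mlr_one
  · rw [eB_apply_not_mem h]
    exact mlr_zero

theorem sum_bz_irr (ξ ξ' : IrrCharacter (Cz z)) :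
    ∑ c : Cz z, bz p ξ' c * ξ.1 c =
      ((p ^ (Nat.card (Cz z)).factorization p : ℕ) : ℂ) * crt p ξ ξ' := by
  rw [← om_bz]
  unfold H22.om
  have h1 := irr_one_ne_zero' ξ
  field_simp

theorem sum_Zp (hM : IsPModular p M) {b : Set (IrrCharacter (Cz z))} (hb : IsPBlock M b) (j : ℕ)
    (χ ψ : IrrCharacter G) :
    ∑ c : Cz z, Zp z p b j ψ c * χ.1 (z ^ j * c) =
      ((p : ℂ) ^ minExp p b) * Wj z p b j χ ψ := by
  classical
  have hsa : minExp p b + blockDefect p b = (Nat.card (Cz z)).factorization p := by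
    rw [blockDefect_eq]
    have := minExp_le_card (p := p) hb
    omega
  have h1 : ∀ c : Cz z, Zp z p b j ψ c * χ.1 (z ^ j * c) =
      ∑ ξ : IrrCharacter (Cz z), ∑ ξ' : IrrCharacter (Cz z),
        alj z j χ ξ * (eB b ξ' * conj (alj z j ψ ξ')) * (bz p ξ' c * ξ.1 c) := by
    intro c
    rw [sec_expand]
    unfold Zp
    rw [Finset.sum_mul_sum, Finset.sum_comm]
    refine Finset.sum_congr rfl fun ξ _ => Finset.sum_congr rfl fun ξ' _ => ?_
    ring
  simp only [h1]
  rw [Finset.sum_comm]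
  unfold Wj
  rw [Finset.mul_sum]
  refine Finset.sum_congr rfl fun ξ _ => ?_
  rw [Finset.sum_comm, Finset.mul_sum]
  refine Finset.sum_congr rfl fun ξ' _ => ?_
  rw [← Finset.mul_sum, sum_bz_irr]
  by_cases hξ' : ξ' ∈ b
  · by_cases hξ : ξ ∈ b
    · rw [eB_apply_mem hξ, eB_apply_mem hξ', ← hsa]
      push_cast
      rw [pow_add]
      ring
    · have hnot : ¬ SameBlock M ξ'.1 ξ.1 := by
        intro h
        apply hξ
        rw [block_eq_of_mem hb hξ']
        exact h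
      rw [crt_eq_zero hM hnot, eB_apply_not_mem hξ]
      ring
  · rw [eB_apply_not_mem hξ']
    ring

/-- The section power commutes with the centralizer. -/
theorem zpow_comm (j : ℕ) (c : G) (hc : c ∈ Cz z) : z ^ j * c = c * z ^ j :=
  ((Commute.pow_left (show Commute z c from (Subgroup.mem_centralizer_singleton_iff.mp hc).symm) j)).eq

/-- **The key relation for major subsections.** -/
theorem key_theta (hM : IsPModular p M) {k : ℕ} (hz : orderOf z = p ^ k)
    {b : Set (IrrCharacter (Cz z))} (hb : IsPBlock M b) {B : Set (IrrCharacter G)} (hB : IsPBlock M B)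
    (hmaj : blockDefect p b = blockDefect p B) :
    ∃ g' : ℕ, ¬ p ∣ g' ∧ ∀ (j : ℕ) (ψ : IrrCharacter G), ∃ t : IrrCharacter G → ℂ,
      (∀ χ, MemLocalRing M (t χ)) ∧
      (∀ χ χ', SameBlock M χ.1 χ'.1 → MemLocalIdeal M (t χ - t χ')) ∧
      ∀ χ ∈ B, (g' : ℂ) * Wj z p b j χ ψ = (xx p B χ : ℂ) * t χ := by
  classical
  have hI0 : (Cz z).index ≠ 0 := Subgroup.index_ne_zero_of_finite
  set e := (Cz z).index.factorization p with he
  set g' := (Cz z).index / p ^ e with hg'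
  have hnd : ¬ p ∣ g' := Nat.not_dvd_ordCompl hp.out hI0
  have hIe : (Cz z).index = p ^ e * g' := (Nat.ordProj_mul_ordCompl_eq_self _ p).symm
  refine ⟨g', hnd, fun j ψ => ?_⟩
  let th : G → ℂ := theta (Cz z) (z ^ j) (Zp z p b j ψ)
  have hcl : IsClassFunction G th := theta_isClass _ _ _
  have hv : ∀ c ∈ Cz z, z ^ j * c = c * z ^ j := fun c hc => zpow_comm z j c hc
  have hloc : ∀ g, MemLocalRing M (th g) := theta_mlr hv (Zp_isClass z b j ψ) (Zp_mlr z hM hz b j ψ)
  have hZR := om_mem_ZR hcl hloc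
  refine ⟨fun χ => H22.om χ th, fun χ => ZR_values hZR χ, fun χ χ' h => ZR_congr hZR h, fun χ hχ => ?_⟩
  have h1 : H22.om χ th * χ.1 1 = (Cz z).index * (((p : ℂ) ^ minExp p b) * Wj z p b j χ ψ) := by
    rw [← sum_Zp z hM hb]
    exact om_theta _ _ _ χ
  have hsa : minExp p b + blockDefect p b = (Nat.card (Cz z)).factorization p := by
    rw [blockDefect_eq]
    have := minExp_le_card (p := p) hb
    omega
  have hsB : minExp p B + blockDefect p B = (Nat.card G).factorization p := by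
    rw [blockDefect_eq]
    have := minExp_le_card (p := p) hB
    omega
  have hadd : e + (Nat.card (Cz z)).factorization p = (Nat.card G).factorization p :=
    factorization_index_add (p := p) z
  have hexp : minExp p B = e + minExp p b := by
    omega
  have hdeg : (charDegree χ.1 : ℂ) = (p : ℂ) ^ minExp p B * (xx p B χ : ℂ) := by
    have h0 := Nat.mul_div_cancel' (pow_minExp_dvd (p := p) hp.out hχ)
    have h00 : ((p ^ minExp p B * (charDegree χ.1 / p ^ minExp p B) : ℕ) : ℂ) =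
      (charDegree χ.1 : ℂ) := by rw [h0]
    rw [← h00]
    push_cast
    rfl
  have hps : (p : ℂ) ^ minExp p B ≠ 0 := pow_ne_zero _ (by exact_mod_cast hp.out.ne_zero)
  rw [one_eq_charDegree (isCharacter_of_irr χ.2), hdeg] at h1
  apply mul_left_cancel₀ hps
  have hI : ((Cz z).index : ℂ) = (p : ℂ) ^ e * (g' : ℂ) := by
    rw [hIe]
    push_cast
    rfl
  have hexpC : (p : ℂ) ^ minExp p B = (p : ℂ) ^ e * (p : ℂ) ^ minExp p b := by
    rw [hexp, pow_add]
  rw [hI, hexpC] at h1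
  rw [hexpC]
  linear_combination -h1

/-- **The twist.** -/
theorem map_WW (hM : IsPModular p M) {k : ℕ} (hz : orderOf z = p ^ k)
    {b : Set (IrrCharacter (Cz z))} (hb : IsPBlock M b) (τ : ℂ →+* ℂ) :
    ∃ c : ℕ, ∀ χ ψ : IrrCharacter G, τ (WW z p b χ ψ) = Wj z p b c χ ψ := by
  classical
  obtain ⟨R, hR⟩ := key_congr hM hb
  have hn : p ^ k ≠ 0 := pow_ne_zero _ hp.out.ne_zero
  haveI : NeZero (p ^ k) := ⟨hn⟩
  have hζ := Complex.isPrimitiveRoot_exp (p ^ k) hn
  set ζ := Complex.exp (2 * Real.pi * Complex.I / ((p ^ k : ℕ) : ℂ)) with hζd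
  obtain ⟨c, hc, -⟩ := Cfsg.Agent.H15.KC.exists_pow_of_ringHom' τ hn hζ
  have hroot : ∀ μ : ℂ, μ ^ (p ^ k) = 1 → τ μ = μ ^ c := by
    intro μ hμ
    obtain ⟨i, -, rfl⟩ := hζ.eq_pow_of_pow_eq_one hμ
    rw [map_pow, hc, ← pow_mul, ← pow_mul, mul_comm]
  refine ⟨c, fun χ ψ => ?_⟩
  rw [WW_eq_Wj]
  unfold Wj
  rw [map_sum]
  refine Finset.sum_congr rfl fun ξ _ => ?_
  rw [map_sum]
  refine Finset.sum_congr rfl fun ξ' _ => ?_
  by_cases hξ : ξ ∈ b
  · by_cases hξ' : ξ' ∈ b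
    · rw [eB_apply_mem hξ, eB_apply_mem hξ']
      obtain ⟨n, hn1, -⟩ := crt_block hM hb hR hξ hξ'
      rw [hn1]
      unfold alj
      obtain ⟨m, hm⟩ := mm_nat z χ ξ
      obtain ⟨m', hm'⟩ := mm_nat z ψ ξ'
      rw [hm, hm']
      simp only [map_mul, map_pow, map_natCast, map_intCast, map_one, pow_one, Complex.conj_natCast,
        hroot _ (eps_root z hz ξ), hroot _ (root_conj (eps_root z hz ξ'))]
    · rw [eB_apply_not_mem hξ']
      simp
  · rw [eB_apply_not_mem hξ]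
    simp

end Cfsg.Agent.H15.KC
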