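import Cfsg.Agent.Lib.H15.KC6
import Cfsg.Agent.Lib.H22.GalLocal

/-! # Heights and the contribution matrix of a major subsection -/

set_option autoImplicit false
set_option linter.unusedSectionVars false
set_option linter.style.haveILetI false
set_option linter.unusedSimpArgs false
set_option linter.unusedVariables false

namespace Cfsg.Agent.H15.KC

open Cfsg Cfsg.Agent.H21 Cfsg.Agent.H22 Cfsg.Agent.H15.KB Cfsg.Agent.H15.HZ Module
open scoped ComplexConjugate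

universe u

variable {G : Type u} [Group G] [Finite G] {p : ℕ} [hp : Fact p.Prime] {M : Ideal AlgInt}
variable [hMi : M.IsPrime]

theorem xx_eq {B : Set (IrrCharacter G)} {χ : IrrCharacter G} (hχ : χ ∈ B) :
    ∃ o : ℕ, ¬ p ∣ o ∧ xx p B χ = p ^ blockHeight p B χ.1 * o := by
  have h0 : charDegree χ.1 ≠ 0 := (irr_charDegree_pos χ.2).ne'
  refine ⟨charDegree χ.1 / p ^ (charDegree χ.1).factorization p, Nat.not_dvd_ordCompl hp.out h0, ?_⟩
  have h1 : minExp p B ≤ (charDegree χ.1).factorization p := minExp_le hχ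
  have h2 : blockHeight p B χ.1 = (charDegree χ.1).factorization p - minExp p B := rfl
  have h3 : p ^ (charDegree χ.1).factorization p = p ^ minExp p B * p ^ blockHeight p B χ.1 := by
    rw [← pow_add, h2]
    congr 1
    omega
  have h4 := Nat.ordProj_mul_ordCompl_eq_self (charDegree χ.1) p
  have h5 : 0 < p ^ minExp p B := pow_pos hp.out.pos _
  unfold xx
  apply Nat.div_eq_of_eq_mul_left h5
  calc charDegree χ.1 = _ := h4.symm
    _ = _ := by
      rw [h3]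
      ring

theorem unit_nat (hMp : IsPModular p M) {o : ℕ} (ho : ¬ p ∣ o) :
    (o : ℂ) ≠ 0 ∧ MemLocalRing M ((o : ℂ)⁻¹) :=
  mlr_inv (mlr_natCast _) (not_mli_natCast_of_odd hMp ho)

/-- **Divisibility by the height.** -/
theorem W_div_integral (hMp : IsPModular p M) {z : G} {k : ℕ} (hz : orderOf z = p ^ k)
    {b : Set (IrrCharacter (Cz z))} (hb : IsPBlock M b) {B : Set (IrrCharacter G)} (hB : IsPBlock M B)
    (hmaj : blockDefect p b = blockDefect p B) {χ : IrrCharacter G} (hχ : χ ∈ B) (ψ : IrrCharacter G) :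
    IsIntegral ℤ (WW z p b χ ψ / (p : ℂ) ^ blockHeight p B χ.1) := by
  classical
  obtain ⟨g', hg', hkey⟩ := key_theta z hMp hz hb hB hmaj
  obtain ⟨o, ho, hxx⟩ := xx_eq (p := p) hχ
  have hn : p ^ k ≠ 0 := pow_ne_zero _ hp.out.ne_zero
  haveI : NeZero (p ^ k) := ⟨hn⟩
  have hpne : (p : ℂ) ^ blockHeight p B χ.1 ≠ 0 := pow_ne_zero _ (by exact_mod_cast hp.out.ne_zero)
  refine isIntegral_of_local_conj (n := p ^ k) hn hMp (N := blockHeight p B χ.1) ?_ ?_ ?_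
  · exact div_mem (WW_mem_cyc z hMp hz hb (p ^ k) (dvd_refl _) χ ψ)
      (pow_mem (natCast_mem _ _) _)
  · rw [mul_div_cancel₀ _ hpne]
    exact WW_integral hMp hz hb χ ψ
  · intro τ
    obtain ⟨c, hc⟩ := map_WW z hMp hz hb τ
    obtain ⟨t, ht1, -, ht3⟩ := hkey c ψ
    have hg0 := unit_nat hMp hg'
    have h3 := ht3 χ hχ
    have h4 : τ (WW z p b χ ψ / (p : ℂ) ^ blockHeight p B χ.1) =
        ((g' : ℂ))⁻¹ * ((o : ℂ) * t χ) := by
      rw [map_div₀, hc, map_pow, map_natCast]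
      rw [hxx] at h3
      push_cast at h3
      have h5 : Wj z p b c χ ψ = ((g' : ℂ))⁻¹ * ((p : ℂ) ^ blockHeight p B χ.1 * (o : ℂ) * t χ) := by
        rw [← h3, inv_mul_cancel_left₀ hg0.1]
      rw [h5]
      field_simp
    rw [h4]
    exact mlr_mul hg0.2 (mlr_mul (mlr_natCast _) (ht1 χ))

/-- The basic relation for the quotient. -/
theorem W_div_rel {z : G} {b : Set (IrrCharacter (Cz z))} {B : Set (IrrCharacter G)}
    {χ ψ : IrrCharacter G} {g' o : ℕ} {t : ℂ}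
    (hxx : xx p B χ = p ^ blockHeight p B χ.1 * o)
    (h : (g' : ℂ) * WW z p b χ ψ = (xx p B χ : ℂ) * t) :
    (g' : ℂ) * (WW z p b χ ψ / (p : ℂ) ^ blockHeight p B χ.1) = (o : ℂ) * t := by
  have hpne : (p : ℂ) ^ blockHeight p B χ.1 ≠ 0 := pow_ne_zero _ (by exact_mod_cast hp.out.ne_zero)
  rw [hxx] at h
  push_cast at h
  rw [← mul_div_assoc, h]
  field_simp

/-- The quotient is not in the ideal when `ψ` has height zero. -/
theorem W_not_mli (hMp : IsPModular p M) {z : G} {k : ℕ} (hz : orderOf z = p ^ k)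
    {b : Set (IrrCharacter (Cz z))} {B : Set (IrrCharacter G)} (hind : IsInducedBlock M (Cz z) b B)
    (hB : IsPBlock M B) (hmaj : blockDefect p b = blockDefect p B) {χ ψ : IrrCharacter G}
    (hχ : χ ∈ B) (hψ : ψ ∈ B) (h0 : blockHeight p B ψ.1 = 0) :
    ¬ MemLocalIdeal M (WW z p b χ ψ / (p : ℂ) ^ blockHeight p B χ.1) := by
  classical
  obtain ⟨g', hg', hkey⟩ := key_theta z hMp hz hind.1 hB hmaj
  obtain ⟨o, ho, hxx⟩ := xx_eq (p := p) hχ
  obtain ⟨t, ht1, ht2, ht3⟩ := hkey 1 ψ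
  have hW : ∀ χ' ∈ B, (g' : ℂ) * WW z p b χ' ψ = (xx p B χ' : ℂ) * t χ' := by
    intro χ' hχ'
    rw [WW_eq_Wj]
    exact ht3 χ' hχ'
  intro h
  have h1 : MemLocalIdeal M ((o : ℂ) * t χ) := by
    rw [← W_div_rel hxx (hW χ hχ)]
    exact mli_mul_left h (mlr_natCast _)
  have h2 : MemLocalIdeal M (t χ) := by
    rcases (mli_mul_iff (mlr_natCast _) (ht1 χ)).mp h1 with h3 | h3
    · exact absurd h3 (not_mli_natCast_of_odd hMp ho)
    · exact h3
  have h3 : MemLocalIdeal M (t ψ) := by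
    have h4 := mli_sub h2 (ht2 χ ψ (block_sameBlock hB hχ hψ))
    rwa [sub_sub_cancel] at h4
  have h4 : MemLocalIdeal M ((g' : ℂ) * WW z p b ψ ψ) := by
    rw [hW ψ hψ]
    exact mli_mul_left h3 (mlr_natCast _)
  rcases (mli_mul_iff (mlr_natCast _) (mlr_of_isIntegral (WW_integral hMp hz hind.1 ψ ψ))).mp h4 with h5 | h5
  · exact absurd h5 (not_mli_natCast_of_odd hMp hg')
  · exact WW_unit hMp hB hψ hψ h0 h0 hz hind h5

/-- The diagonal quotient lies in the ideal for characters of positive height. -/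
theorem U_mli (hMp : IsPModular p M) {z : G} {k : ℕ} (hz : orderOf z = p ^ k)
    {b : Set (IrrCharacter (Cz z))} {B : Set (IrrCharacter G)} (hb : IsPBlock M b)
    (hB : IsPBlock M B) (hmaj : blockDefect p b = blockDefect p B) {χ₀ ψ : IrrCharacter G}
    (hχ₀ : χ₀ ∈ B) (hψ : ψ ∈ B) (h0 : blockHeight p B χ₀.1 = 0) (h1 : 1 ≤ blockHeight p B ψ.1) :
    MemLocalIdeal M (WW z p b ψ ψ / (p : ℂ) ^ blockHeight p B ψ.1) := by
  classical
  obtain ⟨g', hg', hkey⟩ := key_theta z hMp hz hb hB hmaj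
  obtain ⟨o, ho, hxx⟩ := xx_eq (p := p) hψ
  obtain ⟨o₀, ho₀, hxx₀⟩ := xx_eq (p := p) hχ₀
  obtain ⟨t, ht1, ht2, ht3⟩ := hkey 1 ψ
  have hW : ∀ χ' ∈ B, (g' : ℂ) * WW z p b χ' ψ = (xx p B χ' : ℂ) * t χ' := by
    intro χ' hχ'
    rw [WW_eq_Wj]
    exact ht3 χ' hχ'
  have hpne : (p : ℂ) ^ blockHeight p B ψ.1 ≠ 0 := pow_ne_zero _ (by exact_mod_cast hp.out.ne_zero)
  -- the off diagonal entry lies in the ideal
  have hU := W_div_integral hMp hz hb hB hmaj hψ χ₀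
  set U := WW z p b ψ χ₀ / (p : ℂ) ^ blockHeight p B ψ.1 with hUd
  have h2 : WW z p b χ₀ ψ = (p : ℂ) ^ blockHeight p B ψ.1 * conj U := by
    rw [← WW_swap, hUd, map_div₀, map_pow, Complex.conj_natCast]
    field_simp
  have h3 : MemLocalIdeal M (WW z p b χ₀ ψ) := by
    rw [h2]
    obtain ⟨e, he⟩ : ∃ e, blockHeight p B ψ.1 = e + 1 := ⟨_, (Nat.sub_add_cancel h1).symm⟩
    rw [he, pow_succ, mul_assoc]
    refine mli_mul_left ?_ (mlr_of_isIntegral ((isIntegral_natCast _).pow _))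
    have h4 : MemLocalIdeal M (p : ℂ) := by
      have := (H21.mli_intCast_iff hMp (p : ℤ)).mpr (dvd_refl _)
      simpa using this
    have hcU : IsIntegral ℤ (conj U) := by
      exact hU.map (RingHom.toIntAlgHom (starRingEnd ℂ))
    exact mli_mul_right h4 (mlr_of_isIntegral hcU)
  have h4 : MemLocalIdeal M ((o₀ : ℂ) * t χ₀) := by
    have h5 := W_div_rel hxx₀ (hW χ₀ hχ₀)
    rw [h0, pow_zero, div_one] at h5
    rw [← h5]
    exact mli_mul_left h3 (mlr_natCast _)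
  have h5 : MemLocalIdeal M (t χ₀) := by
    rcases (mli_mul_iff (mlr_natCast _) (ht1 χ₀)).mp h4 with h6 | h6
    · exact absurd h6 (not_mli_natCast_of_odd hMp ho₀)
    · exact h6
  have h6 : MemLocalIdeal M (t ψ) := by
    have h7 := mli_sub h5 (ht2 χ₀ ψ (block_sameBlock hB hχ₀ hψ))
    rwa [sub_sub_cancel] at h7
  have h7 : MemLocalIdeal M ((g' : ℂ) * (WW z p b ψ ψ / (p : ℂ) ^ blockHeight p B ψ.1)) := by
    rw [W_div_rel hxx (hW ψ hψ)]
    exact mli_mul_left h6 (mlr_natCast _)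
  rcases (mli_mul_iff (mlr_natCast _) (mlr_of_isIntegral (W_div_integral hMp hz hb hB hmaj hψ ψ))).mp h7 with h8 | h8
  · exact absurd h8 (not_mli_natCast_of_odd hMp hg')
  · exact h8

theorem tsq_conj (n : ℕ) [hn : NeZero n] {x : ℂ} (hx : x ∈ cyc n) : tsq n (conj x) = tsq n x := by
  have h1 := tav_mul_conj n hx
  have h2 := tav_mul_conj n (conj_mem_cyc hn.out hx)
  rw [Complex.conj_conj, mul_comm] at h2
  have h3 : ((tsq n (conj x) : ℝ) : ℂ) = ((tsq n x : ℝ) : ℂ) := by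
    rw [← h1, ← h2]
  exact_mod_cast h3

theorem tsq_pow_mul (n : ℕ) [NeZero n] (q e : ℕ) (x : ℂ) :
    tsq n ((q : ℂ) ^ e * x) = (q : ℝ) ^ (2 * e) * tsq n x := by
  unfold tsq
  have h1 : ∀ σ : Gal(cyc n/ℚ), ‖ext n σ ((q : ℂ) ^ e * x)‖ ^ 2 = (q : ℝ) ^ (2 * e) * ‖ext n σ x‖ ^ 2 := by
    intro σ
    rw [map_mul, map_pow, map_natCast, norm_mul, norm_pow, Complex.norm_natCast, mul_pow, ← pow_mul,
      mul_comm e 2]
  simp only [h1]
  rw [← Finset.mul_sum]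
  ring

/-- **The lower bound for the entries.** -/
theorem tsq_W_ge (n : ℕ) [hn : NeZero n] (hMp : IsPModular p M) {z : G} {k : ℕ} (hz : orderOf z = p ^ k)
    {b : Set (IrrCharacter (Cz z))} {B : Set (IrrCharacter G)} (hind : IsInducedBlock M (Cz z) b B)
    (hB : IsPBlock M B) (hmaj : blockDefect p b = blockDefect p B) (hdvd : p ^ k ∣ n)
    {χ₀ ψ : IrrCharacter G} (hχ₀ : χ₀ ∈ B) (hψ : ψ ∈ B) (h0 : blockHeight p B χ₀.1 = 0) :
    (p : ℝ) ^ (2 * blockHeight p B ψ.1) ≤ tsq n (WW z p b χ₀ ψ) := by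
  have hU := W_div_integral hMp hz hind.1 hB hmaj hψ χ₀
  have hnot := W_not_mli hMp hz hind hB hmaj hψ hχ₀ h0
  have hpne : (p : ℂ) ^ blockHeight p B ψ.1 ≠ 0 := pow_ne_zero _ (by exact_mod_cast hp.out.ne_zero)
  have hmem : WW z p b ψ χ₀ ∈ cyc n := WW_mem_cyc z hMp hz hind.1 n hdvd ψ χ₀
  have hUm : WW z p b ψ χ₀ / (p : ℂ) ^ blockHeight p B ψ.1 ∈ cyc n :=
    div_mem hmem (pow_mem (natCast_mem _ _) _)
  have h1 := tsq_ge_one n hUm (mli_zero_false hnot) hU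
  have h2 : WW z p b χ₀ ψ = conj (WW z p b ψ χ₀) := (WW_swap z b ψ χ₀).symm
  rw [h2, tsq_conj n hmem]
  have h3 : WW z p b ψ χ₀ = (p : ℂ) ^ blockHeight p B ψ.1 *
      (WW z p b ψ χ₀ / (p : ℂ) ^ blockHeight p B ψ.1) := by
    field_simp
  rw [h3, tsq_pow_mul]
  have h4 : (0 : ℝ) ≤ (p : ℝ) ^ (2 * blockHeight p B ψ.1) := by positivity
  nlinarith

end Cfsg.Agent.H15.KC
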