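import Cfsg.Agent.Lib.H15.KC7

/-! # Major subsections of `2`-blocks: the integer data -/

set_option autoImplicit false
set_option linter.unusedSectionVars false
set_option linter.style.haveILetI false
set_option linter.unusedSimpArgs false
set_option linter.unusedVariables false

namespace Cfsg.Agent.H15.KC

open Cfsg Cfsg.Agent.H21 Cfsg.Agent.H22 Cfsg.Agent.H15.KB Cfsg.Agent.H15.HZ Module
open scoped ComplexConjugate

universe u

variable {G : Type u} [Group G] [Finite G] {M : Ideal AlgInt}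
variable [hMi : M.IsPrime]

theorem diag_nat (hM : IsPModular 2 M) {u : G} {k : ℕ} (hu : orderOf u = 2 ^ k)
    {b : Set (IrrCharacter (Cz u))} (hb1 : IsPBlock M b) (χ : IrrCharacter G) :
    ∃ a : ℕ, tav (2 ^ (k + 1)) (WW u 2 b χ χ) = a ∧ MemLocalIdeal M (WW u 2 b χ χ - a) ∧
      (a : ℝ) ^ 2 ≤ tsq (2 ^ (k + 1)) (WW u 2 b χ χ) := by
  set n := 2 ^ (k + 1) with hn
  have hdvd : 2 ^ k ∣ n := pow_dvd_pow 2 (Nat.le_succ k)
  obtain ⟨r, hr1, hr2, hr3⟩ := tav_WW_diag n hM hu hb1 hdvd χ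
  have hmem := WW_mem_cyc u hM hu hb1 n hdvd χ χ
  have hint := WW_integral hM hu hb1 χ χ
  have hreal := WW_swap (p := 2) u b χ χ
  obtain ⟨c, hc1, hc2⟩ := tav_parity k hM hmem hint hreal
  have hrc : r = (c : ℝ) := by
    have h3 : ((r : ℝ) : ℂ) = ((c : ℝ) : ℂ) := by
      rw [← hr1, hc1]
      push_cast
      rfl
    exact_mod_cast h3
  have hc0 : 0 ≤ c := by
    rw [hrc] at hr2
    exact_mod_cast hr2
  lift c to ℕ using hc0
  refine ⟨c, ?_, ?_, ?_⟩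
  · rw [hc1]
    simp
  · simpa using hc2
  · rw [hrc] at hr3
    simpa using hr3

theorem row_real (n : ℕ) [NeZero n] (hM : IsPModular 2 M) {u : G} {k : ℕ} (hu : orderOf u = 2 ^ k)
    {b : Set (IrrCharacter (Cz u))} (hb1 : IsPBlock M b) (hdvd : 2 ^ k ∣ n) (χ : IrrCharacter G)
    {a : ℕ} (ha : tav n (WW u 2 b χ χ) = a) :
    ∑ ψ : IrrCharacter G, tsq n (WW u 2 b χ ψ) = ((2 ^ blockDefect 2 b : ℕ) : ℝ) * a := by
  have h1 := sum_tsq_row n hM hu hb1 hdvd χ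
  rw [ha] at h1
  have h2 : (((∑ ψ : IrrCharacter G, tsq n (WW u 2 b χ ψ) : ℝ)) : ℂ) =
      ((((2 ^ blockDefect 2 b : ℕ) : ℝ) * a : ℝ) : ℂ) := by
    rw [h1]
    push_cast
    rfl
  exact_mod_cast h2

/-- The row of the complementary matrix. -/
theorem anti_row (n : ℕ) [NeZero n] (hM : IsPModular 2 M) {u : G} {k : ℕ} (hu : orderOf u = 2 ^ k)
    {b : Set (IrrCharacter (Cz u))} (hb1 : IsPBlock M b) (hdvd : 2 ^ k ∣ n) (χ : IrrCharacter G)
    {a : ℕ} (ha : tav n (WW u 2 b χ χ) = a) :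
    a ≤ 2 ^ blockDefect 2 b ∧
    (((2 ^ blockDefect 2 b : ℕ) : ℝ) - a) ^ 2 +
      ∑ ψ ∈ (Finset.univ : Finset (IrrCharacter G)).erase χ, tsq n (WW u 2 b χ ψ) ≤
      ((2 ^ blockDefect 2 b : ℕ) : ℝ) * (((2 ^ blockDefect 2 b : ℕ) : ℝ) - a) := by
  classical
  set Q : ℕ := 2 ^ blockDefect 2 b with hQ
  have hQ0 : (0 : ℝ) < (Q : ℝ) := by
    have : 0 < Q := pow_pos (by norm_num) _
    exact_mod_cast this
  set w := WW u 2 b χ χ with hw
  have hmem : w ∈ cyc n := WW_mem_cyc u hM hu hb1 n hdvd χ χ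
  have hreal : conj w = w := WW_swap (p := 2) u b χ χ
  let S : Gal(cyc n/ℚ) → ℝ := fun σ => ∑ ψ : IrrCharacter G, ‖ext n σ (WW u 2 b χ ψ)‖ ^ 2
  let f : Gal(cyc n/ℚ) → ℝ := fun σ => (Q : ℝ)⁻¹ * S σ
  have hf : ∀ σ, ext n σ w = (f σ : ℂ) := by
    intro σ
    have h1 := ext_WW_real n hM hu hb1 hdvd χ σ
    rw [hw, h1]
    simp only [f, S, hQ]
    push_cast
    rfl
  have hS0 : ∀ σ, 0 ≤ S σ := fun σ => Finset.sum_nonneg fun _ _ => by positivity
  have hf0 : ∀ σ, 0 ≤ f σ := fun σ => mul_nonneg (inv_nonneg.mpr hQ0.le) (hS0 σ)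
  have hfS : ∀ σ, (Q : ℝ) * f σ = S σ := by
    intro σ
    simp only [f]
    field_simp
  have hfQ : ∀ σ, f σ ≤ Q := by
    intro σ
    have h1 : ‖ext n σ w‖ ^ 2 ≤ S σ :=
      Finset.single_le_sum (f := fun ψ : IrrCharacter G => ‖ext n σ (WW u 2 b χ ψ)‖ ^ 2)
        (fun _ _ => by positivity) (Finset.mem_univ χ)
    have h2 : ‖ext n σ w‖ = f σ := by
      rw [hf, Complex.norm_real, Real.norm_of_nonneg (hf0 σ)]
    rw [h2, ← hfS] at h1
    by_contra h3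
    push Not at h3
    have h4 := hf0 σ
    nlinarith
  have hxmem : (Q : ℂ) - w ∈ cyc n := sub_mem (natCast_mem _ _) hmem
  obtain ⟨ρ, hρ1, hρ2, hρ3⟩ := tav_sq_le n (x := (Q : ℂ) - w) (f := fun σ => (Q : ℝ) - f σ)
    (fun σ => by
      rw [map_sub, map_natCast, hf]
      push_cast
      rfl)
    (fun σ => sub_nonneg.mpr (hfQ σ))
  have h1 : ρ = (Q : ℝ) - a := by
    have h2 : ((ρ : ℝ) : ℂ) = (((Q : ℝ) - a : ℝ) : ℂ) := by
      rw [← hρ1, tav_sub, tav_natCast, ha]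
      push_cast
      rfl
    exact_mod_cast h2
  have h2 : (a : ℝ) ≤ Q := by
    rw [h1] at hρ2
    linarith
  refine ⟨by exact_mod_cast h2, ?_⟩
  -- the sum of squares
  have h3 : tsq n ((Q : ℂ) - w) = (Q : ℝ) * Q - 2 * Q * a + tsq n w := by
    have h4 := tav_mul_conj n hxmem
    have h5 : ((Q : ℂ) - w) * conj ((Q : ℂ) - w) =
        ((Q * Q : ℕ) : ℂ) - ((2 * Q : ℕ) : ℂ) * w + w * conj w := by
      rw [map_sub, Complex.conj_natCast]
      push_cast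
      rw [hreal]
      ring
    rw [h5, tav_add, tav_sub, tav_natCast, tav_natCast_mul, tav_mul_conj n hmem, ha] at h4
    have h6 : ((tsq n ((Q : ℂ) - w) : ℝ) : ℂ) = (((Q : ℝ) * Q - 2 * Q * a + tsq n w : ℝ) : ℂ) := by
      rw [← h4]
      push_cast
      rfl
    exact_mod_cast h6
  have h4 := row_real n hM hu hb1 hdvd χ ha
  rw [← Finset.add_sum_erase _ _ (Finset.mem_univ χ)] at h4
  rw [h1] at hρ3
  rw [h3] at hρ3
  nlinarith

theorem WW_vanish (hM : IsPModular 2 M) {u : G} {k : ℕ} (hu : orderOf u = 2 ^ k)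
    {b : Set (IrrCharacter (Cz u))} {B : Set (IrrCharacter G)} (hb : IsInducedBlock M (Cz u) b B)
    {χ : IrrCharacter G} (hχ : χ ∉ B) (ψ : IrrCharacter G) : WW u 2 b χ ψ = 0 := by
  classical
  have h1 : ∀ s : Cz u, rp 2 (bpt u b χ) s = 0 := by
    intro s
    by_cases hs : 2 ∣ orderOf s
    · exact rp_of_sing _ hs
    · rw [rp_of_reg _ hs]
      refine second_main hM hu (isBlock_blockOf χ) (self_mem_blockOf χ) hb.1 ?_ s hs
      intro h3
      have h4 := induced_unique hb h3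
      apply hχ
      rw [h4]
      exact self_mem_blockOf χ
  unfold WW PP
  simp [h1]

/-- **The integer data of a major subsection.** -/
theorem major_data (hM : IsPModular 2 M) {B : Set (IrrCharacter G)} (hB : IsPBlock M B)
    {u : G} {k : ℕ} (hu : orderOf u = 2 ^ k) {b : Set (IrrCharacter (Cz u))}
    (hb : IsInducedBlock M (Cz u) b B) (hmaj : blockDefect 2 b = blockDefect 2 B)
    (K : Finset (IrrCharacter G)) (hK : ∀ χ, χ ∈ K ↔ χ ∈ B) :
    ∃ r : IrrCharacter G → ℕ,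
      ∑ χ : IrrCharacter G, r χ = 2 ^ blockDefect 2 b * blockRank 2 b ∧
      (∀ χ, χ ∉ B → r χ = 0) ∧
      (∀ χ ∈ B, blockHeight 2 B χ.1 = 0 → Odd (r χ)) ∧
      (∀ χ ∈ B, blockHeight 2 B χ.1 = 0 →
        r χ ^ 2 + ∑ ψ ∈ K.erase χ, 2 ^ (2 * blockHeight 2 B ψ.1) ≤ 2 ^ blockDefect 2 b * r χ) ∧
      (∀ χ ∈ B, 1 ≤ blockHeight 2 B χ.1 → 2 ^ (blockHeight 2 B χ.1 + 1) ≤ r χ) ∧
      (∀ χ, r χ ≤ 2 ^ blockDefect 2 b) ∧
      (∀ χ ∈ B, blockHeight 2 B χ.1 = 0 → ((2 ^ blockDefect 2 b - r χ) ^ 2 + (K.card - 1) ≤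
        2 ^ blockDefect 2 b * (2 ^ blockDefect 2 b - r χ))) ∧
      (∀ χ ∈ B, 1 ≤ blockHeight 2 B χ.1 → r χ + 4 ≤ 2 ^ blockDefect 2 b) := by
  classical
  set n := 2 ^ (k + 1) with hn
  have hdvd : 2 ^ k ∣ n := pow_dvd_pow 2 (Nat.le_succ k)
  have hb1 := hb.1
  choose r hr1 hr2 hr3 using fun χ : IrrCharacter G => diag_nat hM hu hb1 χ
  have hrow := fun χ : IrrCharacter G => row_real n hM hu hb1 hdvd χ (hr1 χ)
  have hanti := fun χ : IrrCharacter G => anti_row n hM hu hb1 hdvd χ (hr1 χ)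
  set d := blockDefect 2 b with hd
  set Q : ℕ := 2 ^ d with hQ
  have hQ0 : (0 : ℝ) < (Q : ℝ) := by
    have : 0 < Q := pow_pos (by norm_num) _
    exact_mod_cast this
  have hge : ∀ {χ₀ ψ : IrrCharacter G}, χ₀ ∈ B → ψ ∈ B → blockHeight 2 B χ₀.1 = 0 →
      (2 : ℝ) ^ (2 * blockHeight 2 B ψ.1) ≤ tsq n (WW u 2 b χ₀ ψ) := by
    intro χ₀ ψ h1 h2 h3
    have := tsq_W_ge n hM hu hb hB hmaj hdvd h1 h2 h3
    simpa using this
  have hne : ∀ {χ₀ ψ : IrrCharacter G}, χ₀ ∈ B → ψ ∈ B → blockHeight 2 B χ₀.1 = 0 →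
      (1 : ℝ) ≤ tsq n (WW u 2 b χ₀ ψ) := by
    intro χ₀ ψ h1 h2 h3
    exact (one_le_pow₀ (by norm_num)).trans (hge h1 h2 h3)
  -- the row inequality, restricted to `B`
  have hrowK : ∀ χ : IrrCharacter G,
      ∑ ψ ∈ K.erase χ, tsq n (WW u 2 b χ ψ) ≤
        ∑ ψ ∈ (Finset.univ : Finset (IrrCharacter G)).erase χ, tsq n (WW u 2 b χ ψ) := by
    intro χ
    exact Finset.sum_le_sum_of_subset_of_nonneg (Finset.erase_subset_erase _ (Finset.subset_univ K))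
      (fun _ _ _ => tsq_nonneg n _)
  -- there is a height zero character
  obtain ⟨χ₀, hχ₀, hχ₀h⟩ : ∃ χ₀ ∈ B, blockHeight 2 B χ₀.1 = 0 := by
    obtain ⟨χ₁, h1, h2⟩ := exists_min_height (p := 2) hB
    refine ⟨χ₁, h1, ?_⟩
    show (charDegree χ₁.1).factorization 2 - minExp 2 B = 0
    omega
  have h3' : ∀ χ ∈ B, blockHeight 2 B χ.1 = 0 →
      r χ ^ 2 + ∑ ψ ∈ K.erase χ, 2 ^ (2 * blockHeight 2 B ψ.1) ≤ Q * r χ := by
    intro χ hχ h0
    have h1 := hr3 χ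
    have h2 := hrow χ
    rw [← Finset.add_sum_erase _ _ (Finset.mem_univ χ)] at h2
    have h4 : ∑ ψ ∈ K.erase χ, (2 : ℝ) ^ (2 * blockHeight 2 B ψ.1) ≤
        ∑ ψ ∈ K.erase χ, tsq n (WW u 2 b χ ψ) :=
      Finset.sum_le_sum fun ψ hψ => hge hχ ((hK ψ).mp (Finset.mem_of_mem_erase hψ)) h0
    have h5 := hrowK χ
    have h6 : ((r χ : ℝ)) ^ 2 + ∑ ψ ∈ K.erase χ, (2 : ℝ) ^ (2 * blockHeight 2 B ψ.1) ≤
        (Q : ℝ) * r χ := by
      rw [← h2]
      linarith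
    exact_mod_cast h6
  have hodd : ∀ χ ∈ B, blockHeight 2 B χ.1 = 0 → Odd (r χ) := by
    intro χ hχ h0
    have hnot := WW_unit hM hB hχ hχ h0 h0 hu hb
    rw [← Nat.not_even_iff_odd, even_iff_two_dvd]
    intro hdv
    apply hnot
    have h3 : MemLocalIdeal M ((r χ : ℕ) : ℂ) := by
      have h4 := (H21.mli_intCast_iff hM (r χ : ℤ)).mpr (by exact_mod_cast hdv)
      simpa using h4
    have h4 := mli_add (hr2 χ) h3
    rwa [sub_add_cancel] at h4
  have hne2 : ∀ χ ∈ B, (1 : ℝ) ≤ tsq n (WW u 2 b χ χ₀) := by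
    intro χ hχ
    rw [← WW_swap u b χ₀ χ, tsq_conj n (WW_mem_cyc u hM hu hb1 n hdvd χ₀ χ)]
    exact hne hχ₀ hχ hχ₀h
  have hmliC : ∀ {x : ℂ} {c : ℤ}, MemLocalIdeal M x → MemLocalIdeal M (x - c) → (2 : ℤ) ∣ c := by
    intro x c h1 h2
    have h3 := mli_sub h1 h2
    rw [sub_sub_cancel] at h3
    have h4 := (H21.mli_intCast_iff hM c).mp h3
    exact_mod_cast h4
  have hnat2 : (2 : ℂ) = ((2 : ℕ) : ℂ) := by norm_num
  have hcase4 : ∀ χ ∈ B, 1 ≤ blockHeight 2 B χ.1 → 2 ^ (blockHeight 2 B χ.1 + 1) ≤ r χ := by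
    intro χ hχ h1
    have hUi := W_div_integral hM hu hb1 hB hmaj hχ χ
    have hUm := U_mli hM hu hb1 hB hmaj hχ₀ hχ hχ₀h h1
    set h := blockHeight 2 B χ.1 with hh
    have hpne : ((2 : ℕ) : ℂ) ^ h ≠ 0 := pow_ne_zero _ (by norm_num)
    set U := WW u 2 b χ χ / ((2 : ℕ) : ℂ) ^ h with hUd
    have hwU : WW u 2 b χ χ = (((2 ^ h : ℕ)) : ℂ) * U := by
      rw [hUd]
      push_cast
      field_simp
    have hUc : U ∈ cyc n := div_mem (WW_mem_cyc u hM hu hb1 n hdvd χ χ) (pow_mem (natCast_mem _ _) _)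
    have hUr : conj U = U := by
      rw [hUd, map_div₀, map_pow, Complex.conj_natCast, WW_swap]
    obtain ⟨c, hc1, hc2⟩ := tav_parity k hM hUc hUi hUr
    have hc3 := hmliC hUm hc2
    have h2 : (r χ : ℤ) = 2 ^ h * c := by
      have h3 := hr1 χ
      rw [hwU, tav_natCast_mul] at h3
      have h4 : ((r χ : ℤ) : ℂ) = ((2 ^ h * c : ℤ) : ℂ) := by
        push_cast at h3 ⊢
        rw [← h3, hc1]
      exact_mod_cast h4
    -- positivity
    have hrpos : 0 < r χ := by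
      have h3 := hrow χ
      have h4 : tsq n (WW u 2 b χ χ₀) ≤ ∑ ψ : IrrCharacter G, tsq n (WW u 2 b χ ψ) :=
        Finset.single_le_sum (f := fun ψ : IrrCharacter G => tsq n (WW u 2 b χ ψ))
          (fun _ _ => tsq_nonneg n _) (Finset.mem_univ χ₀)
      have h5 := hne2 χ hχ
      by_contra h6
      have h7 : r χ = 0 := by omega
      rw [h7] at h3
      simp only [Nat.cast_zero, mul_zero] at h3
      linarith
    have hcpos : 0 < c := by
      by_contra h3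
      push Not at h3
      have h4 : (2 : ℤ) ^ h * c ≤ 0 := mul_nonpos_of_nonneg_of_nonpos (by positivity) h3
      omega
    have hc2' : 2 ≤ c := by
      obtain ⟨c', rfl⟩ := hc3
      omega
    have h3 : ((2 ^ (h + 1) : ℕ) : ℤ) ≤ (r χ : ℤ) := by
      rw [h2]
      push_cast
      rw [pow_succ]
      exact mul_le_mul_of_nonneg_left hc2' (by positivity)
    exact_mod_cast h3
  have hcase7 : ∀ χ ∈ B, blockHeight 2 B χ.1 = 0 →
      ((Q - r χ) ^ 2 + (K.card - 1) ≤ Q * (Q - r χ)) := by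
    intro χ hχ h0
    obtain ⟨h1, h2⟩ := hanti χ
    have h3 : (K.card - 1 : ℕ) = (K.erase χ).card := by
      rw [Finset.card_erase_of_mem ((hK χ).mpr hχ)]
    have h4 : (((K.erase χ).card : ℕ) : ℝ) ≤ ∑ ψ ∈ K.erase χ, tsq n (WW u 2 b χ ψ) := by
      have := Finset.card_nsmul_le_sum (K.erase χ) (fun ψ => tsq n (WW u 2 b χ ψ)) 1 (fun ψ hψ =>
        hne hχ ((hK ψ).mp (Finset.mem_of_mem_erase hψ)) h0)
      simpa using this
    have h5 := hrowK χ
    have h6 : (((Q - r χ) ^ 2 + (K.card - 1) : ℕ) : ℝ) ≤ ((Q * (Q - r χ) : ℕ) : ℝ) := by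
      rw [h3]
      push_cast [Nat.cast_sub h1]
      linarith
    exact_mod_cast h6
  have hcase8 : ∀ χ ∈ B, 1 ≤ blockHeight 2 B χ.1 → r χ + 4 ≤ Q := by
    intro χ hχ h1
    obtain ⟨h2, h3⟩ := hanti χ
    have hne' : χ₀ ≠ χ := by
      rintro rfl
      omega
    -- `Q - r` is positive
    have h4 : (1 : ℝ) ≤ ∑ ψ ∈ (Finset.univ : Finset (IrrCharacter G)).erase χ, tsq n (WW u 2 b χ ψ) :=
      (hne2 χ hχ).trans (Finset.single_le_sum (f := fun ψ : IrrCharacter G => tsq n (WW u 2 b χ ψ))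
          (fun _ _ => tsq_nonneg n _) (Finset.mem_erase.mpr ⟨hne', Finset.mem_univ _⟩))
    have hlt : r χ < Q := by
      by_contra h5
      have h6 : r χ = Q := le_antisymm h2 (by omega)
      have h5' : ((Q : ℝ) - (r χ : ℝ)) = 0 := by
        rw [h6]
        simp
      rw [h5'] at h3
      have h8 : (0 : ℝ) ^ 2 = 0 := by norm_num
      rw [h8, zero_add, mul_zero] at h3
      linarith
    -- `d ≥ 2`
    have hd2 : 2 ≤ d := by
      by_contra h5
      have h6 : Q ≤ 2 := by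
        have h7 : d ≤ 1 := by omega
        calc Q = 2 ^ d := rfl
          _ ≤ 2 ^ 1 := Nat.pow_le_pow_right (by norm_num) h7
          _ = 2 := rfl
      have h7 := h3' χ₀ hχ₀ hχ₀h
      have h8 : 2 ^ (2 * blockHeight 2 B χ.1) ≤ ∑ ψ ∈ K.erase χ₀, 2 ^ (2 * blockHeight 2 B ψ.1) :=
        Finset.single_le_sum (f := fun ψ : IrrCharacter G => 2 ^ (2 * blockHeight 2 B ψ.1))
          (fun _ _ => Nat.zero_le _) (Finset.mem_erase.mpr ⟨hne'.symm, (hK χ).mpr hχ⟩)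
      have h9 : 4 ≤ 2 ^ (2 * blockHeight 2 B χ.1) := by
        calc 4 = 2 ^ 2 := rfl
          _ ≤ _ := Nat.pow_le_pow_right (by norm_num) (by omega)
      have h10 : r χ₀ ^ 2 + 4 ≤ Q * r χ₀ := by omega
      have h11 : Q * r χ₀ ≤ 2 * r χ₀ := Nat.mul_le_mul_right _ h6
      nlinarith
    obtain ⟨e, he⟩ : ∃ e, d = e + 2 := ⟨d - 2, by omega⟩
    have hQe : (Q : ℂ) = 2 * ((2 : ℕ) : ℂ) ^ (e + 1) := by
      rw [hQ, he]
      push_cast
      ring
    have hUi := W_div_integral hM hu hb1 hB hmaj hχ χ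
    have hUm := U_mli hM hu hb1 hB hmaj hχ₀ hχ hχ₀h h1
    obtain ⟨f, hf⟩ : ∃ f, blockHeight 2 B χ.1 = f + 1 := ⟨blockHeight 2 B χ.1 - 1, by omega⟩
    rw [hf] at hUi hUm
    set U := WW u 2 b χ χ / ((2 : ℕ) : ℂ) ^ (f + 1) with hUd
    have hwU : WW u 2 b χ χ = 2 * (((2 : ℕ) : ℂ) ^ f * U) := by
      rw [hUd]
      push_cast
      field_simp
      ring
    set X : ℂ := ((2 : ℕ) : ℂ) ^ (e + 1) - ((2 : ℕ) : ℂ) ^ f * U with hXd
    have hX2 : (Q : ℂ) - WW u 2 b χ χ = ((2 : ℕ) : ℂ) * X := by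
      rw [hQe, hwU, hXd]
      push_cast
      ring
    have hUc : U ∈ cyc n := div_mem (WW_mem_cyc u hM hu hb1 n hdvd χ χ) (pow_mem (natCast_mem _ _) _)
    have hXc : X ∈ cyc n :=
      sub_mem (pow_mem (natCast_mem _ _) _) (mul_mem (pow_mem (natCast_mem _ _) _) hUc)
    have hXi : IsIntegral ℤ X :=
      ((isIntegral_natCast _).pow _).sub (((isIntegral_natCast _).pow _).mul hUi)
    have hUr : conj U = U := by
      rw [hUd, map_div₀, map_pow, Complex.conj_natCast, WW_swap]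
    have hXr : conj X = X := by
      rw [hXd, map_sub, map_mul, map_pow, map_pow, Complex.conj_natCast, hUr]
    have hXm : MemLocalIdeal M X := by
      refine mli_sub ?_ (mli_mul_left hUm (mlr_of_isIntegral ((isIntegral_natCast _).pow _)))
      rw [pow_succ]
      refine mli_mul_left ?_ (mlr_of_isIntegral ((isIntegral_natCast _).pow _))
      have := (H21.mli_intCast_iff hM (2 : ℤ)).mpr (by norm_num)
      simpa using this
    obtain ⟨c, hc1, hc2⟩ := tav_parity k hM hXc hXi hXr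
    have hc3 := hmliC hXm hc2
    have h5 : (Q : ℤ) - r χ = 2 * c := by
      have h6 : tav n ((Q : ℂ) - WW u 2 b χ χ) = (Q : ℂ) - r χ := by
        rw [tav_sub, tav_natCast, hr1]
      rw [hX2, tav_natCast_mul, hc1] at h6
      have h7 : (((Q : ℤ) - r χ : ℤ) : ℂ) = ((2 * c : ℤ) : ℂ) := by
        push_cast at h6 ⊢
        rw [← h6]
      exact_mod_cast h7
    have hc4 : 2 ≤ c := by
      obtain ⟨c', rfl⟩ := hc3
      omega
    omega
  have hsum : ∑ χ : IrrCharacter G, r χ = Q * blockRank 2 b := by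
    have h2 := sum_tav_trace n hM hu hb1
    have hr1' : ∀ χ : IrrCharacter G, tav n (WW u 2 b χ χ) = r χ := hr1
    simp only [hr1'] at h2
    have hQc : (Q : ℂ) = 2 ^ blockDefect 2 b := by
      rw [hQ, hd]
      push_cast
      rfl
    have h3 : ((∑ χ : IrrCharacter G, r χ : ℕ) : ℂ) = ((Q * blockRank 2 b : ℕ) : ℂ) := by
      push_cast at h2 ⊢
      rw [h2, hQc]
    exact_mod_cast h3
  refine ⟨r, hsum, ?_, hodd, h3', hcase4, fun χ => (hanti χ).1, hcase7, hcase8⟩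
  intro χ hχ
  have h1 := hr1 χ
  rw [WW_vanish hM hu hb hχ, show tav n (0 : ℂ) = 0 from tav_zero n] at h1
  exact_mod_cast h1.symm

end Cfsg.Agent.H15.KC
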