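import Cfsg.Agent.Lib.H15.KC8

/-! # Major subsections of `2`-blocks: the counting -/

set_option autoImplicit false
set_option linter.unusedSectionVars false
set_option linter.style.haveILetI false
set_option linter.unusedSimpArgs false
set_option linter.unusedVariables false

namespace Cfsg.Agent.H15.KC

open Cfsg Cfsg.Agent.H21 Cfsg.Agent.H22 Cfsg.Agent.H15.KB Cfsg.Agent.H15.HZ Module
open scoped ComplexConjugate

universe u

section Arith

variable {ι : Type*} [DecidableEq ι]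

theorem arith_three (K : Finset ι) (h r : ι → ℕ) (Q l : ℕ)
    (hodd : ∀ χ ∈ K, h χ = 0 → Odd (r χ))
    (hrow : ∀ χ ∈ K, h χ = 0 → r χ ^ 2 + ∑ ψ ∈ K.erase χ, 2 ^ (2 * h ψ) ≤ Q * r χ)
    (hhi : ∀ χ ∈ K, 1 ≤ h χ → 2 ^ (h χ + 1) ≤ r χ)
    (hsum : ∑ χ ∈ K, r χ ≤ Q * l) (hl : l ≤ 3) :
    3 * K.card ≤ 3 * (K.filter fun χ => h χ = 0).card + 2 * ∑ χ ∈ K.filter (fun χ => 1 ≤ h χ), 2 ^ h χ ∧
    3 * (K.filter fun χ => h χ = 0).card + 2 * ∑ χ ∈ K.filter (fun χ => 1 ≤ h χ), 2 ^ h χ ≤ 3 * Q := by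
  let g : ι → ℕ := fun χ => if h χ = 0 then 3 else 2 * 2 ^ h χ
  have hg : ∑ χ ∈ K, g χ = 3 * (K.filter fun χ => h χ = 0).card +
      2 * ∑ χ ∈ K.filter (fun χ => 1 ≤ h χ), 2 ^ h χ := by
    rw [← Finset.sum_filter_add_sum_filter_not K (fun χ => h χ = 0)]
    congr 1
    · rw [Finset.sum_congr rfl (g := fun _ => 3) (fun χ hχ => by
        simp only [g, if_pos (Finset.mem_filter.mp hχ).2])]
      simp [mul_comm]
    · have h1 : K.filter (fun χ => ¬ h χ = 0) = K.filter (fun χ => 1 ≤ h χ) := by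
        refine Finset.filter_congr fun χ _ => ?_
        omega
      rw [h1, Finset.mul_sum]
      refine Finset.sum_congr rfl fun χ hχ => ?_
      have h2 : ¬ h χ = 0 := by
        have := (Finset.mem_filter.mp hχ).2
        omega
      simp only [g, if_neg h2]
  rw [← hg]
  constructor
  · have h1 : ∑ χ ∈ K, 3 ≤ ∑ χ ∈ K, g χ := by
      refine Finset.sum_le_sum fun χ _ => ?_
      simp only [g]
      split_ifs with h2
      · exact le_refl _
      · have h3 : 2 ^ 1 ≤ 2 ^ h χ := Nat.pow_le_pow_right (by norm_num) (by omega)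
        omega
    simpa [mul_comm] using h1
  · by_cases hcase : ∃ χ₀ ∈ K, h χ₀ = 0 ∧ r χ₀ = 1
    · obtain ⟨χ₀, h1, h2, h3⟩ := hcase
      have h4 := hrow χ₀ h1 h2
      rw [h3] at h4
      simp only [one_pow, mul_one] at h4
      have h5 : ∑ ψ ∈ K, 2 ^ (2 * h ψ) = 1 + ∑ ψ ∈ K.erase χ₀, 2 ^ (2 * h ψ) := by
        rw [← Finset.add_sum_erase _ _ h1, h2]
        simp
      have h6 : ∑ χ ∈ K, g χ ≤ ∑ χ ∈ K, 3 * 2 ^ (2 * h χ) := by
        refine Finset.sum_le_sum fun χ _ => ?_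
        simp only [g]
        split_ifs with h7
        · rw [h7]
          simp
        · have h8 : 2 ^ 1 ≤ 2 ^ h χ := Nat.pow_le_pow_right (by norm_num) (by omega)
          have h9 : 2 ^ (2 * h χ) = 2 ^ h χ * 2 ^ h χ := by
            rw [two_mul, pow_add]
          rw [h9]
          nlinarith
      rw [← Finset.mul_sum, h5] at h6
      omega
    · push Not at hcase
      have h1 : ∑ χ ∈ K, g χ ≤ ∑ χ ∈ K, r χ := by
        refine Finset.sum_le_sum fun χ hχ => ?_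
        simp only [g]
        split_ifs with h2
        · have h3 := hodd χ hχ h2
          have h4 := hcase χ hχ h2
          obtain ⟨c, hc⟩ := h3
          omega
        · have h3 := hhi χ hχ (by omega)
          rw [pow_succ] at h3
          omega
      have h2 : Q * l ≤ Q * 3 := Nat.mul_le_mul_left _ hl
      omega

theorem arith_four (K : Finset ι) (h r : ι → ℕ) (d l : ℕ)
    (hnz : ∃ χ₀ ∈ K, h χ₀ = 0)
    (hodd : ∀ χ ∈ K, h χ = 0 → Odd (r χ))
    (h7 : ∀ χ ∈ K, h χ = 0 → (2 ^ d - r χ) ^ 2 + (K.card - 1) ≤ 2 ^ d * (2 ^ d - r χ))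
    (h8 : ∀ χ ∈ K, 1 ≤ h χ → r χ + 4 ≤ 2 ^ d)
    (hle : ∀ χ, r χ ≤ 2 ^ d)
    (hsum : ∑ χ ∈ K, r χ = 2 ^ d * l) (hk : K.card ≤ l + 3) :
    K.card ≤ 2 ^ d := by
  obtain ⟨χ₀, h0, h00⟩ := hnz
  have hk1 : 1 ≤ K.card := Finset.card_pos.mpr ⟨χ₀, h0⟩
  rcases Nat.eq_zero_or_pos d with hd | hd
  · subst hd
    have h1 := hle χ₀
    have h2 := hodd χ₀ h0 h00
    have h3 : r χ₀ = 1 := by
      obtain ⟨c, hc⟩ := h2
      simp only [pow_zero] at h1
      omega
    have h4 := h7 χ₀ h0 h00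
    rw [h3] at h4
    simp only [pow_zero, Nat.sub_self, mul_zero] at h4
    norm_num at h4 ⊢
    omega
  · obtain ⟨e, rfl⟩ : ∃ e, d = e + 1 := ⟨d - 1, by omega⟩
    have hQ : 2 ^ (e + 1) = 2 * 2 ^ e := by ring
    by_cases hcase : ∃ χ₁ ∈ K, h χ₁ = 0 ∧ 2 ^ (e + 1) - r χ₁ = 1
    · obtain ⟨χ₁, h1, h2, h3⟩ := hcase
      have h4 := h7 χ₁ h1 h2
      rw [h3] at h4
      simp only [one_pow, mul_one] at h4
      omega
    · push Not at hcase
      have h3 : ∀ χ ∈ K, r χ + 3 ≤ 2 ^ (e + 1) := by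
        intro χ hχ
        by_cases h2 : h χ = 0
        · have h4 := hodd χ hχ h2
          have h5 := hcase χ hχ h2
          have h6 := hle χ
          obtain ⟨c, hc⟩ := h4
          omega
        · have := h8 χ hχ (by omega)
          omega
      have h4 : ∑ χ ∈ K, (r χ + 3) ≤ ∑ χ ∈ K, 2 ^ (e + 1) := Finset.sum_le_sum h3
      rw [Finset.sum_add_distrib, hsum] at h4
      simp only [Finset.sum_const, smul_eq_mul] at h4
      have h5 : K.card * 2 ^ (e + 1) ≤ (l + 3) * 2 ^ (e + 1) := Nat.mul_le_mul_right _ hk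
      have h6 : 2 ^ (e + 1) * l + K.card * 3 ≤ 2 ^ (e + 1) * l + 2 ^ (e + 1) * 3 := by
        calc _ ≤ K.card * 2 ^ (e + 1) := h4
          _ ≤ (l + 3) * 2 ^ (e + 1) := h5
          _ = _ := by ring
      omega

end Arith

variable {G : Type u} [Group G] [Finite G] {M : Ideal AlgInt}

theorem major_defect (hM : IsPModular 2 M) {B : Set (IrrCharacter G)} (hB : IsPBlock M B)
    {D : Subgroup G} (hD : IsDefectGroup 2 M B D) {z : G} (hzc : ∀ d ∈ D, d * z = z * d)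
    {b : Set (IrrCharacter (Cz z))} (hb : IsPBlock M b)
    (hbD : IsDefectGroup 2 M b (D.subgroupOf (Cz z))) :
    blockDefect 2 b = blockDefect 2 B := by
  haveI : M.IsPrime := hM.2.1.isPrime
  haveI : Fact (Nat.Prime 2) := ⟨Nat.prime_two⟩
  have h1 := card_defect hM hB hD
  have h2 := card_defect hM hb hbD
  have hle : D ≤ Cz z := fun d hd => Subgroup.mem_centralizer_singleton_iff.mpr (hzc d hd)
  have h3 : Nat.card (D.subgroupOf (Cz z)) = Nat.card D :=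
    Nat.card_congr (Subgroup.subgroupOfEquivOfLe hle).toEquiv
  rw [h3, h1] at h2
  exact (Nat.pow_right_injective (le_refl 2) h2).symm

theorem orderOf_of_defect {B : Set (IrrCharacter G)} {D : Subgroup G} (hM : IsPModular 2 M)
    (hB : IsPBlock M B) (hD : IsDefectGroup 2 M B D)
    {z : G} (hzD : z ∈ D) : ∃ k, orderOf z = 2 ^ k := by
  haveI : M.IsPrime := hM.2.1.isPrime
  have hDp : IsPGroup 2 D := defect_isPGroup hD
  obtain ⟨k, hk⟩ := IsPGroup.iff_orderOf.mp hDp ⟨z, hzD⟩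
  exact ⟨k, by rwa [Subgroup.orderOf_mk] at hk⟩

theorem major_one {B : Set (IrrCharacter G)} (hM : IsPModular 2 M) (hB : IsPBlock M B)
    {D : Subgroup G} (hD : IsDefectGroup 2 M B D) {z : G} (hzD : z ∈ D)
    (hzc : ∀ d ∈ D, d * z = z * d) {b : Set (IrrCharacter (Cz z))}
    (hb : IsInducedBlock M (Cz z) b B) (hbD : IsDefectGroup 2 M b (D.subgroupOf (Cz z)))
    (hl : blockRank 2 b ≤ 3) :
    3 * Nat.card B ≤ 3 * Nat.card {χ : IrrCharacter G // χ ∈ B ∧ blockHeight 2 B χ.1 = 0} +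
      2 * (∑ᶠ χ ∈ {χ : IrrCharacter G | χ ∈ B ∧ 1 ≤ blockHeight 2 B χ.1}, 2 ^ blockHeight 2 B χ.1) ∧
    3 * Nat.card {χ : IrrCharacter G // χ ∈ B ∧ blockHeight 2 B χ.1 = 0} +
      2 * (∑ᶠ χ ∈ {χ : IrrCharacter G | χ ∈ B ∧ 1 ≤ blockHeight 2 B χ.1}, 2 ^ blockHeight 2 B χ.1) ≤
      3 * 2 ^ blockDefect 2 B := by
  classical
  haveI : M.IsPrime := hM.2.1.isPrime
  obtain ⟨k, hk⟩ := orderOf_of_defect hM hB hD hzD
  have hmaj := major_defect hM hB hD hzc hb.1 hbD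
  let K : Finset (IrrCharacter G) := Finset.univ.filter (fun χ => χ ∈ B)
  have hK : ∀ χ : IrrCharacter G, χ ∈ K ↔ χ ∈ B := fun χ => by simp [K]
  obtain ⟨r, h1, -, h3, h4, h5, -, -, -⟩ := major_data hM hB hk hb hmaj K hK
  have hc1 : Nat.card B = K.card := by
    show Nat.card {χ : IrrCharacter G // χ ∈ B} = _
    rw [Nat.card_eq_fintype_card, Fintype.card_subtype]
  have hc2 : Nat.card {χ : IrrCharacter G // χ ∈ B ∧ blockHeight 2 B χ.1 = 0} =
      (K.filter fun χ => blockHeight 2 B χ.1 = 0).card := by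
    rw [Nat.card_eq_fintype_card, Fintype.card_subtype]
    congr 1
    ext χ
    simp [K]
  have hc3 : ∑ᶠ χ ∈ {χ : IrrCharacter G | χ ∈ B ∧ 1 ≤ blockHeight 2 B χ.1}, 2 ^ blockHeight 2 B χ.1 =
      ∑ χ ∈ K.filter (fun χ => 1 ≤ blockHeight 2 B χ.1), 2 ^ blockHeight 2 B χ.1 := by
    have h6 : {χ : IrrCharacter G | χ ∈ B ∧ 1 ≤ blockHeight 2 B χ.1} =
        ((K.filter (fun χ => 1 ≤ blockHeight 2 B χ.1) : Finset (IrrCharacter G)) : Set (IrrCharacter G)) := by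
      ext χ
      simp [K]
    rw [h6, finsum_mem_coe_finset]
  rw [hc1, hc2, hc3, ← hmaj]
  refine arith_three K (fun χ => blockHeight 2 B χ.1) r _ _ (fun χ hχ => h3 χ ((hK χ).mp hχ))
    (fun χ hχ => h4 χ ((hK χ).mp hχ)) (fun χ hχ => h5 χ ((hK χ).mp hχ)) ?_ hl
  rw [← h1]
  exact Finset.sum_le_sum_of_subset_of_nonneg (Finset.subset_univ K) (fun _ _ _ => Nat.zero_le _)

theorem major_two {B : Set (IrrCharacter G)} (hM : IsPModular 2 M) (hB : IsPBlock M B)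
    {D : Subgroup G} (hD : IsDefectGroup 2 M B D) {z : G} (hzD : z ∈ D)
    (hzc : ∀ d ∈ D, d * z = z * d) {b : Set (IrrCharacter (Cz z))}
    (hb : IsInducedBlock M (Cz z) b B) (hbD : IsDefectGroup 2 M b (D.subgroupOf (Cz z)))
    (h : Nat.card B ≤ blockRank 2 b + 3) : Nat.card B ≤ 2 ^ blockDefect 2 B := by
  classical
  haveI : M.IsPrime := hM.2.1.isPrime
  obtain ⟨k, hk⟩ := orderOf_of_defect hM hB hD hzD
  have hmaj := major_defect hM hB hD hzc hb.1 hbD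
  let K : Finset (IrrCharacter G) := Finset.univ.filter (fun χ => χ ∈ B)
  have hK : ∀ χ : IrrCharacter G, χ ∈ K ↔ χ ∈ B := fun χ => by simp [K]
  obtain ⟨r, h1, h2, h3, -, -, h6, h7, h8⟩ := major_data hM hB hk hb hmaj K hK
  have hc1 : Nat.card B = K.card := by
    show Nat.card {χ : IrrCharacter G // χ ∈ B} = _
    rw [Nat.card_eq_fintype_card, Fintype.card_subtype]
  rw [hc1] at h ⊢
  rw [← hmaj]
  obtain ⟨χ₀, hχ₀, hχ₀h⟩ : ∃ χ₀ ∈ B, blockHeight 2 B χ₀.1 = 0 := by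
    obtain ⟨χ₁, h1, h2⟩ := exists_min_height (p := 2) hB
    refine ⟨χ₁, h1, ?_⟩
    show (charDegree χ₁.1).factorization 2 - minExp 2 B = 0
    omega
  refine arith_four K (fun χ => blockHeight 2 B χ.1) r _ (blockRank 2 b) ⟨χ₀, (hK χ₀).mpr hχ₀, hχ₀h⟩
    (fun χ hχ => h3 χ ((hK χ).mp hχ)) (fun χ hχ => h7 χ ((hK χ).mp hχ))
    (fun χ hχ => h8 χ ((hK χ).mp hχ)) h6 ?_ h
  rw [← h1]
  refine Finset.sum_subset (Finset.subset_univ K) fun χ _ hχ => ?_
  exact h2 χ (fun h9 => hχ ((hK χ).mpr h9))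

end Cfsg.Agent.H15.KC
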