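import Cfsg.Agent.Lib.H15.KC9

/-! # Normalized traces on `ℚ(ζ_{p^n})` -/

set_option autoImplicit false
set_option linter.unusedSectionVars false
set_option linter.style.haveILetI false
set_option linter.unusedSimpArgs false
set_option linter.unusedVariables false

namespace Cfsg.Agent.H15.KD

open Cfsg Cfsg.Agent.H21 Cfsg.Agent.H22 Cfsg.Agent.H15.KB Cfsg.Agent.H15.KC Module Polynomial
open scoped ComplexConjugate

universe u

variable {p : ℕ} [hp : Fact p.Prime] (N : ℕ)

theorem geom_tav {n : ℕ} [NeZero n] {η : ℂ} (hη : IsPrimitiveRoot η p) (u : ℂ)  :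
    ∑ i ∈ Finset.range p, tav n (u * η ^ i) = 0 := by
  rw [← tav_sum, ← Finset.mul_sum, hη.geom_sum_eq_zero hp.out.one_lt, mul_zero]
  exact tav_zero n

theorem tav_root_gen {ρ : ℂ} (hρ : ρ ^ (p ^ (N + 1)) = 1) :
    ∃ c : ℤ, ((p : ℂ) - 1) * tav (p ^ (N + 1)) ρ = c := by
  classical
  set n := p ^ (N + 1) with hn
  haveI : NeZero n := ⟨pow_ne_zero _ hp.out.ne_zero⟩
  have hmem : ρ ∈ cyc n := root_mem_cyc (NeZero.ne _) hρ
  obtain ⟨j, hjle, hj⟩ := (Nat.dvd_prime_pow hp.out).mp (orderOf_dvd_of_pow_eq_one hρ)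
  have hcopr : ∀ c : ℕ, c.Coprime p → c.Coprime n := fun c hc => Nat.Coprime.pow_right _ hc
  rcases Nat.lt_or_ge j 2 with hj2 | hj2
  · have hj01 : j = 0 ∨ j = 1 := by omega
    rcases hj01 with rfl | rfl
    · rw [pow_zero] at hj
      have h1 : ρ = 1 := orderOf_eq_one_iff.mp hj
      refine ⟨(p : ℤ) - 1, ?_⟩
      rw [h1, tav_one]
      push_cast
      ring
    · rw [pow_one] at hj
      have hprim : IsPrimitiveRoot ρ p := by
        rw [← hj]
        exact IsPrimitiveRoot.orderOf ρ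
      have h0 : ∑ i ∈ Finset.range p, tav n (1 * ρ ^ i) = 0 := geom_tav hprim 1
      have h1 : ∀ i ∈ Finset.Ico 1 p, tav n (1 * ρ ^ i) = tav n ρ := by
        intro i hi
        obtain ⟨hi1, hi2⟩ := Finset.mem_Ico.mp hi
        have hc : i.Coprime p := (Nat.coprime_comm.mp ((Nat.Prime.coprime_iff_not_dvd hp.out).mpr
          (fun h => by
            have := Nat.le_of_dvd (by omega) h
            omega)))
        obtain ⟨σ, hσ⟩ := exists_aut_pow n (hcopr i hc)
        rw [one_mul, ← hσ ρ hρ, tav_ext n σ hmem]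
      rw [Finset.range_eq_Ico, Finset.sum_eq_sum_Ico_succ_bot hp.out.pos] at h0
      rw [Finset.sum_congr rfl h1] at h0
      simp only [Finset.sum_const, Nat.card_Ico, pow_zero, mul_one, tav_one, nsmul_eq_mul] at h0
      refine ⟨-1, ?_⟩
      have h3 : ((p - 1 : ℕ) : ℂ) = (p : ℂ) - 1 := by
        rw [Nat.cast_sub hp.out.one_lt.le]
        simp
      rw [h3] at h0
      push_cast
      linear_combination h0
  · obtain ⟨i, rfl⟩ : ∃ i, j = i + 2 := ⟨j - 2, by omega⟩
    set η := ρ ^ (p ^ (i + 1)) with hη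
    have hprim : IsPrimitiveRoot η p := by
      have h1 : IsPrimitiveRoot ρ (p ^ (i + 2)) := by
        rw [← hj]
        exact IsPrimitiveRoot.orderOf ρ
      have hpos : 0 < p ^ (i + 2) := pow_pos hp.out.pos _
      have h2 := h1.pow (n := p ^ (i + 2)) (a := p ^ (i + 1)) (b := p) hpos
        (by rw [pow_succ])
      exact h2
    have h0 : ∑ e ∈ Finset.range p, tav n (ρ * η ^ e) = 0 := geom_tav hprim ρ
    have h1 : ∀ e ∈ Finset.range p, tav n (ρ * η ^ e) = tav n ρ := by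
      intro e _
      have hc : (1 + e * p ^ (i + 1)).Coprime p := by
        rw [Nat.coprime_iff_gcd_eq_one]
        have h2 : p ∣ e * p ^ (i + 1) := Dvd.dvd.mul_left (dvd_pow_self p (by omega)) e
        simp [Nat.gcd_comm]
        obtain ⟨c, hc⟩ := h2
        rw [hc]
        simp
      obtain ⟨σ, hσ⟩ := exists_aut_pow n (hcopr _ hc)
      have h2 : ρ * η ^ e = ρ ^ (1 + e * p ^ (i + 1)) := by
        rw [hη, ← pow_mul, pow_add ρ 1, pow_one]
        congr 2
        ring
      rw [h2, ← hσ ρ hρ, tav_ext n σ hmem]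
    rw [Finset.sum_congr rfl h1] at h0
    simp only [Finset.sum_const, Finset.card_range, nsmul_eq_mul] at h0
    have hp0 : (p : ℂ) ≠ 0 := by exact_mod_cast hp.out.ne_zero
    have h3 : tav n ρ = 0 := by
      rcases mul_eq_zero.mp h0 with h4 | h4
      · exact absurd h4 hp0
      · exact h4
    refine ⟨0, ?_⟩
    rw [h3]
    simp

/-- Denominators of the normalized trace. -/
theorem tav_int_gen {x : ℂ} (hx : x ∈ cyc (p ^ (N + 1))) (hint : IsIntegral ℤ x) :
    ∃ c : ℤ, ((p : ℂ) - 1) * tav (p ^ (N + 1)) x = c := by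
  classical
  set n := p ^ (N + 1) with hn
  haveI : NeZero n := ⟨pow_ne_zero _ hp.out.ne_zero⟩
  set ζ := Complex.exp (2 * Real.pi * Complex.I / (n : ℂ)) with hζ
  have hζp : IsPrimitiveRoot ζ n := zeta_prim n
  let E := cyc n
  let ζE : E := ⟨ζ, IntermediateField.mem_adjoin_simple_self ℚ ζ⟩
  have hζE : IsPrimitiveRoot ζE n := by
    exact IsPrimitiveRoot.of_map_of_injective (f := algebraMap E ℂ) hζp (algebraMap E ℂ).injective
  let x' : E := ⟨x, hx⟩
  have hx'int : IsIntegral ℤ x' := by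
    have : IsIntegral ℤ (algebraMap E ℂ x') := hint
    exact (isIntegral_algebraMap_iff (algebraMap E ℂ).injective).1 this
  haveI : IsCyclotomicExtension {p ^ (N + 1)} ℚ E := cyc_isCyc n
  have hcl := IsCyclotomicExtension.Rat.isIntegralClosure_adjoin_singleton_of_prime_pow
    (p := p) (k := N + 1) (K := E) hζE
  obtain ⟨y, hy⟩ := hcl.isIntegral_iff.1 hx'int
  have hy2 : x' ∈ Algebra.adjoin ℤ ({ζE} : Set E) := by
    rw [← hy]
    exact y.2
  rw [Algebra.adjoin_singleton_eq_range_aeval] at hy2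
  obtain ⟨f, hf⟩ := hy2
  have hfC : Polynomial.aeval ζ f = x := by
    have h1 : algebraMap E ℂ (Polynomial.aeval ζE f) = x := by
      have h2 := congrArg (algebraMap E ℂ) hf
      exact h2
    rw [← h1, ← Polynomial.aeval_algebraMap_apply]
    rfl
  have hxr : x = ∑ i ∈ Finset.range (f.natDegree + 1), (f.coeff i : ℂ) * ζ ^ i := by
    rw [← hfC, Polynomial.aeval_eq_sum_range]
    refine Finset.sum_congr rfl fun i _ => ?_
    simp
  have hc : ∀ i : ℕ, ∃ c : ℤ, ((p : ℂ) - 1) * tav n (ζ ^ i) = c := by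
    intro i
    refine tav_root_gen N ?_
    rw [← pow_mul, mul_comm, pow_mul, hζp.pow_eq_one, one_pow]
  choose c hc using hc
  refine ⟨∑ i ∈ Finset.range (f.natDegree + 1), f.coeff i * c i, ?_⟩
  rw [hxr, tav_sum, Finset.mul_sum]
  push_cast
  refine Finset.sum_congr rfl fun i _ => ?_
  rw [tav_intCast_mul, ← hc i]
  ring

theorem card_lt_sum_of_prod {ι : Type*} (s : Finset ι) (a : ι → ℝ) (ha : ∀ i ∈ s, 0 < a i)
    (h : 1 < ∏ i ∈ s, a i) : (s.card : ℝ) < ∑ i ∈ s, a i := by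
  have hlog : 0 < Real.log (∏ i ∈ s, a i) := Real.log_pos h
  rw [Real.log_prod (fun i hi => (ha i hi).ne')] at hlog
  have h2 : ∑ i ∈ s, Real.log (a i) ≤ ∑ i ∈ s, (a i - 1) :=
    Finset.sum_le_sum fun i hi => Real.log_le_sub_one_of_pos (ha i hi)
  rw [Finset.sum_sub_distrib] at h2
  simp only [Finset.sum_const, nsmul_eq_mul, mul_one] at h2
  linarith

/-- A nonzero integer in the ideal has normalized square sum larger than one. -/
theorem tsq_gt_one {M : Ideal AlgInt} [M.IsPrime] (hM : IsPModular p M) (n : ℕ) [NeZero n]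
    {x : ℂ} (hx : x ∈ cyc n) (h0 : x ≠ 0) (hint : IsIntegral ℤ x)
    (hmli : MemLocalIdeal M x) : 1 < tsq n x := by
  classical
  let x' : cyc n := ⟨x, hx⟩
  have hj0 : x' ≠ 0 := fun h => h0 (congrArg Subtype.val h)
  have hjint : IsIntegral ℤ x' := by
    have : IsIntegral ℤ (algebraMap (cyc n) ℂ x') := hint
    exact (isIntegral_algebraMap_iff (algebraMap (cyc n) ℂ).injective).1 this
  have hnorm := Algebra.isIntegral_norm (K := ℚ) (R := ℤ) hjint
  obtain ⟨m, hm⟩ := IsIntegrallyClosed.isIntegral_iff.1 hnorm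
  have hne : Algebra.norm ℚ x' ≠ 0 := Algebra.norm_ne_zero_iff.2 hj0
  have hm0 : m ≠ 0 := by
    rintro rfl
    apply hne
    rw [← hm]
    simp
  have hprod : ((∏ σ : Gal(cyc n/ℚ), σ x' : cyc n) : ℂ) = (m : ℂ) := by
    have h0 := Algebra.norm_eq_prod_automorphisms ℚ x'
    have h00 : (∏ σ : Gal(cyc n/ℚ), σ x' : cyc n) = algebraMap ℚ (cyc n) (Algebra.norm ℚ x') := by
      rw [h0]
      refine Finset.prod_congr ?_ fun _ _ => rfl
      ext
      simp
    rw [h00, ← hm]
    simp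
  have hext : ∀ σ : Gal(cyc n/ℚ), ext n σ x = ((σ x' : cyc n) : ℂ) := fun σ => ext_spec n σ x'
  have hprodC : ∏ σ : Gal(cyc n/ℚ), ext n σ x = (m : ℂ) := by
    rw [← hprod]
    simp only [hext]
    push_cast
    rfl
  -- the norm lies in the ideal
  have hmM : MemLocalIdeal M (m : ℂ) := by
    rw [← hprodC, ← Finset.mul_prod_erase _ _ (Finset.mem_univ (1 : Gal(cyc n/ℚ)))]
    have h1 : ext n 1 x = x := by
      have := hext 1
      rw [this]
      rfl
    rw [h1]
    refine mli_mul_right hmli (mlr_of_isIntegral ?_)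
    refine IsIntegral.prod _ fun σ _ => ?_
    exact hint.map (RingHom.toIntAlgHom (ext n σ))
  have hdv : (p : ℤ) ∣ m := (H21.mli_intCast_iff hM m).mp hmM
  have habs : (2 : ℝ) ≤ |(m : ℝ)| := by
    have h1 : (2 : ℤ) ≤ |m| := by
      have h2 : (p : ℤ) ≤ |m| := Int.le_of_dvd (abs_pos.mpr hm0) ((dvd_abs _ _).mpr hdv)
      have h3 : (2 : ℤ) ≤ (p : ℤ) := by exact_mod_cast hp.out.two_le
      omega
    exact_mod_cast h1
  have h1 := card_lt_sum_of_prod (Finset.univ : Finset Gal(cyc n/ℚ))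
    (fun σ => ‖ext n σ x‖ ^ 2) (fun σ _ => by
      have : ext n σ x ≠ 0 := by
        intro h
        exact h0 ((map_eq_zero (ext n σ)).mp h)
      positivity) (by
      rw [Finset.prod_pow, ← norm_prod, hprodC]
      simp only [Complex.norm_intCast]
      nlinarith)
  unfold tsq
  rw [Finset.card_univ] at h1
  have h2 := card_pos_R n
  rw [inv_mul_eq_div, lt_div_iff₀ h2, one_mul]
  exact h1

/-- The gap for elements of the ideal. -/
theorem tsq_ge_tau {M : Ideal AlgInt} [M.IsPrime] (hM : IsPModular p M)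
    {x : ℂ} (hx : x ∈ cyc (p ^ (N + 1))) (h0 : x ≠ 0) (hint : IsIntegral ℤ x)
    (hmli : MemLocalIdeal M x) : (p : ℝ) ≤ ((p : ℝ) - 1) * tsq (p ^ (N + 1)) x := by
  classical
  set n := p ^ (N + 1) with hn
  haveI : NeZero n := ⟨pow_ne_zero _ hp.out.ne_zero⟩
  have h1 := tsq_gt_one hM n hx h0 hint hmli
  have hc : IsIntegral ℤ (conj x) := hint.map (RingHom.toIntAlgHom (starRingEnd ℂ))
  have hcm : conj x ∈ cyc n := conj_mem_cyc (NeZero.ne n) hx
  obtain ⟨c, hc1⟩ := tav_int_gen N (x := x * conj x) (mul_mem hx hcm) (hint.mul hc)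
  rw [tav_mul_conj n hx] at hc1
  have hc2 : ((p : ℝ) - 1) * tsq n x = c := by
    have h3 : ((((p : ℝ) - 1) * tsq n x : ℝ) : ℂ) = ((c : ℝ) : ℂ) := by
      push_cast
      rw [hc1]
    exact_mod_cast h3
  have hp1 : (1 : ℝ) < p := by exact_mod_cast hp.out.one_lt
  have h4 : ((p : ℤ) - 1 : ℤ) < c := by
    have h5 : ((p : ℝ) - 1) < (c : ℝ) := by
      rw [← hc2]
      nlinarith
    exact_mod_cast h5
  have h5 : (p : ℤ) ≤ c := by omega
  rw [hc2]
  exact_mod_cast h5

end Cfsg.Agent.H15.KD
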