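import Cfsg.Agent.Lib.H15.KD1

/-! # Coordinates on the regular lattice of a block of rank two -/

set_option autoImplicit false
set_option linter.unusedSectionVars false
set_option linter.style.haveILetI false
set_option linter.unusedSimpArgs false
set_option linter.unusedVariables false

namespace Cfsg.Agent.H15.KD

open Cfsg Cfsg.Agent.H21 Cfsg.Agent.H22 Cfsg.Agent.H15.KB Cfsg.Agent.H15.KC Module
open scoped ComplexConjugate

universe u

section Lat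

variable {H : Type u} [Group H] [Finite H]

/-- A basis of the regular lattice of rank two. -/
structure Basis2 (p : ℕ) (b : Set (IrrCharacter H)) where
  a : IrrCharacter H → ℤ
  c : IrrCharacter H → ℤ
  φ₁ : H → ℂ
  φ₂ : H → ℂ
  t₁ : IrrCharacter H → ℤ
  t₂ : IrrCharacter H → ℤ
  h : ∀ ξ ∈ b, ∀ s, rp p ξ.1 s = (a ξ : ℂ) * φ₁ s + (c ξ : ℂ) * φ₂ s
  ht₁ : ∀ s, φ₁ s = ∑ ξ : IrrCharacter H, eB b ξ * ((t₁ ξ : ℂ) * rp p ξ.1 s)
  ht₂ : ∀ s, φ₂ s = ∑ ξ : IrrCharacter H, eB b ξ * ((t₂ ξ : ℂ) * rp p ξ.1 s)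
  ind : ∀ u v : ℂ, (∀ s, u * φ₁ s + v * φ₂ s = 0) → u = 0 ∧ v = 0

open Classical in
/-- The form of a pair of coordinate functions. -/
noncomputable def cc (b : Set (IrrCharacter H)) (f g : IrrCharacter H → ℤ) : ℤ :=
  ∑ ξ : IrrCharacter H, if ξ ∈ b then f ξ * g ξ else 0

theorem cc_cast (b : Set (IrrCharacter H)) (f g : IrrCharacter H → ℤ) :
    (cc b f g : ℂ) = ∑ ξ : IrrCharacter H, eB b ξ * ((f ξ : ℂ) * (g ξ : ℂ)) := by
  classical
  unfold cc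
  push_cast
  refine Finset.sum_congr rfl fun ξ _ => ?_
  by_cases h : ξ ∈ b
  · rw [if_pos h, eB_apply_mem h, one_mul]
  · rw [if_neg h, eB_apply_not_mem h, zero_mul]

variable {p : ℕ} {b : Set (IrrCharacter H)}

theorem Basis2.ind4 (T : Basis2 p b) {A B C D : ℂ}
    (h : ∀ s t, A * T.φ₁ s * conj (T.φ₁ t) + B * T.φ₁ s * conj (T.φ₂ t) +
      C * T.φ₂ s * conj (T.φ₁ t) + D * T.φ₂ s * conj (T.φ₂ t) = 0) :
    A = 0 ∧ B = 0 ∧ C = 0 ∧ D = 0 := by
  have h1 : ∀ t, (A * conj (T.φ₁ t) + B * conj (T.φ₂ t) = 0) ∧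
      (C * conj (T.φ₁ t) + D * conj (T.φ₂ t) = 0) := by
    intro t
    refine T.ind _ _ fun s => ?_
    linear_combination h s t
  have h2 : conj A = 0 ∧ conj B = 0 := by
    refine T.ind _ _ fun t => ?_
    have := congrArg conj (h1 t).1
    simpa using this
  have h3 : conj C = 0 ∧ conj D = 0 := by
    refine T.ind _ _ fun t => ?_
    have := congrArg conj (h1 t).2
    simpa using this
  simp only [map_eq_zero] at h2 h3
  exact ⟨h2.1, h2.2, h3.1, h3.2⟩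

/-- The regular kernel in coordinates. -/
theorem Basis2.rk_eq (T : Basis2 p b) (s t : H) :
    rk p b s t = (cc b T.a T.a : ℂ) * T.φ₁ s * conj (T.φ₁ t) +
      (cc b T.a T.c : ℂ) * T.φ₁ s * conj (T.φ₂ t) +
      (cc b T.a T.c : ℂ) * T.φ₂ s * conj (T.φ₁ t) +
      (cc b T.c T.c : ℂ) * T.φ₂ s * conj (T.φ₂ t) := by
  classical
  unfold rk
  simp only [cc_cast, Finset.sum_mul, ← Finset.sum_add_distrib]
  refine Finset.sum_congr rfl fun ξ _ => ?_
  by_cases h : ξ ∈ b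
  · rw [T.h ξ h s, T.h ξ h t, eB_apply_mem h]
    simp only [map_add, map_mul, map_intCast]
    ring
  · rw [eB_apply_not_mem h]
    ring

theorem rp_self_rk {M : Ideal AlgInt} [M.IsPrime] {p : ℕ} [hp : Fact p.Prime] (hM : IsPModular p M)
    (hb : IsPBlock M b) {ξ : IrrCharacter H} (hξ : ξ ∈ b) (t : H) :
    ∑ s : H, rp p ξ.1 s * rk p b t s = (Nat.card H : ℂ) * rp p ξ.1 t := by
  classical
  have hC : (Nat.card H : ℂ) ≠ 0 := card_ne_zero_C
  by_cases ht : p ∣ orderOf t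
  · simp [rk_sing b ht, rp_of_sing _ ht]
  · rw [rp_of_reg _ ht]
    have h1 : ∑ s : H, rp p ξ.1 s * rk p b t s = ∑ s : H, ξ.1 s * kerK b t s := by
      refine Finset.sum_congr rfl fun s _ => ?_
      rw [rk_reg hM hb ht]
      by_cases hs : p ∣ orderOf s
      · rw [kerK_singular hM hb ht hs, mul_zero, mul_zero]
      · rw [rp_of_reg _ hs]
    have h2 := blockPart_eq_kernel b ξ.1 t
    have h3 : blockPart b ξ.1 t = ξ.1 t := by
      rw [blockPart_eq]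
      rw [Finset.sum_eq_single ξ]
      · rw [classInner_irr, if_pos rfl, eB_apply_mem hξ]
        ring
      · intro ξ' _ hne
        rw [classInner_irr, if_neg hne.symm]
        ring
      · intro h
        exact absurd (Finset.mem_univ ξ) h
    rw [h3] at h2
    rw [h1, h2, ← mul_assoc, mul_inv_cancel₀ hC, one_mul]

/-- The reproducing property for the basis. -/
theorem Basis2.repro₁ {M : Ideal AlgInt} [M.IsPrime] {p : ℕ} [hp : Fact p.Prime] (hM : IsPModular p M)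
    (hb : IsPBlock M b) (T : Basis2 p b) (t : H) :
    ∑ s : H, T.φ₁ s * rk p b t s = (Nat.card H : ℂ) * T.φ₁ t := by
  simp only [T.ht₁, Finset.sum_mul, Finset.mul_sum]
  rw [Finset.sum_comm]
  refine Finset.sum_congr rfl fun ξ _ => ?_
  by_cases h : ξ ∈ b
  · rw [eB_apply_mem h]
    have := rp_self_rk hM hb h t
    simp only [one_mul, mul_assoc, ← Finset.mul_sum, this]
    ring
  · rw [eB_apply_not_mem h]
    simp

theorem Basis2.repro₂ {M : Ideal AlgInt} [M.IsPrime] {p : ℕ} [hp : Fact p.Prime] (hM : IsPModular p M)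
    (hb : IsPBlock M b) (T : Basis2 p b) (t : H) :
    ∑ s : H, T.φ₂ s * rk p b t s = (Nat.card H : ℂ) * T.φ₂ t := by
  simp only [T.ht₂, Finset.sum_mul, Finset.mul_sum]
  rw [Finset.sum_comm]
  refine Finset.sum_congr rfl fun ξ _ => ?_
  by_cases h : ξ ∈ b
  · rw [eB_apply_mem h]
    have := rp_self_rk hM hb h t
    simp only [one_mul, mul_assoc, ← Finset.mul_sum, this]
    ring
  · rw [eB_apply_not_mem h]
    simp

/-- The scaled Gram pairing. -/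
noncomputable def gg (p : ℕ) (b : Set (IrrCharacter H)) (f g : H → ℂ) : ℂ :=
  (p : ℂ) ^ blockDefect p b * ((Nat.card H : ℂ)⁻¹ * ∑ s : H, f s * conj (g s))

/-- The relations between Cartan form and Gram form. -/
theorem Basis2.rel {M : Ideal AlgInt} [M.IsPrime] {p : ℕ} [hp : Fact p.Prime] (hM : IsPModular p M)
    (hb : IsPBlock M b) (T : Basis2 p b) :
    (cc b T.a T.a : ℂ) * gg p b T.φ₁ T.φ₁ + (cc b T.a T.c : ℂ) * gg p b T.φ₁ T.φ₂ = (p : ℂ) ^ blockDefect p b ∧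
    (cc b T.a T.c : ℂ) * gg p b T.φ₁ T.φ₁ + (cc b T.c T.c : ℂ) * gg p b T.φ₁ T.φ₂ = 0 ∧
    (cc b T.a T.a : ℂ) * gg p b T.φ₂ T.φ₁ + (cc b T.a T.c : ℂ) * gg p b T.φ₂ T.φ₂ = 0 ∧
    (cc b T.a T.c : ℂ) * gg p b T.φ₂ T.φ₁ + (cc b T.c T.c : ℂ) * gg p b T.φ₂ T.φ₂ = (p : ℂ) ^ blockDefect p b := by
  classical
  have hC : (Nat.card H : ℂ) ≠ 0 := card_ne_zero_C
  set P : ℂ := (p : ℂ) ^ blockDefect p b with hP
  have hP0 : P ≠ 0 := pow_ne_zero _ (by exact_mod_cast hp.out.ne_zero)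
  -- a general expansion
  have hexp : ∀ (f : H → ℂ) (t : H), ∑ s : H, f s * rk p b t s =
      (Nat.card H : ℂ) * P⁻¹ * (
        ((cc b T.a T.a : ℂ) * gg p b f T.φ₁ + (cc b T.a T.c : ℂ) * gg p b f T.φ₂) * T.φ₁ t +
        ((cc b T.a T.c : ℂ) * gg p b f T.φ₁ + (cc b T.c T.c : ℂ) * gg p b f T.φ₂) * T.φ₂ t) := by
    intro f t
    simp only [T.rk_eq]
    unfold gg
    rw [← hP]
    have h1 : ∀ s : H, f s * ((cc b T.a T.a : ℂ) * T.φ₁ t * conj (T.φ₁ s) +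
        (cc b T.a T.c : ℂ) * T.φ₁ t * conj (T.φ₂ s) +
        (cc b T.a T.c : ℂ) * T.φ₂ t * conj (T.φ₁ s) +
        (cc b T.c T.c : ℂ) * T.φ₂ t * conj (T.φ₂ s)) =
        ((cc b T.a T.a : ℂ) * T.φ₁ t + (cc b T.a T.c : ℂ) * T.φ₂ t) * (f s * conj (T.φ₁ s)) +
        ((cc b T.a T.c : ℂ) * T.φ₁ t + (cc b T.c T.c : ℂ) * T.φ₂ t) * (f s * conj (T.φ₂ s)) := by
      intro s
      ring
    simp only [h1]
    rw [Finset.sum_add_distrib, ← Finset.mul_sum, ← Finset.mul_sum]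
    field_simp
    ring
  have hr1 : ∀ t, ((cc b T.a T.a : ℂ) * gg p b T.φ₁ T.φ₁ + (cc b T.a T.c : ℂ) * gg p b T.φ₁ T.φ₂ - P) * T.φ₁ t +
      ((cc b T.a T.c : ℂ) * gg p b T.φ₁ T.φ₁ + (cc b T.c T.c : ℂ) * gg p b T.φ₁ T.φ₂) * T.φ₂ t = 0 := by
    intro t
    have h1 := hexp T.φ₁ t
    rw [T.repro₁ hM hb t] at h1
    have h2 : (Nat.card H : ℂ) * P⁻¹ ≠ 0 := mul_ne_zero hC (inv_ne_zero hP0)
    have h3 : (Nat.card H : ℂ) * P⁻¹ * (P * T.φ₁ t) = (Nat.card H : ℂ) * T.φ₁ t := by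
      field_simp
    apply mul_left_cancel₀ h2
    rw [mul_zero]
    linear_combination -h1 - h3
  have hr2 : ∀ t, ((cc b T.a T.a : ℂ) * gg p b T.φ₂ T.φ₁ + (cc b T.a T.c : ℂ) * gg p b T.φ₂ T.φ₂) * T.φ₁ t +
      ((cc b T.a T.c : ℂ) * gg p b T.φ₂ T.φ₁ + (cc b T.c T.c : ℂ) * gg p b T.φ₂ T.φ₂ - P) * T.φ₂ t = 0 := by
    intro t
    have h1 := hexp T.φ₂ t
    rw [T.repro₂ hM hb t] at h1
    have h2 : (Nat.card H : ℂ) * P⁻¹ ≠ 0 := mul_ne_zero hC (inv_ne_zero hP0)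
    have h3 : (Nat.card H : ℂ) * P⁻¹ * (P * T.φ₂ t) = (Nat.card H : ℂ) * T.φ₂ t := by
      field_simp
    apply mul_left_cancel₀ h2
    rw [mul_zero]
    linear_combination -h1 - h3
  obtain ⟨h1, h2⟩ := T.ind _ _ hr1
  obtain ⟨h3, h4⟩ := T.ind _ _ hr2
  exact ⟨by linear_combination h1, h2, h3, by linear_combination h4⟩

/-- The Gram pairing of regular parts. -/
theorem gg_rp (p : ℕ) (b : Set (IrrCharacter H)) (ξ ξ' : IrrCharacter H) :
    gg p b (rp p ξ.1) (rp p ξ'.1) = (p : ℂ) ^ blockDefect p b * crt p ξ ξ' := by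
  unfold gg
  rw [crt_eq_sum]
  congr 2
  refine Finset.sum_congr rfl fun s _ => ?_
  by_cases hs : p ∣ orderOf s
  · simp [rp_of_sing _ hs]
  · rw [rp_of_reg _ hs, rp_of_reg _ hs]

/-- The integrality and rank one congruence for the Gram pairing. -/
theorem gg_int {M : Ideal AlgInt} [M.IsPrime] {p : ℕ} [hp : Fact p.Prime] (hM : IsPModular p M)
    (hb : IsPBlock M b) {R : ℕ}
    (hR : ∀ χ ∈ b, ∀ θ ∈ b, MemLocalIdeal M (((charDegree χ.1 / p ^ minExp p b : ℕ) : ℂ) -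
      (R : ℂ) * H22.om θ (bz p χ))) (f g : H → ℂ) (t u : IrrCharacter H → ℤ)
    (hf : ∀ s, f s = ∑ ξ : IrrCharacter H, eB b ξ * ((t ξ : ℂ) * rp p ξ.1 s))
    (hg : ∀ s, g s = ∑ ξ : IrrCharacter H, eB b ξ * ((u ξ : ℂ) * rp p ξ.1 s)) :
    ∃ n : ℤ, gg p b f g = n ∧ MemLocalIdeal M ((R : ℂ) * n -
      (∑ ξ : IrrCharacter H, eB b ξ * ((t ξ : ℂ) * (xx p b ξ : ℂ))) *
      (∑ ξ : IrrCharacter H, eB b ξ * ((u ξ : ℂ) * (xx p b ξ : ℂ)))) := by
  classical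
  have h0 : gg p b f g = ∑ ξ : IrrCharacter H, ∑ ξ' : IrrCharacter H,
      eB b ξ * eB b ξ' * ((t ξ : ℂ) * (u ξ' : ℂ) * ((p : ℂ) ^ blockDefect p b * crt p ξ ξ')) := by
    have h1 : ∀ s, f s * conj (g s) = ∑ ξ : IrrCharacter H, ∑ ξ' : IrrCharacter H,
        eB b ξ * eB b ξ' * ((t ξ : ℂ) * (u ξ' : ℂ) * (rp p ξ.1 s * conj (rp p ξ'.1 s))) := by
      intro s
      rw [hf, hg, map_sum, Finset.sum_mul_sum]
      refine Finset.sum_congr rfl fun ξ _ => Finset.sum_congr rfl fun ξ' _ => ?_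
      simp only [map_mul, map_intCast, eB_conj]
      ring
    unfold gg
    simp only [h1]
    have hs : ∑ s : H, ∑ ξ : IrrCharacter H, ∑ ξ' : IrrCharacter H,
        eB b ξ * eB b ξ' * ((t ξ : ℂ) * (u ξ' : ℂ) * (rp p ξ.1 s * conj (rp p ξ'.1 s))) =
        ∑ ξ : IrrCharacter H, ∑ ξ' : IrrCharacter H, ∑ s : H,
        eB b ξ * eB b ξ' * ((t ξ : ℂ) * (u ξ' : ℂ) * (rp p ξ.1 s * conj (rp p ξ'.1 s))) := by
      rw [Finset.sum_comm]
      exact Finset.sum_congr rfl fun ξ _ => Finset.sum_comm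
    rw [hs, Finset.mul_sum, Finset.mul_sum]
    refine Finset.sum_congr rfl fun ξ _ => ?_
    rw [Finset.mul_sum, Finset.mul_sum]
    refine Finset.sum_congr rfl fun ξ' _ => ?_
    have h2 := gg_rp p b ξ ξ'
    unfold gg at h2
    have h3 : ∑ s : H, eB b ξ * eB b ξ' * ((t ξ : ℂ) * (u ξ' : ℂ) * (rp p ξ.1 s * conj (rp p ξ'.1 s))) =
        eB b ξ * eB b ξ' * ((t ξ : ℂ) * (u ξ' : ℂ)) * ∑ s : H, rp p ξ.1 s * conj (rp p ξ'.1 s) := by
      rw [Finset.mul_sum]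
      exact Finset.sum_congr rfl fun s _ => by ring
    rw [h3, ← h2]
    ring
  have hex : ∀ ξ ξ' : IrrCharacter H, ∃ n : ℤ,
      eB b ξ * eB b ξ' * ((t ξ : ℂ) * (u ξ' : ℂ) * ((p : ℂ) ^ blockDefect p b * crt p ξ ξ')) = n ∧
      MemLocalIdeal M ((R : ℂ) * n - (eB b ξ * ((t ξ : ℂ) * (xx p b ξ : ℂ))) *
        (eB b ξ' * ((u ξ' : ℂ) * (xx p b ξ' : ℂ)))) := by
    intro ξ ξ'
    by_cases hξ : ξ ∈ b
    · by_cases hξ' : ξ' ∈ b
      · obtain ⟨n, hn1, hn2⟩ := crt_block hM hb hR hξ hξ'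
        refine ⟨t ξ * u ξ' * n, ?_, ?_⟩
        · rw [eB_apply_mem hξ, eB_apply_mem hξ', hn1]
          push_cast
          ring
        · rw [eB_apply_mem hξ, eB_apply_mem hξ']
          have h3 := mli_mul_left hn2 (mlr_of_isIntegral (isIntegral_intCast (t ξ * u ξ')))
          convert h3 using 1
          push_cast
          ring
      · refine ⟨0, ?_, ?_⟩
        · rw [eB_apply_not_mem hξ']
          simp
        · rw [eB_apply_not_mem hξ']
          simp only [zero_mul, mul_zero, Int.cast_zero, sub_self]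
          exact mli_zero
    · refine ⟨0, ?_, ?_⟩
      · rw [eB_apply_not_mem hξ]
        simp
      · rw [eB_apply_not_mem hξ]
        simp only [zero_mul, mul_zero, Int.cast_zero, sub_self]
        exact mli_zero
  choose n hn1 hn2 using hex
  refine ⟨∑ ξ, ∑ ξ', n ξ ξ', ?_, ?_⟩
  · rw [h0]
    push_cast
    exact Finset.sum_congr rfl fun ξ _ => Finset.sum_congr rfl fun ξ' _ => hn1 ξ ξ'
  · rw [Finset.sum_mul_sum]
    push_cast
    rw [Finset.mul_sum, ← Finset.sum_sub_distrib]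
    refine mli_sum _ _ fun ξ _ => ?_
    rw [Finset.mul_sum, ← Finset.sum_sub_distrib]
    exact mli_sum _ _ fun ξ' _ => hn2 ξ ξ'

theorem gg_swap (p : ℕ) (b : Set (IrrCharacter H)) (f g : H → ℂ) :
    conj (gg p b f g) = gg p b g f := by
  unfold gg
  rw [map_mul, map_mul, map_pow, map_inv₀, map_natCast, map_natCast, map_sum]
  congr 2
  refine Finset.sum_congr rfl fun s _ => ?_
  rw [map_mul, Complex.conj_conj, mul_comm]

end Lat

end Cfsg.Agent.H15.KD
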