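import Cfsg.Agent.Lib.H15.KD2

/-! # Reduced bases of the regular lattice and the arithmetic of the binary form -/

set_option autoImplicit false
set_option linter.unusedSectionVars false
set_option linter.style.haveILetI false
set_option linter.unusedSimpArgs false
set_option linter.unusedVariables false

namespace Cfsg.Agent.H15.KD

open Cfsg Cfsg.Agent.H21 Cfsg.Agent.H22 Cfsg.Agent.H15.KB Cfsg.Agent.H15.KC Module
open scoped ComplexConjugate

universe u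

section Lat

variable {H : Type u} [Group H] [Finite H] {p : ℕ} {b : Set (IrrCharacter H)}

/-- Exchange of the basis vectors. -/
def Basis2.swap (T : Basis2 p b) : Basis2 p b where
  a := T.c
  c := T.a
  φ₁ := T.φ₂
  φ₂ := T.φ₁
  t₁ := T.t₂
  t₂ := T.t₁
  h := fun ξ hξ s => by
    rw [T.h ξ hξ s]
    ring
  ht₁ := T.ht₂
  ht₂ := T.ht₁
  ind := fun u v h => by
    have := T.ind v u (fun s => by
      have := h s
      linear_combination this)
    exact ⟨this.2, this.1⟩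

/-- Change of sign of the second basis vector. -/
def Basis2.flip (T : Basis2 p b) : Basis2 p b where
  a := T.a
  c := fun ξ => - T.c ξ
  φ₁ := T.φ₁
  φ₂ := fun s => - T.φ₂ s
  t₁ := T.t₁
  t₂ := fun ξ => - T.t₂ ξ
  h := fun ξ hξ s => by
    rw [T.h ξ hξ s]
    push_cast
    ring
  ht₁ := T.ht₁
  ht₂ := fun s => by
    rw [T.ht₂ s, ← Finset.sum_neg_distrib]
    refine Finset.sum_congr rfl fun ξ _ => ?_
    push_cast
    ring
  ind := fun u v h => by
    have := T.ind u (-v) (fun s => by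
      have := h s
      linear_combination this)
    exact ⟨this.1, by simpa using this.2⟩

/-- A shear. -/
def Basis2.shear (T : Basis2 p b) : Basis2 p b where
  a := T.a
  c := fun ξ => T.c ξ - T.a ξ
  φ₁ := fun s => T.φ₁ s + T.φ₂ s
  φ₂ := T.φ₂
  t₁ := fun ξ => T.t₁ ξ + T.t₂ ξ
  t₂ := T.t₂
  h := fun ξ hξ s => by
    rw [T.h ξ hξ s]
    push_cast
    ring
  ht₁ := fun s => by
    rw [T.ht₁ s, T.ht₂ s, ← Finset.sum_add_distrib]
    refine Finset.sum_congr rfl fun ξ _ => ?_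
    push_cast
    ring
  ht₂ := T.ht₂
  ind := fun u v h => by
    have := T.ind u (u + v) (fun s => by
      have := h s
      linear_combination this)
    refine ⟨this.1, ?_⟩
    have h2 := this.2
    rw [this.1, zero_add] at h2
    exact h2

theorem cc_comm (f g : IrrCharacter H → ℤ) : cc b f g = cc b g f := by
  unfold cc
  refine Finset.sum_congr rfl fun ξ _ => ?_
  rw [mul_comm]

theorem cc_nonneg (f : IrrCharacter H → ℤ) : 0 ≤ cc b f f := by
  classical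
  unfold cc
  refine Finset.sum_nonneg fun ξ _ => ?_
  split_ifs
  · exact mul_self_nonneg _
  · exact le_refl _

theorem cc_neg_right (f g : IrrCharacter H → ℤ) : cc b f (fun ξ => - g ξ) = - cc b f g := by
  classical
  unfold cc
  rw [← Finset.sum_neg_distrib]
  refine Finset.sum_congr rfl fun ξ _ => ?_
  split_ifs <;> ring

theorem cc_neg_neg (g : IrrCharacter H → ℤ) : cc b (fun ξ => - g ξ) (fun ξ => - g ξ) = cc b g g := by
  classical
  unfold cc
  refine Finset.sum_congr rfl fun ξ _ => ?_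
  split_ifs <;> ring

theorem cc_sub_right (f g k : IrrCharacter H → ℤ) :
    cc b f (fun ξ => g ξ - k ξ) = cc b f g - cc b f k := by
  classical
  unfold cc
  rw [← Finset.sum_sub_distrib]
  refine Finset.sum_congr rfl fun ξ _ => ?_
  split_ifs <;> ring

theorem cc_sub_sub (g k : IrrCharacter H → ℤ) :
    cc b (fun ξ => g ξ - k ξ) (fun ξ => g ξ - k ξ) = cc b g g - 2 * cc b g k + cc b k k := by
  classical
  unfold cc
  rw [Finset.mul_sum, ← Finset.sum_sub_distrib, ← Finset.sum_add_distrib]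
  refine Finset.sum_congr rfl fun ξ _ => ?_
  split_ifs <;> ring

/-- The size of a basis. -/
noncomputable def Basis2.size (T : Basis2 p b) : ℤ := cc b T.a T.a + cc b T.c T.c

/-- A basis of minimal size. -/
def Basis2.IsMin (T : Basis2 p b) : Prop := ∀ T' : Basis2 p b, T.size ≤ T'.size

theorem Basis2.size_nonneg (T : Basis2 p b) : 0 ≤ T.size :=
  add_nonneg (cc_nonneg _) (cc_nonneg _)

theorem Basis2.exists_min [Nonempty (Basis2 p b)] : ∃ T : Basis2 p b, T.IsMin := by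
  classical
  have hne : ∃ n : ℕ, ∃ T : Basis2 p b, T.size.toNat = n :=
    ⟨_, Classical.arbitrary (Basis2 p b), rfl⟩
  obtain ⟨T, hT⟩ := Nat.find_spec hne
  refine ⟨T, fun T' => ?_⟩
  have h1 := Nat.find_min' hne (⟨T', rfl⟩ : ∃ T : Basis2 p b, T.size.toNat = T'.size.toNat)
  rw [← hT] at h1
  have h2 := T.size_nonneg
  have h3 := T'.size_nonneg
  omega

theorem Basis2.IsMin.flip {T : Basis2 p b} (h : T.IsMin) : T.flip.IsMin := by
  intro T'
  have h1 := h T'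
  unfold Basis2.size at h1 ⊢
  show cc b T.a T.a + cc b (fun ξ => - T.c ξ) (fun ξ => - T.c ξ) ≤ _
  rw [cc_neg_neg]
  exact h1

theorem Basis2.IsMin.swap {T : Basis2 p b} (h : T.IsMin) : T.swap.IsMin := by
  intro T'
  have h1 := h T'
  unfold Basis2.size at h1 ⊢
  show cc b T.c T.c + cc b T.a T.a ≤ _
  linarith

theorem Basis2.IsMin.two_le {T : Basis2 p b} (h : T.IsMin) : 2 * cc b T.a T.c ≤ cc b T.a T.a := by
  have h1 := h T.shear
  unfold Basis2.size at h1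
  have h2 : cc b T.shear.c T.shear.c = cc b T.c T.c - 2 * cc b T.c T.a + cc b T.a T.a :=
    cc_sub_sub _ _
  have h3 : cc b T.shear.a T.shear.a = cc b T.a T.a := rfl
  rw [h2, h3, cc_comm T.c T.a] at h1
  linarith

/-- **Existence of reduced bases.** -/
theorem Basis2.exists_reduced [Nonempty (Basis2 p b)] :
    ∃ T : Basis2 p b, 0 ≤ cc b T.a T.c ∧ 2 * cc b T.a T.c ≤ cc b T.a T.a ∧
      cc b T.a T.a ≤ cc b T.c T.c := by
  obtain ⟨T₀, h₀⟩ := Basis2.exists_min (p := p) (b := b)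
  obtain ⟨T₁, h₁, h₁'⟩ : ∃ T₁ : Basis2 p b, T₁.IsMin ∧ 0 ≤ cc b T₁.a T₁.c := by
    by_cases h : 0 ≤ cc b T₀.a T₀.c
    · exact ⟨T₀, h₀, h⟩
    · refine ⟨T₀.flip, h₀.flip, ?_⟩
      show 0 ≤ cc b T₀.a (fun ξ => - T₀.c ξ)
      rw [cc_neg_right]
      omega
  obtain ⟨T₂, h₂, h₂', h₂''⟩ : ∃ T₂ : Basis2 p b, T₂.IsMin ∧ 0 ≤ cc b T₂.a T₂.c ∧
      cc b T₂.a T₂.a ≤ cc b T₂.c T₂.c := by
    by_cases h : cc b T₁.a T₁.a ≤ cc b T₁.c T₁.c
    · exact ⟨T₁, h₁, h₁', h⟩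
    · refine ⟨T₁.swap, h₁.swap, ?_, ?_⟩
      · show 0 ≤ cc b T₁.c T₁.a
        rw [cc_comm]
        exact h₁'
      · show cc b T₁.c T₁.c ≤ cc b T₁.a T₁.a
        omega
  exact ⟨T₂, h₂', h₂.two_le, h₂''⟩

end Lat

theorem key_ineq {a x f : ℤ} (ha : 2 ≤ a) (hx : 0 ≤ x) (h2 : 2 * x ≤ a) (hf : a ≤ f) :
    a + f - x ≤ f * a - x ^ 2 := by
  have h1 : 0 ≤ (a - 1) * (f - a) := mul_nonneg (by omega) (by omega)
  have h3 : 0 ≤ (a - 2 * x) * (a + 2 * x - 2) := mul_nonneg (by omega) (by omega)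
  have h4 : 0 ≤ x * (x - 1) := by
    rcases Int.le_iff_eq_or_lt.mp hx with h5 | h5
    · rw [← h5]
      simp
    · exact mul_nonneg hx (by omega)
  have h5 : f * a - x ^ 2 - (a + f - x) = (a - 1) * (f - a) + (a - 2 * x) * (a + 2 * x - 2) +
      3 * (x * (x - 1)) := by ring
  linarith

/-- **The arithmetic of the binary form.** -/
theorem arith_form {p : ℕ} (hp : p.Prime) (d : ℕ) {c₁ c₂ c₃ Q₁ Q₂ Q₃ : ℤ}
    (h0 : 0 ≤ c₂) (h1 : 2 * c₂ ≤ c₁) (h2 : c₁ ≤ c₃)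
    (r1 : c₁ * Q₁ + c₂ * Q₂ = (p : ℤ) ^ d) (r2 : c₂ * Q₁ + c₃ * Q₂ = 0)
    (r3 : c₁ * Q₂ + c₂ * Q₃ = 0) (r4 : c₂ * Q₂ + c₃ * Q₃ = (p : ℤ) ^ d)
    (hnz : ¬ ((p : ℤ) ∣ Q₁ ∧ (p : ℤ) ∣ Q₂ ∧ (p : ℤ) ∣ Q₃))
    (hdet : (p : ℤ) ∣ Q₁ * Q₃ - Q₂ ^ 2) :
    c₁ + c₃ - c₂ ≤ (p : ℤ) ^ d ∨
      (c₂ = 0 ∧ c₃ = (p : ℤ) ^ d ∧ Q₃ = 1 ∧ Q₂ = 0 ∧ (p : ℤ) ∣ Q₁ ∧ (p : ℤ) * c₁ ≤ (p : ℤ) ^ d ∧ 0 < c₁) := by
  have hp0 : (0 : ℤ) < p := by exact_mod_cast hp.pos
  set P : ℤ := (p : ℤ) ^ d with hP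
  have hPpos : 0 < P := pow_pos hp0 d
  have hc1 : 0 < c₁ := by
    by_contra h3
    have h4 : c₁ = 0 := by omega
    have h5 : c₂ = 0 := by omega
    rw [h4, h5] at r1
    simp at r1
    omega
  have hc3 : 0 < c₃ := by omega
  set Δ : ℤ := c₁ * c₃ - c₂ ^ 2 with hΔ
  have hΔpos : 0 < Δ := by
    have h3 : c₂ < c₁ := by omega
    nlinarith
  have e1 : Δ * Q₁ = P * c₃ := by
    rw [hΔ]
    linear_combination c₃ * r1 - c₂ * r2
  have e2 : Δ * Q₂ = - (P * c₂) := by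
    rw [hΔ]
    linear_combination c₁ * r2 - c₂ * r1
  have e3 : Δ * Q₃ = P * c₁ := by
    rw [hΔ]
    linear_combination c₁ * r4 - c₂ * r3
  set δ : ℤ := Q₁ * Q₃ - Q₂ ^ 2 with hδ
  have e4 : Δ * δ = P ^ 2 := by
    have h3 : Δ * (Δ * δ) = Δ * P ^ 2 := by
      rw [hδ]
      have : Δ * (Δ * (Q₁ * Q₃ - Q₂ ^ 2)) = (Δ * Q₁) * (Δ * Q₃) - (Δ * Q₂) ^ 2 := by ring
      rw [this, e1, e2, e3, hΔ]
      ring
    exact mul_left_cancel₀ hΔpos.ne' h3
  have hδpos : 0 < δ := by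
    by_contra h3
    have h4 : δ ≤ 0 := by omega
    have h5 : Δ * δ ≤ 0 := mul_nonpos_of_nonneg_of_nonpos hΔpos.le h4
    have h6 : 0 < P ^ 2 := by positivity
    omega
  -- `Δ` is a power of `p`
  obtain ⟨D, hD⟩ : ∃ D : ℕ, Δ = D := ⟨Δ.toNat, (Int.toNat_of_nonneg hΔpos.le).symm⟩
  have hDdvd : D ∣ p ^ (2 * d) := by
    have h3 : (D : ℤ) ∣ ((p ^ (2 * d) : ℕ) : ℤ) := by
      rw [← hD]
      refine ⟨δ, ?_⟩
      rw [e4, hP]
      push_cast
      ring
    exact_mod_cast h3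
  obtain ⟨e, hele, he⟩ := (Nat.dvd_prime_pow hp).mp hDdvd
  have hΔe : Δ = (p : ℤ) ^ e := by
    rw [hD, he]
    push_cast
    rfl
  have hδe : δ = (p : ℤ) ^ (2 * d - e) := by
    apply mul_left_cancel₀ hΔpos.ne'
    rw [e4, hΔe, ← pow_add, hP, ← pow_mul]
    congr 1
    omega
  have hele' : e < 2 * d := by
    by_contra h3
    have h4 : 2 * d - e = 0 := by omega
    rw [h4, pow_zero] at hδe
    rw [hδe] at hdet
    have h5 : (p : ℤ) ≤ 1 := Int.le_of_dvd (by norm_num) hdet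
    have h6 := hp.two_le
    omega
  by_cases hed : e < d
  · exfalso
    apply hnz
    obtain ⟨f, hf⟩ : ∃ f, d = e + (f + 1) := ⟨d - e - 1, by omega⟩
    have hPe : P = Δ * ((p : ℤ) ^ f * p) := by
      rw [hP, hΔe, hf, pow_add, pow_succ]
    have e1' : Q₁ = ((p : ℤ) ^ f * p) * c₃ := by
      apply mul_left_cancel₀ hΔpos.ne'
      rw [e1]
      nth_rewrite 1 [hPe]
      ring
    have e2' : Q₂ = - (((p : ℤ) ^ f * p) * c₂) := by
      apply mul_left_cancel₀ hΔpos.ne'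
      rw [e2]
      nth_rewrite 1 [hPe]
      ring
    have e3' : Q₃ = ((p : ℤ) ^ f * p) * c₁ := by
      apply mul_left_cancel₀ hΔpos.ne'
      rw [e3]
      nth_rewrite 1 [hPe]
      ring
    refine ⟨⟨(p : ℤ) ^ f * c₃, ?_⟩, ⟨-((p : ℤ) ^ f * c₂), ?_⟩, ⟨(p : ℤ) ^ f * c₁, ?_⟩⟩
    · rw [e1']
      ring
    · rw [e2']
      ring
    · rw [e3']
      ring
  · obtain ⟨s, hs⟩ : ∃ s, e = d + s := ⟨e - d, by omega⟩
    have hsd : s + 1 ≤ d := by omega
    set g : ℤ := (p : ℤ) ^ s with hg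
    have hgpos : 0 < g := pow_pos hp0 s
    have hΔg : Δ = P * g := by
      rw [hΔe, hs, pow_add]
    have f1 : c₃ = g * Q₁ := by
      apply mul_left_cancel₀ hPpos.ne'
      rw [← e1, hΔg]
      ring
    have f2 : c₂ = - (g * Q₂) := by
      apply mul_left_cancel₀ hPpos.ne'
      have h3 : P * c₂ = - (Δ * Q₂) := by
        rw [e2]
        ring
      rw [h3, hΔg]
      ring
    have f3 : c₁ = g * Q₃ := by
      apply mul_left_cancel₀ hPpos.ne'
      rw [← e3, hΔg]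
      ring
    have hgδ : g * δ = P := by
      have h3 : Δ = g ^ 2 * δ := by
        rw [hΔ, hδ, f1, f2, f3]
        ring
      have h4 : g * (g * δ) = g * P := by
        have h5 : g ^ 2 * δ = P * g := by
          rw [← h3, hΔg]
        linear_combination h5
      exact mul_left_cancel₀ hgpos.ne' h4
    have hQ3pos : 0 < Q₃ := by
      rw [f3] at hc1
      exact (mul_pos_iff_of_pos_left hgpos).mp hc1
    have hQ2nonpos : 0 ≤ - Q₂ := by
      rw [f2] at h0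
      have h3 : 0 ≤ g * (- Q₂) := by
        linarith
      exact nonneg_of_mul_nonneg_right h3 hgpos
    have h2Q : 2 * (- Q₂) ≤ Q₃ := by
      rw [f2, f3] at h1
      have h3 : g * (2 * (- Q₂)) ≤ g * Q₃ := by
        linarith
      exact le_of_mul_le_mul_left h3 hgpos
    have hQ13 : Q₃ ≤ Q₁ := by
      rw [f1, f3] at h2
      exact le_of_mul_le_mul_left h2 hgpos
    by_cases hQ31 : Q₃ = 1
    · right
      have hQ20 : Q₂ = 0 := by omega
      have hδQ : δ = Q₁ := by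
        rw [hδ, hQ31, hQ20]
        ring
      refine ⟨by rw [f2, hQ20]; ring, ?_, hQ31, hQ20, ?_, ?_, hc1⟩
      · rw [f1, ← hgδ, hδQ]
      · rw [← hδQ]
        exact hdet
      · rw [f3, hQ31, mul_one, hg, hP, ← pow_succ']
        exact pow_le_pow_right₀ (by exact_mod_cast hp.one_le) hsd
    · left
      have hQ32 : 2 ≤ Q₃ := by omega
      have hkey : Q₃ + Q₁ - (- Q₂) ≤ δ := by
        have h3 := key_ineq hQ32 hQ2nonpos h2Q hQ13
        rw [hδ]
        linarith [h3, sq_nonneg Q₂, neg_sq Q₂]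
      calc c₁ + c₃ - c₂ = g * (Q₃ + Q₁ - (- Q₂)) := by
            rw [f1, f2, f3]
            ring
        _ ≤ g * δ := mul_le_mul_of_nonneg_left hkey hgpos.le
        _ = P := hgδ

end Cfsg.Agent.H15.KD
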