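import Cfsg.Agent.Lib.H15.KD3

/-! # Existence of bases of the regular lattice of a block of rank two -/

set_option autoImplicit false
set_option linter.unusedSectionVars false
set_option linter.style.haveILetI false
set_option linter.unusedSimpArgs false
set_option linter.unusedVariables false

namespace Cfsg.Agent.H15.KD

open Cfsg Cfsg.Agent.H21 Cfsg.Agent.H22 Cfsg.Agent.H15.KB Cfsg.Agent.H15.KC Module
open scoped ComplexConjugate

universe u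

variable {H : Type u} [Group H] [Finite H] {p : ℕ} {b : Set (IrrCharacter H)}

/-- A pair spanning the regular parts of a set of rank two. -/
theorem pair_of_rank (h2 : blockRank p b = 2) :
    ∃ ξ₁ ∈ b, ∃ ξ₂ ∈ b, (∀ α β : ℂ, (∀ s, α * rp p ξ₁.1 s + β * rp p ξ₂.1 s = 0) → α = 0 ∧ β = 0) ∧
      (∀ ξ ∈ b, ∃ α β : ℂ, ∀ s, rp p ξ.1 s = α * rp p ξ₁.1 s + β * rp p ξ₂.1 s) := by
  classical
  set S : Set (H → ℂ) := (fun χ : IrrCharacter H => pRegularPart p (χ : H → ℂ)) '' b with hS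
  obtain ⟨T, hTS, hTspan, hTli⟩ := exists_linearIndependent ℂ S
  have hSfin : S.Finite := (Set.toFinite b).image _
  have hTfin : T.Finite := hSfin.subset hTS
  haveI : Fintype T := hTfin.fintype
  have hcard : T.toFinset.card = 2 := by
    rw [← finrank_span_set_eq_card (R := ℂ) (s := T) hTli, hTspan]
    exact h2
  obtain ⟨x, y, hxy, hT⟩ := Finset.card_eq_two.mp hcard
  have hx : x ∈ T := by
    have : x ∈ T.toFinset := by
      rw [hT]
      simp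
    simpa using this
  have hy : y ∈ T := by
    have : y ∈ T.toFinset := by
      rw [hT]
      simp
    simpa using this
  have hTset : T = {x, y} := by
    ext v
    rw [← Set.mem_toFinset, hT]
    simp
  obtain ⟨ξ₁, hξ₁, rfl⟩ := hTS hx
  obtain ⟨ξ₂, hξ₂, rfl⟩ := hTS hy
  refine ⟨ξ₁, hξ₁, ξ₂, hξ₂, ?_, ?_⟩
  · intro α β h
    have hli : LinearIndependent ℂ ![pRegularPart p ξ₁.1, pRegularPart p ξ₂.1] := by
      let f : Fin 2 → T := ![⟨_, hx⟩, ⟨_, hy⟩]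
      have hf : Function.Injective f := by
        intro i j hij
        fin_cases i <;> fin_cases j <;> simp_all [f]
      have h3 := LinearIndependent.comp hTli f hf
      have h4 : ![pRegularPart p ξ₁.1, pRegularPart p ξ₂.1] = Subtype.val ∘ f := by
        funext i
        fin_cases i <;> rfl
      rw [h4]
      exact h3
    refine (LinearIndependent.pair_iff.mp hli) α β ?_
    funext s
    have := h s
    simp only [rp_eq_pRegularPart] at this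
    simpa using this
  · intro ξ hξ
    have hmem : pRegularPart p ξ.1 ∈ Submodule.span ℂ T := by
      rw [hTspan]
      exact Submodule.subset_span ⟨ξ, hξ, rfl⟩
    rw [hTset, Submodule.mem_span_pair] at hmem
    obtain ⟨α, β, hαβ⟩ := hmem
    refine ⟨α, β, fun s => ?_⟩
    simp only [rp_eq_pRegularPart]
    rw [← hαβ]
    simp

/-- The sum of squares vanishes only for the zero function. -/
theorem sum_norm_zero {f : H → ℂ} (h : ∑ s : H, f s * conj (f s) = 0) (s : H) : f s = 0 := by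
  classical
  have h1 : ∀ s : H, f s * conj (f s) = ((‖f s‖ ^ 2 : ℝ) : ℂ) := by
    intro s
    rw [Complex.mul_conj']
    push_cast
    rfl
  simp only [h1] at h
  have h2 : ∑ s : H, ‖f s‖ ^ 2 = 0 := by
    exact_mod_cast h
  have h3 := (Finset.sum_eq_zero_iff_of_nonneg (fun s _ => by positivity)).mp h2 s (Finset.mem_univ s)
  simpa using h3

/-- **Existence of a basis.** -/
theorem exists_basis2 {M : Ideal AlgInt} [M.IsPrime] {p : ℕ} [hp : Fact p.Prime]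
    (hM : IsPModular p M) (hb : IsPBlock M b) (h2 : blockRank p b = 2) : Nonempty (Basis2 p b) := by
  classical
  obtain ⟨ξ₁, hξ₁, ξ₂, hξ₂, hind, hspan⟩ := pair_of_rank h2
  set u₁ := rp p ξ₁.1 with hu₁
  set u₂ := rp p ξ₂.1 with hu₂
  choose N hN using fun ξ ξ' : IrrCharacter H => crt_int (p := p) ξ ξ'
  set K : ℂ := ((p ^ (Nat.card H).factorization p : ℕ) : ℂ) * (Nat.card H : ℂ)⁻¹ with hK
  have hC : (Nat.card H : ℂ) ≠ 0 := card_ne_zero_C
  have hK0 : K ≠ 0 := by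
    refine mul_ne_zero ?_ (inv_ne_zero hC)
    exact_mod_cast pow_ne_zero _ hp.out.ne_zero
  let w : (H → ℂ) → (H → ℂ) → ℂ := fun f g => ∑ s : H, f s * conj (g s)
  have hwN : ∀ ξ ξ' : IrrCharacter H, K * w (rp p ξ.1) (rp p ξ'.1) = N ξ ξ' := by
    intro ξ ξ'
    rw [← hN ξ ξ', crt_eq_sum, hK, mul_assoc]
    congr 2
    refine Finset.sum_congr rfl fun s _ => ?_
    by_cases hs : p ∣ orderOf s
    · simp [rp_of_sing _ hs]
    · rw [rp_of_reg _ hs, rp_of_reg _ hs]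
  have hsym : ∀ ξ ξ' : IrrCharacter H, N ξ ξ' = N ξ' ξ := by
    intro ξ ξ'
    have h3 : (N ξ ξ' : ℂ) = (N ξ' ξ : ℂ) := by
      rw [← hN, ← hN, crt_symm]
    exact_mod_cast h3
  set n₁₁ := N ξ₁ ξ₁ with hn₁₁
  set n₁₂ := N ξ₁ ξ₂ with hn₁₂
  set n₂₂ := N ξ₂ ξ₂ with hn₂₂
  have hn₂₁ : N ξ₂ ξ₁ = n₁₂ := hsym _ _
  set D : ℤ := n₁₁ * n₂₂ - n₁₂ ^ 2 with hD
  -- `D ≠ 0`
  have hu₂0 : n₂₂ ≠ 0 := by
    intro h0
    have h3 : w u₂ u₂ = 0 := by
      have h4 := hwN ξ₂ ξ₂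
      rw [← hn₂₂, h0] at h4
      simpa [hK0] using h4
    have h4 : ∀ s, u₂ s = 0 := sum_norm_zero h3
    have h5 := hind 0 1 (fun s => by
      rw [h4 s]
      ring)
    exact one_ne_zero h5.2
  have hD0 : D ≠ 0 := by
    intro h0
    let v : H → ℂ := fun s => (n₂₂ : ℂ) * u₁ s - (n₁₂ : ℂ) * u₂ s
    have h3 : K * w v v = (n₂₂ : ℂ) * (D : ℂ) := by
      have h4 : ∀ s, v s * conj (v s) = (n₂₂ : ℂ) ^ 2 * (u₁ s * conj (u₁ s)) -
          (n₂₂ : ℂ) * (n₁₂ : ℂ) * (u₁ s * conj (u₂ s)) - (n₂₂ : ℂ) * (n₁₂ : ℂ) * (u₂ s * conj (u₁ s)) +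
          (n₁₂ : ℂ) ^ 2 * (u₂ s * conj (u₂ s)) := by
        intro s
        simp only [v, map_sub, map_mul, map_intCast]
        ring
      have h5 : w v v = (n₂₂ : ℂ) ^ 2 * w u₁ u₁ - (n₂₂ : ℂ) * (n₁₂ : ℂ) * w u₁ u₂ -
          (n₂₂ : ℂ) * (n₁₂ : ℂ) * w u₂ u₁ + (n₁₂ : ℂ) ^ 2 * w u₂ u₂ := by
        simp only [w]
        simp only [h4, Finset.sum_add_distrib, Finset.sum_sub_distrib, ← Finset.mul_sum]
      rw [h5]
      have e1 := hwN ξ₁ ξ₁
      have e2 := hwN ξ₁ ξ₂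
      have e3 := hwN ξ₂ ξ₁
      have e4 := hwN ξ₂ ξ₂
      rw [hn₂₁] at e3
      rw [hD]
      push_cast
      change K * w u₁ u₁ = _ at e1
      change K * w u₁ u₂ = _ at e2
      change K * w u₂ u₁ = _ at e3
      change K * w u₂ u₂ = _ at e4
      linear_combination (n₂₂ : ℂ) ^ 2 * e1 - (n₂₂ : ℂ) * (n₁₂ : ℂ) * e2 -
        (n₂₂ : ℂ) * (n₁₂ : ℂ) * e3 + (n₁₂ : ℂ) ^ 2 * e4
    rw [h0] at h3
    have h4 : w v v = 0 := by
      have : K * w v v = 0 := by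
        rw [h3]
        simp
      simpa [hK0] using this
    have h5 : ∀ s, v s = 0 := sum_norm_zero h4
    have h6 := hind (n₂₂ : ℂ) (-(n₁₂ : ℂ)) (fun s => by
      have := h5 s
      simp only [v] at this
      linear_combination this)
    exact hu₂0 (by exact_mod_cast h6.1)
  have hDC : (D : ℂ) ≠ 0 := by exact_mod_cast hD0
  -- the coordinates
  let f : IrrCharacter H → (Fin 2 → ℤ) := fun ξ =>
    ![N ξ ξ₁ * n₂₂ - N ξ ξ₂ * n₁₂, n₁₁ * N ξ ξ₂ - n₁₂ * N ξ ξ₁]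
  let ψ : (Fin 2 → ℤ) → H → ℂ := fun v s => (D : ℂ)⁻¹ * ((v 0 : ℂ) * u₁ s + (v 1 : ℂ) * u₂ s)
  have hψf : ∀ ξ ∈ b, ∀ s, ψ (f ξ) s = rp p ξ.1 s := by
    intro ξ hξ s
    obtain ⟨α, β, hαβ⟩ := hspan ξ hξ
    have hw : ∀ g : H → ℂ, w (rp p ξ.1) g = α * w u₁ g + β * w u₂ g := by
      intro g
      simp only [w]
      rw [Finset.mul_sum, Finset.mul_sum, ← Finset.sum_add_distrib]
      refine Finset.sum_congr rfl fun s _ => ?_
      rw [hαβ s]
      ring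
    have e1 := hwN ξ ξ₁
    have e2 := hwN ξ ξ₂
    have e3 := hwN ξ₁ ξ₁
    have e4 := hwN ξ₁ ξ₂
    have e5 := hwN ξ₂ ξ₁
    have e6 := hwN ξ₂ ξ₂
    rw [hw] at e1 e2
    rw [hn₂₁] at e5
    change K * (α * w u₁ u₁ + β * w u₂ u₁) = _ at e1
    change K * (α * w u₁ u₂ + β * w u₂ u₂) = _ at e2
    change K * w u₁ u₁ = _ at e3
    change K * w u₁ u₂ = _ at e4
    change K * w u₂ u₁ = _ at e5
    change K * w u₂ u₂ = _ at e6
    have e7 : (N ξ ξ₁ : ℂ) = α * (n₁₁ : ℂ) + β * (n₁₂ : ℂ) := by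
      rw [← e1]
      linear_combination α * e3 + β * e5
    have e8 : (N ξ ξ₂ : ℂ) = α * (n₁₂ : ℂ) + β * (n₂₂ : ℂ) := by
      rw [← e2]
      linear_combination α * e4 + β * e6
    have hDc : (D : ℂ) = (n₁₁ : ℂ) * (n₂₂ : ℂ) - (n₁₂ : ℂ) ^ 2 := by
      rw [hD]
      push_cast
      ring
    simp only [ψ, f, Matrix.cons_val_zero, Matrix.cons_val_one, Matrix.head_cons]
    rw [hαβ s]
    push_cast
    rw [e7, e8]
    field_simp
    rw [hDc]
    ring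
  have hψadd : ∀ v v' s, ψ (v + v') s = ψ v s + ψ v' s := by
    intro v v' s
    simp only [ψ, Pi.add_apply]
    push_cast
    ring
  have hψsmul : ∀ (c : ℤ) v s, ψ (c • v) s = (c : ℂ) * ψ v s := by
    intro c v s
    simp only [ψ, Pi.smul_apply, smul_eq_mul]
    push_cast
    ring
  -- the lattice
  let Λ : Submodule ℤ (Fin 2 → ℤ) := Submodule.span ℤ (f '' b)
  have hfΛ : ∀ ξ ∈ b, f ξ ∈ Λ := fun ξ hξ => Submodule.subset_span ⟨ξ, hξ, rfl⟩
  have hf₁ : f ξ₁ = ![D, 0] := by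
    funext i
    fin_cases i
    · show n₁₁ * n₂₂ - n₁₂ * n₁₂ = D
      rw [hD]
      ring
    · show n₁₁ * n₁₂ - n₁₂ * n₁₁ = 0
      ring
  have hf₂ : f ξ₂ = ![0, D] := by
    funext i
    fin_cases i
    · show N ξ₂ ξ₁ * n₂₂ - n₂₂ * n₁₂ = 0
      rw [hn₂₁]
      ring
    · show n₁₁ * n₂₂ - n₁₂ * N ξ₂ ξ₁ = D
      rw [hn₂₁, hD]
      ring
  have hD₁ : (![D, 0] : Fin 2 → ℤ) ∈ Λ := hf₁ ▸ hfΛ ξ₁ hξ₁
  have hD₂ : (![0, D] : Fin 2 → ℤ) ∈ Λ := hf₂ ▸ hfΛ ξ₂ hξ₂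
  have hrank : finrank ℤ Λ = 2 := by
    apply le_antisymm
    · calc finrank ℤ Λ ≤ finrank ℤ (Fin 2 → ℤ) := Submodule.finrank_le Λ
        _ = 2 := by simp
    · have hli : LinearIndependent ℤ ![(⟨![D, 0], hD₁⟩ : Λ), ⟨![0, D], hD₂⟩] := by
        rw [LinearIndependent.pair_iff]
        intro x y h
        have h3 := congrArg Subtype.val h
        have h0 := congrFun h3 0
        have h1 := congrFun h3 1
        simp at h0 h1
        exact ⟨h0.resolve_right hD0, h1.resolve_right hD0⟩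
      have := hli.fintype_card_le_finrank
      simpa using this
  let e := Module.finBasisOfFinrankEq ℤ Λ hrank
  let e₁ : Fin 2 → ℤ := (e 0 : Fin 2 → ℤ)
  let e₂ : Fin 2 → ℤ := (e 1 : Fin 2 → ℤ)
  have hrep : ∀ v : Λ, (v : Fin 2 → ℤ) = (e.repr v 0) • e₁ + (e.repr v 1) • e₂ := by
    intro v
    have h3 := e.sum_repr v
    rw [Fin.sum_univ_two] at h3
    conv_lhs => rw [← h3]
    simp [e₁, e₂]
  have hgens : ∀ v ∈ Λ, ∃ t : IrrCharacter H → ℤ, ∀ s, ψ v s =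
      ∑ ξ : IrrCharacter H, eB b ξ * ((t ξ : ℂ) * rp p ξ.1 s) := by
    intro v hv
    induction hv using Submodule.span_induction with
    | mem x hx =>
      obtain ⟨ξ, hξ, rfl⟩ := hx
      refine ⟨fun ξ' => if ξ' = ξ then 1 else 0, fun s => ?_⟩
      rw [hψf ξ hξ s, Finset.sum_eq_single ξ]
      · simp [eB_apply_mem hξ]
      · intro ξ' _ hne
        simp [hne]
      · intro h
        exact absurd (Finset.mem_univ ξ) h
    | zero =>
      refine ⟨0, fun s => ?_⟩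
      simp [ψ]
    | add x y _ _ hx hy =>
      obtain ⟨t, ht⟩ := hx
      obtain ⟨t', ht'⟩ := hy
      refine ⟨t + t', fun s => ?_⟩
      rw [hψadd, ht, ht', ← Finset.sum_add_distrib]
      refine Finset.sum_congr rfl fun ξ _ => ?_
      simp only [Pi.add_apply]
      push_cast
      ring
    | smul c x _ hx =>
      obtain ⟨t, ht⟩ := hx
      refine ⟨c • t, fun s => ?_⟩
      rw [hψsmul, ht, Finset.mul_sum]
      refine Finset.sum_congr rfl fun ξ _ => ?_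
      simp only [Pi.smul_apply, smul_eq_mul]
      push_cast
      ring
  obtain ⟨t₁, ht₁⟩ := hgens e₁ (e 0).2
  obtain ⟨t₂, ht₂⟩ := hgens e₂ (e 1).2
  have hrep₁ := hrep ⟨![D, 0], hD₁⟩
  have hrep₂ := hrep ⟨![0, D], hD₂⟩
  set α := e.repr ⟨![D, 0], hD₁⟩ 0
  set β := e.repr ⟨![D, 0], hD₁⟩ 1
  set γ := e.repr ⟨![0, D], hD₂⟩ 0
  set δ := e.repr ⟨![0, D], hD₂⟩ 1
  have q1 : D = α * e₁ 0 + β * e₂ 0 := by
    have := congrFun hrep₁ 0
    simpa using this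
  have q2 : 0 = α * e₁ 1 + β * e₂ 1 := by
    have := congrFun hrep₁ 1
    simpa using this
  have q3 : 0 = γ * e₁ 0 + δ * e₂ 0 := by
    have := congrFun hrep₂ 0
    simpa using this
  have q4 : D = γ * e₁ 1 + δ * e₂ 1 := by
    have := congrFun hrep₂ 1
    simpa using this
  have hdet : e₁ 0 * e₂ 1 - e₂ 0 * e₁ 1 ≠ 0 := by
    intro h0
    have h3 : D * D = (α * δ - β * γ) * (e₁ 0 * e₂ 1 - e₂ 0 * e₁ 1) := by
      calc D * D = (α * e₁ 0 + β * e₂ 0) * (γ * e₁ 1 + δ * e₂ 1) := by rw [← q1, ← q4]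
        _ = (α * e₁ 0 + β * e₂ 0) * (γ * e₁ 1 + δ * e₂ 1) -
            (α * e₁ 1 + β * e₂ 1) * (γ * e₁ 0 + δ * e₂ 0) := by
              rw [← q2]
              ring
        _ = _ := by ring
    rw [h0, mul_zero] at h3
    exact hD0 (mul_self_eq_zero.mp h3)
  have hdetC : ((e₁ 0 : ℂ) * (e₂ 1 : ℂ) - (e₂ 0 : ℂ) * (e₁ 1 : ℂ)) ≠ 0 := by
    exact_mod_cast hdet
  refine ⟨{
    a := fun ξ => if hξ : ξ ∈ b then e.repr ⟨f ξ, hfΛ ξ hξ⟩ 0 else 0
    c := fun ξ => if hξ : ξ ∈ b then e.repr ⟨f ξ, hfΛ ξ hξ⟩ 1 else 0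
    φ₁ := ψ e₁
    φ₂ := ψ e₂
    t₁ := t₁
    t₂ := t₂
    h := ?_
    ht₁ := ht₁
    ht₂ := ht₂
    ind := ?_ }⟩
  · intro ξ hξ s
    simp only [dif_pos hξ]
    rw [← hψf ξ hξ s]
    have h3 := hrep ⟨f ξ, hfΛ ξ hξ⟩
    have h4 : f ξ = (e.repr ⟨f ξ, hfΛ ξ hξ⟩ 0) • e₁ + (e.repr ⟨f ξ, hfΛ ξ hξ⟩ 1) • e₂ := h3
    conv_lhs => rw [h4]
    rw [hψadd, hψsmul, hψsmul]
  · intro u v h
    have h3 : ∀ s, (u * (e₁ 0 : ℂ) + v * (e₂ 0 : ℂ)) * u₁ s + (u * (e₁ 1 : ℂ) + v * (e₂ 1 : ℂ)) * u₂ s = 0 := by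
      intro s
      have h4 := h s
      simp only [ψ] at h4
      have h5 : (D : ℂ)⁻¹ * ((u * (e₁ 0 : ℂ) + v * (e₂ 0 : ℂ)) * u₁ s + (u * (e₁ 1 : ℂ) + v * (e₂ 1 : ℂ)) * u₂ s) = 0 := by
        linear_combination h4
      exact (mul_eq_zero.mp h5).resolve_left (inv_ne_zero hDC)
    obtain ⟨h5, h6⟩ := hind _ _ h3
    constructor
    · have h7 : u * ((e₁ 0 : ℂ) * (e₂ 1 : ℂ) - (e₂ 0 : ℂ) * (e₁ 1 : ℂ)) = 0 := by
        linear_combination (e₂ 1 : ℂ) * h5 - (e₂ 0 : ℂ) * h6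
      exact (mul_eq_zero.mp h7).resolve_right hdetC
    · have h7 : v * ((e₁ 0 : ℂ) * (e₂ 1 : ℂ) - (e₂ 0 : ℂ) * (e₁ 1 : ℂ)) = 0 := by
        linear_combination (e₁ 0 : ℂ) * h6 - (e₁ 1 : ℂ) * h5
      exact (mul_eq_zero.mp h7).resolve_right hdetC

end Cfsg.Agent.H15.KD
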