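import Cfsg.Agent.Lib.H15.KD4

/-! # Major subsections with a block of rank at most two -/

set_option autoImplicit false
set_option linter.unusedSectionVars false
set_option linter.style.haveILetI false
set_option linter.unusedSimpArgs false
set_option linter.unusedVariables false

namespace Cfsg.Agent.H15.KD

open Cfsg Cfsg.Agent.H21 Cfsg.Agent.H22 Cfsg.Agent.H15.KB Cfsg.Agent.H15.KC Module
open scoped ComplexConjugate

universe u

variable {G : Type u} [Group G] [Finite G] {p : ℕ} [hp : Fact p.Prime] {M : Ideal AlgInt}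
variable [hMi : M.IsPrime] (z : G)

/-- The section coordinate. -/
noncomputable def XX (b : Set (IrrCharacter (Cz z))) (f : IrrCharacter (Cz z) → ℤ) (χ : IrrCharacter G) : ℂ :=
  ∑ ξ : IrrCharacter (Cz z), eB b ξ * (al z χ ξ * (f ξ : ℂ))

theorem XX_mem (hM : IsPModular p M) {k : ℕ} (hz : orderOf z = p ^ k) (b : Set (IrrCharacter (Cz z)))
    (f : IrrCharacter (Cz z) → ℤ) (χ : IrrCharacter G) (n : ℕ) [hn : NeZero n] (hdvd : p ^ k ∣ n) :
    XX z b f χ ∈ cyc n := by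
  unfold XX
  refine sum_mem fun ξ _ => mul_mem (eB_mem_cyc n b ξ) (mul_mem ?_ (intCast_mem _ _))
  rw [al_eq]
  obtain ⟨m, hm⟩ := mm_nat z χ ξ
  rw [hm]
  refine mul_mem (natCast_mem _ _) (root_mem_cyc hn.out ?_)
  obtain ⟨c, hc⟩ := hdvd
  rw [hc, pow_mul, eps_root z hz ξ, one_pow]

theorem XX_integral (hM : IsPModular p M) {k : ℕ} (hz : orderOf z = p ^ k) (b : Set (IrrCharacter (Cz z)))
    (f : IrrCharacter (Cz z) → ℤ) (χ : IrrCharacter G) : IsIntegral ℤ (XX z b f χ) := by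
  unfold XX
  refine IsIntegral.sum _ fun ξ _ => IsIntegral.mul ?_ ((al_isIntegral z hz χ ξ hM).mul (isIntegral_intCast _))
  by_cases h : ξ ∈ b
  · rw [eB_apply_mem h]
    exact isIntegral_one
  · rw [eB_apply_not_mem h]
    exact isIntegral_zero

variable {z} {b : Set (IrrCharacter (Cz z))}

theorem rp_bpt_coord (T : Basis2 p b) (χ : IrrCharacter G) (s : Cz z) :
    rp p (bpt z b χ) s = XX z b T.a χ * T.φ₁ s + XX z b T.c χ * T.φ₂ s := by
  rw [rp_bpt_expand]
  unfold XX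
  rw [Finset.sum_mul, Finset.sum_mul, ← Finset.sum_add_distrib]
  refine Finset.sum_congr rfl fun ξ _ => ?_
  by_cases h : ξ ∈ b
  · rw [T.h ξ h s, eB_apply_mem h]
    ring
  · rw [eB_apply_not_mem h]
    ring

/-- The orthogonality relations for the coordinates. -/
theorem sum_XX (hM : IsPModular p M) {k : ℕ} (hz : orderOf z = p ^ k) (hb : IsPBlock M b)
    (T : Basis2 p b) :
    ∑ χ : IrrCharacter G, XX z b T.a χ * conj (XX z b T.a χ) = (cc b T.a T.a : ℂ) ∧
    ∑ χ : IrrCharacter G, XX z b T.a χ * conj (XX z b T.c χ) = (cc b T.a T.c : ℂ) ∧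
    ∑ χ : IrrCharacter G, XX z b T.c χ * conj (XX z b T.a χ) = (cc b T.a T.c : ℂ) ∧
    ∑ χ : IrrCharacter G, XX z b T.c χ * conj (XX z b T.c χ) = (cc b T.c T.c : ℂ) := by
  classical
  set A := ∑ χ : IrrCharacter G, XX z b T.a χ * conj (XX z b T.a χ) with hA
  set B' := ∑ χ : IrrCharacter G, XX z b T.a χ * conj (XX z b T.c χ) with hB'
  set C := ∑ χ : IrrCharacter G, XX z b T.c χ * conj (XX z b T.a χ) with hC
  set D := ∑ χ : IrrCharacter G, XX z b T.c χ * conj (XX z b T.c χ) with hD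
  have h1 : ∀ s t : Cz z, A * T.φ₁ s * conj (T.φ₁ t) + B' * T.φ₁ s * conj (T.φ₂ t) +
      C * T.φ₂ s * conj (T.φ₁ t) + D * T.φ₂ s * conj (T.φ₂ t) = rk p b s t := by
    intro s t
    rw [← rp_bpt_sum z hM hz hb s t, hA, hB', hC, hD]
    simp only [Finset.sum_mul, ← Finset.sum_add_distrib]
    refine Finset.sum_congr rfl fun χ _ => ?_
    rw [rp_bpt_coord T χ s, rp_bpt_coord T χ t]
    simp only [map_add, map_mul]
    ring
  obtain ⟨h2, h3, h4, h5⟩ := T.ind4 (A := A - cc b T.a T.a) (B := B' - cc b T.a T.c)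
    (C := C - cc b T.a T.c) (D := D - cc b T.c T.c) (fun s t => by
      have h6 := h1 s t
      rw [T.rk_eq] at h6
      linear_combination h6)
  exact ⟨sub_eq_zero.mp h2, sub_eq_zero.mp h3, sub_eq_zero.mp h4, sub_eq_zero.mp h5⟩

/-- The contribution matrix in coordinates. -/
theorem WW_coord (T : Basis2 p b) (χ ψ : IrrCharacter G) :
    WW z p b χ ψ =
      gg p b T.φ₁ T.φ₁ * (XX z b T.a χ * conj (XX z b T.a ψ)) +
      gg p b T.φ₁ T.φ₂ * (XX z b T.a χ * conj (XX z b T.c ψ)) +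
      gg p b T.φ₂ T.φ₁ * (XX z b T.c χ * conj (XX z b T.a ψ)) +
      gg p b T.φ₂ T.φ₂ * (XX z b T.c χ * conj (XX z b T.c ψ)) := by
  classical
  have h1 : ∀ s : Cz z, rp p (bpt z b χ) s * conj (rp p (bpt z b ψ) s) =
      (XX z b T.a χ * conj (XX z b T.a ψ)) * (T.φ₁ s * conj (T.φ₁ s)) +
      (XX z b T.a χ * conj (XX z b T.c ψ)) * (T.φ₁ s * conj (T.φ₂ s)) +
      (XX z b T.c χ * conj (XX z b T.a ψ)) * (T.φ₂ s * conj (T.φ₁ s)) +
      (XX z b T.c χ * conj (XX z b T.c ψ)) * (T.φ₂ s * conj (T.φ₂ s)) := by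
    intro s
    rw [rp_bpt_coord T χ s, rp_bpt_coord T ψ s]
    simp only [map_add, map_mul]
    ring
  unfold WW PP gg
  simp only [h1, Finset.sum_add_distrib, ← Finset.mul_sum]
  ring

/-- The column of a character of positive height lies in the ideal. -/
theorem W_col_mli (hMp : IsPModular p M) {k : ℕ} (hz : orderOf z = p ^ k)
    {B : Set (IrrCharacter G)} (hb : IsPBlock M b)
    (hB : IsPBlock M B) (hmaj : blockDefect p b = blockDefect p B) {ψ : IrrCharacter G}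
    (hψ : ψ ∈ B) (h1 : 1 ≤ blockHeight p B ψ.1) (χ₀ : IrrCharacter G) :
    MemLocalIdeal M (WW z p b χ₀ ψ) := by
  have hpne : (p : ℂ) ^ blockHeight p B ψ.1 ≠ 0 := pow_ne_zero _ (by exact_mod_cast hp.out.ne_zero)
  have hU := W_div_integral hMp hz hb hB hmaj hψ χ₀
  set U := WW z p b ψ χ₀ / (p : ℂ) ^ blockHeight p B ψ.1 with hUd
  have h2 : WW z p b χ₀ ψ = (p : ℂ) ^ blockHeight p B ψ.1 * conj U := by
    rw [← WW_swap, hUd, map_div₀, map_pow, Complex.conj_natCast]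
    field_simp
  rw [h2]
  obtain ⟨e, he⟩ : ∃ e, blockHeight p B ψ.1 = e + 1 := ⟨_, (Nat.sub_add_cancel h1).symm⟩
  rw [he, pow_succ, mul_assoc]
  refine mli_mul_left ?_ (mlr_of_isIntegral ((isIntegral_natCast _).pow _))
  have h4 : MemLocalIdeal M (p : ℂ) := by
    have := (H21.mli_intCast_iff hMp (p : ℤ)).mpr (dvd_refl _)
    simpa using this
  exact mli_mul_right h4 (mlr_of_isIntegral (hU.map (RingHom.toIntAlgHom (starRingEnd ℂ))))

end Cfsg.Agent.H15.KD
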