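import Cfsg.Agent.Lib.H15.KD5

/-! # Major subsections with a block of rank at most two: the count -/

set_option autoImplicit false
set_option linter.unusedSectionVars false
set_option linter.style.haveILetI false
set_option linter.unusedSimpArgs false
set_option linter.unusedVariables false

namespace Cfsg.Agent.H15.KD

open Cfsg Cfsg.Agent.H21 Cfsg.Agent.H22 Cfsg.Agent.H15.KB Cfsg.Agent.H15.KC Module
open scoped ComplexConjugate

universe u

variable {G : Type u} [Group G] [Finite G] {p : ℕ} [hp : Fact p.Prime] {M : Ideal AlgInt}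
variable [hMi : M.IsPrime] {z : G} {b : Set (IrrCharacter (Cz z))}

theorem sum_tsq_coords (n : ℕ) [hn : NeZero n] (hM : IsPModular p M) {k : ℕ} (hz : orderOf z = p ^ k)
    (hb : IsPBlock M b) (hdvd : p ^ k ∣ n) (T : Basis2 p b) :
    ∑ χ : IrrCharacter G, tsq n (XX z b T.a χ) = (cc b T.a T.a : ℝ) ∧
    ∑ χ : IrrCharacter G, tsq n (XX z b T.c χ) = (cc b T.c T.c : ℝ) ∧
    ∑ χ : IrrCharacter G, tsq n (XX z b T.a χ - XX z b T.c χ) =
      (cc b T.a T.a : ℝ) - 2 * (cc b T.a T.c : ℝ) + (cc b T.c T.c : ℝ) := by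
  classical
  obtain ⟨h1, h2, h3, h4⟩ := sum_XX (G := G) hM hz hb T
  have hx : ∀ χ : IrrCharacter G, XX z b T.a χ ∈ cyc n := fun χ => XX_mem z hM hz b T.a χ n hdvd
  have hy : ∀ χ : IrrCharacter G, XX z b T.c χ ∈ cyc n := fun χ => XX_mem z hM hz b T.c χ n hdvd
  refine ⟨?_, ?_, ?_⟩
  · have h5 := congrArg (tav n) h1
    rw [tav_sum, tav_intCast] at h5
    simp only [tav_mul_conj n (hx _)] at h5
    have h6 : ((∑ χ : IrrCharacter G, tsq n (XX z b T.a χ) : ℝ) : ℂ) = (((cc b T.a T.a : ℝ)) : ℂ) := by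
      push_cast at h5 ⊢
      exact h5
    exact_mod_cast h6
  · have h5 := congrArg (tav n) h4
    rw [tav_sum, tav_intCast] at h5
    simp only [tav_mul_conj n (hy _)] at h5
    have h6 : ((∑ χ : IrrCharacter G, tsq n (XX z b T.c χ) : ℝ) : ℂ) = (((cc b T.c T.c : ℝ)) : ℂ) := by
      push_cast at h5 ⊢
      exact h5
    exact_mod_cast h6
  · have h5 : ∑ χ : IrrCharacter G, (XX z b T.a χ - XX z b T.c χ) * conj (XX z b T.a χ - XX z b T.c χ) =
        ((cc b T.a T.a - 2 * cc b T.a T.c + cc b T.c T.c : ℤ) : ℂ) := by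
      have h6 : ∀ χ : IrrCharacter G, (XX z b T.a χ - XX z b T.c χ) * conj (XX z b T.a χ - XX z b T.c χ) =
          XX z b T.a χ * conj (XX z b T.a χ) - XX z b T.a χ * conj (XX z b T.c χ) -
          XX z b T.c χ * conj (XX z b T.a χ) + XX z b T.c χ * conj (XX z b T.c χ) := by
        intro χ
        rw [map_sub]
        ring
      simp only [h6, Finset.sum_add_distrib, Finset.sum_sub_distrib, h1, h2, h3, h4]
      push_cast
      ring
    have h7 := congrArg (tav n) h5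
    rw [tav_sum, tav_intCast] at h7
    simp only [tav_mul_conj n (sub_mem (hx _) (hy _))] at h7
    have h8 : ((∑ χ : IrrCharacter G, tsq n (XX z b T.a χ - XX z b T.c χ) : ℝ) : ℂ) =
        (((cc b T.a T.a : ℝ) - 2 * (cc b T.a T.c : ℝ) + (cc b T.c T.c : ℝ) : ℝ) : ℂ) := by
      push_cast at h7 ⊢
      exact h7
    exact_mod_cast h8

theorem count_diag {p' k₀ k' k₂ P : ℝ} (hp : 2 ≤ p') (h0 : 0 ≤ k₀)
    (h1 : (p' - 1) * k₀ + p' * k' ≤ (p' - 1) * P) (h2 : p' * (k₀ + k₂) ≤ P ∨ k₂ = 0) (hk' : 0 ≤ k') :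
    k₀ + k' + k₂ ≤ P := by
  rcases h2 with h2 | h2
  · have h3 : p' * (k₀ + k' + k₂) ≤ p' * P := by
      nlinarith
    exact le_of_mul_le_mul_left h3 (by linarith)
  · rw [h2, add_zero]
    have h3 : (p' - 1) * (k₀ + k') ≤ (p' - 1) * P := by
      nlinarith
    exact le_of_mul_le_mul_left h3 (by linarith)

/-- **Major subsections with a block of rank two.** -/
theorem major_rank_two (hMp : IsPModular p M) {B : Set (IrrCharacter G)} (hB : IsPBlock M B)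
    {k : ℕ} (hz : orderOf z = p ^ k) (hb : IsInducedBlock M (Cz z) b B)
    (hmaj : blockDefect p b = blockDefect p B) (hl : blockRank p b = 2) :
    Nat.card B ≤ p ^ blockDefect p B := by
  classical
  have hb1 := hb.1
  haveI : Nonempty (Basis2 p b) := exists_basis2 hMp hb1 hl
  obtain ⟨T, h0, h1, h2⟩ := Basis2.exists_reduced (p := p) (b := b)
  obtain ⟨R, hR⟩ := key_congr hMp hb1
  obtain ⟨Q₁, hQ₁, hc₁⟩ := gg_int hMp hb1 hR T.φ₁ T.φ₁ T.t₁ T.t₁ T.ht₁ T.ht₁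
  obtain ⟨Q₂, hQ₂, hc₂⟩ := gg_int hMp hb1 hR T.φ₁ T.φ₂ T.t₁ T.t₂ T.ht₁ T.ht₂
  obtain ⟨Q₃, hQ₃, hc₃⟩ := gg_int hMp hb1 hR T.φ₂ T.φ₂ T.t₂ T.t₂ T.ht₂ T.ht₂
  have hQ₂' : gg p b T.φ₂ T.φ₁ = Q₂ := by
    rw [← gg_swap, hQ₂]
    simp
  set d := blockDefect p b with hd
  set c₁ := cc b T.a T.a with hc1
  set c₂ := cc b T.a T.c with hc2
  set c₃ := cc b T.c T.c with hc3
  obtain ⟨r1, r2, r3, r4⟩ := T.rel hMp hb1
  rw [hQ₁, hQ₂] at r1 r2
  rw [hQ₃, hQ₂'] at r3 r4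
  have r1' : c₁ * Q₁ + c₂ * Q₂ = (p : ℤ) ^ d := by
    have : ((c₁ * Q₁ + c₂ * Q₂ : ℤ) : ℂ) = (((p : ℤ) ^ d : ℤ) : ℂ) := by
      push_cast
      exact r1
    exact_mod_cast this
  have r2' : c₂ * Q₁ + c₃ * Q₂ = 0 := by
    have : ((c₂ * Q₁ + c₃ * Q₂ : ℤ) : ℂ) = ((0 : ℤ) : ℂ) := by
      push_cast
      exact r2
    exact_mod_cast this
  have r3' : c₁ * Q₂ + c₂ * Q₃ = 0 := by
    have : ((c₁ * Q₂ + c₂ * Q₃ : ℤ) : ℂ) = ((0 : ℤ) : ℂ) := by
      push_cast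
      exact r3
    exact_mod_cast this
  have r4' : c₂ * Q₂ + c₃ * Q₃ = (p : ℤ) ^ d := by
    have : ((c₂ * Q₂ + c₃ * Q₃ : ℤ) : ℂ) = (((p : ℤ) ^ d : ℤ) : ℂ) := by
      push_cast
      exact r4
    exact_mod_cast this
  -- the height zero character
  obtain ⟨χ₀, hχ₀, hχ₀h⟩ : ∃ χ₀ ∈ B, blockHeight p B χ₀.1 = 0 := by
    obtain ⟨χ₁, h1, h2⟩ := exists_min_height (p := p) hB
    refine ⟨χ₁, h1, ?_⟩
    show (charDegree χ₁.1).factorization p - minExp p B = 0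
    omega
  set x : IrrCharacter G → ℂ := XX z b T.a with hx
  set y : IrrCharacter G → ℂ := XX z b T.c with hy
  have hxi : ∀ χ, IsIntegral ℤ (x χ) := fun χ => XX_integral z hMp hz b T.a χ
  have hyi : ∀ χ, IsIntegral ℤ (y χ) := fun χ => XX_integral z hMp hz b T.c χ
  have hcxi : ∀ χ, IsIntegral ℤ (conj (x χ)) := fun χ => (hxi χ).map (RingHom.toIntAlgHom (starRingEnd ℂ))
  have hcyi : ∀ χ, IsIntegral ℤ (conj (y χ)) := fun χ => (hyi χ).map (RingHom.toIntAlgHom (starRingEnd ℂ))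
  have hW : ∀ χ ψ : IrrCharacter G, WW z p b χ ψ = (Q₁ : ℂ) * (x χ * conj (x ψ)) +
      (Q₂ : ℂ) * (x χ * conj (y ψ)) + (Q₂ : ℂ) * (y χ * conj (x ψ)) + (Q₃ : ℂ) * (y χ * conj (y ψ)) := by
    intro χ ψ
    rw [WW_coord T, hQ₁, hQ₂, hQ₂', hQ₃]
  -- nonvanishing modulo `p`
  have hnz : ¬ ((p : ℤ) ∣ Q₁ ∧ (p : ℤ) ∣ Q₂ ∧ (p : ℤ) ∣ Q₃) := by
    rintro ⟨h3, h4, h5⟩
    have hm := fun (q : ℤ) (hq : (p : ℤ) ∣ q) => (H21.mli_intCast_iff hMp q).mpr hq
    apply WW_unit hMp hB hχ₀ hχ₀ hχ₀h hχ₀h hz hb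
    rw [hW]
    refine mli_add (mli_add (mli_add ?_ ?_) ?_) ?_
    · exact mli_mul_right (hm _ h3) (mlr_of_isIntegral ((hxi _).mul (hcxi _)))
    · exact mli_mul_right (hm _ h4) (mlr_of_isIntegral ((hxi _).mul (hcyi _)))
    · exact mli_mul_right (hm _ h4) (mlr_of_isIntegral ((hyi _).mul (hcxi _)))
    · exact mli_mul_right (hm _ h5) (mlr_of_isIntegral ((hyi _).mul (hcyi _)))
  -- the determinant
  have hRnd : ¬ p ∣ R := by
    intro hdv
    obtain ⟨ξ₀, hξ₀, hmin⟩ := exists_min_height (p := p) hb1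
    obtain ⟨o, ho, hxx⟩ := xx_eq (p := p) hξ₀
    have hh0 : blockHeight p b ξ₀.1 = 0 := by
      show (charDegree ξ₀.1).factorization p - minExp p b = 0
      omega
    rw [hh0, pow_zero, one_mul] at hxx
    have h3 := hR ξ₀ hξ₀ ξ₀ hξ₀
    have h4 : MemLocalIdeal M ((R : ℂ) * H22.om ξ₀ (bz p ξ₀)) :=
      mli_mul_right ((mli_natCast_iff hMp R).mpr hdv) (om_bz_mlr hMp ξ₀ ξ₀)
    have h5 := mli_add h3 h4
    rw [sub_add_cancel] at h5
    have h6 : ((charDegree ξ₀.1 / p ^ minExp p b : ℕ) : ℂ) = (o : ℂ) := by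
      have : charDegree ξ₀.1 / p ^ minExp p b = o := hxx
      rw [this]
    rw [h6] at h5
    exact not_mli_natCast_of_odd hMp ho h5
  have hdet : (p : ℤ) ∣ Q₁ * Q₃ - Q₂ ^ 2 := by
    set τ₁ := ∑ ξ : IrrCharacter (Cz z), eB b ξ * ((T.t₁ ξ : ℂ) * (xx p b ξ : ℂ)) with hτ₁
    set τ₂ := ∑ ξ : IrrCharacter (Cz z), eB b ξ * ((T.t₂ ξ : ℂ) * (xx p b ξ : ℂ)) with hτ₂
    have hτ : ∀ t : IrrCharacter (Cz z) → ℤ, MemLocalRing M
        (∑ ξ : IrrCharacter (Cz z), eB b ξ * ((t ξ : ℂ) * (xx p b ξ : ℂ))) := by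
      intro t
      refine mlr_sum _ _ fun ξ _ => mlr_mul ?_ (mlr_mul (mlr_of_isIntegral (isIntegral_intCast _)) (mlr_natCast _))
      by_cases h : ξ ∈ b
      · rw [eB_apply_mem h]
        exact mlr_one
      · rw [eB_apply_not_mem h]
        exact mlr_zero
    have h3 : MemLocalIdeal M (((R ^ 2 : ℕ) * (Q₁ * Q₃ - Q₂ ^ 2) : ℤ) : ℂ) := by
      have e : (((R ^ 2 : ℕ) * (Q₁ * Q₃ - Q₂ ^ 2) : ℤ) : ℂ) =
          ((R : ℂ) * (Q₁ : ℂ) - τ₁ * τ₁) * ((R : ℂ) * (Q₃ : ℂ)) +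
          (τ₁ * τ₁) * ((R : ℂ) * (Q₃ : ℂ) - τ₂ * τ₂) -
          ((R : ℂ) * (Q₂ : ℂ) - τ₁ * τ₂) * ((R : ℂ) * (Q₂ : ℂ) + τ₁ * τ₂) := by
        push_cast
        ring
      rw [e]
      have hRQ : ∀ q : ℤ, MemLocalRing M ((R : ℂ) * (q : ℂ)) := fun q =>
        mlr_mul (mlr_natCast _) (mlr_of_isIntegral (isIntegral_intCast _))
      refine mli_sub (mli_add (mli_mul_right hc₁ (hRQ _)) (mli_mul_left hc₃ (mlr_mul (hτ _) (hτ _)))) ?_
      exact mli_mul_right hc₂ (mlr_add (hRQ _) (mlr_mul (hτ _) (hτ _)))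
    have h4 := (H21.mli_intCast_iff hMp _).mp h3
    have hpz : Prime (p : ℤ) := Nat.prime_iff_prime_int.mp hp.out
    rcases hpz.dvd_or_dvd h4 with h5 | h5
    · exfalso
      apply hRnd
      have h6 : p ∣ R ^ 2 := by exact_mod_cast h5
      exact hp.out.dvd_of_dvd_pow h6
    · exact h5
  have hkey := arith_form hp.out d h0 h1 h2 r1' r2' r3' r4' hnz hdet
  -- the sums
  set n := p ^ (k + 1) with hn
  haveI : NeZero n := ⟨pow_ne_zero _ hp.out.ne_zero⟩
  have hdvd : p ^ k ∣ n := pow_dvd_pow p (Nat.le_succ k)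
  obtain ⟨hsx₀, hsy₀, hsxy₀⟩ := sum_tsq_coords (G := G) n hMp hz hb1 hdvd T
  have hsx : ∑ χ : IrrCharacter G, tsq n (x χ) = (c₁ : ℝ) := hsx₀
  have hsy : ∑ χ : IrrCharacter G, tsq n (y χ) = (c₃ : ℝ) := hsy₀
  have hsxy : ∑ χ : IrrCharacter G, tsq n (x χ - y χ) = (c₁ : ℝ) - 2 * (c₂ : ℝ) + (c₃ : ℝ) := hsxy₀
  have hxm : ∀ χ : IrrCharacter G, x χ ∈ cyc n := fun χ => XX_mem z hMp hz b T.a χ n hdvd
  have hym : ∀ χ : IrrCharacter G, y χ ∈ cyc n := fun χ => XX_mem z hMp hz b T.c χ n hdvd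
  let K : Finset (IrrCharacter G) := Finset.univ.filter (fun χ => χ ∈ B)
  have hK : ∀ χ : IrrCharacter G, χ ∈ K ↔ χ ∈ B := fun χ => by simp [K]
  have hcK : Nat.card B = K.card := by
    show Nat.card {χ : IrrCharacter G // χ ∈ B} = _
    rw [Nat.card_eq_fintype_card, Fintype.card_subtype]
  rw [hcK, ← hmaj]
  -- nonvanishing of the entries
  have hWne' : ∀ χ ∈ B, ∀ χ' ∈ B, blockHeight p B χ'.1 = 0 → WW z p b χ χ' ≠ 0 := by
    intro χ hχ χ' hχ' h0' h3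
    have h4 := W_not_mli hMp hz hb hB hmaj hχ hχ' h0'
    rw [h3, zero_div] at h4
    exact h4 mli_zero
  have hWne : ∀ χ ∈ B, WW z p b χ χ₀ ≠ 0 := fun χ hχ => hWne' χ hχ χ₀ hχ₀ hχ₀h
  have hdne : ∀ χ ∈ B, x χ ≠ 0 ∨ y χ ≠ 0 := by
    intro χ hχ
    by_contra h3
    push Not at h3
    apply hWne χ hχ
    rw [hW, h3.1, h3.2]
    ring
  have hPpos : (0 : ℝ) < ((p ^ d : ℕ) : ℝ) := by
    have : 0 < p ^ d := pow_pos hp.out.pos d
    exact_mod_cast this
  rcases hkey with hle | ⟨hc20, hc3P, hQ31, hQ20, hpQ₁, hpc₁, hc₁pos⟩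
  · -- the generic case
    have hsum : ((K.card : ℝ)) ≤ ((p ^ d : ℕ) : ℝ) := by
      have h3 : ∀ χ ∈ K, (2 : ℝ) ≤ tsq n (x χ) + tsq n (y χ) + tsq n (x χ - y χ) := by
        intro χ hχ
        have hh := (hK χ).mp hχ
        have hge := fun w (hw : w ∈ cyc n) (h0 : w ≠ 0) (hi : IsIntegral ℤ w) => tsq_ge_one n hw h0 hi
        have n1 := tsq_nonneg n (x χ)
        have n2 := tsq_nonneg n (y χ)
        have n3 := tsq_nonneg n (x χ - y χ)
        by_cases hx0 : x χ = 0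
        · have hy0 : y χ ≠ 0 := (hdne χ hh).resolve_left (fun h => h hx0)
          have g2 := hge _ (hym χ) hy0 (hyi χ)
          have g3 := hge _ (sub_mem (hxm χ) (hym χ)) (by
            rw [hx0, zero_sub]
            exact neg_ne_zero.mpr hy0) ((hxi χ).sub (hyi χ))
          linarith
        · have g1 := hge _ (hxm χ) hx0 (hxi χ)
          by_cases hy0 : y χ = 0
          · have g3 := hge _ (sub_mem (hxm χ) (hym χ)) (by
              rw [hy0, sub_zero]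
              exact hx0) ((hxi χ).sub (hyi χ))
            linarith
          · have g2 := hge _ (hym χ) hy0 (hyi χ)
            linarith
      have h4 : (2 : ℝ) * K.card ≤ ∑ χ ∈ K, (tsq n (x χ) + tsq n (y χ) + tsq n (x χ - y χ)) := by
        have := Finset.card_nsmul_le_sum K _ 2 h3
        simpa [mul_comm] using this
      have h5 : ∑ χ ∈ K, (tsq n (x χ) + tsq n (y χ) + tsq n (x χ - y χ)) ≤
          ∑ χ : IrrCharacter G, (tsq n (x χ) + tsq n (y χ) + tsq n (x χ - y χ)) :=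
        Finset.sum_le_sum_of_subset_of_nonneg (Finset.subset_univ K) (fun χ _ _ => by
          have n1 := tsq_nonneg n (x χ)
          have n2 := tsq_nonneg n (y χ)
          have n3 := tsq_nonneg n (x χ - y χ)
          linarith)
      have h5' : ∑ χ : IrrCharacter G, (tsq n (x χ) + tsq n (y χ) + tsq n (x χ - y χ)) =
          (c₁ : ℝ) + (c₃ : ℝ) + ((c₁ : ℝ) - 2 * (c₂ : ℝ) + (c₃ : ℝ)) := by
        rw [Finset.sum_add_distrib, Finset.sum_add_distrib, hsx, hsy, hsxy]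
      rw [h5'] at h5
      have h6 : ((c₁ + c₃ - c₂ : ℤ) : ℝ) ≤ (((p : ℤ) ^ d : ℤ) : ℝ) := by exact_mod_cast hle
      push_cast at h6 ⊢
      linarith
    exact_mod_cast hsum
  · -- the diagonal case
    have hW' : ∀ χ ψ : IrrCharacter G, WW z p b χ ψ = (Q₁ : ℂ) * (x χ * conj (x ψ)) + y χ * conj (y ψ) := by
      intro χ ψ
      rw [hW, hQ20, hQ31]
      push_cast
      ring
    have hmQ : MemLocalIdeal M (Q₁ : ℂ) := (H21.mli_intCast_iff hMp Q₁).mpr hpQ₁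
    -- height zero
    have hy₀ : ∀ χ ∈ B, blockHeight p B χ.1 = 0 → ¬ MemLocalIdeal M (y χ) := by
      intro χ hχ h3 h4
      apply WW_unit hMp hB hχ hχ h3 h3 hz hb
      rw [hW']
      exact mli_add (mli_mul_right hmQ (mlr_of_isIntegral ((hxi _).mul (hcxi _))))
        (mli_mul_right h4 (mlr_of_isIntegral (hcyi _)))
    have hyne : ∀ χ ∈ B, blockHeight p B χ.1 = 0 → y χ ≠ 0 := by
      intro χ hχ h3 h4
      apply hy₀ χ hχ h3
      rw [h4]
      exact mli_zero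
    -- positive height
    have hyM : ∀ χ ∈ B, 1 ≤ blockHeight p B χ.1 → MemLocalIdeal M (conj (y χ)) := by
      intro χ hχ h3
      have h4 := W_col_mli hMp hz hb1 hB hmaj hχ h3 χ₀
      rw [hW'] at h4
      have h5 : MemLocalIdeal M (y χ₀ * conj (y χ)) := by
        have h6 := mli_mul_right hmQ (mlr_of_isIntegral ((hxi χ₀).mul (hcxi χ))) (M := M)
        have h7 := mli_sub h4 h6
        rwa [add_sub_cancel_left] at h7
      rcases (mli_mul_iff (mlr_of_isIntegral (hyi _)) (mlr_of_isIntegral (hcyi _))).mp h5 with h6 | h6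
      · exact absurd h6 (hy₀ χ₀ hχ₀ hχ₀h)
      · exact h6
    have htau : ∀ χ ∈ B, 1 ≤ blockHeight p B χ.1 → y χ ≠ 0 →
        (p : ℝ) ≤ ((p : ℝ) - 1) * tsq n (y χ) := by
      intro χ hχ h3 h4
      have h5 := tsq_ge_tau k hMp (x := conj (y χ)) (conj_mem_cyc (NeZero.ne n) (hym χ))
        (by simpa using h4) (hcyi χ) (hyM χ hχ h3)
      rwa [tsq_conj n (hym χ)] at h5
    have hp2 : (2 : ℝ) ≤ p := by exact_mod_cast hp.out.two_le
    -- indicator functions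
    let i₀ : IrrCharacter G → ℝ := fun χ => if blockHeight p B χ.1 = 0 then 1 else 0
    let i₁ : IrrCharacter G → ℝ := fun χ => if blockHeight p B χ.1 ≠ 0 ∧ y χ ≠ 0 then 1 else 0
    let i₂ : IrrCharacter G → ℝ := fun χ => if y χ = 0 then 1 else 0
    have hsum1 : ∀ χ ∈ K, i₀ χ + i₁ χ + i₂ χ = 1 := by
      intro χ hχ
      have hh := (hK χ).mp hχ
      simp only [i₀, i₁, i₂]
      by_cases h3 : blockHeight p B χ.1 = 0
      · have h4 := hyne χ hh h3
        simp [h3, h4]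
      · by_cases h4 : y χ = 0
        · simp [h3, h4]
        · simp [h3, h4]
    have hcard : (K.card : ℝ) = ∑ χ ∈ K, i₀ χ + ∑ χ ∈ K, i₁ χ + ∑ χ ∈ K, i₂ χ := by
      rw [← Finset.sum_add_distrib, ← Finset.sum_add_distrib, Finset.sum_congr rfl hsum1]
      simp
    have hnn : ∀ (f : IrrCharacter G → ℝ), (∀ χ, 0 ≤ f χ) → 0 ≤ ∑ χ ∈ K, f χ :=
      fun f hf => Finset.sum_nonneg fun χ _ => hf χ
    have hi₀ : ∀ χ, 0 ≤ i₀ χ := fun χ => by
      simp only [i₀]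
      split_ifs <;> norm_num
    have hi₁ : ∀ χ, 0 ≤ i₁ χ := fun χ => by
      simp only [i₁]
      split_ifs <;> norm_num
    have hi₂ : ∀ χ, 0 ≤ i₂ χ := fun χ => by
      simp only [i₂]
      split_ifs <;> norm_num
    have hA : ((p : ℝ) - 1) * ∑ χ ∈ K, i₀ χ + (p : ℝ) * ∑ χ ∈ K, i₁ χ ≤
        ((p : ℝ) - 1) * ((p ^ d : ℕ) : ℝ) := by
      have h3 : ∀ χ ∈ K, ((p : ℝ) - 1) * i₀ χ + (p : ℝ) * i₁ χ ≤ ((p : ℝ) - 1) * tsq n (y χ) := by
        intro χ hχ
        have hh := (hK χ).mp hχ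
        simp only [i₀, i₁]
        by_cases h3 : blockHeight p B χ.1 = 0
        · have h4 := hyne χ hh h3
          have h5 := tsq_ge_one n (hym χ) h4 (hyi χ)
          rw [if_pos h3, if_neg (by rintro ⟨h, -⟩; exact h h3), mul_one, mul_zero, add_zero]
          nlinarith
        · by_cases h4 : y χ = 0
          · have h5 := tsq_nonneg n (y χ)
            rw [if_neg h3, if_neg (by rintro ⟨-, h⟩; exact h h4), mul_zero, mul_zero, add_zero]
            exact mul_nonneg (by linarith) h5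
          · have h5 := htau χ hh (by omega) h4
            rw [if_neg h3, if_pos ⟨h3, h4⟩, mul_zero, zero_add, mul_one]
            exact h5
      have h4 := Finset.sum_le_sum h3
      rw [Finset.sum_add_distrib, ← Finset.mul_sum, ← Finset.mul_sum, ← Finset.mul_sum] at h4
      refine h4.trans (mul_le_mul_of_nonneg_left ?_ (by linarith))
      have h5 : ∑ χ ∈ K, tsq n (y χ) ≤ ∑ χ : IrrCharacter G, tsq n (y χ) :=
        Finset.sum_le_sum_of_subset_of_nonneg (Finset.subset_univ K) (fun χ _ _ => tsq_nonneg n _)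
      refine h5.trans ?_
      rw [hsy, hc3P]
      push_cast
      exact le_refl _
    have hB' : (p : ℝ) * (∑ χ ∈ K, i₀ χ + ∑ χ ∈ K, i₂ χ) ≤ ((p ^ d : ℕ) : ℝ) ∨ ∑ χ ∈ K, i₂ χ = 0 := by
      by_cases hex : ∃ χ ∈ K, y χ = 0
      · left
        obtain ⟨χ₁, hχ₁, hχ₁y⟩ := hex
        have hχ₁B := (hK χ₁).mp hχ₁
        have hx₀ : ∀ χ ∈ B, blockHeight p B χ.1 = 0 → x χ ≠ 0 := by
          intro χ hχ h3 h4
          apply hWne' χ₁ hχ₁B χ hχ h3
          rw [hW', hχ₁y, h4]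
          simp
        have h3 : ∀ χ ∈ K, i₀ χ + i₂ χ ≤ tsq n (x χ) := by
          intro χ hχ
          have hh := (hK χ).mp hχ
          simp only [i₀, i₂]
          by_cases h4 : blockHeight p B χ.1 = 0
          · have h5 := hyne χ hh h4
            have h6 := tsq_ge_one n (hxm χ) (hx₀ χ hh h4) (hxi χ)
            rw [if_pos h4, if_neg h5, add_zero]
            exact h6
          · by_cases h5 : y χ = 0
            · have h6 : x χ ≠ 0 := (hdne χ hh).resolve_right (fun h => h h5)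
              have h7 := tsq_ge_one n (hxm χ) h6 (hxi χ)
              rw [if_neg h4, if_pos h5, zero_add]
              exact h7
            · have h6 := tsq_nonneg n (x χ)
              rw [if_neg h4, if_neg h5, add_zero]
              exact h6
        have h4 := Finset.sum_le_sum h3
        rw [Finset.sum_add_distrib] at h4
        have h5 : ∑ χ ∈ K, tsq n (x χ) ≤ ∑ χ : IrrCharacter G, tsq n (x χ) :=
          Finset.sum_le_sum_of_subset_of_nonneg (Finset.subset_univ K) (fun χ _ _ => tsq_nonneg n _)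
        rw [hsx] at h5
        have h6 : ((p : ℤ) * c₁ : ℝ) ≤ (((p : ℤ) ^ d : ℤ) : ℝ) := by exact_mod_cast hpc₁
        push_cast at h6 ⊢
        have h7 : (p : ℝ) * (∑ χ ∈ K, i₀ χ + ∑ χ ∈ K, i₂ χ) ≤ (p : ℝ) * (c₁ : ℝ) :=
          mul_le_mul_of_nonneg_left (h4.trans h5) (by linarith)
        exact h7.trans h6
      · right
        refine Finset.sum_eq_zero fun χ hχ => ?_
        simp only [i₂]
        rw [if_neg]
        intro h3
        exact hex ⟨χ, hχ, h3⟩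
    have hfinal := count_diag hp2 (hnn _ hi₀) hA hB' (hnn _ hi₁)
    rw [← hcard] at hfinal
    exact_mod_cast hfinal

end Cfsg.Agent.H15.KD
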