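import Cfsg.Agent.Lib.H15.KD6
import Cfsg.Agent.Lib.H15.KC9

/-! # Major subsections: the count `k(B) ≤ p ^ d * l(b)` and the case of rank at most two -/

set_option autoImplicit false
set_option linter.unusedSectionVars false
set_option linter.style.haveILetI false
set_option linter.unusedSimpArgs false
set_option linter.unusedVariables false

namespace Cfsg.Agent.H15.KD

open Cfsg Cfsg.Agent.H21 Cfsg.Agent.H22 Cfsg.Agent.H15.KB Cfsg.Agent.H15.KC Cfsg.Agent.H15.HZ Module
open scoped ComplexConjugate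

universe u

variable {G : Type u} [Group G] [Finite G] {p : ℕ} [hp : Fact p.Prime] {M : Ideal AlgInt}

theorem major_defect_gen (hM : IsPModular p M) {B : Set (IrrCharacter G)} (hB : IsPBlock M B)
    {D : Subgroup G} (hD : IsDefectGroup p M B D) {z : G} (hzc : ∀ d ∈ D, d * z = z * d)
    {b : Set (IrrCharacter (Cz z))} (hb : IsPBlock M b)
    (hbD : IsDefectGroup p M b (D.subgroupOf (Cz z))) :
    blockDefect p b = blockDefect p B := by
  haveI : M.IsPrime := hM.2.1.isPrime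
  have h1 := card_defect hM hB hD
  have h2 := card_defect hM hb hbD
  have hle : D ≤ Cz z := fun d hd => Subgroup.mem_centralizer_singleton_iff.mpr (hzc d hd)
  have h3 : Nat.card (D.subgroupOf (Cz z)) = Nat.card D :=
    Nat.card_congr (Subgroup.subgroupOfEquivOfLe hle).toEquiv
  rw [h3, h1] at h2
  exact (Nat.pow_right_injective hp.out.two_le h2).symm

theorem orderOf_of_defect_gen {B : Set (IrrCharacter G)} {D : Subgroup G} (hM : IsPModular p M)
    (hB : IsPBlock M B) (hD : IsDefectGroup p M B D)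
    {z : G} (hzD : z ∈ D) : ∃ k, orderOf z = p ^ k := by
  haveI : M.IsPrime := hM.2.1.isPrime
  have hDp : IsPGroup p D := defect_isPGroup hD
  obtain ⟨k, hk⟩ := IsPGroup.iff_orderOf.mp hDp ⟨z, hzD⟩
  exact ⟨k, by rwa [Subgroup.orderOf_mk] at hk⟩

theorem sum_norm_zero_gen {ι : Type*} [Fintype ι] {f : ι → ℂ} (h : ∑ s : ι, f s * conj (f s) = 0)
    (s : ι) : f s = 0 := by
  classical
  have h1 : ∀ s : ι, f s * conj (f s) = ((‖f s‖ ^ 2 : ℝ) : ℂ) := by
    intro s
    rw [Complex.mul_conj']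
    push_cast
    rfl
  simp only [h1] at h
  have h2 : ∑ s : ι, ‖f s‖ ^ 2 = 0 := by
    exact_mod_cast h
  have h3 := (Finset.sum_eq_zero_iff_of_nonneg (fun s _ => by positivity)).mp h2 s (Finset.mem_univ s)
  simpa using h3

/-- `k(B) ≤ p ^ d * l(b)` for a major subsection `(z, b)`. -/
theorem card_le_rank_mul (hMp : IsPModular p M) {B : Set (IrrCharacter G)} (hB : IsPBlock M B)
    {z : G} {k : ℕ} (hz : orderOf z = p ^ k) {b : Set (IrrCharacter (Cz z))}
    (hb : IsInducedBlock M (Cz z) b B) (hmaj : blockDefect p b = blockDefect p B) :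
    Nat.card B ≤ p ^ blockDefect p B * blockRank p b := by
  classical
  haveI : M.IsPrime := hMp.2.1.isPrime
  have hb1 := hb.1
  set n := p ^ k with hn
  haveI : NeZero n := ⟨pow_ne_zero _ hp.out.ne_zero⟩
  have hdvd : p ^ k ∣ n := dvd_refl _
  let K : Finset (IrrCharacter G) := Finset.univ.filter (fun χ => χ ∈ B)
  have hK : ∀ χ : IrrCharacter G, χ ∈ K ↔ χ ∈ B := fun χ => by simp [K]
  have hcK : Nat.card B = K.card := by
    show Nat.card {χ : IrrCharacter G // χ ∈ B} = _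
    rw [Nat.card_eq_fintype_card, Fintype.card_subtype]
  rw [hcK, ← hmaj]
  obtain ⟨χ₀, hχ₀, hχ₀h⟩ : ∃ χ₀ ∈ B, blockHeight p B χ₀.1 = 0 := by
    obtain ⟨χ₁, h1, h2⟩ := exists_min_height (p := p) hB
    refine ⟨χ₁, h1, ?_⟩
    show (charDegree χ₁.1).factorization p - minExp p B = 0
    omega
  have hdiag : ∀ χ ∈ B, WW z p b χ χ ≠ 0 := by
    intro χ hχ h0
    have h1 := WW_row z hMp hz hb1 χ
    rw [h0, mul_zero] at h1
    have h2 := sum_norm_zero_gen h1 χ₀
    have h4 := W_not_mli hMp hz hb hB hmaj hχ hχ₀ hχ₀h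
    rw [h2, zero_div] at h4
    exact h4 mli_zero
  have hpos : (0 : ℝ) < (p : ℝ) ^ blockDefect p b := pow_pos (by exact_mod_cast hp.out.pos) _
  have hr : ∀ χ : IrrCharacter G, ∃ r : ℝ, tav n (WW z p b χ χ) = (r : ℂ) ∧ 0 ≤ r ∧ (χ ∈ B → 1 ≤ r) := by
    intro χ
    obtain ⟨r, h1, h2, -⟩ := tav_WW_diag n hMp hz hb1 hdvd χ
    refine ⟨r, h1, h2, fun hχ => ?_⟩
    obtain ⟨r', h3, h4⟩ := tav_ge_one n (WW_mem_cyc z hMp hz hb1 n hdvd χ χ) (hdiag χ hχ)
      (WW_integral hMp hz hb1 χ χ)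
      (f := fun σ => ((p : ℝ) ^ blockDefect p b)⁻¹ * ∑ ψ : IrrCharacter G, ‖ext n σ (WW z p b χ ψ)‖ ^ 2)
      (fun σ => ext_WW_real n hMp hz hb1 hdvd χ σ)
      (fun σ => mul_nonneg (inv_nonneg.mpr hpos.le) (Finset.sum_nonneg fun _ _ => by positivity))
    have h5 : (r : ℂ) = (r' : ℂ) := h1.symm.trans h3
    have h6 : r = r' := by exact_mod_cast h5
    rw [h6]
    exact h4
  choose r hr1 hr2 hr3 using hr
  have hsum := sum_tav_trace n hMp hz hb1
  simp only [hr1] at hsum
  have hsum' : ∑ χ : IrrCharacter G, r χ = (p : ℝ) ^ blockDefect p b * (blockRank p b : ℝ) := by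
    have h7 : ((∑ χ : IrrCharacter G, r χ : ℝ) : ℂ) =
        (((p : ℝ) ^ blockDefect p b * (blockRank p b : ℝ) : ℝ) : ℂ) := by
      push_cast
      push_cast at hsum
      exact hsum
    exact_mod_cast h7
  have h8 : (K.card : ℝ) ≤ ∑ χ ∈ K, r χ := by
    have := Finset.card_nsmul_le_sum K r 1 (fun χ hχ => hr3 χ ((hK χ).mp hχ))
    simpa using this
  have h9 : ∑ χ ∈ K, r χ ≤ ∑ χ : IrrCharacter G, r χ :=
    Finset.sum_le_sum_of_subset_of_nonneg (Finset.subset_univ K) (fun χ _ _ => hr2 χ)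
  have h10 : (K.card : ℝ) ≤ (p : ℝ) ^ blockDefect p b * (blockRank p b : ℝ) := by linarith
  exact_mod_cast h10

/-- **The major subsection bound for rank at most two.** -/
theorem major_rank_le_two (hMp : IsPModular p M) {B : Set (IrrCharacter G)} (hB : IsPBlock M B)
    {D : Subgroup G} (hD : IsDefectGroup p M B D) {z : G} (hzD : z ∈ D)
    (hzc : ∀ d ∈ D, d * z = z * d) {b : Set (IrrCharacter (Cz z))}
    (hb : IsInducedBlock M (Cz z) b B) (hbD : IsDefectGroup p M b (D.subgroupOf (Cz z)))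
    (hl : blockRank p b ≤ 2) : Nat.card B ≤ p ^ blockDefect p B := by
  haveI : M.IsPrime := hMp.2.1.isPrime
  obtain ⟨k, hk⟩ := orderOf_of_defect_gen hMp hB hD hzD
  have hmaj := major_defect_gen hMp hB hD hzc hb.1 hbD
  by_cases h2 : blockRank p b = 2
  · exact major_rank_two hMp hB hk hb hmaj h2
  · have h3 := card_le_rank_mul hMp hB hk hb hmaj
    have h4 : blockRank p b ≤ 1 := by omega
    calc Nat.card B ≤ p ^ blockDefect p B * blockRank p b := h3
      _ ≤ p ^ blockDefect p B * 1 := Nat.mul_le_mul_left _ h4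
      _ = p ^ blockDefect p B := mul_one _

end Cfsg.Agent.H15.KD
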