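import Mathlib
import Cfsg.Agent.Lib.H15.ZStarMain
import Cfsg.Agent.Lib.H15.Sylow3
import Cfsg.Agent.Lib.H15.SL2Pair

/-!
# Direct factors of Sylow 2-subgroups that are generalized quaternion
-/

set_option autoImplicit false
set_option linter.style.haveILetI false
set_option linter.unusedSectionVars false

namespace Cfsg.Agent.H15

open Cfsg

universe u

section arithmetic

variable (m : ℕ)

theorem zmod_double_zero {k : ZMod (2 * 2 ^ m)} (h : k + k = 0) :
    k = 0 ∨ k = ((2 ^ m : ℕ) : ZMod (2 * 2 ^ m)) := by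
  haveI : NeZero (2 * 2 ^ m) := ⟨by positivity⟩
  have hv : ((k.val + k.val : ℕ) : ZMod (2 * 2 ^ m)) = 0 := by
    push_cast
    rw [ZMod.natCast_zmod_val, h]
  rw [ZMod.natCast_eq_zero_iff] at hv
  have hlt : k.val < 2 * 2 ^ m := ZMod.val_lt k
  obtain ⟨c, hc⟩ := hv
  have hpos : 0 < 2 ^ m := by positivity
  have hc2 : c = 0 ∨ c = 1 := by
    have : c < 2 := by
      by_contra hcon
      push Not at hcon
      have : 2 * 2 ^ m * 2 ≤ 2 * 2 ^ m * c := Nat.mul_le_mul_left _ hcon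
      nlinarith
    omega
  rcases hc2 with rfl | rfl
  · left
    have : k.val = 0 := by omega
    exact (ZMod.val_eq_zero k).mp this
  · right
    have hthis : k.val = 2 ^ m := by omega
    have hk := ZMod.natCast_zmod_val k
    rw [hthis] at hk
    exact hk.symm

theorem zmod_half_ne_zero : ((2 ^ m : ℕ) : ZMod (2 * 2 ^ m)) ≠ 0 := by
  intro h
  rw [ZMod.natCast_eq_zero_iff] at h
  have hpos : 0 < 2 ^ m := by positivity
  have := Nat.le_of_dvd hpos h
  omega

theorem zmod_half_add : ((2 ^ m : ℕ) : ZMod (2 * 2 ^ m)) + ((2 ^ m : ℕ) : ZMod (2 * 2 ^ m)) = 0 := by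
  have : ((2 ^ m + 2 ^ m : ℕ) : ZMod (2 * 2 ^ m)) = 0 := by
    rw [ZMod.natCast_eq_zero_iff, ← two_mul]
  exact_mod_cast this

end arithmetic

section quaternion

open QuaternionGroup

variable {m : ℕ}

/-- Central involution of the quaternion group. -/
def quatZ (m : ℕ) : QuaternionGroup (2 ^ m) := a ((2 ^ m : ℕ) : ZMod (2 * 2 ^ m))

theorem quatZ_ne_one : quatZ m ≠ 1 := by
  intro h
  have : a ((2 ^ m : ℕ) : ZMod (2 * 2 ^ m)) = a 0 := h
  exact zmod_half_ne_zero m (a.inj this)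

theorem quatZ_sq : quatZ m * quatZ m = 1 := by
  unfold quatZ
  rw [a_mul_a, zmod_half_add]
  rfl

theorem quatZ_order : orderOf (quatZ m) = 2 := by
  apply orderOf_eq_prime
  · rw [sq, quatZ_sq]
  · exact quatZ_ne_one

theorem quat_uniq {u : QuaternionGroup (2 ^ m)} (hu : u * u = 1) (hne : u ≠ 1) : u = quatZ m := by
  cases u with
  | a i =>
    have h1 : a (i + i) = (a 0 : QuaternionGroup (2 ^ m)) := hu
    have h2 : i + i = 0 := a.inj h1
    rcases zmod_double_zero m h2 with h | h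
    · subst h
      exact absurd rfl hne
    · rw [h]; rfl
  | xa i =>
    have h1 : a (((2 ^ m : ℕ) : ZMod (2 * 2 ^ m)) + i - i) = (a 0 : QuaternionGroup (2 ^ m)) := hu
    have h2 := a.inj h1
    rw [add_sub_cancel_right] at h2
    exact absurd h2 (zmod_half_ne_zero m)

theorem quatZ_central (u : QuaternionGroup (2 ^ m)) : u * quatZ m = quatZ m * u := by
  unfold quatZ
  cases u with
  | a i => simp only [a_mul_a]; rw [add_comm]
  | xa i =>
    simp only [xa_mul_a, a_mul_xa]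
    congr 1
    have := zmod_half_add m
    linear_combination this

/-- The commutator presentation of the central involution. -/
theorem quat_comm (hm : 1 ≤ m) :
    ∃ α β : QuaternionGroup (2 ^ m), α * β * α⁻¹ * β⁻¹ = quatZ m := by
  obtain ⟨k, rfl⟩ : ∃ k, m = k + 1 := ⟨m - 1, by omega⟩
  refine ⟨a ((2 ^ k : ℕ) : ZMod (2 * 2 ^ (k + 1))), xa 0, ?_⟩
  have h1 : (xa 0 : QuaternionGroup (2 ^ (k + 1)))⁻¹ = xa (((2 ^ (k + 1) : ℕ) : ZMod (2 * 2 ^ (k + 1))) + 0) := rfl
  have h2 : (a ((2 ^ k : ℕ) : ZMod (2 * 2 ^ (k + 1))) : QuaternionGroup (2 ^ (k + 1)))⁻¹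
      = a (-((2 ^ k : ℕ) : ZMod (2 * 2 ^ (k + 1)))) := rfl
  rw [h1, h2]
  simp only [a_mul_xa, xa_mul_a, xa_mul_xa]
  unfold quatZ
  congr 1
  have h3 := zmod_half_add (k + 1)
  have h4 : ((2 ^ (k + 1) : ℕ) : ZMod (2 * 2 ^ (k + 1)))
      = ((2 ^ k : ℕ) : ZMod (2 * 2 ^ (k + 1))) + ((2 ^ k : ℕ) : ZMod (2 * 2 ^ (k + 1))) := by
    rw [← Nat.cast_add, pow_succ]
    congr 1
    ring
  have e1 : ((2 ^ (k + 1) : ℕ) : ZMod (2 * 2 ^ (k + 1))) = ((2 ^ (k+1) : ℕ) : ZMod (2 * 2 ^ (k + 1))) := rfl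
  push_cast at h3 h4 ⊢
  linear_combination h3 - h4

/-- Any element commuting with two noncommuting elements is central. -/
theorem quat_cen2 {c s t : QuaternionGroup (2 ^ m)} (hst : s * t ≠ t * s)
    (hcs : c * s = s * c) (hct : c * t = t * c) : c = 1 ∨ c = quatZ m := by
  have h2 := zmod_half_add m
  cases c with
  | a k =>
    -- one of `s,t` is of the form `xa`
    have key : ∃ j, (a k : QuaternionGroup (2 ^ m)) * xa j = xa j * a k := by
      cases s with
      | xa j => exact ⟨j, hcs⟩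
      | a i =>
        cases t with
        | xa j => exact ⟨j, hct⟩
        | a j =>
          exfalso
          apply hst
          simp only [a_mul_a]
          rw [add_comm]
    obtain ⟨j, hj⟩ := key
    simp only [a_mul_xa, xa_mul_a] at hj
    have h3 := xa.inj hj
    have h4 : k + k = 0 := by linear_combination -h3
    rcases zmod_double_zero m h4 with h | h
    · left; rw [h]; rfl
    · right; rw [h]; rfl
  | xa k =>
    exfalso
    -- the centralizer of `xa k` is cyclic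
    have hx2 : (xa k : QuaternionGroup (2 ^ m)) ^ 2 = quatZ m := by
      rw [sq, xa_mul_xa]
      unfold quatZ
      congr 1
      rw [add_sub_cancel_right]
    have cls : ∀ w : QuaternionGroup (2 ^ m), (xa k : QuaternionGroup (2 ^ m)) * w = w * xa k →
        ∃ i : ℕ, w = (xa k : QuaternionGroup (2 ^ m)) ^ i := by
      intro w hw
      cases w with
      | a i =>
        simp only [a_mul_xa, xa_mul_a] at hw
        have h3 := xa.inj hw
        have h4 : i + i = 0 := by linear_combination h3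
        rcases zmod_double_zero m h4 with h | h
        · exact ⟨0, by rw [h]; rfl⟩
        · exact ⟨2, by rw [hx2, h]; rfl⟩
      | xa i =>
        simp only [xa_mul_xa] at hw
        have h3 := a.inj hw
        have h4 : (i - k) + (i - k) = 0 := by linear_combination h3
        rcases zmod_double_zero m h4 with h | h
        · refine ⟨1, ?_⟩
          have : i = k := by linear_combination h
          rw [this, pow_one]
        · refine ⟨3, ?_⟩
          rw [pow_succ, hx2, ← quatZ_central]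
          unfold quatZ
          simp only [xa_mul_a]
          have : i = k + ((2 ^ m : ℕ) : ZMod (2 * 2 ^ m)) := by linear_combination h
          rw [this]
    obtain ⟨i, hi⟩ := cls s hcs
    obtain ⟨j, hj⟩ := cls t hct
    apply hst
    rw [hi, hj]
    exact ((Commute.refl _).pow_pow i j).eq

end quaternion

section main

variable {G : Type u} [Group G] [Finite G]

/-- Abstract properties of a generalized quaternion subgroup with involution `z`. -/
structure QuatLike (X : Subgroup G) (z : G) : Prop where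
  mem : z ∈ X
  ord : orderOf z = 2
  uniq : ∀ u ∈ X, orderOf u = 2 → u = z
  cent : ∀ u ∈ X, u * z = z * u
  two : IsPGroup 2 X
  comm : ∃ α ∈ X, ∃ β ∈ X, α * β * α⁻¹ * β⁻¹ = z
  cen2 : ∀ c ∈ X, ∀ s ∈ X, ∀ t ∈ X, s * t ≠ t * s → c * s = s * c → c * t = t * c → c = 1 ∨ c = z

theorem quatLike_of_equiv {X : Subgroup G} {m : ℕ} (hm : 1 ≤ m) (e : X ≃* QuaternionGroup (2 ^ m)) :
    QuatLike X ((e.symm (quatZ m) : X) : G) := by
  classical
  refine ⟨Subtype.property _, ?_, ?_, ?_, ?_, ?_, ?_⟩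
  · rw [Subgroup.orderOf_coe, MulEquiv.orderOf_eq]
    exact quatZ_order
  · intro u hu ho
    have h1 : (⟨u, hu⟩ : X) * ⟨u, hu⟩ = 1 := by
      apply Subtype.ext
      have := pow_orderOf_eq_one u
      rw [ho, sq] at this
      exact this
    have h2 : e ⟨u, hu⟩ * e ⟨u, hu⟩ = 1 := by rw [← map_mul, h1, map_one]
    have h3 : e ⟨u, hu⟩ ≠ 1 := by
      intro h
      have : (⟨u, hu⟩ : X) = 1 := by simpa using h
      have h4 : u = 1 := congrArg Subtype.val this
      rw [h4, orderOf_one] at ho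
      omega
    have h4 := quat_uniq h2 h3
    have h5 : (⟨u, hu⟩ : X) = e.symm (quatZ m) := by rw [← h4, MulEquiv.symm_apply_apply]
    exact congrArg Subtype.val h5
  · intro u hu
    have h1 : e.symm (e ⟨u, hu⟩) * e.symm (quatZ m) = e.symm (quatZ m) * e.symm (e ⟨u, hu⟩) := by
      rw [← map_mul, ← map_mul, quatZ_central]
    rw [MulEquiv.symm_apply_apply] at h1
    exact congrArg Subtype.val h1
  · apply IsPGroup.of_card (n := m + 2)
    rw [Nat.card_congr e.toEquiv, Nat.card_eq_fintype_card, QuaternionGroup.card]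
    rw [pow_add]
    ring
  · obtain ⟨α, β, h⟩ := quat_comm hm
    refine ⟨((e.symm α : X) : G), Subtype.property _, ((e.symm β : X) : G), Subtype.property _, ?_⟩
    rw [← h]
    simp only [map_mul, map_inv, Subgroup.coe_mul, Subgroup.coe_inv]
  · intro c hc s hs t ht hst h1 h2
    have h1' : e ⟨c, hc⟩ * e ⟨s, hs⟩ = e ⟨s, hs⟩ * e ⟨c, hc⟩ := by
      rw [← map_mul, ← map_mul]
      congr 1
      exact Subtype.ext h1
    have h2' : e ⟨c, hc⟩ * e ⟨t, ht⟩ = e ⟨t, ht⟩ * e ⟨c, hc⟩ := by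
      rw [← map_mul, ← map_mul]
      congr 1
      exact Subtype.ext h2
    have h3 : e ⟨s, hs⟩ * e ⟨t, ht⟩ ≠ e ⟨t, ht⟩ * e ⟨s, hs⟩ := by
      intro h
      rw [← map_mul, ← map_mul] at h
      exact hst (congrArg Subtype.val (e.injective h))
    rcases quat_cen2 h3 h1' h2' with h | h
    · left
      have : (⟨c, hc⟩ : X) = 1 := by simpa using h
      exact congrArg Subtype.val this
    · right
      have h5 : (⟨c, hc⟩ : X) = e.symm (quatZ m) := by rw [← h, MulEquiv.symm_apply_apply]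
      exact congrArg Subtype.val h5

/-- Transport along an automorphism. -/
theorem QuatLike.map {X : Subgroup G} {z : G} (h : QuatLike X z) (f : G ≃* G) :
    QuatLike (X.map f.toMonoidHom) (f z) := by
  refine ⟨⟨z, h.mem, rfl⟩, ?_, ?_, ?_, ?_, ?_, ?_⟩
  · rw [MulEquiv.orderOf_eq]
    exact h.ord
  · rintro _ ⟨u, hu, rfl⟩ ho
    simp only [MulEquiv.coe_toMonoidHom] at ho ⊢
    rw [MulEquiv.orderOf_eq] at ho
    rw [h.uniq u hu ho]
  · rintro _ ⟨u, hu, rfl⟩
    simp only [MulEquiv.coe_toMonoidHom]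
    rw [← map_mul, ← map_mul, h.cent u hu]
  · exact h.two.map f.toMonoidHom
  · obtain ⟨α, hα, β, hβ, hc⟩ := h.comm
    refine ⟨f α, ⟨α, hα, rfl⟩, f β, ⟨β, hβ, rfl⟩, ?_⟩
    rw [← hc]
    simp only [map_mul, map_inv]
  · rintro _ ⟨c, hc, rfl⟩ _ ⟨s, hs, rfl⟩ _ ⟨t, ht, rfl⟩ hst h1 h2
    simp only [MulEquiv.coe_toMonoidHom] at hst h1 h2 ⊢
    rw [← map_mul, ← map_mul] at hst h1 h2
    have hst' : s * t ≠ t * s := fun e => hst (by rw [e])
    rcases h.cen2 c hc s hs t ht hst' (f.injective h1) (f.injective h2) with h | h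
    · left; rw [h, map_one]
    · right; rw [h]

/-- Uniqueness of the decomposition. -/
theorem idp_unique {X Y S : Subgroup G} (h : IsInternalDirectProduct X Y S) {x x' y y' : G}
    (hx : x ∈ X) (hx' : x' ∈ X) (hy : y ∈ Y) (hy' : y' ∈ Y) (e : x * y = x' * y') : x = x' ∧ y = y' := by
  have h1 : x'⁻¹ * x = y' * y⁻¹ := by
    calc x'⁻¹ * x = x'⁻¹ * (x * y) * y⁻¹ := by group
      _ = x'⁻¹ * (x' * y') * y⁻¹ := by rw [e]
      _ = y' * y⁻¹ := by group
  have h2 : x'⁻¹ * x ∈ X ⊓ Y := ⟨X.mul_mem (X.inv_mem hx') hx, by rw [h1]; exact Y.mul_mem hy' (Y.inv_mem hy)⟩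
  rw [h.2.2.2.1, Subgroup.mem_bot] at h2
  have hxx : x = x' := by
    calc x = x' * (x'⁻¹ * x) := by group
      _ = x' := by rw [h2, mul_one]
  subst hxx
  exact ⟨rfl, mul_left_cancel e⟩

/-- Projections of a direct product. -/
theorem exists_proj {X Y S : Subgroup G} (h : IsInternalDirectProduct X Y S) :
    ∃ π₁ π₂ : ↥S →* G, (∀ s, π₁ s ∈ X) ∧ (∀ s, π₂ s ∈ Y) ∧ (∀ s : S, (s : G) = π₁ s * π₂ s) := by
  classical
  obtain ⟨hX, hY, hc, hinf, hsup⟩ := h
  have key : ∀ s : S, ∃ x ∈ X, ∃ y ∈ Y, (s : G) = x * y := by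
    intro s
    have hs : (s : G) ∈ X ⊔ Y := by rw [hsup]; exact s.2
    exact mem_sup_commuting hc hs
  choose f hf g hg hfg using key
  have hmul : ∀ s t : S, f (s * t) = f s * f t ∧ g (s * t) = g s * g t := by
    intro s t
    refine idp_unique ⟨hX, hY, hc, hinf, hsup⟩ (hf _) (X.mul_mem (hf s) (hf t)) (hg _)
      (Y.mul_mem (hg s) (hg t)) ?_
    rw [← hfg (s * t), Subgroup.coe_mul, hfg s, hfg t]
    have := hc (f t) (hf t) (g s) (hg s)
    calc f s * g s * (f t * g t) = f s * (g s * f t) * g t := by group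
      _ = f s * (f t * g s) * g t := by rw [this]
      _ = _ := by group
  refine ⟨MonoidHom.mk' f (fun s t => (hmul s t).1), MonoidHom.mk' g (fun s t => (hmul s t).2),
    hf, hg, hfg⟩

theorem card_idp {X Y S : Subgroup G} (h : IsInternalDirectProduct X Y S) :
    Nat.card X * Nat.card Y = Nat.card S := by
  classical
  let F : X × Y → S := fun p => ⟨(p.1 : G) * p.2, by
    rw [← h.2.2.2.2]
    exact Subgroup.mul_mem _ (Subgroup.mem_sup_left p.1.2) (Subgroup.mem_sup_right p.2.2)⟩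
  have hF : Function.Bijective F := by
    constructor
    · rintro ⟨x, y⟩ ⟨x', y'⟩ e
      have e' : (x : G) * y = x' * y' := congrArg Subtype.val e
      obtain ⟨h1, h2⟩ := idp_unique h x.2 x'.2 y.2 y'.2 e'
      exact Prod.ext (Subtype.ext h1) (Subtype.ext h2)
    · intro s
      have hs : (s : G) ∈ X ⊔ Y := by rw [h.2.2.2.2]; exact s.2
      obtain ⟨x, hx, y, hy, e⟩ := mem_sup_commuting h.2.2.1 hs
      exact ⟨(⟨x, hx⟩, ⟨y, hy⟩), Subtype.ext e.symm⟩
  rw [← Nat.card_prod]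
  exact Nat.card_eq_of_bijective F hF

/-- Krull–Schmidt for quaternion factors at the level of involutions. -/
theorem quat_factor_key {S X Y X' Y' : Subgroup G} {z z' : G}
    (h : IsInternalDirectProduct X Y S) (h' : IsInternalDirectProduct X' Y' S)
    (hq : QuatLike X z) (hq' : QuatLike X' z') : z' ∈ Y ∨ z' = z := by
  classical
  obtain ⟨π₁, π₂, h1, h2, h3⟩ := exists_proj h
  have hX'S : ∀ w ∈ X', w ∈ S := fun w hw => h'.1 hw
  have hY'S : ∀ w ∈ Y', w ∈ S := fun w hw => h'.2.1 hw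
  have hc' := h'.2.2.1
  set zs : S := ⟨z', hX'S z' hq'.mem⟩ with hzs
  have hzz : zs * zs = 1 := by
    apply Subtype.ext
    have := pow_orderOf_eq_one z'
    rw [hq'.ord, sq] at this
    exact this
  have hz' : z' = π₁ zs * π₂ zs := h3 zs
  have haa : π₁ zs * π₁ zs = 1 := by rw [← map_mul, hzz, map_one]
  by_cases ha : π₁ zs = 1
  · left
    rw [hz', ha, one_mul]
    exact h2 zs
  have hao : orderOf (π₁ zs) = 2 := by
    apply orderOf_eq_prime
    · rw [sq, haa]
    · exact ha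
  have haz : π₁ zs = z := hq.uniq _ (h1 zs) hao
  by_cases hb : π₂ zs = 1
  · right
    rw [hz', hb, mul_one, haz]
  exfalso
  obtain ⟨α, hα, β, hβ, hcm⟩ := hq'.comm
  set αs : S := ⟨α, hX'S α hα⟩ with hαs
  set βs : S := ⟨β, hX'S β hβ⟩ with hβs
  have hcs : αs * βs * αs⁻¹ * βs⁻¹ = zs := Subtype.ext hcm
  have hst₀ : π₁ αs * π₁ βs ≠ π₁ βs * π₁ αs := by
    intro e
    apply ha
    rw [← hcs]
    simp only [map_mul, map_inv]
    rw [e]
    group
  have hst₁ : π₂ αs * π₂ βs ≠ π₂ βs * π₂ αs := by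
    intro e
    apply hb
    rw [← hcs]
    simp only [map_mul, map_inv]
    rw [e]
    group
  have hcomm_im : ∀ (π : S →* G) (y x : S), (y : G) * x = x * y → π y * π x = π x * π y := by
    intro π y x e
    rw [← map_mul, ← map_mul]
    congr 1
    exact Subtype.ext e
  -- the `Y'`-part maps to the centre of `X`
  have hY1 : ∀ y (hy : y ∈ Y'), π₁ ⟨y, hY'S y hy⟩ = 1 ∨ π₁ ⟨y, hY'S y hy⟩ = z := by
    intro y hy
    refine hq.cen2 _ (h1 _) _ (h1 αs) _ (h1 βs) hst₀ ?_ ?_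
    · exact hcomm_im π₁ _ _ (hc' α hα y hy).symm
    · exact hcomm_im π₁ _ _ (hc' β hβ y hy).symm
  -- surjectivity of `X' → X`
  have hfix : ∀ x (hx : x ∈ X) (hxS : x ∈ S), π₁ ⟨x, hxS⟩ = x := by
    intro x hx hxS
    have h4 : x * 1 = π₁ ⟨x, hxS⟩ * π₂ ⟨x, hxS⟩ := by
      rw [mul_one]; exact h3 ⟨x, hxS⟩
    exact (idp_unique h hx (h1 _) Y.one_mem (h2 _) h4).1.symm
  have hsurj : ∀ x ∈ X, ∃ x' , ∃ hx' : x' ∈ X', π₁ ⟨x', hX'S x' hx'⟩ = x := by
    intro x hx
    have hxS : x ∈ S := h.1 hx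
    have hxs : x ∈ X' ⊔ Y' := by rw [h'.2.2.2.2]; exact hxS
    obtain ⟨p, hp, q, hq2, e⟩ := mem_sup_commuting hc' hxs
    have h5 : (⟨x, hxS⟩ : S) = ⟨p, hX'S p hp⟩ * ⟨q, hY'S q hq2⟩ := Subtype.ext e
    have h6 : π₁ ⟨p, hX'S p hp⟩ * π₁ ⟨q, hY'S q hq2⟩ = x := by
      rw [← map_mul, ← h5]
      exact hfix x hx hxS
    rcases hY1 q hq2 with h7 | h7
    · refine ⟨p, hp, ?_⟩
      rw [h7, mul_one] at h6
      exact h6
    · refine ⟨p * z', X'.mul_mem hp hq'.mem, ?_⟩
      have : (⟨p * z', hX'S _ (X'.mul_mem hp hq'.mem)⟩ : S) = ⟨p, hX'S p hp⟩ * zs := rfl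
      rw [this, map_mul, haz, ← h7]
      exact h6
  -- injectivity of `X' → X`
  have hinj : ∀ x' (hx' : x' ∈ X'), π₁ ⟨x', hX'S x' hx'⟩ = 1 → x' = 1 := by
    intro x' hx' e
    by_contra hne
    have hp := hq'.two ⟨x', hx'⟩
    obtain ⟨k, hk⟩ := hp
    have hk' : x' ^ 2 ^ k = 1 := by
      have := congrArg Subtype.val hk
      simpa using this
    have ho : orderOf x' ∣ 2 ^ k := orderOf_dvd_of_pow_eq_one hk'
    obtain ⟨j, -, hj⟩ := (Nat.dvd_prime_pow Nat.prime_two).mp ho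
    have hj0 : j ≠ 0 := by
      rintro rfl
      rw [pow_zero, orderOf_eq_one_iff] at hj
      exact hne hj
    have hdvd : 2 ∣ orderOf x' := by
      rw [hj]
      exact dvd_pow_self 2 hj0
    have hw : orderOf (x' ^ (orderOf x' / 2)) = 2 :=
      orderOf_pow_orderOf_div (orderOf_pos x').ne' hdvd
    have hwz : x' ^ (orderOf x' / 2) = z' :=
      hq'.uniq _ (X'.pow_mem hx' _) hw
    apply ha
    have h8 : zs = (⟨x', hX'S x' hx'⟩ : S) ^ (orderOf x' / 2) := by
      apply Subtype.ext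
      simpa [hzs] using hwz.symm
    rw [h8, map_pow, e, one_pow]
  have hcardX : Nat.card X' = Nat.card X := by
    let f : X' → X := fun x' => ⟨π₁ ⟨x', hX'S _ x'.2⟩, h1 _⟩
    apply Nat.card_eq_of_bijective f
    constructor
    · intro u v e
      have e' : π₁ ⟨u, hX'S _ u.2⟩ = π₁ ⟨v, hX'S _ v.2⟩ := congrArg Subtype.val e
      have e2 : π₁ ⟨(u : G) * (v : G)⁻¹, hX'S _ (X'.mul_mem u.2 (X'.inv_mem v.2))⟩ = 1 := by
        have : (⟨(u : G) * (v : G)⁻¹, hX'S _ (X'.mul_mem u.2 (X'.inv_mem v.2))⟩ : S)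
            = ⟨u, hX'S _ u.2⟩ * (⟨v, hX'S _ v.2⟩ : S)⁻¹ := rfl
        rw [this, map_mul, map_inv, e', mul_inv_cancel]
      have e3 := hinj _ (X'.mul_mem u.2 (X'.inv_mem v.2)) e2
      apply Subtype.ext
      exact mul_inv_eq_one.mp e3
    · rintro ⟨x, hx⟩
      obtain ⟨x', hx', e⟩ := hsurj x hx
      exact ⟨⟨x', hx'⟩, Subtype.ext e⟩
  have hcardY : Nat.card Y' = Nat.card Y := by
    have e1 := card_idp h
    have e2 := card_idp h'
    rw [hcardX] at e2
    have hpos : 0 < Nat.card X := Nat.card_pos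
    exact Nat.eq_of_mul_eq_mul_left hpos (e2.trans e1.symm)
  -- the centralizer in `Y` of the image of `X'`
  let W : Set G := {w | ∃ x' , ∃ hx' : x' ∈ X', w = π₂ ⟨x', hX'S x' hx'⟩}
  let C : Subgroup G := Subgroup.centralizer W ⊓ Y
  have hαW : π₂ αs ∈ W := ⟨α, hα, rfl⟩
  have hβW : π₂ βs ∈ W := ⟨β, hβ, rfl⟩
  have hCW : ∀ c ∈ C, ∀ w ∈ W, w * c = c * w := fun c hc w hw =>
    (Subgroup.mem_centralizer_iff.mp hc.1) w hw
  have hle : Nat.card Y' ≤ 2 * Nat.card C := by
    let F : Y' → Subgroup.zpowers z × C := fun y =>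
      (⟨π₁ ⟨y, hY'S _ y.2⟩, by
        rcases hY1 y y.2 with e | e
        · rw [e]; exact Subgroup.one_mem _
        · rw [e]; exact Subgroup.mem_zpowers z⟩,
       ⟨π₂ ⟨y, hY'S _ y.2⟩, by
        refine ⟨Subgroup.mem_centralizer_iff.mpr ?_, h2 _⟩
        rintro _ ⟨x', hx', rfl⟩
        exact hcomm_im π₂ _ _ (hc' x' hx' y y.2)⟩)
    have hF : Function.Injective F := by
      intro u v e
      have e1 : π₁ ⟨u, hY'S _ u.2⟩ = π₁ ⟨v, hY'S _ v.2⟩ := congrArg (fun p => ((p.1 : _) : G)) e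
      have e2 : π₂ ⟨u, hY'S _ u.2⟩ = π₂ ⟨v, hY'S _ v.2⟩ := congrArg (fun p => ((p.2 : _) : G)) e
      apply Subtype.ext
      rw [h3 ⟨u, hY'S _ u.2⟩, h3 ⟨v, hY'S _ v.2⟩, e1, e2]
    have := Nat.card_le_card_of_injective F hF
    rwa [Nat.card_prod, Nat.card_zpowers, hq.ord] at this
  let H : Subgroup Y := C.subgroupOf Y
  have hCY : C ≤ Y := inf_le_right
  have hHcard : Nat.card H = Nat.card C := Nat.card_congr (Subgroup.subgroupOfEquivOfLe hCY).toEquiv
  have hidx := Subgroup.index_mul_card H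
  rw [hHcard, ← hcardY] at hidx
  have hCpos : 0 < Nat.card C := Nat.card_pos
  have hidx2 : H.index ≤ 2 := by
    by_contra hcon
    push Not at hcon
    have : 3 * Nat.card C ≤ H.index * Nat.card C := Nat.mul_le_mul_right _ hcon
    omega
  have hα1 : π₂ αs ∉ C := fun hm => hst₁ (hCW _ hm _ hβW).symm
  have hβ1 : π₂ βs ∉ C := fun hm => hst₁ (hCW _ hm _ hαW)
  have hne1 : H.index ≠ 1 := by
    intro e
    have htop : H = ⊤ := Subgroup.index_eq_one.mp e
    have : (⟨π₂ αs, h2 _⟩ : Y) ∈ H := by rw [htop]; exact Subgroup.mem_top _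
    exact hα1 this
  have hne0 : H.index ≠ 0 := Subgroup.index_ne_zero_of_finite
  have hidx3 : H.index = 2 := by omega
  have hmm : (⟨π₂ αs, h2 _⟩ : Y) * ⟨π₂ βs, h2 _⟩ ∈ H := by
    rw [Subgroup.mul_mem_iff_of_index_two hidx3]
    exact iff_of_false hα1 hβ1
  have hmm2 : π₂ αs * π₂ βs ∈ C := hmm
  have := hCW _ hmm2 _ hαW
  apply hst₁
  have h9 : π₂ αs * (π₂ αs * π₂ βs) = π₂ αs * (π₂ βs * π₂ αs) := by
    rw [this, mul_assoc]
  exact (mul_left_cancel h9)

end main

end Cfsg.Agent.H15
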