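import Cfsg.Agent.Lib.H15.QuatFactor
import Cfsg.Agent.Lib.H15.OddCore
import Cfsg.Agent.Lib.H01.Transfer

/-!
# Sylow 2-subgroups with a generalized quaternion direct factor
-/

set_option autoImplicit false
set_option linter.style.haveILetI false
set_option linter.unusedSectionVars false

namespace Cfsg.Agent.H15

open Cfsg

universe u

variable {G : Type u} [Group G] [Finite G]

/-- Burnside's fusion lemma for central elements. -/
theorem central_fusion {p : ℕ} [Fact p.Prime] (P : Sylow p G)
    {a b c : G} (ha : ∀ s ∈ P, s * a * s⁻¹ = a) (hb : ∀ s ∈ P, s * b * s⁻¹ = b)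
    (hc : c * a * c⁻¹ = b) :
    ∃ n ∈ Subgroup.normalizer ((P : Subgroup G) : Set G), n * a * n⁻¹ = b := by
  obtain ⟨n, hn, e⟩ := Cfsg.Agent.H01.burnside_fusion P {a} {b}
    (fun x hx => by simp [Cfsg.Agent.H01.conjImage, ha x hx])
    (fun x hx => by simp [Cfsg.Agent.H01.conjImage, hb x hx])
    c (by simp [Cfsg.Agent.H01.conjImage, hc])
  refine ⟨n, hn, ?_⟩
  simpa [Cfsg.Agent.H01.conjImage] using e

/-- Involutions of quaternion direct factors. -/
def QuatFI (S : Subgroup G) (u : G) : Prop :=
  ∃ X Y : Subgroup G, IsInternalDirectProduct X Y S ∧ QuatLike X u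

theorem idp_map {X Y S : Subgroup G} (h : IsInternalDirectProduct X Y S) (f : G ≃* G) :
    IsInternalDirectProduct (X.map f.toMonoidHom) (Y.map f.toMonoidHom) (S.map f.toMonoidHom) := by
  refine ⟨Subgroup.map_mono h.1, Subgroup.map_mono h.2.1, ?_, ?_, ?_⟩
  · rintro _ ⟨a, ha, rfl⟩ _ ⟨b, hb, rfl⟩
    simp only [MulEquiv.coe_toMonoidHom]
    rw [← map_mul, ← map_mul, h.2.2.1 a ha b hb]
  · rw [← Subgroup.map_inf _ _ _ f.injective, h.2.2.2.1, Subgroup.map_bot]
  · rw [← Subgroup.map_sup, h.2.2.2.2]

/-- A product over an invariant finite set is fixed. -/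
theorem finset_prod_fixed {A : Type*} [CommGroup A] (Zs : Finset A) (φ ψ : A →* A)
    (h1 : ∀ u, ψ (φ u) = u) (h2 : ∀ u, φ (ψ u) = u)
    (h3 : ∀ u ∈ Zs, φ u ∈ Zs) (h4 : ∀ u ∈ Zs, ψ u ∈ Zs) : φ (∏ u ∈ Zs, u) = ∏ u ∈ Zs, u := by
  rw [map_prod]
  exact Finset.prod_nbij' φ ψ h3 h4 (fun u _ => h1 u) (fun u _ => h2 u) (fun _ _ => rfl)

/-- Conjugation on the centre of a subgroup by an element of its normalizer. -/
noncomputable def centerConj (S : Subgroup G) (h : G) (hh : h ∈ Subgroup.normalizer (S : Set G)) :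
    ↥(Subgroup.center S) →* ↥(Subgroup.center S) where
  toFun w := ⟨⟨h * ((w : S) : G) * h⁻¹, (Subgroup.mem_normalizer_iff.mp hh _).mp (w : S).2⟩, by
    rw [Subgroup.mem_center_iff]
    rintro ⟨g, hg⟩
    have hg' : h⁻¹ * g * h ∈ S := by
      have := (Subgroup.mem_normalizer_iff.mp hh (h⁻¹ * g * h)).mpr (by
        convert hg using 1
        group)
      exact this
    have hc := Subgroup.mem_center_iff.mp w.2 ⟨_, hg'⟩
    have hc' : h⁻¹ * g * h * ((w : S) : G) = ((w : S) : G) * (h⁻¹ * g * h) := congrArg Subtype.val hc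
    apply Subtype.ext
    show g * (h * ((w : S) : G) * h⁻¹) = (h * ((w : S) : G) * h⁻¹) * g
    calc g * (h * ((w : S) : G) * h⁻¹) = h * ((h⁻¹ * g * h) * ((w : S) : G)) * h⁻¹ := by group
      _ = h * (((w : S) : G) * (h⁻¹ * g * h)) * h⁻¹ := by rw [hc']
      _ = _ := by group⟩
  map_one' := by
    apply Subtype.ext
    apply Subtype.ext
    show h * 1 * h⁻¹ = 1
    group
  map_mul' u v := by
    apply Subtype.ext
    apply Subtype.ext
    show h * (((u : S) : G) * ((v : S) : G)) * h⁻¹ = (h * ((u : S) : G) * h⁻¹) * (h * ((v : S) : G) * h⁻¹)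
    group

theorem centerConj_coe (S : Subgroup G) (h : G) (hh : h ∈ Subgroup.normalizer (S : Set G))
    (w : ↥(Subgroup.center S)) : (((centerConj S h hh w : ↥(Subgroup.center S)) : S) : G) = h * ((w : S) : G) * h⁻¹ := rfl

/-- The centre of a Sylow subgroup, as a commutative group. -/
abbrev CA {p : ℕ} (S : Sylow p G) : Subgroup (S : Subgroup G) := Subgroup.center (S : Subgroup G)

/-- The commutative group structure on a centre. -/
local instance centerCommH15 (H : Subgroup G) : CommGroup ↥(Subgroup.center H) :=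
  { (Subgroup.center H).toGroup with
    mul_comm := fun a b => Subtype.ext (Subgroup.mem_center_iff.mp b.2 a) }

/-- **Main theorem**: a Sylow `2`-subgroup with a quaternion direct factor whose complement has all
its involutions central. -/
theorem quat_factor_not_simple (S : Sylow 2 G) {Q R : Subgroup G}
    (hQR : IsInternalDirectProduct Q R (S : Subgroup G)) {z : G} (hq : QuatLike Q z)
    (hR : ∀ r ∈ R, orderOf r = 2 → ∀ s ∈ R, r * s = s * r) : ¬ IsSimpleGroup G := by
  classical
  intro hsimple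
  haveI hp2 : Fact (Nat.Prime 2) := ⟨Nat.prime_two⟩
  have hsq1 : ∀ x : G, orderOf x = 2 → x * x = 1 := by
    intro x hx
    have := pow_orderOf_eq_one x
    rwa [hx, sq] at this
  have hoc : ∀ x : G, x * x = 1 → x ≠ 1 → orderOf x = 2 := by
    intro x h1 h2
    apply orderOf_eq_prime
    · rw [sq, h1]
    · exact h2
  obtain ⟨hQS, hRS, hc, hinf, hsup⟩ := id hQR
  -- all involutions of `S` are central in `S`
  have hcent : ∀ u ∈ (S : Subgroup G), orderOf u = 2 → ∀ s ∈ (S : Subgroup G), u * s = s * u := by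
    intro u hu ho s hs
    have hu' : u ∈ Q ⊔ R := by rw [hsup]; exact hu
    have hs' : s ∈ Q ⊔ R := by rw [hsup]; exact hs
    obtain ⟨q, hq1, r, hr, rfl⟩ := mem_sup_commuting hc hu'
    obtain ⟨q', hq1', r', hr', rfl⟩ := mem_sup_commuting hc hs'
    have huu := hsq1 _ ho
    have hqr := hc q hq1 r hr
    have h1 : (q * q) * (r * r) = 1 * 1 := by
      rw [mul_one, ← huu]
      calc (q * q) * (r * r) = q * (q * r) * r := by group
        _ = q * (r * q) * r := by rw [hqr]
        _ = q * r * (q * r) := by group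
    obtain ⟨h2, h3⟩ := idp_unique hQR (Q.mul_mem hq1 hq1) Q.one_mem (R.mul_mem hr hr) R.one_mem h1
    have hcq : q * q' = q' * q := by
      by_cases hq0 : q = 1
      · rw [hq0, one_mul, mul_one]
      · rw [hq.uniq q hq1 (hoc q h2 hq0)]
        exact (hq.cent q' hq1').symm
    have hcr : r * r' = r' * r := by
      by_cases hr0 : r = 1
      · rw [hr0, one_mul, mul_one]
      · exact hR r hr (hoc r h3 hr0) r' hr'
    have h4 := hc q hq1 r' hr'
    have h5 := hc q' hq1' r hr
    calc q * r * (q' * r') = q * (r * q') * r' := by group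
      _ = q * (q' * r) * r' := by rw [h5]
      _ = (q * q') * (r * r') := by group
      _ = (q' * q) * (r' * r) := by rw [hcq, hcr]
      _ = q' * (q * r') * r := by group
      _ = q' * (r' * q) * r := by rw [h4]
      _ = q' * r' * (q * r) := by group
  -- elements of the quaternion-factor set
  have hFI : ∀ u, QuatFI (S : Subgroup G) u → u ∈ (S : Subgroup G) ∧ orderOf u = 2 := by
    rintro u ⟨X, Y, h1, h2⟩
    exact ⟨h1.1 h2.mem, h2.ord⟩
  have hFIkey : ∀ u, QuatFI (S : Subgroup G) u → u ∈ R ∨ u = z := by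
    rintro u ⟨X, Y, h1, h2⟩
    exact quat_factor_key hQR h1 hq h2
  have hFImap : ∀ h ∈ Subgroup.normalizer ((S : Subgroup G) : Set G), ∀ u,
      QuatFI (S : Subgroup G) u → QuatFI (S : Subgroup G) (h * u * h⁻¹) := by
    rintro h hh u ⟨X, Y, h1, h2⟩
    have hmap : (S : Subgroup G).map (MulAut.conj h).toMonoidHom = S := by
      apply le_antisymm
      · rintro _ ⟨x, hx, rfl⟩
        exact (Subgroup.mem_normalizer_iff.mp hh x).mp hx
      · intro x hx
        refine ⟨h⁻¹ * x * h, ?_, ?_⟩
        · exact (Subgroup.mem_normalizer_iff.mp hh _).mpr (by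
            convert hx using 1
            group)
        · simp only [MulEquiv.coe_toMonoidHom, MulAut.conj_apply]
          group
    refine ⟨X.map (MulAut.conj h).toMonoidHom, Y.map (MulAut.conj h).toMonoidHom, ?_, ?_⟩
    · have := idp_map h1 (MulAut.conj h)
      rwa [hmap] at this
    · have := h2.map (MulAut.conj h)
      simpa [MulAut.conj_apply] using this
  have hFIcen : ∀ u, QuatFI (S : Subgroup G) u → ∀ s ∈ (S : Subgroup G), s * u = u * s := by
    intro u hu s hs
    exact (hcent u (hFI u hu).1 (hFI u hu).2 s hs).symm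
  -- the product
  let Zs : Finset ↥(CA S) := (Set.toFinite {w : ↥(CA S) | QuatFI (S : Subgroup G) ((w : (S : Subgroup G)) : G)}).toFinset
  have hZs : ∀ w : ↥(CA S), w ∈ Zs ↔ QuatFI (S : Subgroup G) ((w : (S : Subgroup G)) : G) := by
    intro w
    simp [Zs]
  have hzFI : QuatFI (S : Subgroup G) z := ⟨Q, R, hQR, hq⟩
  let z₀ : ↥(CA S) := ⟨⟨z, (hFI z hzFI).1⟩, by
    rw [Subgroup.mem_center_iff]
    rintro ⟨g, hg⟩
    exact Subtype.ext (hFIcen z hzFI g hg)⟩
  have hz₀ : z₀ ∈ Zs := (hZs z₀).mpr hzFI
  let e : ↥(CA S) := ∏ w ∈ Zs, w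
  let eG : G := ((e : (S : Subgroup G)) : G)
  have hee : e * e = 1 := by
    show (∏ w ∈ Zs, w) * (∏ w ∈ Zs, w) = 1
    rw [← Finset.prod_mul_distrib]
    apply Finset.prod_eq_one
    intro w hw
    apply Subtype.ext
    apply Subtype.ext
    exact hsq1 _ (hFI _ ((hZs w).mp hw)).2
  have he1 : e ≠ 1 := by
    intro h1
    let R' : Subgroup ↥(CA S) := R.comap ((S : Subgroup G).subtype.comp (CA S).subtype)
    have hr : (∏ x ∈ Zs.erase z₀, x) ∈ R' := by
      apply Subgroup.prod_mem
      intro w hw
      rw [Finset.mem_erase] at hw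
      rcases hFIkey _ ((hZs w).mp hw.2) with h | h
      · exact h
      · exact absurd (Subtype.ext (Subtype.ext h)) hw.1
    have h2 : z₀ * ∏ x ∈ Zs.erase z₀, x = e := Finset.mul_prod_erase Zs (fun w => w) hz₀
    rw [h1] at h2
    have h3 : z₀ ∈ R' := by
      rw [eq_inv_of_mul_eq_one_left h2]
      exact R'.inv_mem hr
    have h4 : z ∈ Q ⊓ R := ⟨hq.mem, h3⟩
    rw [hinf, Subgroup.mem_bot] at h4
    have := hq.ord
    rw [h4, orderOf_one] at this
    omega
  have heGS : eG ∈ (S : Subgroup G) := (e : (S : Subgroup G)).2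
  have heG1 : eG ≠ 1 := fun h => he1 (Subtype.ext (Subtype.ext h))
  have heGG : eG * eG = 1 := congrArg (fun x : ↥(CA S) => ((x : (S : Subgroup G)) : G)) hee
  have heGo : orderOf eG = 2 := hoc eG heGG heG1
  have hecen : ∀ s ∈ (S : Subgroup G), s * eG = eG * s := by
    intro s hs
    have := Subgroup.mem_center_iff.mp e.2 ⟨s, hs⟩
    exact congrArg Subtype.val this
  -- `e` is fixed by the normalizer
  have hefix : ∀ h ∈ Subgroup.normalizer ((S : Subgroup G) : Set G), h * eG * h⁻¹ = eG := by
    intro h hh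
    have hh' : h⁻¹ ∈ Subgroup.normalizer ((S : Subgroup G) : Set G) := Subgroup.inv_mem _ hh
    have := finset_prod_fixed Zs (centerConj (S : Subgroup G) h hh) (centerConj (S : Subgroup G) h⁻¹ hh')
      (by
        intro u
        apply Subtype.ext
        apply Subtype.ext
        show h⁻¹ * (h * ((u : (S : Subgroup G)) : G) * h⁻¹) * h⁻¹⁻¹ = _
        group)
      (by
        intro u
        apply Subtype.ext
        apply Subtype.ext
        show h * (h⁻¹ * ((u : (S : Subgroup G)) : G) * h⁻¹⁻¹) * h⁻¹ = _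
        group)
      (by
        intro u hu
        rw [hZs] at hu ⊢
        exact hFImap h hh _ hu)
      (by
        intro u hu
        rw [hZs] at hu ⊢
        exact hFImap h⁻¹ hh' _ hu)
    exact congrArg (fun x : ↥(CA S) => ((x : (S : Subgroup G)) : G)) this
  -- `e` is isolated
  have hiso : IsIsolatedInvolution eG := by
    refine ⟨heGo, ?_⟩
    intro g hg
    set f := g * eG * g⁻¹ with hf
    have hfo : orderOf f = 2 := by
      have h1 : f = MulAut.conj g eG := by simp [hf, MulAut.conj_apply]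
      rw [h1, MulEquiv.orderOf_eq]
      exact heGo
    let C : Subgroup G := Subgroup.centralizer ({eG} : Set G)
    have hSC : (S : Subgroup G) ≤ C := by
      intro s hs
      rw [Subgroup.mem_centralizer_singleton_iff]
      exact (hecen s hs).symm ▸ (hecen s hs)
    have hfC : f ∈ C := by
      rw [Subgroup.mem_centralizer_singleton_iff]
      exact hg.eq.symm
    have hDC : Subgroup.zpowers f ≤ C := by
      rw [Subgroup.zpowers_le]
      exact hfC
    have hD : IsPGroup 2 (Subgroup.zpowers f) := by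
      apply IsPGroup.of_card (n := 1)
      rw [Nat.card_zpowers, hfo, pow_one]
    obtain ⟨c, hcC, hcd⟩ := exists_conj_le_sylow_of_le C _ S hSC hDC hD
    have hs1 := hcd f (Subgroup.mem_zpowers f)
    have hso : orderOf (c * f * c⁻¹) = 2 := by
      have h1 : c * f * c⁻¹ = MulAut.conj c f := by simp [MulAut.conj_apply]
      rw [h1, MulEquiv.orderOf_eq]
      exact hfo
    have hscen := hcent _ hs1 hso
    obtain ⟨n, hn, hne⟩ := central_fusion S (a := eG) (b := c * f * c⁻¹) (c := c * g)
      (fun s hs => by rw [hecen s hs]; group)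
      (fun s hs => by rw [← hscen s hs]; group)
      (by rw [hf]; group)
    have h5 := hefix n hn
    rw [h5] at hne
    -- so `f = e`
    have hce : c * eG * c⁻¹ = eG := by
      have := Subgroup.mem_centralizer_singleton_iff.mp hcC
      rw [this]
      group
    have h6 : c * f * c⁻¹ = c * eG * c⁻¹ := by rw [← hne, hce]
    have h7 : f = eG := by
      have : c * f * c⁻¹ = c * eG * c⁻¹ := h6
      exact mul_left_cancel (mul_right_cancel this)
    exact h7
  -- the Z*-theorem
  have hstar := zstar_theorem G eG hiso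
  have hOnormal : (oddCore G).Normal := by
    unfold oddCore
    infer_instance
  have hO : oddCore G = ⊥ := by
    rcases hsimple.eq_bot_or_eq_top_of_normal _ hOnormal with h | h
    · exact h
    · exfalso
      have hxO : eG ∈ oddCore G := by rw [h]; exact Subgroup.mem_top eG
      have h1 : orderOf (⟨eG, hxO⟩ : oddCore G) ∣ Nat.card (oddCore G) := orderOf_dvd_natCard _
      rw [Subgroup.orderOf_mk, heGo] at h1
      have h2 := card_oddCore_coprime (G := G)
      have h3' : Nat.gcd (Nat.card (oddCore G)) 2 = 2 := Nat.gcd_eq_right h1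
      rw [Nat.Coprime] at h2
      omega
  have hecentral : ∀ g : G, g * eG = eG * g := by
    intro g
    have h1 := hstar g
    rw [hO, Subgroup.mem_bot] at h1
    have h2 : eG * g * eG⁻¹ = g := by
      calc eG * g * eG⁻¹ = (eG * g * eG⁻¹ * g⁻¹) * g := by group
        _ = g := by rw [h1, one_mul]
    calc g * eG = (eG * g * eG⁻¹) * eG := by rw [h2]
      _ = eG * g := by group
  -- then `G` is cyclic
  have hzn : (Subgroup.zpowers eG).Normal := by
    constructor
    intro n hn g
    obtain ⟨k, rfl⟩ := Subgroup.mem_zpowers_iff.mp hn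
    have h1 : g * eG ^ k * g⁻¹ = eG ^ k := by
      have h2 : Commute g (eG ^ k) := (Commute.zpow_right (hecentral g) k)
      rw [h2.eq]
      group
    rw [h1]
    exact Subgroup.zpow_mem _ (Subgroup.mem_zpowers eG) k
  have hne : Subgroup.zpowers eG ≠ ⊥ := by
    intro h
    have h1 := Subgroup.mem_zpowers eG
    rw [h] at h1
    exact heG1 (Subgroup.mem_bot.mp h1)
  have htop : Subgroup.zpowers eG = ⊤ := (hsimple.eq_bot_or_eq_top_of_normal _ hzn).resolve_left hne
  obtain ⟨α, -, β, -, hαβ⟩ := hq.comm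
  have hcom : ∀ x y : G, x * y = y * x := by
    intro x y
    have hx : x ∈ Subgroup.zpowers eG := by rw [htop]; exact Subgroup.mem_top x
    have hy : y ∈ Subgroup.zpowers eG := by rw [htop]; exact Subgroup.mem_top y
    obtain ⟨i, rfl⟩ := Subgroup.mem_zpowers_iff.mp hx
    obtain ⟨j, rfl⟩ := Subgroup.mem_zpowers_iff.mp hy
    exact ((Commute.refl eG).zpow_zpow i j).eq
  have hz1 : z = 1 := by
    rw [← hαβ, hcom α β]
    group
  have := hq.ord
  rw [hz1, orderOf_one] at this
  omega

end Cfsg.Agent.H15
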