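import Cfsg.Agent.Lib.H15.SwapPair5

/-!
# Building the swapped pair from `SL₂` data
-/

set_option autoImplicit false
set_option linter.style.haveILetI false
set_option linter.unusedSectionVars false

namespace Cfsg.Agent.H15

open Cfsg Matrix

universe u

section matrix

variable {F : Type*} [Field F] [Fintype F]

/-- The centralizer of `J` in `SL₂` is abelian. -/
theorem comm_of_comm_sl2J (B C : SpecialLinearGroup (Fin 2) F) (hB : sl2J F * B = B * sl2J F)
    (hC : sl2J F * C = C * sl2J F) : B * C = C * B := by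
  obtain ⟨e1, e2, e3, e4⟩ := sl2_mul_entries (sl2J F) B
  obtain ⟨e5, e6, e7, e8⟩ := sl2_mul_entries B (sl2J F)
  rw [hB] at e1 e2 e3 e4
  simp only [sl2J, of_apply, cons_val', cons_val_zero, cons_val_one, cons_val_fin_one] at e1 e2 e3 e4 e5 e6 e7 e8
  obtain ⟨f1, f2, f3, f4⟩ := sl2_mul_entries (sl2J F) C
  obtain ⟨f5, f6, f7, f8⟩ := sl2_mul_entries C (sl2J F)
  rw [hC] at f1 f2 f3 f4
  simp only [sl2J, of_apply, cons_val', cons_val_zero, cons_val_one, cons_val_fin_one] at f1 f2 f3 f4 f5 f6 f7 f8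
  obtain ⟨g1, g2, g3, g4⟩ := sl2_mul_entries B C
  obtain ⟨g5, g6, g7, g8⟩ := sl2_mul_entries C B
  have hb1 : B.1 0 1 = - B.1 1 0 := by
    have := e5.symm.trans e1
    simpa using this
  have hb2 : B.1 1 1 = B.1 0 0 := by
    have := e6.symm.trans e2
    simp at this
    linear_combination -this
  have hc1 : C.1 0 1 = - C.1 1 0 := by
    have := f5.symm.trans f1
    simpa using this
  have hc2 : C.1 1 1 = C.1 0 0 := by
    have := f6.symm.trans f2
    simp at this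
    linear_combination -this
  apply sl2_ext
  · rw [g1, g5, hb1, hc1]; ring
  · rw [g2, g6, hb1, hb2, hc1, hc2]; ring
  · rw [g3, g7, hb2, hc2]; ring
  · rw [g4, g8, hb1, hb2, hc1, hc2]; ring

/-- The centralizer of an element of square `-1` in `SL₂` is abelian. -/
theorem comm_of_sq_neg (hF : Odd (Fintype.card F)) (A B C : SpecialLinearGroup (Fin 2) F)
    (hA : A * A = sl2Neg F) (hB : A * B = B * A) (hC : A * C = C * A) : B * C = C * B := by
  obtain ⟨g, hg⟩ := conj_to_sl2J hF A hA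
  have hc : ∀ D : SpecialLinearGroup (Fin 2) F, A * D = D * A →
      sl2J F * (g * D * g⁻¹) = (g * D * g⁻¹) * sl2J F := by
    intro D hD
    rw [← hg]
    calc g * A * g⁻¹ * (g * D * g⁻¹) = g * (A * D) * g⁻¹ := by group
      _ = g * (D * A) * g⁻¹ := by rw [hD]
      _ = _ := by group
  have h1 := comm_of_comm_sl2J _ _ (hc B hB) (hc C hC)
  have h2 : g * (B * C) * g⁻¹ = g * (C * B) * g⁻¹ := by
    calc g * (B * C) * g⁻¹ = (g * B * g⁻¹) * (g * C * g⁻¹) := by group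
      _ = (g * C * g⁻¹) * (g * B * g⁻¹) := h1
      _ = _ := by group
  exact mul_left_cancel (mul_right_cancel h2)

end matrix

variable {G : Type u} [Group G] [Finite G]

/-- The centralizer in `L ≅ SL₂` of a square root of `j` is abelian. -/
theorem sl2sub_comm3 {F : Type*} [Field F] [Fintype F] (hF : Odd (Fintype.card F)) {L : Subgroup G}
    (e : ↥L ≃* SpecialLinearGroup (Fin 2) F) {j : G} (hjL : j ∈ L) (hj : orderOf j = 2)
    {t : G} (ht : t ∈ L) (htt : t * t = j) {a b : G} (ha : a ∈ L) (hb : b ∈ L)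
    (hat : a * t = t * a) (hbt : b * t = t * b) : a * b = b * a := by
  have h1 := sl2sub_transfer hF e hjL hj ht htt
  have hA : e ⟨t, ht⟩ * e ⟨a, ha⟩ = e ⟨a, ha⟩ * e ⟨t, ht⟩ := by
    rw [← map_mul, ← map_mul]
    congr 1
    exact Subtype.ext hat.symm
  have hB : e ⟨t, ht⟩ * e ⟨b, hb⟩ = e ⟨b, hb⟩ * e ⟨t, ht⟩ := by
    rw [← map_mul, ← map_mul]
    congr 1
    exact Subtype.ext hbt.symm
  have h2 := comm_of_sq_neg hF _ _ _ h1 hA hB
  rw [← map_mul, ← map_mul] at h2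
  have h3 := congrArg Subtype.val (e.injective h2)
  exact h3

theorem swapData_of {F₁ : Type*} [Field F₁] [Fintype F₁] {F₂ : Type*} [Field F₂] [Fintype F₂]
    (hF₁ : Odd (Fintype.card F₁)) (hF₂ : Odd (Fintype.card F₂)) (L₁ L₂ : Subgroup G)
    (e₁ : ↥L₁ ≃* SpecialLinearGroup (Fin 2) F₁) (e₂ : ↥L₂ ≃* SpecialLinearGroup (Fin 2) F₂)
    (hc : ∀ x ∈ L₁, ∀ y ∈ L₂, x * y = y * x) (j : G) (hj : orderOf j = 2) (hm : L₁ ⊓ L₂ = Subgroup.zpowers j)
    (hle : L₁ ⊔ L₂ ≤ Subgroup.centralizer ({j} : Set G))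
    (hi : (L₁ ⊔ L₂).relIndex (Subgroup.centralizer ({j} : Set G)) = 2) (n : G)
    (hn : n ∈ Subgroup.centralizer ({j} : Set G))
    (hn2 : n ^ 2 = j) (hswap : L₁.map (MulAut.conj n).toMonoidHom = L₂) : SwapData L₁ L₂ j n := by
  obtain ⟨hj1, hj2⟩ := pair_j_mem hm
  have hjj : j * j = 1 := by
    have := pow_orderOf_eq_one j
    rwa [hj, sq] at this
  have hj_ne : j ≠ 1 := by
    rintro rfl
    simp at hj
  have hnn : n * n = j := by rw [← sq, hn2]
  have h12 : ∀ a ∈ L₁, n * a * n⁻¹ ∈ L₂ := by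
    intro a ha
    rw [← hswap]
    exact ⟨a, ha, rfl⟩
  have h21 : ∀ a ∈ L₂, n * a * n⁻¹ ∈ L₁ := by
    intro a ha
    rw [← hswap] at ha
    obtain ⟨b, hb, rfl⟩ := ha
    have h1 : b * j = j * b := hc b hb j hj2
    have h2 : n * ((MulAut.conj n).toMonoidHom b) * n⁻¹ = b := by
      show n * (n * b * n⁻¹) * n⁻¹ = b
      calc n * (n * b * n⁻¹) * n⁻¹ = (n * n) * b * (n * n)⁻¹ := by group
        _ = j * b * j⁻¹ := by rw [hnn]
        _ = b * j * j⁻¹ := by rw [h1]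
        _ = b := by group
    rw [h2]
    exact hb
  have hinj : ∀ w, w * j = j * w → w ∈ Subgroup.centralizer ({j} : Set G) := by
    intro w hw
    rw [Subgroup.mem_centralizer_singleton_iff]
    exact hw
  have hnM : n ∉ L₁ ⊔ L₂ := by
    intro hM
    obtain ⟨a, ha, b, hb, hab⟩ := mem_sup_commuting hc hM
    obtain ⟨t, ht, htt⟩ := sl2sub_exists hF₁ e₁ hj1 hj
    have h1 : n * (a⁻¹ * t * a) * n⁻¹ ∈ L₂ := h12 _ (L₁.mul_mem (L₁.mul_mem (L₁.inv_mem ha) ht) ha)
    have h2 : n * (a⁻¹ * t * a) * n⁻¹ = t := by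
      rw [hab]
      have h3 := hc t ht b hb
      calc a * b * (a⁻¹ * t * a) * (a * b)⁻¹ = a * (b * (a⁻¹ * t * a) * b⁻¹) * a⁻¹ := by group
        _ = a * ((a⁻¹ * t * a) * b * b⁻¹) * a⁻¹ := by
          rw [(hc (a⁻¹ * t * a) (L₁.mul_mem (L₁.mul_mem (L₁.inv_mem ha) ht) ha) b hb).symm]
        _ = t := by group
    rw [h2] at h1
    exact pair_not_sq hj hm ht h1 htt
  have hind : ∀ w : G, w * j = j * w → w ∉ L₁ ⊔ L₂ → n⁻¹ * w ∈ L₁ ⊔ L₂ := by
    intro w hw hwM
    have hi' : ((L₁ ⊔ L₂).subgroupOf (Subgroup.centralizer ({j} : Set G))).index = 2 := hi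
    have h1 := Subgroup.mul_mem_iff_of_index_two hi'
      (a := (⟨n, hn⟩ : Subgroup.centralizer ({j} : Set G))⁻¹) (b := ⟨w, hinj w hw⟩)
    have hn' : (⟨n, hn⟩ : Subgroup.centralizer ({j} : Set G))⁻¹ ∉
        (L₁ ⊔ L₂).subgroupOf (Subgroup.centralizer ({j} : Set G)) := by
      rw [Subgroup.inv_mem_iff, Subgroup.mem_subgroupOf]
      exact hnM
    have hw' : (⟨w, hinj w hw⟩ : Subgroup.centralizer ({j} : Set G)) ∉
        (L₁ ⊔ L₂).subgroupOf (Subgroup.centralizer ({j} : Set G)) := by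
      rw [Subgroup.mem_subgroupOf]
      exact hwM
    have h2 := h1.mpr (iff_of_false hn' hw')
    rw [Subgroup.mem_subgroupOf] at h2
    exact h2
  exact
    { hj1 := hj1
      hj2 := hj2
      hjj := hjj
      hj_ne := hj_ne
      hinf := fun u h1 h2 => pair_inf hj hm h1 h2
      hc := hc
      hnn := hnn
      hn12 := h12
      hn21 := h21
      hsq1 := fun l hl h => sl2sub_sq_one hF₁ e₁ hj1 hj hl h
      hsq2 := fun l hl h => sl2sub_sq_one hF₂ e₂ hj2 hj hl h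
      hconj := fun t₁ h₁ t₂ h₂ h₁₁ h₂₂ => sl2sub_conj hF₁ e₁ hj1 hj h₁ h₂ h₁₁ h₂₂
      hcomm1 := fun t ht htt a ha b hb hat hbt => sl2sub_comm3 hF₁ e₁ hj1 hj ht htt ha hb hat hbt
      hcomm2 := fun t ht htt a ha b hb hat hbt => sl2sub_comm3 hF₂ e₂ hj2 hj ht htt ha hb hat hbt
      hnM := hnM
      hind := hind }

end Cfsg.Agent.H15
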