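import Mathlib
import Cfsg.Agent.Lib.H15.Sylow3
import Cfsg.Agent.Lib.H15.TwoMaxEA
import Cfsg.Agent.Lib.H15.ChzFour2
import Cfsg.Agent.Lib.H08.Thom.Sign

/-!
A finite group with a Sylow 2-subgroup isomorphic to `Z₂ × D₈` has a homomorphism onto `{±1}`.
-/

set_option autoImplicit false

namespace Cfsg.Agent.H15.ZTwoD8

open Cfsg.Agent.H15.ChzFour

abbrev T₀ := Multiplicative (ZMod 2) × DihedralGroup 4

def e₀ : T₀ := (Multiplicative.ofAdd 1, 1)
def a₀ : T₀ := (1, DihedralGroup.r 1)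
def b₀ : T₀ := (1, DihedralGroup.sr 0)
def z₀ : T₀ := (1, DihedralGroup.r 2)
def c₀ : T₀ := (1, DihedralGroup.sr 3)

def parity : ZMod 4 → Bool := fun k => decide (k = 1) || decide (k = 3)

def chiFun (α β γ : Bool) (t : T₀) : ℤˣ :=
  (if γ && decide (t.1 = Multiplicative.ofAdd 1) then -1 else 1) *
  (match t.2 with
   | DihedralGroup.r k => if α && parity k then -1 else 1
   | DihedralGroup.sr k => (if α && parity k then -1 else 1) * (if β then -1 else 1))

set_option maxRecDepth 100000 in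
theorem chi_mul : ∀ (α β γ : Bool) (s t : T₀),
    chiFun α β γ (s * t) = chiFun α β γ s * chiFun α β γ t := by
  decide

def chi (α β γ : Bool) : T₀ →* ℤˣ := MonoidHom.mk' (chiFun α β γ) (chi_mul α β γ)

theorem chi_apply (α β γ : Bool) (t : T₀) : chi α β γ t = chiFun α β γ t := rfl

def y₁ (i : Bool) : T₀ := if i then b₀ * e₀ else b₀
def y₂ (i : Bool) : T₀ := if i then c₀ * e₀ else c₀

set_option maxRecDepth 100000 in
theorem comm_fact : ∀ s t : T₀, s * t * s⁻¹ * t⁻¹ = 1 ∨ s * t * s⁻¹ * t⁻¹ = z₀ := by decide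

set_option maxRecDepth 100000 in
theorem ab_comm : a₀ * b₀ * a₀⁻¹ * b₀⁻¹ = z₀ := by decide

set_option maxRecDepth 100000 in
theorem center_fact : ∀ t : T₀, (∀ s : T₀, s * t = t * s) →
    t = 1 ∨ t = e₀ ∨ t = z₀ ∨ t = e₀ * z₀ := by decide

set_option maxRecDepth 100000 in
theorem central_e : ∀ s : T₀, s * e₀ = e₀ * s := by decide

set_option maxRecDepth 100000 in
theorem central_z : ∀ s : T₀, s * z₀ = z₀ * s := by decide

theorem e_e : e₀ * e₀ = 1 := by decide
theorem z_z : z₀ * z₀ = 1 := by decide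
theorem e_ne : e₀ ≠ 1 := by decide
theorem z_ne : z₀ ≠ 1 := by decide
theorem e_ne_z : e₀ ≠ z₀ := by decide
theorem ez_ne : e₀ * z₀ ≠ 1 := by decide
theorem ez_ne_e : e₀ * z₀ ≠ e₀ := by decide
theorem ez_ne_z : e₀ * z₀ ≠ z₀ := by decide

/-- The two elementary abelian maximal subgroups. -/
abbrev χ₁ : T₀ →* ℤˣ := chi true false false
abbrev χ₂ : T₀ →* ℤˣ := chi true true false

set_option maxRecDepth 100000 in
theorem fact_ker1 : ∀ t : T₀, chiFun true false false t = 1 → (∀ s : T₀, s * t = t * s) ∨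
    t = y₁ false ∨ t = a₀ * y₁ false * a₀⁻¹ ∨ t = y₁ true ∨ t = a₀ * y₁ true * a₀⁻¹ := by decide

set_option maxRecDepth 100000 in
theorem fact_ker2 : ∀ t : T₀, chiFun true true false t = 1 → (∀ s : T₀, s * t = t * s) ∨
    t = y₂ false ∨ t = a₀ * y₂ false * a₀⁻¹ ∨ t = y₂ true ∨ t = a₀ * y₂ true * a₀⁻¹ := by decide

set_option maxRecDepth 100000 in
theorem fact_ab1 : ∀ s t : T₀, chiFun true false false s = 1 → chiFun true false false t = 1 →
    s * t = t * s := by decide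

set_option maxRecDepth 100000 in
theorem fact_ab2 : ∀ s t : T₀, chiFun true true false s = 1 → chiFun true true false t = 1 →
    s * t = t * s := by decide

set_option maxRecDepth 100000 in
theorem fact_mem1 : chiFun true false false e₀ = 1 ∧ chiFun true false false z₀ = 1 ∧
    chiFun true false false (y₁ false) = 1 ∧ chiFun true false false a₀ = -1 := by decide

set_option maxRecDepth 100000 in
theorem fact_mem2 : chiFun true true false e₀ = 1 ∧ chiFun true true false z₀ = 1 ∧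
    chiFun true true false (y₂ false) = 1 ∧ chiFun true true false a₀ = -1 := by decide

set_option maxRecDepth 100000 in
theorem fact_nc1 : ¬ ∀ s : T₀, s * y₁ false = y₁ false * s := by decide

set_option maxRecDepth 100000 in
theorem fact_nc2 : ¬ ∀ s : T₀, s * y₂ false = y₂ false * s := by decide

set_option maxRecDepth 100000 in
theorem fact_M (i j : Bool) : ∀ (t : T₀), chiFun (xor i j) i true t = 1 → t * t = 1 → t ≠ 1 →
    t = z₀ ∨ t = y₁ i ∨ t = a₀ * y₁ i * a₀⁻¹ ∨ t = y₂ j ∨ t = a₀ * y₂ j * a₀⁻¹ := by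
  cases i <;> cases j <;> decide

set_option maxRecDepth 100000 in
theorem fact_Me : ∀ (i j : Bool), chiFun (xor i j) i true e₀ = -1 := by decide

theorem card_T₀ : Nat.card T₀ = 16 := by
  rw [Nat.card_eq_fintype_card]
  decide

universe u

variable {G : Type u} [Group G] [Finite G]

theorem le_normalizer_of_card (U E : Subgroup G) (hEU : E ≤ U) (h : Nat.card U = 2 * Nat.card E) :
    U ≤ Subgroup.normalizer (E : Set G) := by
  intro u hu
  have hidx : (E.subgroupOf U).index = 2 := by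
    have h1 := Subgroup.card_mul_index (E.subgroupOf U)
    have h2 : Nat.card (E.subgroupOf U) = Nat.card E :=
      Nat.card_congr (Subgroup.subgroupOfEquivOfLe hEU).toEquiv
    rw [h2, h] at h1
    have hpos : 0 < Nat.card E := Nat.card_pos
    have : Nat.card E * (E.subgroupOf U).index = Nat.card E * 2 := by rw [h1]; ring
    exact Nat.eq_of_mul_eq_mul_left hpos this
  haveI := Subgroup.normal_of_index_eq_two hidx
  apply mem_normalizer_of_forall_conj_mem
  intro x hx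
  have h3 := (inferInstance : (E.subgroupOf U).Normal).conj_mem ⟨x, hEU hx⟩ hx ⟨u, hu⟩
  exact h3

/-- Being central in `S`. -/
def IsZ (S : Subgroup G) (v : G) : Prop := v ∈ S ∧ ∀ s ∈ S, s * v = v * s

section main

variable (S : Sylow 2 G) (ψ : ↥(S : Subgroup G) ≃* T₀)

/-- The embedding of the model group. -/
def ι : T₀ →* G := (S : Subgroup G).subtype.comp ψ.symm.toMonoidHom

variable {S ψ}

theorem ι_mem (t : T₀) : ι S ψ t ∈ (S : Subgroup G) := (ψ.symm t).2

theorem exists_ι {g : G} (hg : g ∈ (S : Subgroup G)) : ∃ t : T₀, ι S ψ t = g :=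
  ⟨ψ ⟨g, hg⟩, by simp [ι]⟩

theorem ι_inj : Function.Injective (ι S ψ) :=
  (Subgroup.subtype_injective _).comp ψ.symm.injective

theorem isZ_ι {t : T₀} (ht : ∀ s : T₀, s * t = t * s) : IsZ (S : Subgroup G) (ι S ψ t) := by
  refine ⟨ι_mem t, fun s hs => ?_⟩
  obtain ⟨s', rfl⟩ := exists_ι (ψ := ψ) hs
  rw [← map_mul, ← map_mul, ht]

theorem central_of_isZ {t : T₀} (h : IsZ (S : Subgroup G) (ι S ψ t)) (s : T₀) : s * t = t * s := by
  apply ι_inj (S := S) (ψ := ψ)
  rw [map_mul, map_mul]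
  exact h.2 _ (ι_mem s)

/-- An element of the normalizer fixes `z`. -/
theorem norm_fix_z {u : G} (hu : u ∈ Subgroup.normalizer ((S : Subgroup G) : Set G)) :
    u * ι S ψ z₀ * u⁻¹ = ι S ψ z₀ := by
  obtain ⟨s, hs⟩ := exists_ι (ψ := ψ) ((Subgroup.mem_normalizer_iff.mp hu (ι S ψ a₀)).mp (ι_mem _))
  obtain ⟨t, ht⟩ := exists_ι (ψ := ψ) ((Subgroup.mem_normalizer_iff.mp hu (ι S ψ b₀)).mp (ι_mem _))
  have h1 : u * ι S ψ z₀ * u⁻¹ = ι S ψ (s * t * s⁻¹ * t⁻¹) := by
    rw [← ab_comm]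
    simp only [map_mul, map_inv, hs, ht]
    group
  rw [h1]
  rcases comm_fact s t with h | h
  · exfalso
    rw [h, map_one] at h1
    have h2 : ι S ψ z₀ = 1 := by
      have := congrArg (fun v => u⁻¹ * v * u) h1
      simpa [mul_assoc] using this
    exact z_ne (ι_inj (S := S) (ψ := ψ) (by rw [h2, map_one]))
  · rw [h]

/-- An element of the normalizer fixes `e`. -/
theorem norm_fix_e {u : G} (hu : u ∈ Subgroup.normalizer ((S : Subgroup G) : Set G)) :
    u * ι S ψ e₀ * u⁻¹ = ι S ψ e₀ := by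
  have hz := norm_fix_z (ψ := ψ) hu
  obtain ⟨t, ht⟩ := exists_ι (ψ := ψ) ((Subgroup.mem_normalizer_iff.mp hu (ι S ψ e₀)).mp (ι_mem _))
  have hcent : ∀ s : T₀, s * t = t * s := by
    intro s
    apply ι_inj (S := S) (ψ := ψ)
    rw [map_mul, map_mul, ht]
    obtain ⟨s', hs'⟩ := exists_ι (ψ := ψ) ((Subgroup.mem_normalizer_iff.mp
      (Subgroup.inv_mem _ hu) (ι S ψ s)).mp (ι_mem _))
    have hs2 : ι S ψ s = u * ι S ψ s' * u⁻¹ := by
      rw [hs']; group
    have hc : ι S ψ s' * ι S ψ e₀ = ι S ψ e₀ * ι S ψ s' := by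
      rw [← map_mul, ← map_mul, central_e]
    rw [hs2]
    calc u * ι S ψ s' * u⁻¹ * (u * ι S ψ e₀ * u⁻¹) = u * (ι S ψ s' * ι S ψ e₀) * u⁻¹ := by group
      _ = u * (ι S ψ e₀ * ι S ψ s') * u⁻¹ := by rw [hc]
      _ = u * ι S ψ e₀ * u⁻¹ * (u * ι S ψ s' * u⁻¹) := by group
  rcases center_fact t hcent with h | h | h | h
  · exfalso
    rw [h, map_one] at ht
    have h2 : ι S ψ e₀ = 1 := by
      have := congrArg (fun v => u⁻¹ * v * u) ht
      simpa [mul_assoc] using this.symm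
    exact e_ne (ι_inj (S := S) (ψ := ψ) (by rw [h2, map_one]))
  · rw [← ht, h]
  · exfalso
    rw [h, ← hz] at ht
    have : ι S ψ e₀ = ι S ψ z₀ := by
      have := congrArg (fun v => u⁻¹ * v * u) ht
      simpa [mul_assoc] using this.symm
    exact e_ne_z (ι_inj (S := S) (ψ := ψ) this)
  · exfalso
    rw [h] at ht
    set e := ι S ψ e₀ with he
    set z := ι S ψ z₀ with hzd
    have hzz : z * z = 1 := by rw [hzd, ← map_mul, z_z, map_one]
    have hec : e * z = z * e := by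
      rw [he, hzd, ← map_mul, ← map_mul, central_z]
    have h1 : u * e * u⁻¹ = e * z := ht.symm.trans (map_mul _ _ _)
    have h2 : u * (e * z) * u⁻¹ = e := by
      have : u * (e * z) * u⁻¹ = (u * e * u⁻¹) * (u * z * u⁻¹) := by group
      rw [this, h1, hz, mul_assoc, hzz, mul_one]
    -- odd powers of `u` swap
    obtain ⟨k, m, hm, hord⟩ := Nat.exists_eq_two_pow_mul_odd (orderOf_pos u).ne'
    have hswap : ∀ n : ℕ, u ^ (2 * n + 1) * e * (u ^ (2 * n + 1))⁻¹ = e * z := by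
      intro n
      induction n with
      | zero => simpa using h1
      | succ n ih =>
        have h3 : u ^ (2 * (n + 1) + 1) * e * (u ^ (2 * (n + 1) + 1))⁻¹ =
            u * (u * (u ^ (2 * n + 1) * e * (u ^ (2 * n + 1))⁻¹) * u⁻¹) * u⁻¹ := by
          have : 2 * (n + 1) + 1 = 1 + (1 + (2 * n + 1)) := by ring
          rw [this, pow_add, pow_add, pow_one]
          group
        rw [h3, ih, h2, h1]
    obtain ⟨n, hn⟩ := hm
    set v := u ^ m with hv
    have hv1 : v ^ 2 ^ k = 1 := by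
      rw [hv, ← pow_mul, mul_comm, ← hord, pow_orderOf_eq_one]
    have hvN : v ∈ Subgroup.normalizer ((S : Subgroup G) : Set G) := Subgroup.pow_mem _ hu m
    have hvS : v ∈ (S : Subgroup G) := mem_of_normalizer_of_pow S v hvN k hv1
    have hvc : v * e * v⁻¹ = e := by
      have : v * e = e * v := by
        obtain ⟨v', hv'⟩ := exists_ι (ψ := ψ) hvS
        rw [← hv', he, ← map_mul, ← map_mul, central_e]
      rw [this]; group
    have h4 := hswap n
    rw [← hn, ← hv, hvc] at h4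
    have : e₀ * z₀ = e₀ := by
      apply ι_inj (S := S) (ψ := ψ)
      rw [map_mul]
      exact h4.symm
    exact ez_ne_e this

include ψ in
/-- The normalizer centralizes the centre. -/
theorem norm_fix {u w : G} (hu : u ∈ Subgroup.normalizer ((S : Subgroup G) : Set G))
    (hw : IsZ (S : Subgroup G) w) : u * w * u⁻¹ = w := by
  obtain ⟨t, rfl⟩ := exists_ι (ψ := ψ) hw.1
  have hz := norm_fix_z (ψ := ψ) hu
  have he := norm_fix_e (ψ := ψ) hu
  rcases center_fact t (central_of_isZ hw) with h | h | h | h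
  · rw [h, map_one]; group
  · rw [h, he]
  · rw [h, hz]
  · rw [h, map_mul]
    have : u * (ι S ψ e₀ * ι S ψ z₀) * u⁻¹ = (u * ι S ψ e₀ * u⁻¹) * (u * ι S ψ z₀ * u⁻¹) := by group
    rw [this, he, hz]

include ψ in
/-- Two conjugate central elements are equal. -/
theorem conj_central {w g : G} (hw : IsZ (S : Subgroup G) w)
    (hy : IsZ (S : Subgroup G) (g * w * g⁻¹)) : g * w * g⁻¹ = w := by
  haveI : Fact (Nat.Prime 2) := ⟨Nat.prime_two⟩
  set y := g * w * g⁻¹ with hyd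
  set C := Subgroup.centralizer ({y} : Set G) with hC
  have hSC : (S : Subgroup G) ≤ C := by
    intro s hs
    rw [hC, Subgroup.mem_centralizer_singleton_iff]
    exact hy.2 s hs
  have hUC : ((g • S : Sylow 2 G) : Subgroup G) ≤ C := by
    intro d hd
    rw [hC, Subgroup.mem_centralizer_singleton_iff]
    have h1 := hw.2 _ ((mem_smul_iff S g d).mp hd)
    have h2 : d * y = g * ((g⁻¹ * d * g) * w) * g⁻¹ := by rw [hyd]; group
    have h3 : y * d = g * (w * (g⁻¹ * d * g)) * g⁻¹ := by rw [hyd]; group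
    rw [h2, h3, h1]
  obtain ⟨c, hc, hcd⟩ := exists_conj_le_sylow_of_le C ((g • S : Sylow 2 G) : Subgroup G) S hSC hUC
    (g • S).isPGroup'
  have hcy : c * y * c⁻¹ = y := by
    rw [hC, Subgroup.mem_centralizer_singleton_iff] at hc
    rw [hc]; group
  have huN : c * g ∈ Subgroup.normalizer ((S : Subgroup G) : Set G) := by
    apply mem_normalizer_of_forall_conj_mem
    intro s hs
    have h1 := hcd _ (conj_mem_smul S g s hs)
    have h2 : c * g * s * (c * g)⁻¹ = c * (g * s * g⁻¹) * c⁻¹ := by group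
    rw [h2]; exact h1
  have h3 := norm_fix (ψ := ψ) huN hw
  have h4 : c * g * w * (c * g)⁻¹ = c * y * c⁻¹ := by rw [hyd]; group
  rw [h4, hcy] at h3
  exact h3

include ψ in
/-- Conjugation of a central element into a subgroup `E` of index two is realized in `N(E)`. -/
theorem exists_norm_conj (E : Subgroup G) (hES : E ≤ (S : Subgroup G))
    (hcard : Nat.card (S : Subgroup G) = 2 * Nat.card E)
    (hab : ∀ s ∈ E, ∀ t ∈ E, s * t = t * s) {x g : G} (hx : IsZ (S : Subgroup G) x)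
    (hy : g * x * g⁻¹ ∈ E) : ∃ k ∈ Subgroup.normalizer (E : Set G), k * x * k⁻¹ = g * x * g⁻¹ := by
  haveI : Fact (Nat.Prime 2) := ⟨Nat.prime_two⟩
  set y := g * x * g⁻¹ with hyd
  set C := Subgroup.centralizer ({y} : Set G) with hC
  have hUC : ((g • S : Sylow 2 G) : Subgroup G) ≤ C := by
    intro d hd
    rw [hC, Subgroup.mem_centralizer_singleton_iff]
    have h1 := hx.2 _ ((mem_smul_iff S g d).mp hd)
    have h2 : d * y = g * ((g⁻¹ * d * g) * x) * g⁻¹ := by rw [hyd]; group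
    have h3 : y * d = g * (x * (g⁻¹ * d * g)) * g⁻¹ := by rw [hyd]; group
    rw [h2, h3, h1]
  have hEC : E ≤ C := by
    intro d hd
    rw [hC, Subgroup.mem_centralizer_singleton_iff]
    exact hab d hd y hy
  have hEp : IsPGroup 2 E := S.isPGroup'.to_le hES
  obtain ⟨c, hc, hcd⟩ := exists_conj_le_sylow_of_le C E (g • S) hUC hEC hEp
  have hcy : c⁻¹ * y * c = y := by
    rw [hC, Subgroup.mem_centralizer_singleton_iff] at hc
    have : y * c = c * y := hc.symm
    rw [mul_assoc, this]; group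
  set g' := c⁻¹ * g with hg'
  have hg'x : g' * x * g'⁻¹ = y := by
    have : g' * x * g'⁻¹ = c⁻¹ * y * c := by rw [hg', hyd]; group
    rw [this, hcy]
  set T₁ : Sylow 2 G := g' • S with hT₁
  have hET : E ≤ (T₁ : Subgroup G) := by
    intro d hd
    rw [hT₁, mem_smul_iff]
    have h1 := hcd d hd
    rw [mem_smul_iff] at h1
    have h2 : g'⁻¹ * d * g' = g⁻¹ * (c * d * c⁻¹) * g := by rw [hg']; group
    rw [h2]; exact h1
  have hcT : Nat.card (T₁ : Subgroup G) = 2 * Nat.card E := by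
    rw [← hcard]
    exact Nat.card_congr (Sylow.equiv T₁ S).toEquiv
  have hSN := le_normalizer_of_card _ E hES hcard
  have hTN := le_normalizer_of_card _ E hET hcT
  obtain ⟨n, hn, hnd⟩ := exists_conj_le_sylow_of_le _ _ S hSN hTN T₁.isPGroup'
  have huN : n * g' ∈ Subgroup.normalizer ((S : Subgroup G) : Set G) := by
    apply mem_normalizer_of_forall_conj_mem
    intro s hs
    have h1 := hnd _ (conj_mem_smul S g' s hs)
    have h2 : n * g' * s * (n * g')⁻¹ = n * (g' * s * g'⁻¹) * n⁻¹ := by group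
    rw [h2]; exact h1
  have h3 := norm_fix (ψ := ψ) huN hx
  refine ⟨n⁻¹, Subgroup.inv_mem _ hn, ?_⟩
  have h4 : n * g' * x * (n * g')⁻¹ = n * (g' * x * g'⁻¹) * n⁻¹ := by group
  rw [h4, hg'x] at h3
  rw [← h3]
  group

include ψ in
/-- Not all elements outside the centre of `E` are conjugate to a central element `x`. -/
theorem not_all_conj (E : Subgroup G) (hES : E ≤ (S : Subgroup G))
    (hcard : Nat.card (S : Subgroup G) = 2 * Nat.card E)
    (hab : ∀ s ∈ E, ∀ t ∈ E, s * t = t * s) {x z y : G} (hx : IsZ (S : Subgroup G) x)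
    (hz : IsZ (S : Subgroup G) z) (hzz : z * z = 1) (hz1 : z ≠ 1) (hxz : x ≠ z)
    (hxE : x ∈ E) (hzE : z ∈ E) (hyE : y ∈ E) (hyZ : ¬ IsZ (S : Subgroup G) y)
    (hall : ∀ v ∈ E, ¬ IsZ (S : Subgroup G) v → ∃ g : G, g * x * g⁻¹ = v) : False := by
  obtain ⟨g, hg⟩ := hall y hyE hyZ
  obtain ⟨k, hkN, hk⟩ := exists_norm_conj (ψ := ψ) E hES hcard hab hx (g := g) (by rw [hg]; exact hyE)
  rw [hg] at hk
  have hstay : ∀ w ∈ E, IsZ (S : Subgroup G) w → w ≠ x → k * w * k⁻¹ = w := by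
    intro w hwE hwZ hwx
    have h1 : k * w * k⁻¹ ∈ E := (Subgroup.mem_normalizer_iff.mp hkN w).mp hwE
    by_cases h2 : IsZ (S : Subgroup G) (k * w * k⁻¹)
    · exact conj_central (ψ := ψ) hwZ h2
    · exfalso
      obtain ⟨g', hg'⟩ := hall _ h1 h2
      have h3 : (k⁻¹ * g') * x * (k⁻¹ * g')⁻¹ = w := by
        have : (k⁻¹ * g') * x * (k⁻¹ * g')⁻¹ = k⁻¹ * (g' * x * g'⁻¹) * k := by group
        rw [this, hg']; group
      have h4 := conj_central (ψ := ψ) (w := x) (g := k⁻¹ * g') hx (by rw [h3]; exact hwZ)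
      rw [h3] at h4
      exact hwx h4
  have h1 := hstay z hzE hz hxz.symm
  have hxzE : x * z ∈ E := E.mul_mem hxE hzE
  have hxzZ : IsZ (S : Subgroup G) (x * z) := by
    refine ⟨Subgroup.mul_mem _ hx.1 hz.1, fun s hs => ?_⟩
    rw [← mul_assoc, hx.2 s hs, mul_assoc, hz.2 s hs, mul_assoc]
  have hne : x * z ≠ x := by
    intro h
    apply hz1
    exact mul_left_cancel (a := x) (by rw [h, mul_one])
  have h2 := hstay (x * z) hxzE hxzZ hne
  have h3 : k * x * k⁻¹ = k * (x * z) * k⁻¹ * (k * z * k⁻¹) := by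
    have : k * (x * z) * k⁻¹ * (k * z * k⁻¹) = k * (x * (z * z)) * k⁻¹ := by group
    rw [this, hzz, mul_one]
  have h5 : x * z * z = x := by rw [mul_assoc, hzz, mul_one]
  rw [h2, h1, h5, hk] at h3
  rw [h3] at hyZ
  exact hyZ hx

theorem ker_index_two {H : Type*} [Group H] [Finite H] (χ : H →* ℤˣ) (t : H) (ht : χ t = -1) :
    χ.ker.index = 2 := by
  rw [Subgroup.index_ker]
  have : χ.range = ⊤ := by
    rw [eq_top_iff]
    intro u _
    rcases Int.units_eq_one_or u with h | h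
    · rw [h]; exact Subgroup.one_mem _
    · rw [h, ← ht]; exact MonoidHom.mem_range.mpr ⟨t, rfl⟩
  rw [this]
  rw [Subgroup.card_top, Nat.card_eq_fintype_card]
  rfl

/-- The subgroup of `G` corresponding to a kernel. -/
def KK (S : Sylow 2 G) (ψ : ↥(S : Subgroup G) ≃* T₀) (χ : T₀ →* ℤˣ) : Subgroup G :=
  χ.ker.map (ι S ψ)

theorem mem_KK {χ : T₀ →* ℤˣ} {g : G} : g ∈ KK S ψ χ ↔ ∃ t : T₀, χ t = 1 ∧ ι S ψ t = g := by
  rw [KK, Subgroup.mem_map]
  simp only [MonoidHom.mem_ker]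

theorem card_KK {χ : T₀ →* ℤˣ} (t : T₀) (ht : χ t = -1) : Nat.card (KK S ψ χ) = 8 := by
  have h1 : Nat.card (KK S ψ χ) = Nat.card χ.ker :=
    (Nat.card_congr (Subgroup.equivMapOfInjective χ.ker (ι S ψ) ι_inj).toEquiv).symm
  have h2 := Subgroup.card_mul_index χ.ker
  rw [ker_index_two χ t ht, card_T₀] at h2
  omega

include ψ in
theorem card_S : Nat.card (S : Subgroup G) = 16 := by
  rw [← card_T₀]
  exact Nat.card_congr ψ.toEquiv

theorem KK_le (χ : T₀ →* ℤˣ) : KK S ψ χ ≤ (S : Subgroup G) := by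
  intro g hg
  obtain ⟨t, _, rfl⟩ := mem_KK.mp hg
  exact ι_mem t

theorem exists_not_conj (χ : T₀ →* ℤˣ) (y : Bool → T₀)
    (hfact : ∀ t : T₀, χ t = 1 → (∀ s : T₀, s * t = t * s) ∨ t = y false ∨
      t = a₀ * y false * a₀⁻¹ ∨ t = y true ∨ t = a₀ * y true * a₀⁻¹)
    (hab : ∀ s t : T₀, χ s = 1 → χ t = 1 → s * t = t * s)
    (he : χ e₀ = 1) (hz : χ z₀ = 1) (hy : χ (y false) = 1) (ha : χ a₀ = -1)
    (hnc : ¬ ∀ s : T₀, s * y false = y false * s) :
    ∃ i : Bool, ¬ ∃ g : G, g * ι S ψ e₀ * g⁻¹ = ι S ψ (y i) := by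
  by_contra hcon
  push Not at hcon
  have hcon' : ∀ i : Bool, ∃ g : G, g * ι S ψ e₀ * g⁻¹ = ι S ψ (y i) := hcon
  have haconj : ∀ i : Bool, ∃ g : G, g * ι S ψ e₀ * g⁻¹ = ι S ψ (a₀ * y i * a₀⁻¹) := by
    intro i
    obtain ⟨g, hg⟩ := hcon' i
    refine ⟨ι S ψ a₀ * g, ?_⟩
    have : ι S ψ a₀ * g * ι S ψ e₀ * (ι S ψ a₀ * g)⁻¹ = ι S ψ a₀ * (g * ι S ψ e₀ * g⁻¹) * (ι S ψ a₀)⁻¹ := by
      group
    rw [this, hg, map_mul, map_mul, map_inv]
  apply not_all_conj (ψ := ψ) (KK S ψ χ) (KK_le χ) (by rw [card_S (ψ := ψ), card_KK a₀ ha])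
    (x := ι S ψ e₀) (z := ι S ψ z₀) (y := ι S ψ (y false)) ?_
    (isZ_ι central_e) (isZ_ι central_z) (by rw [← map_mul, z_z, map_one])
    (fun h => z_ne (ι_inj (S := S) (ψ := ψ) (by rw [h, map_one])))
    (fun h => e_ne_z (ι_inj (S := S) (ψ := ψ) h))
    (mem_KK.mpr ⟨_, he, rfl⟩) (mem_KK.mpr ⟨_, hz, rfl⟩) (mem_KK.mpr ⟨_, hy, rfl⟩)
    (fun h => hnc (central_of_isZ h))
  · intro v hv hvZ
    obtain ⟨t, ht, rfl⟩ := mem_KK.mp hv
    rcases hfact t ht with h | h | h | h | h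
    · exact absurd (isZ_ι h) hvZ
    · rw [h]; exact hcon' false
    · rw [h]; exact haconj false
    · rw [h]; exact hcon' true
    · rw [h]; exact haconj true
  · intro s hs t ht
    obtain ⟨s', hs', rfl⟩ := mem_KK.mp hs
    obtain ⟨t', ht', rfl⟩ := mem_KK.mp ht
    rw [← map_mul, ← map_mul, hab s' t' hs' ht']

/-- The main theorem: a sign with value `-1` on `e`. -/
theorem exists_sign_e : ∃ φ : G →* ℤˣ, φ (ι S ψ e₀) = -1 := by
  obtain ⟨i, hi⟩ := exists_not_conj (S := S) (ψ := ψ) χ₁ y₁ fact_ker1 fact_ab1 fact_mem1.1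
    fact_mem1.2.1 fact_mem1.2.2.1 fact_mem1.2.2.2 fact_nc1
  obtain ⟨j, hj⟩ := exists_not_conj (S := S) (ψ := ψ) χ₂ y₂ fact_ker2 fact_ab2 fact_mem2.1
    fact_mem2.2.1 fact_mem2.2.2.1 fact_mem2.2.2.2 fact_nc2
  set χ := chi (xor i j) i true with hχ
  have hχe : χ e₀ = -1 := fact_Me i j
  set M := KK S ψ χ with hM
  have hMc : Nat.card M = 8 := card_KK e₀ hχe
  have hSc : Nat.card (S : Subgroup G) = 16 := card_S (ψ := ψ)
  have hidx : M.index = 2 ^ 1 * (S : Subgroup G).index := by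
    have h1 := Subgroup.card_mul_index M
    have h2 := Subgroup.card_mul_index (S : Subgroup G)
    rw [hMc] at h1
    rw [hSc] at h2
    omega
  have hodd : Odd (S : Subgroup G).index := by
    rw [← Nat.not_even_iff_odd, even_iff_two_dvd]
    exact S.not_dvd_index
  have hee : ι S ψ e₀ ^ 2 ^ 1 = 1 := by
    rw [pow_one, pow_two, ← map_mul, e_e, map_one]
  have hfree : ∀ g : G, g * ι S ψ e₀ ^ 2 ^ (1 - 1) * g⁻¹ ∉ M := by
    intro g hg
    simp only [Nat.sub_self, pow_zero, pow_one] at hg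
    obtain ⟨t, ht, htg⟩ := mem_KK.mp hg
    have ht2 : t * t = 1 := by
      apply ι_inj (S := S) (ψ := ψ)
      rw [map_mul, htg, map_one]
      have : g * ι S ψ e₀ * g⁻¹ * (g * ι S ψ e₀ * g⁻¹) = g * (ι S ψ e₀ * ι S ψ e₀) * g⁻¹ := by group
      rw [this, ← map_mul, e_e, map_one]
      group
    have ht1 : t ≠ 1 := by
      rintro rfl
      rw [map_one] at htg
      have h2 : ι S ψ e₀ = 1 := by
        have := congrArg (fun v => g⁻¹ * v * g) htg
        simpa [mul_assoc] using this.symm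
      exact e_ne (ι_inj (S := S) (ψ := ψ) (by rw [h2, map_one]))
    have haconj : ∀ y : T₀, (∃ g' : G, g' * ι S ψ e₀ * g'⁻¹ = ι S ψ (a₀ * y * a₀⁻¹)) →
        ∃ g' : G, g' * ι S ψ e₀ * g'⁻¹ = ι S ψ y := by
      rintro y ⟨g', hg'⟩
      refine ⟨ι S ψ a₀⁻¹ * g', ?_⟩
      have : ι S ψ a₀⁻¹ * g' * ι S ψ e₀ * (ι S ψ a₀⁻¹ * g')⁻¹ =
          ι S ψ a₀⁻¹ * (g' * ι S ψ e₀ * g'⁻¹) * (ι S ψ a₀⁻¹)⁻¹ := by group
      rw [this, hg', map_mul, map_mul, map_inv]
      group
    rcases fact_M i j t ht ht2 ht1 with h | h | h | h | h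
    · rw [h] at htg
      have h4 := conj_central (ψ := ψ) (w := ι S ψ e₀) (g := g) (isZ_ι central_e)
        (by rw [← htg]; exact isZ_ι central_z)
      rw [← htg] at h4
      exact e_ne_z (ι_inj (S := S) (ψ := ψ) h4.symm)
    · rw [h] at htg
      exact hi ⟨g, htg.symm⟩
    · rw [h] at htg
      exact hi (haconj _ ⟨g, htg.symm⟩)
    · rw [h] at htg
      exact hj ⟨g, htg.symm⟩
    · rw [h] at htg
      exact hj (haconj _ ⟨g, htg.symm⟩)
  exact Cfsg.Agent.H08.Thom.exists_sign M (ι S ψ e₀) 1 (S : Subgroup G).index le_rfl hodd hee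
    hfree hidx

end main

/-- A finite group with Sylow 2-subgroup `Z₂ × D₈` is not simple. -/
theorem not_simple (S : Sylow 2 G) (hS : Nonempty (↥(S : Subgroup G) ≃* T₀))
    [IsSimpleGroup G] : False := by
  obtain ⟨ψ⟩ := hS
  obtain ⟨φ, hφ⟩ := exists_sign_e (S := S) (ψ := ψ)
  rcases IsSimpleGroup.eq_bot_or_eq_top_of_normal φ.ker (MonoidHom.normal_ker φ) with h | h
  · have hinj : Function.Injective φ := (MonoidHom.ker_eq_bot_iff φ).mp h
    have hz : z₀ = a₀ * a₀ := by decide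
    have h1 : φ (ι S ψ z₀) = 1 := by
      rw [hz, map_mul, map_mul]
      rcases Int.units_eq_one_or (φ (ι S ψ a₀)) with h | h <;> rw [h] <;> decide
    have h2 : ι S ψ z₀ = 1 := hinj (by rw [h1, map_one])
    exact z_ne (ι_inj (S := S) (ψ := ψ) (by rw [h2, map_one]))
  · have : ι S ψ e₀ ∈ φ.ker := by rw [h]; exact Subgroup.mem_top _
    rw [MonoidHom.mem_ker, hφ] at this
    exact absurd this (by decide)

end Cfsg.Agent.H15.ZTwoD8
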